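import Mathlib
import Cfsg.Agent.Block.Fong2
import Cfsg.Agent.Isaacs.Tri
import Cfsg.Agent.Isaacs.Canon

/-! Harada's conjecture for `p`-solvable groups. -/

set_option autoImplicit false

namespace Cfsg.Agent.Block

open Cfsg Cfsg.Agent.Char Subgroup ComplexConjugate
open scoped _root_.Classical Pointwise

universe u

variable {p : ℕ} {M : Ideal AlgInt}

theorem conj_of_regular {G : Type*} [Group G] [Finite G] [hp : Fact p.Prime] {Q : Subgroup G}
    [Q.Normal] (hQ : IsPGroup p Q) {m y : G} (hm : m ∈ Q) (h1 : ¬ p ∣ orderOf y)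
    (h2 : ¬ p ∣ orderOf (m * y)) : ∃ n ∈ Q, m * y = n * y * n⁻¹ := by
  obtain ⟨k, hk⟩ := hQ.exists_card_eq
  have hc {x : G} (hx : ¬ p ∣ orderOf x) : (Nat.card (zpowers x)).Coprime (Nat.card Q) := by
    rw [hk, Nat.card_zpowers]
    exact ((hp.out.coprime_iff_not_dvd.2 hx).symm).pow_right k
  have := hQ.isNilpotent
  obtain ⟨n, hn, e⟩ := Core.exists_conj_le_of_le_sup Q (zpowers (m * y)) (zpowers y)
    (by simp [normalizer_eq_top]) (by simp [normalizer_eq_top]) (hc h2) (.inr inferInstance)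
    (zpowers_le.2 (mul_mem_sup hm (mem_zpowers y)))
  have h3 := mul_mem (Core.conj_smul_le_iff.1 e _ (mem_zpowers _)) (inv_mem (mem_zpowers y))
  have h4 : n * (m * y) * n⁻¹ * y⁻¹ ∈ Q := by
    rw [show n * (m * y) * n⁻¹ * y⁻¹ = n * m * (y * n⁻¹ * y⁻¹) by group]
    exact mul_mem (mul_mem hn hm) (Normal.conj_mem inferInstance _ (inv_mem hn) y)
  have h5 := disjoint_def.1 (disjoint_of_coprime_natCard (hc h1)) h3 h4
  exact ⟨n⁻¹, inv_mem hn, by
    conv_rhs => rw [← mul_inv_eq_one.1 h5]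
    group⟩

theorem harada_core {Q : Type*} [Group Q] [Fintype Q] {Z W : Subgroup Q} [W.Normal] (hZ : Z ≤ W)
    {μ f : Q → ℂ} (hμ : Isaacs.Chr W μ) (h1 : μ 1 = 1) (hi : Isaacs.Inv ⊤ W μ)
    (hf : IsClassFunction Q f) (hfz : ∀ z ∈ Z, ∀ y, f (z * y) = μ z * f y)
    (hR : ∀ y, ∀ m ∈ W, f y ≠ 0 → f (m * y) ≠ 0 → ∃ z ∈ Z, ∃ n ∈ W, m * y = z * (n * y * n⁻¹))
    {y n : Q} (hn : n ∈ W) (h0 : ∑ x, conj (f x) * f (n * y * n⁻¹ * y⁻¹ * x) = 0) : f y = 0 := by
  set m := n * y * n⁻¹ * y⁻¹ with hm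
  have hmW : m ∈ W := by
    rw [hm, mul_assoc, mul_assoc, ← mul_assoc y]
    exact mul_mem hn (Normal.conj_mem inferInstance _ (inv_mem hn) y)
  have h2 (x : Q) : conj (μ m) * (conj (f x) * f (m * x)) =
      ((if f (m * x) = 0 then 0 else ‖f x‖ ^ 2 : ℝ) : ℂ) := by
    split_ifs with e
    · simp [e]
    by_cases e' : f x = 0
    · simp [e']
    obtain ⟨z, hz, k, hk, h⟩ := hR x m hmW e' e
    have h3 : μ m = μ z := by
      rw [show m = z * (k * (x * k⁻¹ * x⁻¹)) by rw [eq_mul_inv_of_mul_eq h]; group,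
        hμ.map_mul h1 (hZ hz) (mul_mem hk (Normal.conj_mem inferInstance _ (inv_mem hk) x)),
        hμ.map_mul h1 hk (Normal.conj_mem inferInstance _ (inv_mem hk) x),
        hi x trivial _ (inv_mem hk), ← hμ.map_mul h1 hk (inv_mem hk), mul_inv_cancel, h1, mul_one]
    rw [h3, h, hfz z hz, hf]
    have := hμ.mul_conj h1 (hZ hz)
    push_cast
    rw [← Complex.conj_mul']
    linear_combination conj (f x) * f x * this
  have h3 := congrArg (conj (μ m) * ·) h0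
  simp only [Finset.mul_sum, h2, mul_zero] at h3
  have h4 := (Finset.sum_eq_zero_iff_of_nonneg (f := fun x => if f (m * x) = 0 then 0 else ‖f x‖ ^ 2)
    (fun x _ => by split_ifs <;> positivity)).1
    (by exact_mod_cast h3) y (Finset.mem_univ y)
  rw [hm, inv_mul_cancel_right, hf] at h4
  by_contra e
  simp [e] at h4

variable {G : Type u} [Group G] [Fintype G]

theorem harada_base [hp : Fact p.Prime] (hG : IsPConstrained p G)
    {N : Subgroup G} [N.Normal] [Fintype N] (hN : N = pPrimeCore p G)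
    {θ : IrrCharacter N} (hθ : GInv {θ}) {U : Finset (IrrCharacter G)}
    (hU : ∀ χ ∈ U, χ ∈ overSet {θ}) (h0 : ∀ x, p ∣ orderOf x → ∑ χ ∈ U, χ.1 1 * χ.1 x = 0)
    {x : G} (hx : x ∉ N) : ∑ χ ∈ U, χ.1 1 * χ.1 x = 0 := by
  have hc := Core.isPConstrained_iff.1 hG
  have hNL := Core.pPrimeCore_le_pPrimePCore (G := G) p
  have hcop : (Nat.card N).Coprime (N.relIndex (pPrimePCore p G)) := by
    obtain ⟨k, hk⟩ := Core.relIndex_pPrimePCore (G := G) p
    exact hN ▸ hk ▸ (Core.pPrimeCore_coprime p).pow_right k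
  have hL {g : G} : g ∈ pPrimePCore p G ↔ QuotientGroup.mk' N g ∈ pCore p (G ⧸ N) := by
    subst hN; rfl
  replace hc : centralizer (pCore p (G ⧸ N) : Set (G ⧸ N)) ≤ pCore p (G ⧸ N) := by
    subst hN; exact hc
  rw [← hN] at hNL
  set q := QuotientGroup.mk' N
  have hq {g : G} : q g = 1 ↔ g ∈ N := QuotientGroup.eq_one_iff g
  have h1 := Isaacs.irr_ez.2 θ.2
  have hi : Isaacs.Inv ⊤ _ (Isaacs.ez _ θ.1) := fun a _ x hx => by
    rw [Isaacs.ez_mem _ hx, Isaacs.ez_mem _ (Normal.conj_mem inferInstance x hx a)]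
    exact congrFun (congrArg Subtype.val (hθ a θ rfl)) ⟨x, hx⟩
  set ϑ := Isaacs.ez _ θ.1
  obtain ⟨Γ, Q, _, _, _, _, ⟨t⟩⟩ := h1.exists_tri (normalizer_eq_top N).ge le_top hi
  have := Fintype.ofFinite Q
  set L := pPrimePCore p G
  have hn : L ≤ normalizer (N : Set G) := normalizer_eq_top N ▸ le_top
  obtain ⟨η, a1, a2⟩ := h1.exists_canon hn hNL hcop (hi.mono le_top le_rfl)
  have a3 : Isaacs.Inv ⊤ L η := Isaacs.inv_iff_eqv.2 fun g _ => by
    have hg : g ∈ normalizer (L : Set G) := by simp [normalizer_eq_top]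
    have hg' : g ∈ normalizer (N : Set G) := by simp [normalizer_eq_top]
    exact Isaacs.Canon.unique hn hNL hcop ⟨a1.chr.cjg hg, a1.res.cjg hg',
      (a1.chr.dord_cj hg).symm ▸ a1.cop⟩ a1 (((a2.cjg hg').trans
        (Isaacs.inv_iff_eqv.1 hi g trivial)).trans a2.symm)
  obtain ⟨μ, b1, b2⟩ := t.down hNL le_top (a1.irr hNL) h1 (by rw [a2.inn_left]; exact h1.inn_self_ne)
  have b3 : μ 1 = 1 := mul_right_cancel₀ h1.one_ne (by rw [← b2.deg, a2.one, one_mul])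
  have b4 : Isaacs.Eqv t.Z μ t.μ := t.bar_self ▸
    ((b2.mono hNL).congr a2 (.refl _ _)).eqv' t.corr_self le_rfl le_top (.refl _ _)
  have hov (χ) (hχ : χ ∈ U) : Isaacs.inn N χ.1 ϑ ≠ 0 := by
    rw [Isaacs.inn_eq, Isaacs.ez_res]; exact mem_overSet_singleton.1 (hU χ hχ)
  choose! α c1 c2 using fun χ (hχ : χ ∈ U) =>
    t.down le_top le_rfl (Isaacs.irr_top.2 χ.2) h1 (hov χ hχ)
  simp only [t.bar_top, Isaacs.irr_top] at c1
  set f := fun y => ∑ χ ∈ U, α χ 1 * α χ y with hf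
  have d1 (γ : Γ) : ∑ χ ∈ U, χ.1 1 * χ.1 (t.π γ) = ϑ 1 * f (t.ρ γ) * t.e γ := by
    simp only [hf, Finset.mul_sum, Finset.sum_mul]
    exact Finset.sum_congr rfl fun χ hχ => by rw [(c2 χ hχ).deg, c2 χ hχ γ trivial]; ring
  have hZ {γ : Γ} : t.ρ γ ∈ t.Z ↔ q (t.π γ) = 1 := by
    rw [hq, ← mem_comap, ← t.comap, mem_comap]
  have d2 (γ : Γ) (h : f (t.ρ γ) ≠ 0) : ¬ p ∣ orderOf (q (t.π γ)) := fun e => by
    have h2 := t.chr.inn_sh_self Isaacs.norm_top le_top t.irr (mem_top γ)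
    refine one_ne_zero (h2.symm.trans (Isaacs.inn_self_eq_zero.2 fun k hk => ?_))
    have h3 : t.ρ k = 1 := hk
    have h4 := d1 (k * γ)
    rw [h0 _ (dvd_trans (by rwa [map_mul, map_mul, hZ.1 (h3 ▸ one_mem _), one_mul])
      (orderOf_map_dvd q _)), map_mul, h3, one_mul] at h4
    exact (mul_eq_zero.1 h4.symm).resolve_left (mul_ne_zero h1.one_ne h)
  have d3 {γ : Γ} (h : f (t.ρ γ) ≠ 0) (e : q (t.π γ) ∈ pCore p (G ⧸ N)) : q (t.π γ) = 1 := by
    obtain ⟨k, hk⟩ := IsPGroup.iff_orderOf.1 (Core.pCore_isPGroup (G := G ⧸ N) p) ⟨_, e⟩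
    rw [← orderOf_coe] at hk
    have := d2 γ h
    rw [← orderOf_eq_one_iff, hk, Nat.eq_zero_of_not_pos fun e => this (hk ▸ dvd_pow_self p e.ne'),
      pow_zero]
  have hπ : Function.Surjective t.π := MonoidHom.range_eq_top.1 t.range
  have hbar {γ : Γ} : t.ρ γ ∈ t.bar L ↔ q (t.π γ) ∈ pCore p (G ⧸ N) := (t.mem_bar hNL).trans hL
  have hcf : IsClassFunction Q f := fun a b =>
    Finset.sum_congr rfl fun χ hχ => by rw [isIrr_classFun (c1 χ hχ)]
  obtain ⟨γ, rfl⟩ := hπ x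
  rw [d1]
  by_contra e
  replace e : f (t.ρ γ) ≠ 0 := fun e' => e (by simp [e'])
  obtain ⟨n, hn1, hn2⟩ : ∃ n ∈ pCore p (G ⧸ N), n * q (t.π γ) ≠ q (t.π γ) * n := by
    by_contra! h
    exact hx (hq.1 (d3 e (hc h)))
  obtain ⟨ν, rfl⟩ := ((QuotientGroup.mk'_surjective N).comp hπ) n
  have : (t.bar L).Normal := normalizer_eq_top_iff.1 (eq_top_iff.2 (t.bar_top.ge.trans
    (t.bar_norm (normalizer_eq_top L).ge)))
  refine e (harada_core t.le_bar' b1.chr b3 (t.bar_top ▸ b2.inv' hNL le_top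
    (normalizer_eq_top L).ge a3) hcf (fun z hz y => ?_) (fun y m hm e1 e2 => ?_) (hbar.2 hn1) ?_)
  · simp only [hf, Finset.mul_sum]
    refine Finset.sum_congr rfl fun χ hχ => ?_
    have h2 := ((c2 χ hχ).mono le_top).eqv' (t.corr_self.smul _) le_rfl le_top
      ((Isaacs.irr_top.2 χ.2).res_smul (normalizer_eq_top N).ge le_top h1 hi (hov χ hχ))
    rw [t.bar_self] at h2
    rw [mul_comm, mul_of_mem_charCenter (isIrr_isChar (c1 χ hχ))
      (center_le_charCenter (c1 χ hχ) (t.central hz)), h2 z hz, h2.one, b4 z hz]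
    simp only [Pi.smul_apply, smul_eq_mul, t.one]
    ring
  · obtain ⟨y, rfl⟩ := t.surj y
    obtain ⟨m, rfl⟩ := t.surj m
    obtain ⟨k, hk, e3⟩ := conj_of_regular (Core.pCore_isPGroup p) (hbar.1 hm) (d2 y e1)
      (by simpa only [map_mul] using d2 (m * y) (by rwa [map_mul]))
    obtain ⟨k, rfl⟩ := ((QuotientGroup.mk'_surjective N).comp hπ) k
    refine ⟨t.ρ (m * y * (k * y * k⁻¹)⁻¹), hZ.2 ?_, _, hbar.2 hk, by simp only [map_mul, map_inv]; group⟩
    simp only [map_mul, map_inv, e3]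
    exact mul_inv_cancel _
  · set m := t.ρ ν * t.ρ γ * (t.ρ ν)⁻¹ * (t.ρ γ)⁻¹ with hm
    have h2 : f m = 0 := by
      by_contra h
      have h3 : m = t.ρ (ν * γ * ν⁻¹ * γ⁻¹) := by simp [hm]
      have h4 := d3 (h3 ▸ h) (by
        simp only [map_mul, map_inv]
        rw [mul_assoc, mul_assoc, ← mul_assoc (q (t.π γ))]
        exact mul_mem hn1 (Normal.conj_mem inferInstance _ (inv_mem hn1) _))
      simp only [map_mul, map_inv, mul_inv_eq_one, mul_inv_eq_iff_eq_mul] at h4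
      exact hn2 (by rwa [one_mul] at h4)
    have h3 (x : Q) : f (m * x) = f (x * m) := by rw [← hcf _ x]; congr 1; group
    simp only [h3]
    simp only [hf, map_sum, Finset.sum_mul_sum, map_mul]
    rw [Finset.sum_comm, ← mul_zero (Nat.card Q : ℂ), ← h2, hf, Finset.mul_sum]
    refine Finset.sum_congr rfl fun χ hχ => ?_
    rw [Finset.sum_comm, Finset.sum_eq_single_of_mem χ hχ fun ψ hψ e => ?_]
    all_goals simp only [mul_mul_mul_comm _ (conj (α _ _)), ← Finset.mul_sum]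
    · rw [isIrr_sum_conj_mul_mul (c1 χ hχ) (c1 χ hχ), if_pos rfl,
        isChar_conj_one (isIrr_isChar (c1 χ hχ))]
      have := irr_one_ne_zero ⟨_, c1 χ hχ⟩
      field_simp
    · rw [isIrr_sum_conj_mul_mul (c1 ψ hψ) (c1 χ hχ), if_neg fun e' : α ψ = α χ => e (Subtype.ext
        (Isaacs.eqv_top.1 ((c2 ψ hψ).eqv (c2 χ hχ) le_rfl (e' ▸ .refl _ _)))), mul_zero]

theorem harada_over [hp : Fact p.Prime] (hG : IsPConstrained p G)
    {N : Subgroup G} [N.Normal] [Fintype N] (hN : N = pPrimeCore p G)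
    {θ : IrrCharacter N} (hθ : GInv {θ}) {U : Finset (IrrCharacter G)}
    (hU : ∀ χ ∈ U, χ ∈ overSet {θ}) (h0 : ∀ x, p ∣ orderOf x → ∑ χ ∈ U, χ.1 1 * χ.1 x = 0)
    {χ ψ : IrrCharacter G} (hχ : χ ∈ U) (hψ : ψ ∈ overSet {θ}) : ψ ∈ U := by
  by_contra h
  have h1 : classInner (∑ χ ∈ U, χ.1 1 • χ.1) ψ = 0 := by rw [classInner_sum_smul_irr, if_neg h]
  have hinv : Clifford.inertia N θ.1 = ⊤ := eq_top_iff.2 fun g _ =>
    congrArg Subtype.val (hθ g θ rfl)
  have h2 : (fun n : N => (∑ χ ∈ U, χ.1 1 • χ.1) n) =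
      (∑ χ ∈ U, χ.1 1 * classInner (fun n : N => χ.1 n) θ.1) • θ.1 := funext fun n => by
    simp only [Finset.sum_apply, Pi.smul_apply, smul_eq_mul, Finset.sum_mul]
    exact Finset.sum_congr rfl fun χ hχ => by
      rw [congrFun (Clifford.res_eq_smul_of_invariant χ.2 θ.2 hinv
        (mem_overSet_singleton.1 (hU χ hχ))) n, mul_assoc]; rfl
  have h3 : classInner (fun n : N => (∑ χ ∈ U, χ.1 1 • χ.1) n) (fun n => ψ.1 n) = 0 := by
    rw [classInner, mul_eq_zero, or_iff_right (inv_ne_zero (Nat.cast_ne_zero.2 Nat.card_pos.ne'))]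
      at h1 ⊢
    rw [← h1, ← Finset.sum_subtype (Finset.univ.filter (· ∈ N)) (by simp)
      fun x => (∑ χ ∈ U, χ.1 1 • χ.1) x * conj (ψ.1 x)]
    refine Finset.sum_subset (Finset.subset_univ _) fun x _ hx => ?_
    rw [Finset.sum_apply]
    exact mul_eq_zero_of_left (harada_base hG hN hθ hU h0 (by simpa using hx)) _
  rw [h2, classInner_smul_left, mul_eq_zero, classInner_eq_zero_comm,
    or_iff_left (mem_overSet_singleton.1 hψ)] at h3
  have h4 := congrFun h2 1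
  rw [h3] at h4
  simp only [Finset.sum_apply, Pi.smul_apply, smul_eq_mul, zero_mul, OneMemClass.coe_one,
    ← irr_degree_cast] at h4
  have h5 := Finset.sum_eq_zero_iff.1 (by exact_mod_cast h4 :
    ∑ χ ∈ U, charDegree χ.1 * charDegree χ.1 = 0) χ hχ
  exact irr_one_ne_zero χ (by rw [← irr_degree_cast, mul_self_eq_zero.1 h5, Nat.cast_zero])

theorem harada (hM : IsPModular p M) (hs : IsPSolvable p G) {B : Set (IrrCharacter G)}
    (hB : IsPBlock M B) : ∀ (f : G → ℂ) (c : ℂ), IsClassFunction G f →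
      (∀ x, p ∣ orderOf x → f x = 0) →
      (∀ χ ∈ B, classInner f χ.1 ≠ 0 → classInner f χ.1 = c * χ.1 1) →
      ∀ χ ∈ B, ∀ ψ ∈ B, classInner f χ.1 ≠ 0 → classInner f ψ.1 ≠ 0 := by
  have := Fact.mk (pm_prime hM)
  refine fong_induction hM (C := fun G _ _ B => ∀ (f : G → ℂ) (c : ℂ), IsClassFunction G f →
      (∀ x, p ∣ orderOf x → f x = 0) →
      (∀ χ ∈ B, classInner f χ.1 ≠ 0 → classInner f χ.1 = c * χ.1 1) →
      ∀ χ ∈ B, ∀ ψ ∈ B, classInner f χ.1 ≠ 0 → classInner f ψ.1 ≠ 0)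
    (fun G _ _ hs θ hθ f c hf h0 hc χ hχ ψ hψ e => ?_)
    (fun G _ _ θ T _ hT e B hB hs ih f c hf h0 hc => ?_) _ G rfl hs B hB
  · have hG := Core.IsPSolvable.isPConstrained hs
    refine (Finset.mem_filter.1 (harada_over hG rfl hθ (U := Finset.univ.filter fun χ =>
      χ ∈ overSet {θ} ∧ classInner f χ.1 ≠ 0) (fun χ h => (Finset.mem_filter.1 h).2.1)
      (fun x hx => ?_) (χ := χ) (by simp [hχ, e]) hψ)).2.2
    have h1 := congrFun (blockPart_pRegularPart hM (isV_blockIdem hM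
      (isPBlock_overSet_of_constrained hM hG rfl hθ)) f) x
    rw [pRegularPart_of_dvd hx, show pRegularPart p f = f from funext fun g => by
      by_cases h : p ∣ orderOf g
      · rw [pRegularPart_of_dvd h, h0 g h]
      · exact pRegularPart_of_not_dvd h, blockPart_eq_sum] at h1
    refine mul_left_cancel₀ (left_ne_zero_of_mul (hc χ hχ e ▸ e)) ?_
    rw [mul_zero, Finset.mul_sum, ← Finset.filter_filter, Finset.sum_filter]
    refine (Finset.sum_congr rfl fun ξ hξ => ?_).trans h1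
    split_ifs with h
    · rw [hc ξ (Finset.mem_filter.1 hξ).2 h, mul_assoc]
    · rw [not_not.1 h, zero_mul]
  · rintro χ ⟨χ', h1, e1⟩ ψ ⟨ψ', h2, e2⟩
    rw [e1, e2, Ind.inner_indFun_right _ _ hf, Ind.inner_indFun_right _ _ hf]
    refine ih _ (c * T.index) (fun a b => hf a b) (fun x hx => h0 x (by rwa [orderOf_coe]))
      (fun ξ hξ => ?_) χ' h1 ψ' h2
    rw [← Ind.inner_indFun_right _ _ hf, mul_assoc, ← Ind.indFun_one]
    exact hc ⟨_, isIrr_indFun_of_overIn hM (isPBlock_singleton hM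
      (Core.not_dvd_card_pPrimeCore this.out) θ) hT e.le (hs hξ)⟩ ⟨ξ, hξ, rfl⟩

end Cfsg.Agent.Block
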