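import Mathlib
import Cfsg.Agent.Block.OT
import Cfsg.Agent.Block.Quot4
import Cfsg.Agent.S0972

/-! Blocks with a normal defect group. -/

namespace Cfsg.Agent.Block

open Cfsg Cfsg.Agent.Char MonoidAlgebra Subgroup
open Cfsg.Agent.LocalEven hiding isPGroup_zpowers_of_orderOf
open Cfsg.Agent.Fusion (PMod)
open scoped _root_.Classical ComplexConjugate commutatorElement

variable {G : Type*} [Group G] [Finite G] {p : ℕ} {M : Ideal AlgInt} {B : Set (IrrCharacter G)}
  {a d d' : BrauerPairIdx G}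

theorem PLe.fid_mul_of_normal (hM : IsPModular p M) (hd : IsBP p M d) [hN : d.1.Normal]
    (h : PLe p M a d) : fid M a * fid M d = fid M d := by
  have := Fact.mk hM.1
  suffices H : ∀ Q, Q ≤ d.1 → ∀ a : BrauerPairIdx G, a.1 = Q → PLe p M a d →
      fid M a * fid M d = fid M d from H _ h.le a rfl h
  refine fun Q hQ => subgroup_down_induction (Φ := fun Q => ∀ a : BrauerPairIdx G, a.1 = Q →
    PLe p M a d → fid M a * fid M d = fid M d) (fun Q hQ ih a e h => ?_) Q hQ
  subst e
  by_cases he : a.1 = d.1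
  · rw [h.is_eq_of_fst hM hd he, fid_mul_self hM hd.2]
  have ha := h.left hd
  obtain ⟨c, hc, hlt, hcd⟩ := h.exists_nsub_lt hM he
  have h1 : incl _ (br c.1 (fid M a)) = fid M a := by
    refine incl_resTo _ fun g hg => ?_
    by_contra h0
    rw [← incl_eB_ovr_stabilizer hM ha] at h0
    have hg' : g ∈ MulAction.stabilizer G a := by
      by_contra h1
      exact h0 (coeff_incl_of_notMem _ _ h1)
    rw [coeff_incl_of_mem _ _ hg'] at h0
    have h2 := mem_centralizer_of_coeff_eB hM (isV_ovr hM ha (mid_stabilizer a))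
      (Q := d.1.subgroupOf _) (hd.1.comap_subtype) h0
    refine hg (mem_centralizer_iff.2 fun x hx => ?_)
    exact congrArg Subtype.val (mem_centralizer_iff.1 h2 ⟨x, hc.stab hx⟩ (hcd.le hx))
  have h2 : fid M a * fid M c = fid M c := by
    rcases fid_mul_br hM hc.right hc.linv (fid_mul_self hM ha.2) with h3 | h3
    · rw [← h1, ← (commute_fid_incl c _).eq, h3.2]
    · exact absurd h3.1 (by rw [hc.mu_fid hM]; exact one_ne_zero)
  rw [← ih c.1 hcd.le hlt c rfl hcd, ← mul_assoc, h2]

theorem PLe.exists_smul_of_normal (hM : IsPModular p M) (hd : IsBP p M d) (hd' : IsBP p M d')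
    [hN : d.1.Normal] (e : d'.1 = d.1) (h : PLe p M a d) (h' : PLe p M a d') :
    ∃ c ∈ centralizer (a.1 : Set G), c • d' = d := by
  have : d'.1.Normal := e ▸ hN
  have h1 := h.fid_mul_of_normal hM hd
  have h2 := h'.fid_mul_of_normal hM hd'
  obtain ⟨D, w⟩ := d
  obtain ⟨D', w'⟩ := d'
  obtain rfl : D' = D := e
  obtain ⟨k, hk, h3⟩ := exists_cjA_of_mul_ne_zero hM (centralizer_le h.le)
    (le_top.trans (normalizer_eq_top _).ge) (h.left hd).2 hd'.2 hd.2
    (h2.trans_ne (fid_ne_zero hM hd'.2)) (h1.trans_ne (fid_ne_zero hM hd.2))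
  refine ⟨k, hk, pair_eq_of_fid hM (isBP_smul hd' k) hd.2 (cj_eq_of_normal _ _) ?_⟩
  rw [fid_smul]
  exact h3

theorem IsMaxBP.nilpotent_of_normal (hM : IsPModular p M) (hd : IsMaxBP p M B d)
    [hN : d.1.Normal] (h : PMod p (MulAction.stabilizer G d) (centralizer (d.1 : Set G))) :
    IsNilpotentBlock p M B := by
  refine (hd.nilpotent_iff hM).2 fun a ha => ?_
  refine ((h.mono (inf_le_left (b := normalizer (a.1 : Set G)))
    (centralizer_le ha.le)).sup_self
    (inf_le_right.trans (normalizer_le_normalizer_centralizer _))).mono (fun x hx => ?_) le_rfl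
  have h1 := ha.smul hM x
  rw [hx] at h1
  obtain ⟨c, hc, h2⟩ := ha.exists_smul_of_normal hM hd.bp (isBP_smul hd.bp x)
    (cj_eq_of_normal _ _) h1
  rw [← mul_smul] at h2
  rw [← inv_mul_cancel_left c x]
  exact mul_mem (mem_sup_right (inv_mem hc)) (mem_sup_left ⟨h2, mul_mem
    (centralizer_le_normalizer _ hc) (stabilizer_le_normalizer a hx)⟩)

variable {Q : Type*} [Group Q] [Finite Q] {f : G →* Q}

omit [Finite G] [Finite Q] in
theorem mapG_cjA {R : Type*} [CommRing R] (f : G →* Q) (x : G) (y : MonoidAlgebra R G) :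
    mapG R f (cjA x y) = cjA (f x) (mapG R f y) := by
  induction y using MonoidAlgebra.induction_linear with
  | zero => simp only [map_zero]
  | add y z hy hz => simp only [map_add, hy, hz]
  | single g r => simp [cjA, mapG_single]

/-- The restriction of `f` to the preimage of a subgroup. -/
def resComap (f : G →* Q) (K : Subgroup Q) : K.comap f →* K :=
  (f.comp (K.comap f).subtype).codRestrict K fun x => x.2

omit [Finite G] [Finite Q] in
theorem resComap_surjective (hf : Function.Surjective f) (K : Subgroup Q) :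
    Function.Surjective (resComap f K) := fun k => by
  obtain ⟨g, hg⟩ := hf k
  exact ⟨⟨g, by rw [mem_comap, hg]; exact k.2⟩, Subtype.ext hg⟩

omit [Finite G] [Finite Q] in
theorem mem_ker_resComap {K : Subgroup Q} {x : K.comap f} :
    x ∈ (resComap f K).ker ↔ (x : G) ∈ f.ker := Subtype.ext_iff

omit [Finite G] [Finite Q] in
theorem incl_mapG_resComap {R : Type*} [CommRing R] (f : G →* Q) (K : Subgroup Q)
    (y : MonoidAlgebra R (K.comap f)) :
    incl K (mapG R (resComap f K) y) = mapG R f (incl _ y) := by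
  induction y using MonoidAlgebra.induction_linear with
  | zero => simp only [map_zero]
  | add y z hy hz => simp only [map_add, hy, hz]
  | single g r => rw [mapG_single, incl_single, incl_single, mapG_single]; rfl

theorem resTo_mapG {R : Type*} [CommRing R] (f : G →* Q) (K : Subgroup Q)
    {y : MonoidAlgebra R G} (hy : ∀ g ∉ K.comap f, y.coeff g = 0) :
    resTo K (mapG R f y) = mapG R (resComap f K) (resTo _ y) := by
  conv_lhs => rw [← incl_resTo _ hy, ← incl_mapG_resComap, resTo_incl]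

/-- A pair at a normal subgroup descends to a quotient by a `p`-group. -/
theorem IsBPOf.exists_quot (hM : IsPModular p M) (hf : Function.Surjective f)
    (hk : IsPGroup p f.ker) (hd : IsBPOf p M B d) [hN : d.1.Normal]
    (hab : d.1.map f ≤ centralizer (d.1.map f : Set Q))
    (hc : ∀ g, ¬ p ∣ orderOf g → f g ∈ centralizer (d.1.map f : Set Q) →
      g ∈ centralizer (f.ker : Set G)) :
    ∃ (b : Set (IrrCharacter Q)) (c : BrauerPairIdx Q), c.1 = d.1.map f ∧ IsBPOf p M b c ∧
      b ⊆ domSet f hf B ∧ ∀ t, t • d = d → f t • c = c := by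
  have := hN.map f hf
  set K := centralizer (d.1.map f : Set Q) with hK
  have hH : Mid d.1 (K.comap f) := ⟨map_le_iff_le_comap.1 hab, fun x hx => by
    rw [mem_comap, mem_centralizer_iff]
    rintro - ⟨y, hy, rfl⟩
    rw [← map_mul, ← map_mul, mem_centralizer_iff.1 hx y hy],
    le_top.trans (normalizer_eq_top _).ge⟩
  have hs := resComap_surjective hf K
  have hE := isPBlock_ovr hM hd.bp hH
  have hb := isPBlock_domSet_of_centralizer hM hs (fun x => by
      obtain ⟨k, hk⟩ := hk ⟨x.1.1, mem_ker_resComap.1 x.2⟩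
      exact ⟨k, Subtype.ext (Subtype.ext (congrArg Subtype.val hk :))⟩)
    (fun g hg => mem_centralizer_iff.2 fun x hx => Subtype.ext (mem_centralizer_iff.1
      (hc g (by rwa [orderOf_coe]) g.2) x (mem_ker_resComap.1 hx))) hE
  have hc : IsBP p M ⟨d.1.map f, domSet _ hs (ovr _ d)⟩ := ⟨hd.bp.1.map f, hb⟩
  obtain ⟨b, hb'⟩ := exists_isBPOf hM hc
  have hfid : fid M ⟨d.1.map f, domSet _ hs (ovr _ d)⟩ =
      mapG _ f (incl _ (eB M (ovr (K.comap f) d))) := by
    rw [← incl_mapG_resComap, mapG_eB hM _ hs (isV_blockIdem hM hE)]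
    rfl
  refine ⟨b, _, rfl, hb', fun χ hχ => ?_, fun t ht => ?_⟩
  · obtain ⟨ξ, hξ⟩ := block_nonempty hM hb
    have hV := isV_blockIdem hM hd.block
    have h1 := hb'.mu_eq_lam hM hχ ((isCentral_eB (M := M) B).mapG hf)
    rw [mu_eq hM hb hξ, resTo_mapG f _ (fun g hg => by
        by_contra h0
        exact hg (hH.cle (mem_centralizer_of_coeff_eB hM hV hd.bp.1 h0))),
      ← lam_inflIrr _ hs _ ((isCentral_eB B).resTo _), lam_ovr_resTo hM hd.bp hH hξ
      ((isCentral_eB B).invUnder _), hd.mu_eq_one hM, ← lam_inflIrr _ hf _ (isCentral_eB B)] at h1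
    exact (mem_iff_lam_eB hV).2 (h1 ▸ one_ne_zero)
  · refine pair_eq_of_fid hM (isBP_smul hc _) hb (cj_eq_of_normal _ _) ?_
    rw [fid_smul, hfid, ← mapG_cjA]
    congr 1
    have h1 := incl_eB_conjSet (M := M) t⁻¹ (ovr (K.comap f) d)
    rw [inv_inv] at h1
    have h2 := mu_smul hM hd.bp t
      ((isCentral_eB (M := M) (ovr (K.comap f) d)).invUnder_incl.mono hH.cle)
    rw [ht, mu_ovr hM hd.bp hH, ← h1] at h2
    rw [← h1, ← ovr_eq_of_mu hM hd.bp hH (β := conjSet t⁻¹ _) (isPBlock_compSet _ hE)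
      (h2 ▸ one_ne_zero)]

theorem height_inflIrr (hM : IsPModular p M) (hf : Function.Surjective f) (hB : IsPBlock M B)
    {D : Subgroup G} (hD : IsDefectGroup p M B D) (hk : f.ker ≤ D) {b : Set (IrrCharacter Q)}
    (hb : IsPBlock M b) (hbB : b ⊆ domSet f hf B) (hE : IsDefectGroup p M b (D.map f))
    {χ : IrrCharacter Q} (hχ : χ ∈ b) :
    blockHeight p B (inflIrr f hf χ).1 = blockHeight p b χ.1 := by
  have h1 := factorization_degree_add_defect (p := p) hχ
  have h2 := factorization_degree_add_defect (p := p) (mem_domSet.1 (hbB hχ))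
  rw [charDegree_inflIrr, factorization_card_eq D, factorization_card_defect hM hB hD] at h2
  rw [factorization_card_eq (D.map f), factorization_card_defect hM hb hE,
    index_map_eq _ hf hk] at h1
  omega

theorem IsMaxBP.nilpotent_of_degree (hM : IsPModular p M) (hd : IsMaxBP p M B d)
    [hN : d.1.Normal] {n : ℕ}
    (h : ∀ χ ∈ B, blockHeight p B χ.1 = 0 → charDegree χ.1 = n) : IsNilpotentBlock p M B := by
  have := Fact.mk hM.1
  have hf := QuotientGroup.mk'_surjective ⁅d.1, d.1⁆
  have hk : (QuotientGroup.mk' ⁅d.1, d.1⁆).ker ≤ d.1 :=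
    (QuotientGroup.ker_mk' _).le.trans (commutator_le_left _ _)
  have hc : ∀ g, ¬ p ∣ orderOf g → QuotientGroup.mk' ⁅d.1, d.1⁆ g ∈
      centralizer (d.1.map (QuotientGroup.mk' ⁅d.1, d.1⁆) : Set (G ⧸ ⁅d.1, d.1⁆)) →
      g ∈ centralizer (d.1 : Set G) := fun g hg h1 =>
    mem_centralizer_of_commutator_le hM.1 hd.bp.1 hg (by rw [normalizer_eq_top]; trivial)
      fun x hx => by
        rw [← QuotientGroup.eq_one_iff, ← QuotientGroup.mk'_apply, map_commutatorElement,
          commutatorElement_eq_one_iff_mul_comm]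
        exact mem_centralizer_iff.1 h1 _ (mem_map_of_mem _ hx)
  have hab : d.1.map (QuotientGroup.mk' ⁅d.1, d.1⁆) ≤
      centralizer (d.1.map (QuotientGroup.mk' ⁅d.1, d.1⁆) : Set (G ⧸ ⁅d.1, d.1⁆)) := by
    rw [← commutator_eq_bot_iff_le_centralizer, ← map_commutator, QuotientGroup.map_mk'_self]
  obtain ⟨b, c, e, hc', hbB, hs⟩ := hd.of.exists_quot hM hf (hd.bp.1.to_le hk) hab
    fun g hg h1 => centralizer_le hk (hc g hg h1)
  have hE := isDefectGroup_map_of_br hM hf hd.of.block (hd.defect hM) hc'.block hbB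
    (e ▸ hc'.br_ne_zero hM)
  have := hN.map _ hf
  have hu : Unif p b := unif_of_degree hM hc'.block (n := n) fun χ hχ => by
    rw [← charDegree_inflIrr hf]
    refine h _ (hbB hχ) ?_
    rw [height_inflIrr hM hf hd.of.block (hd.defect hM) hk hc'.block hbB hE hχ]
    exact (S0972.result p M hM b hc'.block _ hE).1
      (fun x hx y hy => (mem_centralizer_iff.1 (hab hy) x hx)) χ hχ
  refine hd.nilpotent_of_normal hM ((pmod_iff_regular hM.1).2 fun t ht hr => hc t hr ?_)
  rw [← e]
  exact hu.stabilizer_le hM ((isMaxBP_iff hM).2 ⟨hc', e ▸ hE⟩) (hs t ht)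

end Cfsg.Agent.Block
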