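import Mathlib

/-! Order types of direct products: the framework. -/

namespace Cfsg.Agent.Block.OTy

open Finset

/-- an action by additive maps -/
structure Act (K V : Type) [Group K] [AddCommGroup V] where
  f : K → V → V
  one : ∀ v, f 1 v = v
  mul : ∀ k l v, f (k * l) v = f k (f l v)
  add : ∀ k v w, f k (v + w) = f k v + f k w

/-- the action through a character -/
def Act.chr {K R : Type} [Group K] [CommRing R] (χ : K → R) (h1 : χ 1 = 1)
    (hm : ∀ k l, χ (k * l) = χ k * χ l) : Act K R where
  f k v := χ k * v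
  one v := by rw [h1, one_mul]
  mul k l v := by rw [hm, mul_assoc]
  add k v w := mul_add _ _ _

variable {K V : Type} [Group K] [AddCommGroup V]

theorem Act.zero (a : Act K V) (k : K) : a.f k 0 = 0 := by
  have := a.add k 0 0
  rw [add_zero] at this
  exact left_eq_add.1 this

/-- the semidirect product -/
def Aff (_a : Act K V) : Type := V × K

instance (a : Act K V) [Fintype K] [Fintype V] : Fintype (Aff a) :=
  inferInstanceAs (Fintype (V × K))

instance (a : Act K V) [DecidableEq K] [DecidableEq V] : DecidableEq (Aff a) :=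
  inferInstanceAs (DecidableEq (V × K))

instance (a : Act K V) : Group (Aff a) where
  mul x y := (x.1 + a.f x.2 y.1, x.2 * y.2)
  one := (0, 1)
  inv x := (a.f x.2⁻¹ (-x.1), x.2⁻¹)
  mul_assoc x y z := Prod.ext (by
    change x.1 + a.f x.2 y.1 + a.f (x.2 * y.2) z.1 = x.1 + a.f x.2 (y.1 + a.f y.2 z.1)
    rw [a.add, a.mul, add_assoc]) (mul_assoc _ _ _)
  one_mul x := Prod.ext (by
    change 0 + a.f 1 x.1 = x.1
    rw [a.one, zero_add]) (one_mul _)
  mul_one x := Prod.ext (by
    change x.1 + a.f x.2 0 = x.1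
    rw [a.zero, add_zero]) (mul_one _)
  inv_mul_cancel x := Prod.ext (by
    change a.f x.2⁻¹ (-x.1) + a.f x.2⁻¹ x.1 = 0
    rw [← a.add, neg_add_cancel, a.zero]) (inv_mul_cancel _)

instance (a : Act K V) [Group.IsSolvable K] : Group.IsSolvable (Aff a) := by
  let i : Multiplicative V →* Aff a :=
    { toFun := fun v => (v.toAdd, 1)
      map_one' := rfl
      map_mul' := fun v w => Prod.ext (by
        change v.toAdd + w.toAdd = v.toAdd + a.f 1 w.toAdd
        rw [a.one]) (mul_one _).symm }
  let p : Aff a →* K := { toFun := fun x => x.2, map_one' := rfl, map_mul' := fun _ _ => rfl }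
  refine Group.isSolvable_of_ker_le_range i p fun x hx => ⟨Multiplicative.ofAdd x.1, ?_⟩
  exact Prod.ext rfl (Eq.symm hx)

/-- computing an order -/
def ordAux {G : Type} [Mul G] (p : G → Bool) (g : G) : ℕ → G → ℕ → ℕ
  | 0, _, _ => 0
  | f + 1, x, k => if p x then k else ordAux p g f (x * g) (k + 1)

theorem ordAux_spec {G H : Type} [Group G] [Group H] (φ : G →* H) (p : G → Bool)
    (hp : ∀ x, p x = true ↔ φ x = 1) (g : G) : ∀ (f k : ℕ), 0 < k →
    (∀ j, j < k → 0 < j → φ g ^ j ≠ 1) → ordAux p g f (g ^ k) k ≠ 0 →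
    orderOf (φ g) = ordAux p g f (g ^ k) k
  | 0, _, _, _, h => absurd rfl h
  | f + 1, k, hk, hj, h => by
    unfold ordAux at h ⊢
    by_cases hx : p (g ^ k) = true
    · rw [if_pos hx]
      exact (orderOf_eq_iff hk).2 ⟨by rw [← map_pow]; exact (hp _).1 hx, hj⟩
    · rw [if_neg hx, ← pow_succ] at h ⊢
      refine ordAux_spec φ p hp g f (k + 1) k.succ_pos (fun j h1 h2 => ?_) h
      rcases Nat.lt_succ_iff_lt_or_eq.1 h1 with h3 | rfl
      · exact hj j h3 h2
      · rw [← map_pow]; exact (hp _).not.1 hx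

/-- the multiset of a table -/
def tbl (T : List (ℕ × ℕ)) : Multiset ℕ := (T.flatMap fun p => List.replicate p.2 p.1 : List ℕ)

/-- the counting function of a table -/
def ev (T : List (ℕ × ℕ)) (n : ℕ) : ℕ := (T.map fun p => if p.1 ∣ n then p.2 else 0).sum

theorem countP_tbl (T : List (ℕ × ℕ)) (n : ℕ) : (tbl T).countP (· ∣ n) = ev T n := by
  induction T with
  | nil => rfl
  | cons p T ih =>
    simp only [tbl, ev, List.flatMap_cons, List.map_cons, List.sum_cons, Multiset.coe_countP,
      List.countP_append] at ih ⊢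
    rw [ih, List.countP_replicate]
    simp

theorem card_of_tbl {G H : Type} [Group G] [Fintype G] [Group H] (φ : G →* H) (p : G → Bool)
    (hp : ∀ x, p x = true ↔ φ x = 1) (T : List (ℕ × ℕ))
    (h : (univ : Finset G).val.map (fun g => ordAux p g 168 g 1) = tbl T) (h0 : 0 ∉ tbl T)
    (n : ℕ) : Nat.card {g : G // φ g ^ n = 1} = ev T n := by
  classical
  have h1 : ∀ g : G, orderOf (φ g) = ordAux p g 168 g 1 := fun g => by
    have := ordAux_spec φ p hp g 168 1 one_pos (fun j h1 h2 => by omega)
    rw [pow_one] at this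
    apply this
    intro e
    apply h0
    rw [← h, ← e]
    exact Multiset.mem_map_of_mem _ (mem_univ g)
  rw [← countP_tbl, ← h, Multiset.countP_map, Nat.card_eq_fintype_card, Fintype.card_subtype]
  simp only [← h1, orderOf_dvd_iff_pow_eq_one]
  rfl

theorem ev_gcd (T : List (ℕ × ℕ)) (h : ∀ p ∈ T, p.1 ∣ 168) (n : ℕ) :
    ev T n = ev T (Nat.gcd n 168) := by
  unfold ev
  congr 1
  refine List.map_congr_left fun p hp => ?_
  simp [Nat.dvd_gcd_iff, h p hp]

/-- a finite group with its exponent type -/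
structure TG where
  C : Type
  [grp : Group C]
  [fin : Finite C]
  E : ℕ → ℕ
  hE : ∀ n, Nat.card {g : C // g ^ n = 1} = E n
  per : ∀ n, E n = E (Nat.gcd n 168)

attribute [instance] TG.grp TG.fin

/-- direct product -/
def TG.prod (X Y : TG) : TG where
  C := X.C × Y.C
  E n := X.E n * Y.E n
  hE n := by
    rw [← X.hE, ← Y.hE, ← Nat.card_prod]
    refine Nat.card_congr ((Equiv.subtypeEquivRight fun g => ?_).trans Equiv.subtypeProdEquivProd)
    simp [Prod.ext_iff]
  per n := by rw [X.per, Y.per]

/-- the trivial group -/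
def TG.unit : TG where
  C := PUnit
  E _ := 1
  hE n := by simp
  per _ := rfl

/-- the product of a list -/
def TG.prodL : List TG → TG
  | [] => TG.unit
  | X :: l => X.prod (TG.prodL l)

theorem TG.solv_prodL : ∀ l : List TG, (∀ X ∈ l, Group.IsSolvable X.C) →
    Group.IsSolvable (TG.prodL l).C
  | [], _ => inferInstanceAs (Group.IsSolvable PUnit)
  | X :: l, h => by
    haveI := h X (List.mem_cons_self ..)
    haveI := TG.solv_prodL l fun Y hY => h Y (List.mem_cons_of_mem _ hY)
    exact inferInstanceAs (Group.IsSolvable (X.C × (TG.prodL l).C))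

/-- a group with a table -/
def TG.of (G : Type) [Group G] [Fintype G] [DecidableEq G] (T : List (ℕ × ℕ))
    (h : (univ : Finset G).val.map (fun g => ordAux (fun x => decide (x = 1)) g 168 g 1) = tbl T)
    (h0 : 0 ∉ tbl T) (hT : ∀ p ∈ T, p.1 ∣ 168) : TG where
  C := G
  E := ev T
  hE := card_of_tbl (MonoidHom.id G) _ (by simp) T h h0
  per := ev_gcd T hT

theorem TG.same (X Y : TG) (h : ∀ d ∈ Nat.divisors 168, X.E d = Y.E d) (n : ℕ) :
    Nat.card {g : X.C // orderOf g = n} = Nat.card {g : Y.C // orderOf g = n} := by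
  classical
  haveI := Fintype.ofFinite X.C
  haveI := Fintype.ofFinite Y.C
  have hE : ∀ n, X.E n = Y.E n := fun n => by
    rw [X.per, Y.per]
    exact h _ (Nat.mem_divisors.2 ⟨Nat.gcd_dvd_right _ _, by norm_num⟩)
  simp only [Nat.card_eq_fintype_card, Fintype.card_subtype]
  induction n using Nat.strong_induction_on with
  | _ n ih =>
    rcases Nat.eq_zero_or_pos n with rfl | hn
    · simp [(orderOf_pos _).ne']
    have h1 := sum_card_orderOf_eq_card_pow_eq_one (G := X.C) hn.ne'
    have h2 := sum_card_orderOf_eq_card_pow_eq_one (G := Y.C) hn.ne'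
    have h3 := X.hE n
    have h4 := Y.hE n
    rw [Nat.card_eq_fintype_card, Fintype.card_subtype] at h3 h4
    rw [← Nat.cons_self_properDivisors hn.ne', sum_cons] at h1 h2
    have h5 : ∑ m ∈ n.properDivisors, #{x : X.C | orderOf x = m}
        = ∑ m ∈ n.properDivisors, #{x : Y.C | orderOf x = m} :=
      sum_congr rfl fun m hm => ih m (Nat.mem_properDivisors.1 hm).2
    have h6 := hE n
    omega

end Cfsg.Agent.Block.OTy
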