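import Cfsg.Agent.Block.OTy

/-! Order types: `PGL₂(7)`. -/

namespace Cfsg.Agent.Block.OTy

open Finset

/-- invertible `2 × 2` matrices over `F₇` -/
def GM : Type := {m : ZMod 7 × ZMod 7 × ZMod 7 × ZMod 7 // m.1 * m.2.2.2 - m.2.1 * m.2.2.1 ≠ 0}

instance : Fintype GM := inferInstanceAs (Fintype {m : ZMod 7 × ZMod 7 × ZMod 7 × ZMod 7 //
  m.1 * m.2.2.2 - m.2.1 * m.2.2.1 ≠ 0})

instance : DecidableEq GM := inferInstanceAs (DecidableEq {m : ZMod 7 × ZMod 7 × ZMod 7 × ZMod 7 //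
  m.1 * m.2.2.2 - m.2.1 * m.2.2.1 ≠ 0})

theorem z7 : ∀ a b : ZMod 7, a ≠ 0 → b ≠ 0 → a * b ≠ 0 := by decide

theorem z7' : ∀ a : ZMod 7, a ≠ 0 → a ^ 5 * a = 1 := by decide

theorem GM.ext' {x y : GM} (h1 : x.1.1 = y.1.1) (h2 : x.1.2.1 = y.1.2.1) (h3 : x.1.2.2.1 = y.1.2.2.1)
    (h4 : x.1.2.2.2 = y.1.2.2.2) : x = y :=
  Subtype.ext (Prod.ext h1 (Prod.ext h2 (Prod.ext h3 h4)))

/-- the product -/
def GM.mul (x y : GM) : GM :=
  ⟨(x.1.1 * y.1.1 + x.1.2.1 * y.1.2.2.1, x.1.1 * y.1.2.1 + x.1.2.1 * y.1.2.2.2,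
    x.1.2.2.1 * y.1.1 + x.1.2.2.2 * y.1.2.2.1, x.1.2.2.1 * y.1.2.1 + x.1.2.2.2 * y.1.2.2.2), by
    have := z7 _ _ x.2 y.2
    convert this using 1
    ring⟩

/-- the inverse -/
def GM.inv (x : GM) : GM :=
  ⟨((x.1.1 * x.1.2.2.2 - x.1.2.1 * x.1.2.2.1) ^ 5 * x.1.2.2.2,
    -((x.1.1 * x.1.2.2.2 - x.1.2.1 * x.1.2.2.1) ^ 5 * x.1.2.1),
    -((x.1.1 * x.1.2.2.2 - x.1.2.1 * x.1.2.2.1) ^ 5 * x.1.2.2.1),
    (x.1.1 * x.1.2.2.2 - x.1.2.1 * x.1.2.2.1) ^ 5 * x.1.1), by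
    have h1 := z7' _ x.2
    intro h
    apply x.2
    simp only at h
    linear_combination (x.1.1 * x.1.2.2.2 - x.1.2.1 * x.1.2.2.1) ^ 2 * h -
      (x.1.1 * x.1.2.2.2 - x.1.2.1 * x.1.2.2.1) *
        ((x.1.1 * x.1.2.2.2 - x.1.2.1 * x.1.2.2.1) ^ 6 + 1) * h1⟩

instance : Group GM where
  mul := GM.mul
  one := ⟨(1, 0, 0, 1), by decide⟩
  inv := GM.inv
  mul_assoc x y z := by
    change GM.mul (GM.mul x y) z = GM.mul x (GM.mul y z)
    apply GM.ext' <;> simp only [GM.mul] <;> ring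
  one_mul x := by
    change GM.mul ⟨(1, 0, 0, 1), by decide⟩ x = x
    apply GM.ext' <;> simp only [GM.mul] <;> ring
  mul_one x := by
    change GM.mul x ⟨(1, 0, 0, 1), by decide⟩ = x
    apply GM.ext' <;> simp only [GM.mul] <;> ring
  inv_mul_cancel x := by
    change GM.mul (GM.inv x) x = ⟨(1, 0, 0, 1), by decide⟩
    have h1 := z7' _ x.2
    apply GM.ext' <;> simp only [GM.mul, GM.inv]
    · linear_combination h1
    · ring
    · ring
    · linear_combination h1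

/-- scalar test -/
def GM.sc (x : GM) : Bool := decide (x.1.2.1 = 0 ∧ x.1.2.2.1 = 0 ∧ x.1.1 = x.1.2.2.2)

theorem GM.sc_iff (x : GM) : x.sc = true ↔ x ∈ Subgroup.center GM := by
  rw [Subgroup.mem_center_iff, GM.sc, decide_eq_true_iff]
  constructor
  · rintro ⟨h1, h2, h3⟩ g
    change GM.mul g x = GM.mul x g
    apply GM.ext' <;> simp only [GM.mul, h1, h2, h3] <;> ring
  · intro h
    have e1 : GM.mul ⟨(1, 1, 0, 1), by decide⟩ x = GM.mul x ⟨(1, 1, 0, 1), by decide⟩ := h _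
    have e2 : GM.mul ⟨(1, 0, 1, 1), by decide⟩ x = GM.mul x ⟨(1, 0, 1, 1), by decide⟩ := h _
    have a1 := congrArg (fun y : GM => y.1.1) e1
    have a2 := congrArg (fun y : GM => y.1.2.1) e1
    have a3 := congrArg (fun y : GM => y.1.1) e2
    simp only [GM.mul] at a1 a2 a3
    exact ⟨by linear_combination -a3, by linear_combination a1, by linear_combination -a2⟩

theorem GM.table : (univ : Finset GM).val.map (fun g => ordAux GM.sc g 168 g 1) =
    tbl [(1, 6), (2, 294), (3, 336), (4, 252), (6, 336), (7, 288), (8, 504)] := by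
  decide +kernel

theorem GM.cnt (n : ℕ) : Nat.card {g : GM // QuotientGroup.mk' (Subgroup.center GM) g ^ n = 1} =
    ev [(1, 6), (2, 294), (3, 336), (4, 252), (6, 336), (7, 288), (8, 504)] n :=
  card_of_tbl _ _ (fun x => by rw [GM.sc_iff]; simp) _ GM.table (by decide +kernel) n

theorem GM.card_center : Nat.card (Subgroup.center GM) = 6 := by
  have := GM.cnt 1
  simp only [pow_one, QuotientGroup.mk'_apply, QuotientGroup.eq_one_iff] at this
  exact this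

/-- `PGL₂(7)` -/
def pgl : TG where
  C := GM ⧸ Subgroup.center GM
  E := ev [(1, 1), (2, 49), (3, 56), (4, 42), (6, 56), (7, 48), (8, 84)]
  hE n := by
    have h1 := Nat.card_congr (QuotientGroup.preimageMkEquivSubgroupProdSet (Subgroup.center GM)
      {q | q ^ n = 1})
    rw [Nat.card_prod, GM.card_center] at h1
    have h2 := GM.cnt n
    have h3 : ev [(1, 6), (2, 294), (3, 336), (4, 252), (6, 336), (7, 288), (8, 504)] n =
        6 * ev [(1, 1), (2, 49), (3, 56), (4, 42), (6, 56), (7, 48), (8, 84)] n := by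
      simp only [ev, List.map_cons, List.map_nil, List.sum_cons, List.sum_nil]
      split_ifs <;> rfl
    exact Nat.eq_of_mul_eq_mul_left (by norm_num : 0 < 6) (h1.symm.trans (h2.trans h3))
  per := ev_gcd _ (by decide)

end Cfsg.Agent.Block.OTy
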