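import Cfsg.Agent.Block.OTy2
import Cfsg.Agent.Block.OTy3

/-! Order types: the example. -/

namespace Cfsg.Agent.Block.OTy

open Finset
open scoped commutatorElement

theorem pgl_not : ¬ Group.IsSolvable pgl.C := by
  let x : GM := ⟨(0, 1, 6, 0), by decide⟩
  let a : GM := ⟨(5, 3, 3, 2), by decide⟩
  let y : GM := ⟨(0, 1, 2, 3), by decide⟩
  let b : GM := ⟨(4, 2, 2, 3), by decide⟩
  let z : GM := ⟨(0, 1, 3, 5), by decide⟩
  have h1 : y * x = a * y := by decide +kernel
  have h2 : z * x = b * z := by decide +kernel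
  have h3 : a * b = x * b * a := by decide +kernel
  have h4 : ¬ x.sc = true := by decide +kernel
  have e1 : y * x * y⁻¹ = a := by rw [h1, mul_inv_cancel_right]
  have e2 : z * x * z⁻¹ = b := by rw [h2, mul_inv_cancel_right]
  have e3 : ⁅a, b⁆ = x := by rw [commutatorElement_def, h3]; group
  have key : ∀ n, x ∈ derivedSeries GM n := by
    intro n
    induction n with
    | zero => exact Subgroup.mem_top x
    | succ n ih =>
      rw [← e3]
      exact Subgroup.commutator_mem_commutator (e1 ▸ (derivedSeries_normal _ _).conj_mem _ ih _)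
        (e2 ▸ (derivedSeries_normal _ _).conj_mem _ ih _)
  refine not_isSolvable_of_mem_derivedSeries (G := GM ⧸ Subgroup.center GM)
    (g := QuotientGroup.mk' _ x) ?_ fun n => ?_
  · rw [GM.sc_iff] at h4
    simpa using h4
  · exact map_derivedSeries_le_derivedSeries _ n (Subgroup.mem_map_of_mem _ (key n))

theorem eqE : ∀ d ∈ Nat.divisors 168, (TG.prodL lG).E d = (pgl.prod (TG.prodL lH)).E d := by
  decide +kernel

theorem main : ∃ (G : Type) (_ : Group G) (_ : Finite G) (H : Type) (_ : Group H) (_ : Finite H),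
    Group.IsSolvable G ∧ ¬ Group.IsSolvable H ∧
      ∀ n : ℕ, Nat.card {g : G // orderOf g = n} = Nat.card {h : H // orderOf h = n} := by
  refine ⟨(TG.prodL lG).C, inferInstance, inferInstance, (pgl.prod (TG.prodL lH)).C, inferInstance,
    inferInstance, TG.solv_prodL _ solv_lG, fun h => pgl_not ?_, TG.same _ _ eqE⟩
  haveI : Group.IsSolvable (pgl.C × (TG.prodL lH).C) := h
  exact Group.isSolvable_of_surjective (f := MonoidHom.fst pgl.C (TG.prodL lH).C)
    Prod.fst_surjective

end Cfsg.Agent.Block.OTy
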