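import Mathlib
import Cfsg.Agent.Block.Sym11

/-! Characters of symmetric groups with the same core lie in the same block. -/

namespace Cfsg.Agent.Block.Sym

open Finset Equiv Equiv.Perm Cfsg Cfsg.Agent.Char Cfsg.Agent.LocalEven MonoidAlgebra

section
variable {G : Type*} [Group G] [Finite G] {p : ℕ} {M : Ideal AlgInt}

theorem mem_cent_of_coeff (hM : IsPModular p M) {B : Set (IrrCharacter G)}
    (hV : IsV M (blockIdem B)) {u : G} (hu : IsPPart p u u) {K : Subgroup G} (hK : IsPGroup p K)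
    (hKC : ∀ k ∈ K, Commute k u) (hN : ∀ a, Commute a u → ∀ k ∈ K, a * k * a⁻¹ ∈ K) {c : G}
    (hc : Commute c u) (h2 : (eB M B).coeff c ≠ 0) : ∀ k ∈ K, Commute c k := by
  haveI := Fact.mk hM.1
  set C := Subgroup.centralizer (Subgroup.zpowers u : Set G)
  have hC : ∀ a, a ∈ C ↔ Commute a u := fun a => by
    rw [show C = _ from centralizer_zpowers u, Subgroup.mem_centralizer_singleton_iff]; rfl
  haveI : (K.subgroupOf C).Normal := ⟨fun k hk a => hN a ((hC a).1 a.2) k hk⟩
  have h1 := trunc_idem hM (Q := K.subgroupOf C) hK.comap_subtype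
    ((isCentral_eB (M := M) B).resTo C) (by
      rw [← br_mul (p_eq_zero_F hM) (pPart_isPGroup hu) ((isCentral_eB B).invUnder _)
        ((isCentral_eB B).invUnder _), eB_mul_self hV])
  have h3 : (⟨c, (hC c).2 hc⟩ : C) ∈ (Subgroup.centralizer (K.subgroupOf C : Set C) : Set C) := by
    by_contra h4
    have := coeff_trunc_of_notMem (resTo C (eB M B)) h4
    rw [h1, coeff_resTo] at this
    exact h2 this
  exact fun k hk => ((mem_centralizer_subgroupOf_iff (fun k hk => (hC k).2 (hKC k hk)) _).1 h3 k hk).symm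

theorem same_of_section (hM : IsPModular p M) {u : G} (hu : IsPPart p u u) {H : Subgroup G}
    (hH : ∀ h ∈ H, Commute h u) {θ : IrrCharacter H} (hθ : IsV M (blockIdem {θ}))
    (hs : ∀ B : Set (IrrCharacter G), IsV M (blockIdem B) → ∀ c, Commute c u →
      (eB M B).coeff c ≠ 0 → c ∈ H) {χ ψ : IrrCharacter G} {a b : ℂ} (ha : a ≠ 0) (hb : b ≠ 0)
    (h1 : ∀ h : H, (χ : G → ℂ) (u * h) = a * (θ : H → ℂ) h)
    (h2 : ∀ h : H, (ψ : G → ℂ) (u * h) = b * (θ : H → ℂ) h) : SameBlock M (χ : G → ℂ) ψ := by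
  classical
  haveI := Fact.mk hM.1
  haveI := Fintype.ofFinite G
  set C := Subgroup.centralizer (Subgroup.zpowers u : Set G)
  have hC : ∀ a, a ∈ C ↔ Commute a u := fun a => by
    rw [show C = _ from centralizer_zpowers u, Subgroup.mem_centralizer_singleton_iff]; rfl
  have hT : ∀ B : Set (IrrCharacter G), IsV M (blockIdem B) →
      trunc (C : Set G) (eB M B) = incl H (resTo H (eB M B)) := fun B hB => ga_ext fun g => by
    rw [incl_resTo_eq_trunc, coeff_trunc, coeff_trunc]
    by_cases h : g ∈ (H : Set G)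
    · rw [if_pos h, if_pos (show g ∈ (C : Set G) from (hC g).2 (hH g h))]
    · rw [if_neg h]
      split_ifs with h'
      · exact by_contra fun e => h (hs B hB g ((hC g).1 h') e)
      · rfl
  have hI : ∀ {R : Type} [CommRing R] (x : MonoidAlgebra R H),
      InvUnder (Subgroup.zpowers u) (incl H x) := fun x => invUnder_iff.2 fun q hq => by
    rw [eq_sum_single x, map_sum]
    refine Commute.sum_right _ _ _ fun h _ => ?_
    obtain ⟨k, rfl⟩ := hq
    rw [incl_single, Commute, SemiconjBy, single_mul_single, single_mul_single,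
      ((hH h h.2).zpow_right k).eq, mul_comm]
  have hm : ∀ A B : Set (IrrCharacter G), IsV M (blockIdem A) → IsV M (blockIdem B) →
      IsV M (blockIdem (A ∩ B)) →
      resTo H (eB M A) * resTo H (eB M B) = resTo H (eB M (A ∩ B)) := fun A B hA hB hAB => by
    apply incl_injective H
    rw [map_mul, ← hT A hA, ← hT B hB, ← hT _ hAB, ← eB_mul_eB hA hB,
      trunc_mul_of_br (p_eq_zero_F hM) (pPart_isPGroup hu) ((isCentral_eB A).invUnder _)
        ((isCentral_eB B).invUnder _)]
  have key : ∀ (χ : IrrCharacter G) (a : ℂ), a ≠ 0 →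
      (∀ h : H, (χ : G → ℂ) (u * h) = a * (θ : H → ℂ) h) →
      lam M (θ : H → ℂ) (resTo H (eB M (blockOf M (χ : G → ℂ)))) ≠ 0 := fun χ a ha h1 h0 => by
    set B := blockOf M (χ : G → ℂ)
    have hB := isV_blockIdem hM (isPBlock_blockOf (M := M) χ)
    have h3 := isNilpotent_mul_eB hθ ((isCentral_eB (M := M) B).resTo H) (by rintro _ rfl; exact h0)
    have h4 : resTo H (eB M B) * eB M {θ} = 0 := by
      refine IsIdempotentElem.eq_zero_of_isNilpotent ?_ h3
      rw [IsIdempotentElem, mul_assoc, ← mul_assoc (eB M {θ}), ((isCentral_eB _).commute _).eq,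
        mul_assoc, eB_mul_self hθ, ← mul_assoc, hm B B hB hB (by rwa [Set.inter_self]),
        Set.inter_self]
    have h5 := lin_single_mul_eq_zero_of_br hM (E := blockIdem B * incl H (blockIdem {θ}))
      (hB.mul hθ.incl) (by
        rw [mul_assoc, ← mul_assoc (incl H _), ← ((isCentral_blockIdem B).commute _).eq, mul_assoc,
          ← map_mul, blockIdem_mul_self, ← mul_assoc, blockIdem_mul_self]) hu
      (((isCentral_blockIdem B).commute _).symm.mul_right
        (invUnder_iff.1 (hI _) u (Subgroup.mem_zpowers u))) (by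
        apply incl_injective
        rw [incl_resTo_eq_trunc, redG_mul hB hθ.incl, redG_incl]
        change trunc (C : Set G) (eB M B * incl H (eB M {θ})) = _
        rw [trunc_mul_of_br (p_eq_zero_F hM) (pPart_isPGroup hu) ((isCentral_eB B).invUnder _) (hI _),
          hT B hB, show trunc (C : Set G) (incl H (eB M {θ})) = incl H (eB M {θ}) from
          ga_ext fun g => ?_, ← map_mul, h4, map_zero, map_zero]
        rw [coeff_trunc]
        split_ifs with h
        · rfl
        · exact (coeff_incl_of_notMem H _ fun e => h ((hC g).2 (hH g e))).symm)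
      (χ := χ) (irr_classFun χ)
    rw [← mul_assoc, ← ((isCentral_blockIdem B).commute _).eq, mul_assoc,
      lin_blockIdem_mul_of_mem (self_mem_blockOf hM χ), lin_single_mul, ← lin_apply (fun g => χ.1 (u * g)),
      lin_incl, show (fun h : H => χ.1 (u * h)) = a • θ.1 from funext h1, lin_smul_left,
      lin_blockIdem_singleton θ (irr_classFun θ), classInner_irr_self, one_mul] at h5
    exact mul_ne_zero ha (irr_one_ne_zero θ) h5
  by_contra h
  have hB := isPBlock_blockOf (M := M) χ
  have hB' := isPBlock_blockOf (M := M) ψ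
  have h3 := (block_disjoint hM hB hB' fun e => h (mem_blockOf.1 (e ▸ self_mem_blockOf hM ψ))).inter_eq
  have h4 := hm _ _ (isV_blockIdem hM hB) (isV_blockIdem hM hB') (by
    rw [h3]; exact isV_blockIdem_of_saturated hM fun _ h => h.elim)
  refine mul_ne_zero (key χ a ha h1) (key ψ b hb h2) ?_
  rw [← lam_mul θ ((isCentral_eB _).resTo H) ((isCentral_eB _).resTo H), h4, h3, eB_empty, map_zero,
    map_zero]

end

variable {m p : ℕ} {V : Fin m → ℤ}

universe u

theorem chi_core (hp : p.Prime) (hV : Vac p V) (γ : Type*) [Fintype γ] [DecidableEq γ] (w : ℕ) :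
    ∀ β : Fin m → ℤ, Cont p β V → ∑ i, β i = ∑ i, V i + p * w → ∃ N : ℂ,
      ∀ (α : Type u) [Fintype α] [DecidableEq α] (f : γ ↪ α) (σ : Perm α) (τ : Perm γ),
        (∀ z, σ (f z) = f (τ z)) → (∀ x ∉ Set.range f, #(orb σ x) = p) →
          Fintype.card α = p * w + Fintype.card γ → chi β σ = N * chi V τ := by
  induction w with
  | zero =>
    intro β hc hs
    by_cases hg : Good β
    · obtain ⟨v, hv⟩ := exists_pat hp.pos hV hg hc
      have h1 := hv.eq_of_sum hp.pos hV (by simpa [Equiv.sum_comp v β] using hs)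
      refine ⟨sg v, fun α _ _ f σ τ h2 _ h3 => ?_⟩
      set e := Equiv.ofBijective f ((Fintype.bijective_iff_injective_and_card f).2
        ⟨f.injective, by simpa using h3.symm⟩)
      have : σ = e.permCongr τ := Equiv.ext fun x => by
        obtain ⟨z, rfl⟩ := e.surjective x
        rw [permCongr_apply, symm_apply_apply]
        exact h2 z
      rw [this, chi_congr, ← h1, chi_comp, ← mul_assoc, sg_mul_self, one_mul]
    · exact ⟨0, fun α _ _ f σ τ _ _ _ => by rw [chi_of_not_good hg, zero_mul]⟩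
  | succ w ih =>
    intro β ⟨v, hv⟩ hs
    choose N hN using fun i => ih (β - Pi.single i (p : ℤ))
      ⟨v, fun j => (sub_single_modEq β i dvd_rfl _).trans (hv j)⟩
      (by rw [sum_sub_single, hs]; push_cast; ring)
    refine ⟨∑ i, N i, fun α _ _ f σ τ h2 h3 h4 => ?_⟩
    obtain ⟨x, hx⟩ : ∃ x, x ∉ Set.range f := by
      by_contra h
      push Not at h
      have := Fintype.card_le_of_surjective f h
      have := hp.pos
      nlinarith
    have h5 : ∀ z, f z ∉ orb σ x := fun z hz => by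
      obtain ⟨k, -, hk⟩ := (mem_orb.1 hz).symm.exists_pow_eq'
      refine hx ⟨(τ ^ k) z, ?_⟩
      rw [← hk]
      clear hk
      induction k with
      | zero => rfl
      | succ k ih => rw [pow_succ', pow_succ', Perm.mul_apply, Perm.mul_apply, ← ih, h2]
    have h6 := card_compl_subtype (orb σ x)
    rw [chi_mn β σ x, h3 x hx, sum_mul]
    refine sum_congr rfl fun i _ => hN i {y // y ∉ orb σ x} (f.codRestrict {y | y ∉ orb σ x} h5) _ τ
      (fun z => Subtype.ext (by rw [res_orb_apply]; exact h2 z)) (fun y hy => ?_)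
      (by rw [h3 x hx, mul_add] at *; omega)
    rw [card_orb_res fun _ => apply_mem_orb]
    exact h3 y fun ⟨z, hz⟩ => hy ⟨z, Subtype.ext hz⟩

variable {α : Type*} [Fintype α] [DecidableEq α]

theorem core_vanish (hp : p.Prime) (hV : Vac p V) {τ : Perm α} (h : p ∣ orderOf τ) :
    chi V τ = 0 := by_contra fun e =>
  (NN_eq_zero hp).1 (Nat.le_zero.1 (NN_le hp.pos hV hV.pat (w := 0) (by simp) e)) h

theorem cls_sub_block [hp : Fact p.Prime] {M : Ideal AlgInt} (hM : IsPModular p M)
    {B : Set (IrrCharacter (Perm α))} (hB : IsPBlock M B) {w n : ℕ} (hV : Vac p V)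
    (hn : Fintype.card α = p * w + n) (hs : ∑ i, V i = n + ∑ i, del m i)
    (hBV : B ⊆ cls α p V w) : cls α p V w ⊆ B := by
  obtain ⟨e⟩ := exists_emb hn
  set Ω := univ.map e
  have hΩ : ∀ x, x ∈ Ω ↔ x ∈ Set.range e := fun x => by simp [Ω]
  have hc : Fintype.card {y // y ∉ Ω} = n := by
    have := card_compl_subtype Ω
    rw [show #Ω = p * w by simp [Ω, mul_comm], hn] at this
    omega
  set j := MonoidHom.ofInjective (ofSubtype_injective (p := (· ∉ Ω)))
  obtain ⟨ε, θ₀, hε, hθ₀⟩ := exists_irr (α := {y // y ∉ Ω}) hV.good (by rw [hs, hc])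
  have hH : ∀ τ : Perm {y // y ∉ Ω}, Commute (ofSubtype τ) (uu e) := fun τ =>
    Disjoint.commute fun x => (em (x ∈ Ω)).elim
      (fun h => Or.inl (ofSubtype_apply_of_not_mem τ (not_not.2 h)))
      fun h => Or.inr (tl_apply_of_notMem e _ (mt (hΩ x).2 h))
  set θ : IrrCharacter (ofSubtype (p := (· ∉ Ω))).range := ⟨_, isIrr_comp_equiv j.symm θ₀.2⟩
  have key : ∀ χ ∈ cls α p V w, ∃ a ≠ 0, ∀ h : (ofSubtype (p := (· ∉ Ω))).range,
      (χ : Perm α → ℂ) (uu e * h) = a * θ.1 h := fun χ hχ => by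
    have h0 := cls_ne_zero hV hn hs hχ (tl_pow e _) (card_moved_uu e)
    obtain ⟨β, η, h1, h2, h3, h4⟩ := hχ
    obtain ⟨N, hN⟩ := chi_core hp.out hV {y // y ∉ Ω} w β h1.cont h2
    have h5 : ∀ τ : Perm {y // y ∉ Ω}, χ.1 (uu e * ofSubtype τ) = η * N * ε * θ₀.1 τ := fun τ => by
      rw [h4, Pi.smul_apply, hN α (Function.Embedding.subtype _) _ τ (fun z => ?_) (fun x hx => ?_)
        (by rw [hn, hc]), hθ₀]
      · simp [mul_assoc]
      · rw [Perm.mul_apply]
        exact (congrArg _ (ofSubtype_apply_coe τ z)).trans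
          (tl_apply_of_notMem e _ (mt (hΩ _).2 (τ z).2))
      · have hx : x ∈ Ω := by_contra fun h => hx ⟨⟨x, h⟩, rfl⟩
        refine ((Nat.dvd_prime hp.out).1 (pow_apply_eq_iff.1 ?_)).resolve_left
          (mt card_orb_eq_one.1 ?_)
        · rw [(hH τ).symm.mul_pow, tl_pow, one_mul, ← map_pow,
            ofSubtype_apply_of_not_mem (τ ^ p) (not_not.2 hx)]
        · obtain ⟨⟨i, a⟩, rfl⟩ := (hΩ x).1 hx
          rw [Perm.mul_apply, ofSubtype_apply_of_not_mem τ (not_not.2 hx), tl_apply]
          simp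
    refine ⟨η * N * ε, left_ne_zero_of_mul (b := θ₀.1 1) ?_, fun h => ?_⟩
    · rwa [← h5, map_one, mul_one]
    · obtain ⟨τ, rfl⟩ := j.surjective h
      simp only [θ, MulEquiv.symm_apply_apply]
      exact h5 τ
  intro ψ hψ
  obtain ⟨χ, hχ⟩ := block_nonempty hM hB
  obtain ⟨a, ha, h1⟩ := key χ (hBV hχ)
  obtain ⟨b, hb, h2⟩ := key ψ hψ
  refine block_mem_of_sameBlock hM hB hχ (same_of_section hM (isPPart_of_pow hp.out (tl_pow e _))
    (by rintro _ ⟨τ, rfl⟩; exact hH τ) (isV_blockIdem_singleton hM (defect_zero_of_vanishes hM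
      (irr_isChar θ) (irr_one_ne_zero θ) fun g hg => ?_)) (fun B hB c h3 h4 => ?_) ha hb h1 h2)
  · have := core_vanish hp.out hV (τ := j.symm g) (by rwa [MulEquiv.orderOf_eq])
    rw [hθ₀, Pi.smul_apply, smul_eq_mul] at this
    exact (mul_eq_zero.1 this).resolve_left (pm_ne_zero hε)
  · have h5 := mem_cent_of_coeff hM hB (isPPart_of_pow hp.out (tl_pow e _))
      (isPGroup_KK (tl_pow e _)) (fun k hk => hk.1) (fun a ha k hk => KK_conj ha hk) h3 h4
    refine mem_range_ofSubtype_iff.2 fun x hx h6 => ?_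
    obtain ⟨z, rfl⟩ := (hΩ x).1 h6
    exact mem_support.1 hx (fix_of_commute (regular_of_coeff_eB hM hB h4)
      (fun t => h5 _ (tl_mem_KK e mem_zpowers_Cp t)) z)

end Cfsg.Agent.Block.Sym
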