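import Mathlib
import Cfsg.Agent.Block.Sym12

/-! `p`-parts of degrees of characters of symmetric groups. -/

namespace Cfsg.Agent.Block.Sym

open Finset Equiv Equiv.Perm Cfsg Cfsg.Agent.Char Cfsg.Agent.LocalEven

variable {m p : ℕ} {V β : Fin m → ℤ}

/-- The `p`-adic valuation of an integer. -/
noncomputable def nu (p : ℕ) (z : ℤ) : ℕ := z.natAbs.factorization p

/-- The `p`-adic valuation of a factorial. -/
noncomputable def gf (p n : ℕ) : ℕ := n.factorial.factorization p

theorem nu_zero : nu p 0 = 0 := by simp [nu]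

theorem nu_nat (n : ℕ) : nu p n = n.factorization p := by simp [nu]

theorem nu_sub_comm (a b : ℤ) : nu p (a - b) = nu p (b - a) := by
  rw [nu, nu, ← Int.natAbs_neg, neg_sub]

theorem nu_of_not {z : ℤ} (h : ¬ (p : ℤ) ∣ z) : nu p z = 0 :=
  Nat.factorization_eq_zero_of_not_dvd (mt Int.natCast_dvd.2 h)

theorem nu_mul (hp : p.Prime) {n : ℕ} (h : n ≠ 0) : nu p (p * n) = 1 + n.factorization p := by
  rw [← Nat.cast_mul, nu_nat, Nat.factorization_mul hp.ne_zero h, Finsupp.add_apply,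
    hp.factorization_self]

theorem gf_zero : gf p 0 = 0 := by simp [gf]

theorem gf_succ (n : ℕ) : gf p (n + 1) = (n + 1).factorization p + gf p n := by
  rw [gf, gf, Nat.factorial_succ, Nat.factorization_mul n.succ_ne_zero n.factorial_ne_zero,
    Finsupp.add_apply]

theorem gf_mul_add (hp : p.Prime) (a : ℕ) {r : ℕ} (h : r < p) : gf p (p * a + r) = gf p a + a := by
  haveI := Fact.mk hp
  rw [gf, gf, Nat.factorization_def _ hp, padicValNat_factorial_mul_add _ h,
    padicValNat_factorial_mul, Nat.factorization_def _ hp]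

theorem sum_gf (q k : ℕ) : ∑ s ∈ range k, (q + 1 + s).factorization p + gf p q = gf p (q + k) := by
  induction k with
  | zero => simp
  | succ k ih => rw [sum_range_succ, ← add_assoc, gf_succ, ← ih, add_right_comm q]; ring

theorem gf_eq_sum (n : ℕ) : gf p n = ∑ d ∈ Ioc 0 n, d.factorization p := by
  induction n with
  | zero => simp [gf]
  | succ n ih => rw [gf_succ, ih, ← insert_Ioc_right_eq_Ioc_add_one n.zero_le, sum_insert (by simp)]

/-- Twice the `p`-defect of `chi β`. -/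
noncomputable def D2 (p : ℕ) (β : Fin m → ℤ) : ℤ :=
  2 * ∑ i, (gf p (β i).toNat : ℤ) - ∑ i, ∑ j, (nu p (β i - β j) : ℤ)

theorem deg_val {α : Type*} [Fintype α] [DecidableEq α] (hβ : Good β)
    (h : ∑ i, β i = Fintype.card α + ∑ i, del m i) {χ : IrrCharacter (Perm α)} {ε : ℂ}
    (hε : ε = 1 ∨ ε = -1) (hχ : (χ : Perm α → ℂ) = ε • chi β) :
    2 * ((charDegree (χ : Perm α → ℂ)).factorization p : ℤ) + D2 p β = 2 * gf p (Fintype.card α) := by
  have h1 := chi_one_mul hβ.nn h
  have h2 : chi β (1 : Perm α) = ε * charDegree (χ : Perm α → ℂ) := by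
    rw [charDegree_cast (irr_isChar χ), hχ, Pi.smul_apply, smul_eq_mul, ← mul_assoc, pm_mul_self hε,
      one_mul]
  have h3 : charDegree (χ : Perm α → ℂ) * ∏ i, (β i).toNat.factorial =
      (Fintype.card α).factorial * ∏ i, ∏ j ∈ Ioi i, (β j - β i).natAbs := by
    have := congrArg (fun z : ℂ => ‖z‖) h1
    simp only [h2, norm_mul, norm_prod, Complex.norm_natCast, Int.cast_prod, Complex.norm_intCast,
      show ‖ε‖ = 1 by rcases hε with rfl | rfl <;> simp, one_mul] at this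
    apply Nat.cast_injective (R := ℝ)
    simpa [Nat.cast_natAbs] using this
  have h4 : ∀ i, ∀ j ∈ Ioi i, (β j - β i).natAbs ≠ 0 := fun i j hj =>
    Int.natAbs_ne_zero.2 (sub_ne_zero.2 (hβ.inj.ne (mem_Ioi.1 hj).ne'))
  have h5 := congrArg (fun n : ℕ => n.factorization p) h3
  simp only [Nat.factorization_mul (irr_degree_ne_zero χ)
    (prod_ne_zero_iff.2 fun i _ => Nat.factorial_ne_zero _), Nat.factorization_mul
    (Nat.factorial_ne_zero _) (prod_ne_zero_iff.2 fun i _ => prod_ne_zero_iff.2 (h4 i)),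
    Finsupp.add_apply, Nat.factorization_prod_apply fun i _ => Nat.factorial_ne_zero _,
    Nat.factorization_prod_apply fun i _ => prod_ne_zero_iff.2 (h4 i),
    Nat.factorization_prod_apply (h4 _)] at h5
  have h6 : 2 * ∑ i, ∑ j ∈ Ioi i, (nu p (β j - β i) : ℤ) = ∑ i, ∑ j, (nu p (β i - β j) : ℤ) := by
    simp only [mul_sum]
    refine ((sum_congr rfl fun i _ => sum_congr rfl fun j _ => ?_).trans
      (sum_sum_Ioi_add_eq_sum_sum_off_diag fun i j => (nu p (β i - β j) : ℤ))).trans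
      (sum_congr rfl fun i _ => ?_)
    · rw [nu_sub_comm (β i), two_mul]
    · rw [← sum_compl_add_sum {i}, sum_singleton, sub_self, nu_zero, Nat.cast_zero, add_zero]
      first | rfl | exact sum_congr rfl fun j _ => by rw [nu_sub_comm]
  have h8 := congrArg (Nat.cast : ℕ → ℤ) h5
  push_cast at h8
  rw [D2, ← h6]
  simp only [gf, nu]
  linear_combination 2 * h8

theorem gap_le (hp : p.Prime) {n : ℕ} {T : Finset ℕ} (hT : T ⊆ Ioc 0 n) :
    ∑ d ∈ T, d.factorization p + n / p ≤ gf p n + #{d ∈ T | p ∣ d} := by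
  rw [gf_eq_sum, ← sum_sdiff hT, ← Nat.Ioc_filter_dvd_card_eq_div, ← sdiff_union_of_subset hT,
    filter_union, union_sdiff_cancel_right disjoint_sdiff_self_left]
  have h1 := card_union_le {d ∈ Ioc 0 n \ T | p ∣ d} {d ∈ T | p ∣ d}
  have h2 : #{d ∈ Ioc 0 n \ T | p ∣ d} ≤ ∑ d ∈ Ioc 0 n \ T, d.factorization p := by
    rw [card_filter]
    refine sum_le_sum fun d hd => ?_
    split_ifs with h
    · exact hp.factorization_pos_of_dvd (mem_Ioc.1 (mem_sdiff.1 hd).1).1.ne' h
    · exact Nat.zero_le _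
  omega

theorem D2_ge (hp : p.Prime) (hV : Good V) (h : Pat p V β) {w : ℕ}
    (hw : ∑ i, β i = ∑ i, V i + p * w) : 2 * w ≤ D2 p β := by
  have hp0 : (0 : ℤ) < p := by exact_mod_cast hp.pos
  have h1 : ∑ i, ∑ j, (nu p (β i - β j) : ℤ) = 2 * ∑ i, ∑ j with β j < β i, (nu p (β i - β j) : ℤ) := by
    simp only [sum_filter]
    rw [two_mul]
    nth_rewrite 2 [sum_comm]
    simp only [← sum_add_distrib]
    refine sum_congr rfl fun i _ => sum_congr rfl fun j _ => ?_
    rcases lt_trichotomy (β i) (β j) with e | e | e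
    · simp [e, e.not_gt, nu_sub_comm (β i)]
    · simp [e, nu_zero]
    · simp [e, e.not_gt]
  have h2 : ∀ (γ : Fin m → ℤ), Good γ → ∀ i, Set.InjOn (fun j => (γ i - γ j).natAbs) {j | γ j < γ i} ∧
      image (fun j => (γ i - γ j).natAbs) {j | γ j < γ i} ⊆ Ioc 0 (γ i).toNat := fun γ hγ i =>
    ⟨fun j hj k hk e => hγ.inj (by simp at hj hk e; omega), image_subset_iff.2 fun j hj => by
      have := hγ.nn j
      simp at hj ⊢
      omega⟩
  have h3 : ∀ i, ∑ j with β j < β i, (nu p (β i - β j) : ℤ) + β i / p ≤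
      gf p (β i).toNat + V i / p := fun i => by
    have h4 := gap_le hp (h2 β h.good i).2
    rw [sum_image (by simpa using (h2 β h.good i).1), filter_image] at h4
    have h5 : #(image (fun j => (β i - β j).natAbs) {j ∈ ({j | β j < β i} : Finset _) |
        p ∣ (β i - β j).natAbs}) ≤ (V i).toNat / p := by
      rw [← Nat.Ioc_filter_dvd_card_eq_div]
      refine card_image_le.trans (card_le_card_of_injOn (fun j => (V i - V j).natAbs) ?_ ?_)
      all_goals
        have h6 : ∀ j, β j < β i → p ∣ (β i - β j).natAbs → V j < V i ∧ (p : ℤ) ∣ V i - V j :=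
          fun j h7 h8 => by
            have h9 : V j ≡ V i [ZMOD p] := (h.res j).symm.trans
              ((Int.modEq_iff_dvd.2 (Int.natCast_dvd.2 h8)).trans (h.res i))
            refine ⟨lt_of_le_of_ne (not_lt.1 fun e => h7.not_gt (h.ord i j h9.symm e)) fun e => ?_,
              h9.dvd⟩
            rw [hV.inj e] at h7
            exact lt_irrefl _ h7
      · intro j hj
        simp only [coe_filter, mem_filter, mem_univ, true_and, Set.mem_ofPred_eq] at hj ⊢
        exact ⟨(h2 V hV i).2 (mem_image_of_mem _ (by simpa using (h6 j hj.1 hj.2).1)),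
          Int.natCast_dvd.1 (h6 j hj.1 hj.2).2⟩
      · refine (h2 V hV i).1.mono fun j hj => ?_
        simp only [coe_filter, mem_filter, mem_univ, true_and, Set.mem_ofPred_eq] at hj ⊢
        exact (h6 j hj.1 hj.2).1
    have h7 := (Nat.cast_le (α := ℤ)).2 (h4.trans (Nat.add_le_add_left h5 _))
    push_cast at h7
    rwa [Int.toNat_of_nonneg (h.good.nn i), Int.toNat_of_nonneg (hV.nn i)] at h7
  have h4 : ∀ i, β i = V i + p * (β i / p - V i / p) := fun i => by
    have := h.res i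
    rw [Int.ModEq, Int.emod_def, Int.emod_def] at this
    linear_combination this
  have h5 := sum_le_sum fun i (_ : i ∈ univ) => h3 i
  rw [sum_congr rfl fun i _ => h4 i, sum_add_distrib, ← mul_sum, sum_sub_distrib] at hw
  have h6 := mul_left_cancel₀ hp0.ne' (add_left_cancel hw)
  rw [sum_add_distrib, sum_add_distrib] at h5
  rw [D2, h1]
  omega

/-- Contribution of a bead placed at `z` instead of the bead `l`. -/
noncomputable def EE (p : ℕ) (β : Fin m → ℤ) (l : Fin m) (z : ℤ) : ℤ :=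
  gf p z.toNat - ∑ k ∈ univ.erase l, (nu p (z - β k) : ℤ)

theorem D2_split (β : Fin m → ℤ) (l : Fin m) : D2 p β = 2 * EE p β l (β l) +
    (2 * ∑ i ∈ univ.erase l, (gf p (β i).toNat : ℤ) -
      ∑ i ∈ univ.erase l, ∑ k ∈ univ.erase l, (nu p (β i - β k) : ℤ)) := by
  have h : ∀ f : Fin m → ℤ, ∑ i, f i = f l + ∑ i ∈ univ.erase l, f i := fun f =>
    (add_sum_erase _ f (mem_univ l)).symm
  rw [D2, EE, h, h fun i => ∑ j, (nu p (β i - β j) : ℤ)]
  simp only [h fun j => (nu p (β _ - β j) : ℤ), sum_add_distrib, sub_self, nu_zero,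
    nu_sub_comm _ (β l)]
  push_cast
  ring

theorem add_single_ne (β : Fin m → ℤ) {l k : Fin m} (h : k ≠ l) (t : ℤ) :
    (β + Pi.single l t : Fin m → ℤ) k = β k := by simp [h]

theorem D2_add (β : Fin m → ℤ) (l : Fin m) (t : ℤ) :
    D2 p (β + Pi.single l t) = D2 p β + 2 * (EE p β l (β l + t) - EE p β l (β l)) := by
  have h : ∀ k ∈ univ.erase l, (β + Pi.single l t : Fin m → ℤ) k = β k := fun k hk =>
    add_single_ne β (ne_of_mem_erase hk) t
  rw [D2_split _ l, D2_split β l, EE, EE, EE]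
  simp +contextual only [sum_congr rfl, h]
  simp only [Pi.add_apply, Pi.single_eq_same]
  ring

theorem EE_add (β : Fin m → ℤ) {l b : Fin m} {t z : ℤ} (ht : (p : ℤ) ∣ t) (h : ¬ (p : ℤ) ∣ z - β l) :
    EE p (β + Pi.single l t) b z = EE p β b z := by
  rw [EE, EE]
  congr 1
  refine sum_congr rfl fun k _ => ?_
  by_cases e : k = l
  · subst e
    rw [nu_of_not h, nu_of_not fun h' => h ?_]
    simp only [Pi.add_apply, Pi.single_eq_same] at h'
    rw [show z - β k = z - (β k + t) + t by ring]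
    exact dvd_add h' ht
  · rw [add_single_ne β e]

theorem sum_runner (hp : p.Prime) (hV : Vac p V) {a : Fin m}
    (ha : ∀ k, V k ≡ V a [ZMOD p] → V k ≤ V a) {c r : ℕ} (hr : r < p) (hc : V a = p * c + r)
    {z : ℤ} (hz : z ≡ V a [ZMOD p]) :
    ∑ k, nu p (z - V k) = ∑ s ∈ range (c + 1), nu p (z - (V a - p * s)) := by
  have hp0 : (0 : ℤ) < p := by exact_mod_cast hp.pos
  rw [← sum_image (s := univ) (g := V) (f := fun x => nu p (z - x)) hV.good.inj.injOn,
    ← sum_image (s := range (c + 1)) (g := fun s : ℕ => V a - p * s) (f := fun x => nu p (z - x))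
      fun s _ t _ e => by simpa [hp.ne_zero] using e]
  refine (sum_subset (image_subset_iff.2 fun s hs => ?_) fun x hx h => nu_of_not fun e => h ?_).symm
  · have : (s : ℤ) ≤ c := by exact_mod_cast Nat.lt_succ_iff.1 (mem_range.1 hs)
    obtain ⟨j, hj⟩ := hV.down_all hp.pos (i := a) (x := V a - p * s) (by nlinarith)
      (by nlinarith [s.cast_nonneg (α := ℤ)]) (Int.modEq_iff_dvd.2 ⟨s, by ring⟩)
    exact mem_image.2 ⟨j, mem_univ _, hj⟩
  · obtain ⟨k, -, rfl⟩ := mem_image.1 hx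
    have h1 : V k ≡ V a [ZMOD p] := (Int.modEq_iff_dvd.2 e).trans hz
    obtain ⟨s, hs⟩ := h1.dvd
    have h2 := ha k h1
    have h3 := hV.good.nn k
    have h4 : (r : ℤ) < p := by exact_mod_cast hr
    lift s to ℕ using (by nlinarith)
    refine mem_image.2 ⟨s, mem_range.2 ?_, by omega⟩
    have : (s : ℤ) < c + 1 := by nlinarith
    exact_mod_cast this

theorem EE_diff (hp : p.Prime) (hV : Vac p V) {a l : Fin m}
    (ha : ∀ k, V k ≡ V a [ZMOD p] → V k ≤ V a) {j : ℕ} (hl : V l = V a - p * j) (q : ℕ) :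
    EE p V l (V l + p * (j + 1 + q : ℕ)) - EE p V l (V l) =
      (j + 1 + q + (j + 1 + q).factorization p + gf p j + gf p q : ℕ) := by
  obtain ⟨u, hu⟩ := Int.eq_ofNat_of_zero_le (hV.good.nn l)
  obtain ⟨t, r, hr, rfl⟩ : ∃ t r, r < p ∧ u = p * t + r :=
    ⟨u / p, u % p, Nat.mod_lt _ hp.pos, (Nat.div_add_mod _ _).symm⟩
  have hc : V a = p * (j + t : ℕ) + r := by push_cast at hu ⊢; linear_combination hu - hl
  have h : ∀ z, z ≡ V a [ZMOD p] → (∑ k ∈ univ.erase l, (nu p (z - V k) : ℤ)) + nu p (z - V l) =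
      (∑ s ∈ range (j + t + 1), nu p (z - (V a - p * s)) : ℕ) := fun z hz => by
    rw [← sum_runner hp hV ha hr hc hz, Nat.cast_sum, sum_erase_add _ _ (mem_univ l)]
  have h1 := h (V l + p * (j + 1 + q : ℕ)) (Int.modEq_iff_dvd.2 ⟨-(1 + q), by
    rw [hl]; push_cast; ring⟩)
  have h2 := h (V l) (Int.modEq_iff_dvd.2 ⟨j, by rw [hl]; ring⟩)
  rw [add_sub_cancel_left, nu_mul hp (by omega), sum_congr rfl (g := fun s => 1 +
    (q + 1 + s).factorization p) fun s _ => by
      rw [← nu_mul hp (by omega), hl]; congr 1; push_cast; ring, sum_add_distrib] at h1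
  have e1 : ∑ s ∈ range j, nu p (V l - (V a - p * s)) =
      ∑ s ∈ range j, (1 + (0 + 1 + s).factorization p) := by
    rw [← sum_range_reflect]
    refine sum_congr rfl fun s hs => ?_
    rw [← nu_mul hp (by omega), hl, nu_sub_comm]
    congr 1
    rw [mem_range] at hs
    obtain ⟨k, rfl⟩ : ∃ k, j = s + 1 + k := ⟨j - (s + 1), by omega⟩
    rw [show s + 1 + k - 1 - s = k by omega]
    push_cast; ring
  have e2 : ∑ s ∈ range t, nu p (V l - (V a - p * (j + 1 + s : ℕ))) =
      ∑ s ∈ range t, (1 + (0 + 1 + s).factorization p) := sum_congr rfl fun s _ => by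
    rw [← nu_mul hp (by omega), hl]; congr 1; push_cast; ring
  rw [sub_self, nu_zero, add_right_comm, sum_range_add, sum_range_succ, e1, e2, sum_add_distrib,
    sum_add_distrib, ← hl, sub_self, nu_zero] at h2
  have h3 := sum_gf (p := p) q (j + t + 1)
  have h4 := sum_gf (p := p) 0 j
  have h5 := sum_gf (p := p) 0 t
  have h6 := gf_mul_add hp t hr
  have h7 := gf_mul_add hp (q + (j + t + 1)) hr
  rw [EE, EE, show (V l + p * (j + 1 + q : ℕ)).toNat = p * (q + (j + t + 1)) + r by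
    rw [hu, ← Nat.cast_mul, ← Nat.cast_add, Int.toNat_natCast]; ring,
    show (V l).toNat = p * t + r by rw [hu, Int.toNat_natCast]]
  simp only [sum_const, card_range, smul_eq_mul, mul_one, gf_zero, zero_add] at h1 h2 h4 h5
  omega

theorem EE_diff_top (hp : p.Prime) (hV : Vac p V) {b : Fin m}
    (hb : ∀ k, V k ≡ V b [ZMOD p] → V k ≤ V b) (y : ℕ) :
    EE p V b (V b + p * y) - EE p V b (V b) = (y + gf p y : ℕ) := by
  rcases y with _ | y
  · simp [gf_zero]
  · have := EE_diff hp hV hb (l := b) (j := 0) (by simp) y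
    rw [zero_add, add_comm 1] at this
    rw [this, gf_zero, gf_succ]
    push_cast; ring

theorem Good.exists_eq_of_lt (hV : Good V) {n : ℕ} (hs : ∑ i, V i = n + ∑ i, del m i) {x : ℕ}
    (hx : x + n < m) : ∃ j, V j = x := by
  by_contra h
  push Not at h
  have h1 : Good fun i => V i - if (x : ℤ) < V i then 1 else 0 := ⟨fun i j e => hV.inj (by
    have := h i
    have := h j
    split_ifs at e <;> omega), fun i => by
    have := hV.nn i
    split_ifs <;> omega⟩
  have h2 := h1.sum_le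
  rw [sum_sub_distrib, sum_boole] at h2
  have h3 : #{i | ¬ (x : ℤ) < V i} ≤ #(range x) :=
    card_le_card_of_injOn (fun i => (V i).toNat) (fun i hi => by
      have := h i
      have := hV.nn i
      simp at hi ⊢
      omega) fun i _ j _ e => hV.inj (by
        have := hV.nn i
        have := hV.nn j
        simp only at e
        omega)
  have h4 := card_filter_add_card_filter_not (s := univ) fun i => (x : ℤ) < V i
  simp only [card_range, card_univ, Fintype.card_fin] at h3 h4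
  omega

theorem exists_top (hV : Good V) (i : Fin m) :
    ∃ a, V a ≡ V i [ZMOD p] ∧ V i ≤ V a ∧ ∀ k, V k ≡ V a [ZMOD p] → V k ≤ V a := by
  obtain ⟨a, h1, h2⟩ := exists_max_image {k | V k ≡ V i [ZMOD p]} V ⟨i, by simp⟩
  simp only [mem_filter, mem_univ, true_and] at h1 h2
  exact ⟨a, h1, h2 i rfl, fun k hk => h2 k (hk.trans h1)⟩

theorem good_add (hg : Good β) {i : Fin m} {k : ℤ} (h1 : 0 ≤ k) (h2 : ∀ j, j ≠ i → β j ≠ β i + k) :
    Good (β + Pi.single i k) := by
  have := good_sub hg (i := i) (k := -k) (by have := hg.nn i; omega) (by simpa using h2)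
  rwa [Pi.single_neg, sub_neg_eq_add] at this

theorem fam (hp : p.Prime) (hV : Vac p V) {a b l : Fin m}
    (ha : ∀ k, V k ≡ V a [ZMOD p] → V k ≤ V a) (hb : ∀ k, V k ≡ V b [ZMOD p] → V k ≤ V b)
    (hab : ¬ V a ≡ V b [ZMOD p]) {j : ℕ} (hl : V l = V a - p * j) (q y : ℕ) :
    ∃ β, Good β ∧ Cont p β V ∧ ∑ i, β i = ∑ i, V i + p * (j + 1 + q + y : ℕ) ∧
      D2 p β = D2 p V + 2 * (j + 1 + q + y + (j + 1 + q).factorization p + gf p j + gf p q +
        gf p y : ℕ) ∧ ∑ i, β i ^ 2 = ∑ i, V i ^ 2 + 2 * (p * (j + 1 + q : ℕ)) * V l +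
          (p * (j + 1 + q : ℕ)) ^ 2 + 2 * (p * y) * V b + (p * y) ^ 2 := by
  have hp0 : (0 : ℤ) < p := by exact_mod_cast hp.pos
  set x := j + 1 + q
  have hla : V l ≡ V a [ZMOD p] := Int.modEq_iff_dvd.2 ⟨j, by rw [hl]; ring⟩
  have hbl : b ≠ l := fun e => hab (e ▸ hla.symm)
  have h1 : Good (V + Pi.single l (p * x : ℤ)) := good_add hV.good (by positivity) fun k _ e => by
    have := ha k (e ▸ (Int.modEq_iff_dvd.2 ⟨-x, by ring⟩).trans hla)
    rw [e, hl] at this
    simp only [x] at this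
    push_cast at this
    nlinarith [q.cast_nonneg (α := ℤ)]
  have h2 := add_single_ne V hbl (p * x : ℤ)
  have h3 : ∀ t : ℤ, ¬ (p : ℤ) ∣ V b + p * t - V l := fun t e =>
    hab (hla.symm.trans ((Int.modEq_iff_dvd.2 e).trans (Int.modEq_iff_dvd.2 ⟨-t, by ring⟩)))
  have h4 : ∀ (γ : Fin m → ℤ) (i : Fin m) (k : ℤ),
      ∑ j, (γ + Pi.single i k : Fin m → ℤ) j ^ 2 = ∑ j, γ j ^ 2 + 2 * k * γ i + k ^ 2 := fun γ i k => by
    have := sum_sq_sub_single γ i (-k)
    rw [Pi.single_neg, sub_neg_eq_add] at this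
    rw [this]; ring
  refine ⟨V + Pi.single l (p * x : ℤ) + Pi.single b (p * y : ℤ),
    good_add h1 (by positivity) fun k hk e => ?_, ⟨1, fun i =>
      (add_single_modEq _ _ (dvd_mul_right _ _) _).trans (add_single_modEq _ _ (dvd_mul_right _ _) _)⟩,
    by rw [sum_add_single, sum_add_single]; push_cast; ring, ?_, by rw [h4, h4, h2]⟩
  · rw [h2] at e
    by_cases h : k = l
    · subst h
      refine h3 y ⟨x, ?_⟩
      rw [← e]; simp
    · rw [add_single_ne V h] at e
      have := hb k (e ▸ Int.modEq_iff_dvd.2 ⟨-y, by ring⟩)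
      exact hk (hV.good.inj (by nlinarith [y.cast_nonneg (α := ℤ)]))
  · rw [D2_add, D2_add, h2, EE_add V (dvd_mul_right _ _) (h3 y), EE_add V (dvd_mul_right _ _)
      (by simpa using h3 0), EE_diff hp hV ha hl, EE_diff_top hp hV hb]
    simp only [x]
    push_cast; ring

/-- Some binomial coefficient of `v` is exactly divisible by `p`. -/
theorem exists_bin (hp : p.Prime) (a : ℕ) : ∀ r, r + 1 < p → 0 < a →
    ∃ x y, y ≤ x ∧ x + y = p * a + r ∧ gf p (p * a + r) = 1 + gf p x + gf p y := by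
  induction a using Nat.strong_induction_on with
  | _ a ih =>
  intro r hr ha
  suffices ∃ x y, x + y = p * a + r ∧ gf p (p * a + r) = 1 + gf p x + gf p y by
    obtain ⟨x, y, h1, h2⟩ := this
    rcases le_total y x with h | h
    · exact ⟨x, y, h, h1, h2⟩
    · exact ⟨y, x, h, by omega, by omega⟩
  by_cases h : p ∣ a
  · obtain ⟨a, rfl⟩ := h
    have h0 : 0 < a := Nat.pos_of_mul_pos_left ha
    obtain ⟨x, y, -, h1, h2⟩ := ih a (by nlinarith [hp.one_lt]) 0 hp.one_lt h0
    rw [add_zero] at h1 h2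
    refine ⟨p * x + r, p * y + 0, by rw [← h1]; ring, ?_⟩
    rw [gf_mul_add hp _ (by omega), gf_mul_add hp _ (by omega), gf_mul_add hp _ hp.pos]
    omega
  · obtain ⟨a, rfl⟩ := Nat.exists_eq_succ_of_ne_zero ha.ne'
    refine ⟨p * 0 + (p - 1), p * a + (r + 1), by rw [Nat.mul_succ]; omega, ?_⟩
    rw [gf_mul_add hp _ (by omega), gf_mul_add hp _ (by omega), gf_mul_add hp _ hr, gf_succ,
      Nat.factorization_eq_zero_of_not_dvd h, gf_zero]
    omega

variable {α : Type*} [Fintype α] [DecidableEq α] {w n : ℕ} {M : Ideal AlgInt}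

theorem mem_cls_of (hp : 0 < p) (hV : Vac p V) (hg : Good β) (hc : Cont p β V)
    (hw : ∑ i, β i = ∑ i, V i + p * w) (hs : ∑ i, β i = Fintype.card α + ∑ i, del m i) :
    ∃ χ ∈ cls α p V w, ∃ ε : ℂ, (ε = 1 ∨ ε = -1) ∧ (χ : Perm α → ℂ) = ε • chi β := by
  obtain ⟨ε, χ, h1, h2⟩ := exists_irr hg hs
  obtain ⟨v, hv⟩ := exists_pat hp hV hg hc
  have h3 : (χ : Perm α → ℂ) = ε • chi β := by rw [h2, smul_smul, pm_mul_self h1, one_smul]
  refine ⟨χ, ⟨β ∘ v, ε * sg v, hv, by rw [← hw]; exact Equiv.sum_comp v β, pm_mul h1 (sg_eq v),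
    funext fun σ => ?_⟩, ε, h1, h3⟩
  rw [h3, Pi.smul_apply, Pi.smul_apply, chi_comp, smul_eq_mul, smul_eq_mul, mul_assoc,
    ← mul_assoc (sg v), sg_mul_self, one_mul]

theorem D2_core (hM : IsPModular p M) (hV : Vac p V) (hs : ∑ i, V i = n + ∑ i, del m i) :
    D2 p V = 0 := by
  have hs' : ∑ i, V i = Fintype.card (Fin n) + ∑ i, del m i := by simpa using hs
  obtain ⟨χ, -, ε, h1, h2⟩ := mem_cls_of hM.1.pos hV hV.good hV.pat.cont (w := 0) (by simp) hs'
  have h3 := deg_val (p := p) hV.good hs' h1 h2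
  have h4 := defect_zero_of_vanishes hM (irr_isChar χ) (irr_one_ne_zero χ) fun g hg => by
    rw [h2, Pi.smul_apply, core_vanish hM.1 hV hg, smul_zero]
  have h5 := factorization_degree_le (p := p) χ
  rw [Nat.card_perm, Nat.card_eq_fintype_card, ← gf] at h4 h5
  omega

theorem cls_deg_le (hp : p.Prime) (hV : Vac p V) (hn : Fintype.card α = p * w + n)
    (hs : ∑ i, V i = n + ∑ i, del m i) {χ : IrrCharacter (Perm α)} (hχ : χ ∈ cls α p V w) :
    (charDegree (χ : Perm α → ℂ)).factorization p + w ≤ gf p (Fintype.card α) := by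
  obtain ⟨β, ε, h1, h2, h3, h4⟩ := hχ
  have h5 := deg_val (p := p) h1.good (by rw [h2, hs, hn]; push_cast; ring) h3 h4
  have h6 := D2_ge hp hV.good h1 h2
  omega

theorem sign_uu (e : Fin w × Cp 2 ↪ α) (hw : Odd w) : sign (uu e) = -1 := by
  rw [sign_tl, prod_const, card_univ, Fintype.card_fin,
    show sign (Equiv.mulLeft (Multiplicative.ofAdd 1 : Cp 2)) = -1 by decide, hw.neg_one_pow]

theorem exists_deg_one (hM : IsPModular p M) (hV : Vac p V) (hn : Fintype.card α = p * w + n)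
    (hs : ∑ i, V i = n + ∑ i, del m i) (hm : Fintype.card α + 2 ≤ m) (hw : p ≤ w)
    (h2 : p = 2 → 3 ≤ w) : ∃ χ ∈ cls α p V w,
      (charDegree (χ : Perm α → ℂ)).factorization p + (gf p w + w) = gf p (Fintype.card α) + 1 ∧
        (p = 2 → ∃ σ, sign σ = -1 ∧ (χ : Perm α → ℂ) σ ≠ 0) := by
  have hp := hM.1
  haveI := Fact.mk hp
  have hp0 : (0 : ℤ) < p := by exact_mod_cast hp.pos
  obtain ⟨i, hi⟩ := hV.good.exists_eq_of_lt hs (x := p * w) (by omega)
  obtain ⟨k, hk⟩ := hV.good.exists_eq_of_lt hs (x := p * w + 1) (by omega)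
  obtain ⟨a, ha1, ha2, ha⟩ := exists_top (p := p) hV.good i
  obtain ⟨b, hb1, -, hb⟩ := exists_top (p := p) hV.good k
  have hab : ¬ V a ≡ V b [ZMOD p] := fun e => by
    have := (ha1.symm.trans (e.trans hb1)).dvd
    rw [hi, hk] at this
    exact hp.not_dvd_one (by exact_mod_cast (by simpa using this : (p : ℤ) ∣ 1))
  have key : ∀ j q y : ℕ, j + 1 + q + y = w →
      gf p w = 1 + (j + 1 + q).factorization p + gf p j + gf p q + gf p y →
      ∃ χ ∈ cls α p V w, (charDegree (χ : Perm α → ℂ)).factorization p + (gf p w + w) =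
        gf p (Fintype.card α) + 1 ∧ ((∀ σ, sign σ = -1 → (χ : Perm α → ℂ) σ = 0) →
          ∑ i, V i ^ 2 + 2 * (p * (j + 1 + q : ℕ)) * (V a - p * j) + (p * (j + 1 + q : ℕ)) ^ 2 +
            2 * (p * y) * V b + (p * y) ^ 2 =
              ∑ i, del m i ^ 2 + (2 * m - 1) * Fintype.card α) := fun j q y h3 h4 => by
    have h5 : (j : ℤ) ≤ w := by omega
    obtain ⟨l, hl⟩ := hV.down_all hp.pos (i := a) (x := V a - p * j)
      (by rw [hi] at ha2; push_cast at ha2; nlinarith) (by nlinarith [j.cast_nonneg (α := ℤ)])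
      (Int.modEq_iff_dvd.2 ⟨j, by ring⟩)
    obtain ⟨β, h6, h7, h8, h9, h10⟩ := fam hp hV ha hb hab hl q y
    rw [h3] at h8 h9
    have h11 : ∑ i, β i = Fintype.card α + ∑ i, del m i := by rw [h8, hs, hn]; push_cast; ring
    obtain ⟨χ, h12, ε, h13, h14⟩ := mem_cls_of hp.pos hV h6 h7 h8 h11
    have h15 := deg_val (p := p) h6 h11 h13 h14
    rw [h9, D2_core hM hV hs] at h15
    refine ⟨χ, h12, by omega, fun h => ?_⟩
    rw [← hl, ← h10]
    refine As.sq_sum ((as_self_iff h6 h11).2 fun σ hσ => ?_) h6 h11 (by nlinarith [hp.two_le])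
    simpa [h14, pm_ne_zero h13] using h σ hσ
  obtain ⟨c, r, hr, rfl⟩ : ∃ c r, r < p ∧ w = p * c + r :=
    ⟨w / p, w % p, Nat.mod_lt _ hp.pos, (Nat.div_add_mod _ _).symm⟩
  have hc : 0 < c := Nat.pos_of_ne_zero (by rintro rfl; omega)
  by_cases h : r + 1 < p
  · obtain ⟨x, y, h3, h4, h5⟩ := exists_bin hp c r h hc
    obtain ⟨q, rfl⟩ : ∃ q, x = q + 1 := Nat.exists_eq_succ_of_ne_zero (by have := hp.pos; omega)
    rw [gf_succ] at h5
    obtain ⟨χ, h6, h7, h8⟩ := key 0 q y (by omega) (by rw [zero_add, add_comm 1 q, gf_zero]; omega)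
    obtain ⟨ψ, h9, h10, h11⟩ := key q 0 y (by omega) (by rw [add_zero, gf_zero]; omega)
    by_cases e : ∀ σ, sign σ = -1 → (χ : Perm α → ℂ) σ = 0
    · refine ⟨ψ, h9, h10, fun e' => by_contra fun e'' => ?_⟩
      push Not at e''
      have h12 := (h8 e).trans (h11 e'').symm
      have := h2 e'
      subst e'
      have : (0 : ℤ) < q := by omega
      push_cast at h12
      nlinarith
    · push Not at e
      exact ⟨χ, h6, h7, fun _ => e⟩
  · obtain ⟨r, rfl⟩ : ∃ s, r = s + 1 := Nat.exists_eq_succ_of_ne_zero (by have := hp.two_le; omega)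
    obtain ⟨x, y, -, h4, h5⟩ := exists_bin hp c r hr hc
    obtain ⟨χ, h6, h7, -⟩ := key x y 0 (by omega) (by
      rw [← add_assoc, gf_succ, gf_zero, show x + 1 + y = p * c + r + 1 by omega]; omega)
    refine ⟨χ, h6, h7, ?_⟩
    rintro rfl
    obtain ⟨e⟩ := exists_emb hn
    refine ⟨uu e, ?_, cls_ne_zero hV hn hs h6 (tl_pow e _) (card_moved_uu e)⟩
    exact sign_uu e ⟨c, by omega⟩

end Cfsg.Agent.Block.Sym
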