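import Mathlib
import Cfsg.Agent.Block.Sym13
import Cfsg.Agent.Char.IndRep
import Cfsg.Agent.Char.Extend

/-! Sylow subgroups of symmetric groups as wreath products; characters of degree `p`. -/

namespace Cfsg.Agent.Block.Sym

open Finset Equiv Equiv.Perm Cfsg Cfsg.Agent.Char Cfsg.Agent.LocalEven SemidirectProduct
open scoped commutatorElement

/-- A linear character of a subgroup of index `p` does not extend. -/
def Nb (p : ℕ) (G : Type*) [Group G] : Prop :=
  ∃ (A : Subgroup G) (lam : A →* Cp p) (g h : G) (hc : ⁅g, h⁆ ∈ A), A.index = p ∧ lam ⟨_, hc⟩ ≠ 1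

section
variable {p : ℕ} {G H K : Type*} [Group G] [Group H] [Group K]

theorem Nb.of_surj (f : G →* H) (hf : Function.Surjective f) (h : Nb p H) : Nb p G := by
  obtain ⟨A, lam, g, h, hc, h1, h2⟩ := h
  obtain ⟨g, rfl⟩ := hf g
  obtain ⟨h, rfl⟩ := hf h
  refine ⟨A.comap f, lam.comp (f.subgroupComap A), g, h, by
    rwa [Subgroup.mem_comap, map_commutatorElement], by rwa [A.index_comap_of_surjective hf], ?_⟩
  exact fun e => h2 ((congrArg lam (Subtype.ext (map_commutatorElement f g h).symm)).trans e)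

theorem Nb.of_range {f : G →* K} {f' : H →* K} (hf : Function.Injective f)
    (hf' : Function.Injective f') (e : f.range = f'.range) (h : Nb p H) : Nb p G :=
  h.of_surj (((MonoidHom.ofInjective hf).trans (MulEquiv.subgroupCongr e)).trans
    (MonoidHom.ofInjective hf').symm).toMonoidHom (MulEquiv.surjective _)

theorem Nb.exists_deg [hp : Fact p.Prime] [Finite G] (hG : IsPGroup p G) (h : Nb p G) :
    ∃ φ : IrrCharacter G, charDegree (φ : G → ℂ) = p := by
  classical
  haveI := Fintype.ofFinite G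
  obtain ⟨A, lam, g, h, hc, h1, h2⟩ := h
  obtain ⟨μ, hμ⟩ := CommGroup.exists_apply_ne_one_of_hasEnoughRootsOfUnity (Cp p) ℂ h2
  obtain ⟨χ, hχ⟩ := exists_over A ⟨_, isIrr_linear (μ.comp lam)⟩
  have h3 : charDegree (χ : G → ℂ) ≤ p :=
    Constit.degree_le_of_inner_ne_zero (IndRep.isChar_indFun A (isChar_linear (μ.comp lam))) χ.2
      (by rwa [Ind.inner_indFun_left _ _ (irr_classFun χ), classInner_isChar_comm
        (isChar_linear _) (isChar_res _ (irr_isChar χ))])
      (by rw [Ind.indFun_one, h1]; simp) (charDegree_cast (irr_isChar χ)).symm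
  obtain ⟨n, hn⟩ := hG.exists_card_eq
  obtain ⟨k, -, hk⟩ := (Nat.dvd_prime_pow hp.out).1 (hn ▸ irr_degree_dvd χ)
  refine ⟨χ, ?_⟩
  rcases k with _ | _ | k
  · obtain ⟨ν, hν⟩ := isChar_linear_of_degree_one (irr_isChar χ) (by
      rw [← charDegree_cast (irr_isChar χ), hk, pow_zero, Nat.cast_one])
    have := congrFun (isIrr_eq_of_classInner_ne_zero (by
      rw [hν]; exact isIrr_linear (ν.comp A.subtype)) (isIrr_linear _) hχ) ⟨_, hc⟩
    rw [hν] at this
    simp only [map_commutatorElement,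
      commutatorElement_eq_one_iff_mul_comm.2 (mul_comm (ν g) (ν h))] at this
    exact absurd (Units.val_injective this.symm) hμ
  · simpa using hk
  · rw [hk, pow_succ, pow_succ] at h3
    have := hp.out.two_le
    have := pow_pos hp.out.pos k
    nlinarith [Nat.mul_le_mul this (le_refl p)]

end

variable {α ι A : Type*} [Group A]

/-- The wreath product. -/
abbrev WR (A : Type*) [Group A] (Q : Subgroup (Perm ι)) := (ι → A) ⋊[mulAutArrow] Q

theorem wr_mul_left {Q : Subgroup (Perm ι)} (x y : WR A Q) (i : ι) :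
    (x * y).left i = x.left i * y.left (x.right⁻¹ • i) := rfl

/-- The wreath product acting on `α`. -/
noncomputable def wr (e : ι × A ↪ α) (Q : Subgroup (Perm ι)) : WR A Q →* Perm α :=
  (viaEmbeddingHom e).comp
    { toFun := fun x => prodShear (x.right : Perm ι) fun i => Equiv.mulLeft (x.left (x.right • i))
      map_one' := by ext ⟨i, a⟩ <;> simp
      map_mul' := fun x y => by
        ext ⟨i, a⟩
        · rfl
        · simp [-mul_left, wr_mul_left, mul_assoc, mul_smul, Subgroup.smul_def] }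

section
variable (e : ι × A ↪ α) (Q : Subgroup (Perm ι))

theorem wr_apply (x : WR A Q) (i : ι) (a : A) :
    wr e Q x (e (i, a)) = e (x.right • i, x.left (x.right • i) * a) := viaEmbedding_apply _ e _

theorem wr_notMem (x : WR A Q) {y : α} (hy : y ∉ Set.range e) : wr e Q x y = y :=
  viaEmbedding_apply_of_notMem _ e _ hy

theorem wr_injective : Function.Injective (wr e Q) := (injective_iff_map_eq_one _).2 fun x h => by
  have h1 := fun i => wr_apply e Q x i 1
  simp only [h, Perm.one_apply, EmbeddingLike.apply_eq_iff_eq, Prod.mk.injEq, mul_one] at h1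
  ext i
  · rw [(h1 i).1, ← (h1 i).2]; rfl
  · exact (h1 i).1.symm

theorem wr_inl (t : ι → A) : wr e Q (inl t) = tl e t := Equiv.ext fun y => by
  by_cases hy : y ∈ Set.range e
  · obtain ⟨⟨i, a⟩, rfl⟩ := hy
    rw [wr_apply, tl_apply]
    simp
  · rw [wr_notMem e Q _ hy, tl_apply_of_notMem e t hy]

end

variable {p : ℕ} [hp : Fact p.Prime]

theorem nb_base {Q : Subgroup (Perm ι)} {T : Subgroup (WR (Cp p) Q)}
    (hT : ∀ q, ∃ x ∈ T, x.right = q) {i : ι} (hi : (MulAction.stabilizer Q i).index = p) {q : Q}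
    {t : ι → Cp p} (ht : inl t ∈ T) (h : t i ≠ t (q⁻¹ • i)) : Nb p T := by
  obtain ⟨x, hx, rfl⟩ := hT q
  refine ⟨(MulAction.stabilizer Q i).comap (rightHom.comp T.subtype),
    MonoidHom.mk' (fun y => y.1.1.left i) fun y z => ?_, ⟨_, ht⟩, ⟨_, hx⟩, ?_, ?_, ?_⟩
  · have : y.1.1.right⁻¹ • i = i := inv_smul_eq_iff.2 y.2.symm
    simp only [Subgroup.coe_mul, wr_mul_left, this]
  · simp [commutatorElement_def]
  · rw [Subgroup.index_comap_of_surjective _ fun q => ?_, hi]
    obtain ⟨x, hx, rfl⟩ := hT q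
    exact ⟨⟨x, hx⟩, rfl⟩
  · change (inl t * x * (inl t)⁻¹ * x⁻¹ : WR (Cp p) Q).left i ≠ 1
    rw [mul_assoc, mul_assoc, ← mul_assoc x, ← inl_left_mul_inr_right x, ← map_inv, mul_inv_rev,
      ← map_inv, ← map_inv, mul_assoc, mul_assoc, ← mul_assoc (inr _), ← mul_assoc,
      ← mul_assoc (inr _ * _), ← inl_aut, ← map_mul, ← map_mul, ← map_mul]
    simp only [left_inl, Pi.mul_apply, Pi.inv_apply, map_inv]
    rw [mul_comm _ (x.left i)⁻¹, mul_assoc, mul_inv_cancel_left, Ne, mul_inv_eq_one]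
    exact h

theorem sylow_wr [Fintype α] [DecidableEq α] {P : Subgroup (Perm α)} {F : Finset α}
    (hP : IsSylowIn p P (SymOn F)) {w : ℕ} (h1 : p * w ≤ #F) (h2 : #F < p * (w + 1))
    {Q : Subgroup (Perm (Fin w))} (hQ : IsSylowIn p Q ⊤) :
    ∃ ψ : WR (Cp p) Q →* Perm α, Function.Injective ψ ∧ ψ.range = P ∧
      ∀ t, sign (ψ (inl t)) = ∏ i, sign (Equiv.mulLeft (t i)) := by
  obtain ⟨e, he⟩ := exists_emb_le (ι := Fin w) (A := Cp p) (F := F) (by simpa using h1)
  have h3 : Nat.card (wr e Q).range = p ^ (w.factorial.factorization p + w) := by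
    rw [← Nat.card_congr (MonoidHom.ofInjective (wr_injective e Q)).toEquiv, SemidirectProduct.card,
      hQ.card_eq, Subgroup.card_top, Nat.card_perm]
    simp [pow_add, mul_comm]
  have h4 : (wr e Q).range ≤ SymOn F := by
    rintro _ ⟨x, rfl⟩ y hy
    exact wr_notMem e Q x fun ⟨z, hz⟩ => hy (hz ▸ he z)
  obtain ⟨g, -, hg⟩ := (hP.of_card_le h4 (IsPGroup.of_card h3)
    (by rw [h3, card_sylow_SymOn hP h1 h2])).conj hP
  refine ⟨(MulAut.conj g).toMonoidHom.comp (wr e Q), (MulAut.conj g).injective.comp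
    (wr_injective e Q), by rw [MonoidHom.range_comp]; exact hg, fun t => ?_⟩
  rw [← sign_tl e t, ← wr_inl e Q]
  simp [mul_right_comm]

theorem nb_wr (w : ℕ) : p ≤ w → ∀ {Q : Subgroup (Perm (Fin w))}, IsSylowIn p Q ⊤ →
    ∀ {T : Subgroup (WR (Cp p) Q)}, (∀ q, ∃ x ∈ T, x.right = q) →
      (w < p * p → ∀ i k, i ≠ k → ∃ t, inl t ∈ T ∧ t i ≠ t k) → Nb p T := by
  induction w using Nat.strong_induction_on with
  | _ w ih =>
  intro hw Q hQ T hT ht
  by_cases h : w < p * p
  · obtain ⟨q, hq, h1⟩ := (Subgroup.bot_or_exists_ne_one Q).resolve_left (hQ.ne_bot (by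
      rw [Subgroup.card_top, Nat.card_perm, Nat.card_eq_fintype_card, Fintype.card_fin]
      exact Nat.dvd_factorial hp.out.pos hw))
    obtain ⟨i, hi⟩ : ∃ i, q i ≠ i := by_contra fun e => h1 (Equiv.ext (by simpa using e))
    obtain ⟨t, h2, h3⟩ := ht h i (q⁻¹ i) fun e => hi (by nth_rewrite 1 [e]; simp)
    refine nb_base hT (q := ⟨q, hq⟩) ?_ h2 h3
    obtain ⟨k, hk⟩ := hQ.pgrp.index (MulAction.stabilizer Q i)
    rcases k with _ | _ | k
    · exact absurd ((Subgroup.index_eq_one.1 hk).ge (Subgroup.mem_top (⟨q, hq⟩ : Q))) hi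
    · simpa using hk
    · have h4 := Set.ncard_le_card (MulAction.orbit Q i)
      rw [← MulAction.index_stabilizer, hk, Nat.card_eq_fintype_card, Fintype.card_fin, pow_succ,
        pow_succ, mul_assoc] at h4
      nlinarith [pow_pos hp.out.pos k]
  · obtain ⟨Q', hQ'⟩ := exists_isSylowIn p (⊤ : Subgroup (Perm (Fin (w / p))))
    obtain ⟨ψ, h1, h2, -⟩ := sylow_wr (F := univ) (P := Q) (hQ.mono (fun _ _ => by simp [SymOn])
      le_top) (by simpa using Nat.mul_div_le w p) (by simpa using Nat.lt_mul_div_succ w hp.out.pos)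
      hQ'
    refine Nb.of_surj (rightHom.comp T.subtype) (fun q => ?_) (Nb.of_range Q.subtype_injective
      (f' := ψ.comp (Subgroup.subtype ⊤)) (h1.comp (Subgroup.subtype_injective _)) ?_
      (ih _ (Nat.div_lt_self (hp.out.pos.trans_le hw) hp.out.one_lt)
        ((Nat.le_div_iff_mul_le hp.out.pos).2 (not_lt.1 h)) hQ' (fun q => ⟨inr q, trivial, rfl⟩)
        fun _ i k hik => ⟨Pi.mulSingle i (Multiplicative.ofAdd 1), trivial, by simp [hik.symm]⟩))
    · obtain ⟨x, hx, rfl⟩ := hT q
      exact ⟨⟨x, hx⟩, rfl⟩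
    · rw [MonoidHom.range_comp, Subgroup.range_subtype, Subgroup.range_subtype,
        ← MonoidHom.range_eq_map, h2]

theorem wr_comm {w : ℕ} (hw : w < p) {Q : Subgroup (Perm (Fin w))} (hQ : IsSylowIn p Q ⊤)
    (x y : WR (Cp p) Q) : x * y = y * x := by
  have h : Q = ⊥ := eq_bot_of_not_dvd hQ.pgrp le_top (by
    rw [Subgroup.card_top, Nat.card_perm, Nat.card_eq_fintype_card, Fintype.card_fin,
      hp.out.dvd_factorial, not_le]
    exact hw)
  subst h
  rw [← inl_left_mul_inr_right x, ← inl_left_mul_inr_right y, Subsingleton.elim x.right 1,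
    Subsingleton.elim y.right 1, map_one, mul_one, mul_one, ← map_mul, ← map_mul, mul_comm]

theorem gf_of_lt {w : ℕ} (hw : w < p) : gf p w = 0 := by
  simpa [gf_zero] using gf_mul_add hp.out 0 hw

theorem sign_two : sign (Equiv.mulLeft (Multiplicative.ofAdd 1 : Cp 2)) = -1 := by decide

theorem gf_two : gf 2 2 = 1 := Nat.prime_two.factorization_self

variable [Fintype α] [DecidableEq α]

theorem sign_of_odd (h2 : p ≠ 2) {P : Subgroup (Perm α)} (hP : IsPGroup p P) :
    P ≤ alternatingGroup α := fun g hg => by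
  obtain ⟨k, hk⟩ := hP ⟨g, hg⟩
  have h1 : sign g ^ p ^ k = 1 := by rw [← map_pow, show g ^ p ^ k = 1 from congrArg Subtype.val hk, map_one]
  refine (Int.units_eq_one_or _).resolve_right fun e => ?_
  rw [e, (hp.out.odd_of_ne_two h2).pow.neg_one_pow] at h1
  exact absurd h1 (by decide)

theorem nb_alt {w : ℕ} (hw : p ≤ w) (h2 : p = 2 → 3 ≤ w) {Q : Subgroup (Perm (Fin w))}
    (hQ : IsSylowIn p Q ⊤) {ψ : WR (Cp p) Q →* Perm α} (hP : IsPGroup p ψ.range)
    (hψ : ∀ t, sign (ψ (inl t)) = ∏ i, sign (Equiv.mulLeft (t i))) :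
    Nb p ((alternatingGroup α).comap ψ) := by
  by_cases h : p = 2
  · subst h
    have h3 : ∀ i, sign (ψ (inl (Pi.mulSingle i (Multiplicative.ofAdd 1)))) = -1 := fun i => by
      rw [hψ, prod_eq_single i (fun j _ hj => by
        rw [Pi.mulSingle_eq_of_ne hj, Equiv.mulLeft_one, map_one]) (by simp), Pi.mulSingle_eq_same]
      exact sign_two
    have h4 := h2 rfl
    refine nb_wr w hw hQ (fun q => ?_) fun _ i k hik => ?_
    · rcases Int.units_eq_one_or (sign (ψ (inr q))) with e | e
      · exact ⟨inr q, e, rfl⟩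
      · refine ⟨inl (Pi.mulSingle (⟨0, by omega⟩ : Fin w) (Multiplicative.ofAdd 1 : Cp 2)) * inr q, ?_, one_mul _⟩
        rw [Subgroup.mem_comap, mem_alternatingGroup, map_mul, map_mul, h3, e]; rfl
    · obtain ⟨l, hl⟩ : ∃ l, l ∉ ({i, k} : Finset (Fin w)) := exists_mem_notMem_of_card_lt_card
        (s := {i, k}) (t := univ) (by have := card_le_two (a := i) (b := k); simp; omega) |>.imp
          fun _ h => h.2
      simp only [mem_insert, mem_singleton, not_or] at hl
      refine ⟨Pi.mulSingle i (Multiplicative.ofAdd 1) * Pi.mulSingle l (Multiplicative.ofAdd 1),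
        ?_, by simp [hik.symm, Ne.symm hl.1, Ne.symm hl.2]⟩
      rw [Subgroup.mem_comap, mem_alternatingGroup, map_mul, map_mul, map_mul, h3, h3]; rfl
  · have h3 := fun x => sign_of_odd h hP ⟨x, rfl⟩
    exact nb_wr w hw hQ (fun q => ⟨inr q, h3 _, rfl⟩) fun _ i k hik =>
      ⟨Pi.mulSingle i (Multiplicative.ofAdd 1), h3 _, by simp [hik.symm]⟩

theorem alt_em {M : Ideal AlgInt} (hM : IsPModular p M)
    {b : Set (IrrCharacter (alternatingGroup α))} (hb : IsPBlock M b)
    {D : Subgroup (alternatingGroup α)} (hD : IsDefectGroup p M b D) :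
    ((∃ χ ∈ b, blockHeight p b χ.1 = 1) ∧ ∃ φ : IrrCharacter D, charDegree φ.1 = p) ∨
      ((∀ χ ∈ b, blockHeight p b χ.1 = 0) ∧ IsMulCommutative D) := by
  obtain ⟨B, V, w, n, P, F, hB, hc, hV, hn, hs, hBV, hP, h1, h2, h3, h4⟩ :=
    alt_struct (m := Fintype.card α + 2) hM (by omega) hb hD
  obtain ⟨Q, hQ⟩ := exists_isSylowIn p (⊤ : Subgroup (Perm (Fin w)))
  obtain ⟨ψ, h5, h6, h7⟩ := sylow_wr h4 h2 h3 hQ
  have h8 : Nat.card (P ⊓ alternatingGroup α : Subgroup _) = p ^ blockDefect p b := by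
    rw [h1, Subgroup.card_map_of_injective (Subgroup.subtype_injective _), card_defectGroup hM hb hD]
  have h9 : Nat.card P = p ^ (gf p w + w) := card_sylow_SymOn h4 h2 h3
  have h10 : p ≠ 2 → blockDefect p b = gf p w + w := fun h => by
    rw [inf_eq_left.2 (sign_of_odd h h4.pgrp), h9] at h8
    exact (Nat.pow_right_injective hp.out.two_le h8).symm
  have h11 : p = 2 → 0 < w → blockDefect p b + 1 = gf p w + w := by
    rintro rfl h
    exact alt_defect_lt hM hb hD h1 h4 h2 h3 h
  have h12 : 0 < w → Nontrivial α := fun h =>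
    Fintype.one_lt_card_iff_nontrivial.1 (by nlinarith [hp.out.two_le])
  have h13 : 0 < w → gf p (Fintype.card α) =
      (2 : ℕ).factorization p + (Nat.card (alternatingGroup α)).factorization p := fun h => by
    haveI := h12 h
    rw [gf, ← Fintype.card_perm, ← Nat.card_eq_fintype_card, ← two_mul_nat_card_alternatingGroup,
      Nat.factorization_mul two_ne_zero Nat.card_pos.ne', Finsupp.add_apply]
  have h14 : p ≠ 2 → ∀ k, k ∣ 2 → k.factorization p = 0 := fun h k hk =>
    Nat.factorization_eq_zero_of_not_dvd fun e =>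
      h ((Nat.prime_dvd_prime_iff_eq hp.out Nat.prime_two).1 (e.trans hk))
  have h15 : p ≠ 2 → 0 < w → ∀ (χ : IrrCharacter (Perm α)) (θ : IrrCharacter (alternatingGroup α)),
      classInner (fun x : alternatingGroup α => χ.1 x) θ ≠ 0 →
        (charDegree χ.1).factorization p = (charDegree θ.1).factorization p := fun h hw χ θ e => by
    haveI := h12 hw
    obtain ⟨k, hk, e⟩ := Extend.degree_eq_mul_dvd_index θ.2 χ.2 e
    rw [alternatingGroup.index_eq_two] at hk
    rw [charDegree_of_eq (n := k * charDegree θ.1) (by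
      rw [e, Nat.cast_mul, charDegree_cast (irr_isChar θ)]), Nat.factorization_mul
      (by rintro rfl; simp at hk) (irr_degree_ne_zero θ), Finsupp.add_apply, h14 h k hk, zero_add]
  by_cases h : w < p ∨ p = 2 ∧ w = 2
  · refine Or.inr ⟨fun θ hθ => ?_, ?_⟩
    · by_cases hd : blockDefect p b ≤ 2
      · exact height_eq_zero_of_defect_le hM hb hd hθ
      · have h16 : blockDefect p b ≤ gf p w + w := (Nat.pow_le_pow_iff_right hp.out.one_lt).1
          (h8 ▸ h9 ▸ Subgroup.card_le_of_le inf_le_left)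
        have h17 : w < p := h.resolve_right fun ⟨e, e'⟩ => by
          have := h11 e (by omega)
          subst e e'
          rw [gf_two] at this
          omega
        rw [gf_of_lt h17] at h16 h10
        have h18 : p ≠ 2 := by omega
        obtain ⟨χ, hχ, e⟩ := hc.exists_over hM (isV_blockIdem hM hB) hb hθ
        have := cls_deg_le hp.out hV hn hs (hBV hχ)
        have := factorization_degree_add_defect (p := p) hθ
        have := h15 h18 (by omega) χ θ e
        have := h13 (by omega)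
        have := h14 h18 2 dvd_rfl
        have := h10 h18
        omega
    · rcases h with h | ⟨rfl, rfl⟩
      · refine ⟨⟨fun x y => Subtype.ext (Subtype.ext ?_)⟩⟩
        obtain ⟨a, ha⟩ : (x.1 : Perm α) ∈ ψ.range := h6 ▸ (h1.ge ⟨x.1, x.2, rfl⟩).1
        obtain ⟨c, hc⟩ : (y.1 : Perm α) ∈ ψ.range := h6 ▸ (h1.ge ⟨y.1, y.2, rfl⟩).1
        simp only [Subgroup.coe_mul, ← ha, ← hc, ← map_mul, wr_comm h hQ a c]
      · have := h11 rfl two_pos
        rw [gf_two] at this
        exact IsPGroup.isMulCommutative_of_card_eq_prime_sq (p := 2)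
          (by rw [card_defectGroup hM hb hD, show blockDefect 2 b = 2 by omega])
  · have hw : p ≤ w := by omega
    have hw2 : p = 2 → 3 ≤ w := by omega
    have hw0 : 0 < w := hp.out.pos.trans_le hw
    refine Or.inl ⟨?_, Nb.exists_deg (isDefectGroup_isPGroup hD) (Nb.of_range
      (f := (alternatingGroup α).subtype.comp D.subtype)
      (f' := ψ.comp ((alternatingGroup α).comap ψ).subtype)
      ((Subgroup.subtype_injective _).comp (Subgroup.subtype_injective _))
      (h5.comp (Subgroup.subtype_injective _)) ?_ (nb_alt hw hw2 hQ (h6 ▸ h4.pgrp) h7))⟩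
    · obtain ⟨χ, hχ, e, e'⟩ := exists_deg_one hM hV hn hs le_rfl hw hw2
      obtain ⟨θ, hθ, h16⟩ := hc.exists_under hM hB (isV_blockIdem hM hb)
        (cls_sub_block hM hB hV hn hs hBV hχ)
      refine ⟨θ, hθ, ?_⟩
      have := factorization_degree_add_defect (p := p) hθ
      have := h13 hw0
      by_cases h17 : p = 2
      · haveI := h12 hw0
        obtain ⟨σ, h18, h19⟩ := e' h17
        have h20 : charDegree θ.1 = charDegree χ.1 := by rw [res_eq_of_ne h18 h19 h16]; rfl
        have := h11 h17 hw0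
        have : (2 : ℕ).factorization p = 1 := by rw [h17]; exact gf_two
        rw [← h20] at e
        omega
      · have := h15 h17 hw0 χ θ h16
        have := h14 h17 2 dvd_rfl
        have := h10 h17
        omega
    · rw [MonoidHom.range_comp, MonoidHom.range_comp, Subgroup.range_subtype,
        Subgroup.range_subtype, Subgroup.map_comap_eq, h6, h1]

end Cfsg.Agent.Block.Sym
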