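import Mathlib
import Cfsg.Agent.Block.PairFS
import Cfsg.Agent.Block.Nilp

/-! Tame defect groups: `2`-groups of maximal class. -/

namespace Cfsg.Agent.Block

open Cfsg Subgroup

variable {G : Type*} [Group G]

theorem pow_conj_eq {g x : G} {k : ℕ} (h : g * x * g⁻¹ = x ^ k) (n : ℕ) :
    g ^ n * x * (g ^ n)⁻¹ = x ^ k ^ n := by
  induction n with
  | zero => simp
  | succ n ih =>
    calc g ^ (n + 1) * x * (g ^ (n + 1))⁻¹ = g ^ n * (g * x * g⁻¹) * (g ^ n)⁻¹ := by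
          rw [pow_succ]; group
      _ = (g ^ n * x * (g ^ n)⁻¹) ^ k := by rw [h, conj_pow]
      _ = x ^ k ^ (n + 1) := by rw [ih, ← pow_mul, pow_succ]

theorem exists_two_pow_commute [Finite G] {g x : G} {n : ℕ} (hx : orderOf x = 2 ^ n)
    (h : g * x * g⁻¹ ∈ zpowers x) : g ^ 2 ^ n * x * (g ^ 2 ^ n)⁻¹ = x := by
  obtain ⟨k, hk⟩ := mem_powers_iff_mem_zpowers.2 h
  replace hk : x ^ k = g * x * g⁻¹ := hk
  rcases n with _ | n
  · rw [orderOf_eq_one_iff.1 hx]; simp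
  have h1 : orderOf (x ^ k) = orderOf x := by
    rw [hk]; exact (MulAut.conj g).orderOf_eq x
  have h2 : k.Coprime (2 ^ (n + 1)) := by
    rw [orderOf_pow, hx] at h1
    have := Nat.div_mul_cancel (Nat.gcd_dvd_left (2 ^ (n + 1)) k)
    rw [h1] at this
    exact Nat.coprime_comm.1 ((Nat.mul_eq_left (by positivity)).1 this)
  rw [pow_conj_eq hk.symm]
  conv_rhs => rw [← pow_one x]
  rw [pow_eq_pow_iff_modEq, hx]
  have := Nat.ModEq.pow_totient h2
  rw [Nat.totient_prime_pow_succ Nat.prime_two] at this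
  have h3 := this.pow 2
  rwa [← pow_mul, one_pow, show 2 - 1 = 1 from rfl, mul_one, ← pow_succ] at h3

/-- A `2`-group with a cyclic subgroup of index two on which it acts with two fixed points. -/
structure TD (D : Subgroup G) (m : ℕ) (x y : G) : Prop where
  xm : x ∈ D
  ym : y ∈ D
  ord : orderOf x = 2 ^ (m + 2)
  card : Nat.card D = 2 ^ (m + 3)
  yn : y ∉ zpowers x
  cj : ∃ e : ℕ, (e = 0 ∨ 1 ≤ m) ∧ y * x * y⁻¹ = (x ^ 2 ^ (m + 1)) ^ e * x⁻¹

/-- The central involution. -/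
abbrev tz (m : ℕ) (x : G) : G := x ^ 2 ^ (m + 1)

namespace TD

variable {D : Subgroup G} {m : ℕ} {x y u v w : G} (h : TD D m x y)
include h

theorem le : zpowers x ≤ D := zpowers_le.2 h.xm

theorem z_ord : orderOf (tz m x) = 2 := by
  rw [orderOf_pow' _ (by positivity), h.ord, Nat.gcd_eq_right (pow_dvd_pow _ (by omega)),
    pow_succ' 2 (m + 1), Nat.mul_div_cancel _ (by positivity)]

theorem z_ne : tz m x ≠ 1 := fun e => by simpa [e] using h.z_ord

theorem zz : tz m x * tz m x = 1 := by rw [← sq, ← h.z_ord, pow_orderOf_eq_one]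

theorem z_inv : (tz m x)⁻¹ = tz m x := inv_eq_of_mul_eq_one_right h.zz

omit h in
theorem z_mem : tz m x ∈ zpowers x := npow_mem_zpowers _ _

theorem z_memD : tz m x ∈ D := h.le z_mem

theorem zpow_eq_one_iff {i : ℤ} : x ^ i = 1 ↔ (2 : ℤ) ^ (m + 2) ∣ i := by
  rw [← orderOf_dvd_iff_zpow_eq_one, h.ord]; simp

omit h in
theorem z_zpow (i : ℤ) : tz m x ^ i = x ^ (2 ^ (m + 1) * i) := by
  rw [zpow_mul, tz, ← zpow_natCast]; simp

theorem eq_of_sq (hv : v ∈ zpowers x) (e : v * v = 1) : v = 1 ∨ v = tz m x := by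
  obtain ⟨i, rfl⟩ := mem_zpowers_iff.1 hv
  rw [← zpow_add, h.zpow_eq_one_iff, pow_succ, ← mul_two] at e
  obtain ⟨j, rfl⟩ := Int.dvd_of_mul_dvd_mul_right two_ne_zero e
  rw [← z_zpow]
  rcases Int.even_or_odd' j with ⟨k, rfl | rfl⟩
  · left; rw [zpow_mul, zpow_two, h.zz, one_zpow]
  · right; rw [zpow_add, zpow_mul, zpow_two, h.zz, one_zpow, one_mul, zpow_one]

omit h in
theorem comm (hv : v ∈ zpowers x) (hw : w ∈ zpowers x) : v * w = w * v := by
  obtain ⟨i, rfl⟩ := mem_zpowers_iff.1 hv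
  obtain ⟨j, rfl⟩ := mem_zpowers_iff.1 hw
  exact zpow_mul_comm _ _ _

theorem exists_conj : ∃ c : ℤ, (c = 0 ∨ 1 ≤ m) ∧
    ∀ i : ℤ, y * x ^ i * y⁻¹ = x ^ ((2 ^ (m + 1) * c - 1) * i) := by
  obtain ⟨e, h1, h2⟩ := h.cj
  refine ⟨e, by simpa using h1, fun i => ?_⟩
  rw [← conj_zpow, h2, ← zpow_natCast, z_zpow, ← zpow_neg_one, ← zpow_add, ← zpow_mul,
    sub_eq_add_neg]

theorem conj_mem (hv : v ∈ zpowers x) : y * v * y⁻¹ ∈ zpowers x := by
  obtain ⟨i, rfl⟩ := mem_zpowers_iff.1 hv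
  obtain ⟨c, -, hc⟩ := h.exists_conj
  rw [hc]; exact zpow_mem_zpowers _ _

theorem fix (hv : v ∈ zpowers x) (e : y * v * y⁻¹ = v) : v = 1 ∨ v = tz m x := by
  obtain ⟨i, rfl⟩ := mem_zpowers_iff.1 hv
  obtain ⟨c, h1, hc⟩ := h.exists_conj
  refine h.eq_of_sq hv ?_
  rw [hc, ← mul_inv_eq_one, ← zpow_neg, ← zpow_add, h.zpow_eq_one_iff] at e
  rw [← zpow_add, h.zpow_eq_one_iff]
  rcases h1 with rfl | h1
  · rw [← dvd_neg, show -(i + i) = (2 ^ (m + 1) * 0 - 1) * i + -i by ring]; exact e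
  obtain ⟨n, rfl⟩ := Nat.exists_eq_add_of_le' h1
  have h2 : IsCoprime ((2 : ℤ) ^ (n + 1 + 2)) (2 ^ (n + 1) * c - 1) :=
    IsCoprime.pow_left (Int.isCoprime_two_left.2 ⟨2 ^ n * c - 1, by ring⟩)
  have h3 : IsCoprime ((2 : ℤ) ^ (n + 1 + 2)) (2 ^ (n + 1) * c - 1) := h2
  refine h3.dvd_of_dvd_mul_left ?_
  rw [show (2 ^ (n + 1) * c - 1) * (i + i) = (2 ^ (n + 1 + 1) * c - 1) * i + -i by ring]
  exact e

variable [Finite G]

theorem card_X : Nat.card (zpowers x) = 2 ^ (m + 2) := by rw [Nat.card_zpowers, h.ord]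

theorem mul_mem_iff (hu : u ∈ D) (hv : v ∈ D) :
    u * v ∈ zpowers x ↔ (u ∈ zpowers x ↔ v ∈ zpowers x) := by
  have h1 : ((zpowers x).subgroupOf D).index = 2 := by
    have := ((zpowers x).subgroupOf D).index_mul_card
    rw [Nat.card_congr (subgroupOfEquivOfLe h.le).toEquiv, h.card_X, h.card, pow_succ' 2 (m + 2)]
      at this
    exact Nat.eq_of_mul_eq_mul_right (by positivity) this
  exact mul_mem_iff_of_index_two h1 (a := ⟨u, hu⟩) (b := ⟨v, hv⟩)

theorem mul_inv_mem (hu : u ∈ D) (hv : v ∈ D) (h1 : u ∉ zpowers x) (h2 : v ∉ zpowers x) :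
    u * v⁻¹ ∈ zpowers x :=
  (h.mul_mem_iff hu (inv_mem hv)).2 (by simp [h1, h2])

theorem exists_eq (hu : u ∈ D) (h1 : u ∉ zpowers x) : ∃ i : ℤ, u = x ^ i * y := by
  obtain ⟨i, hi⟩ := mem_zpowers_iff.1 (h.mul_inv_mem hu h.ym h1 h.yn)
  exact ⟨i, by rw [hi]; group⟩

theorem xy_notMem : x * y ∉ zpowers x := fun e => h.yn ((mul_mem_cancel_left (mem_zpowers x)).1 e)

theorem xy_mem : x * y ∈ D := mul_mem h.xm h.ym

theorem conj_out (hu : u ∈ D) (h1 : u ∉ zpowers x) (hv : v ∈ zpowers x) :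
    u * v * u⁻¹ = y * v * y⁻¹ := by
  obtain ⟨i, rfl⟩ := h.exists_eq hu h1
  calc x ^ i * y * v * (x ^ i * y)⁻¹ = x ^ i * (y * v * y⁻¹) * (x ^ i)⁻¹ := by group
    _ = _ := by rw [comm (zpow_mem_zpowers _ _) (h.conj_mem hv)]; group

theorem conj_cases (hu : u ∈ D) (hv : v ∈ zpowers x) :
    u * v * u⁻¹ = v ∨ u * v * u⁻¹ = y * v * y⁻¹ := by
  by_cases h1 : u ∈ zpowers x
  · left; rw [comm h1 hv]; group
  · exact Or.inr (h.conj_out hu h1 hv)

theorem conj_memD (hu : u ∈ D) (hv : v ∈ zpowers x) : u * v * u⁻¹ ∈ zpowers x := by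
  rcases h.conj_cases hu hv with e | e <;> rw [e]
  exacts [hv, h.conj_mem hv]

theorem le_normalizer : D ≤ normalizer (zpowers x : Set G) := fun u hu =>
  mem_normalizer_iff.2 fun v => ⟨h.conj_memD hu, fun hv => by
    simpa [mul_assoc] using h.conj_memD (inv_mem hu) hv⟩

theorem z_conj (hu : u ∈ D) : u * tz m x * u⁻¹ = tz m x := by
  rcases h.eq_of_sq (h.conj_memD hu z_mem) (by
    calc u * tz m x * u⁻¹ * (u * tz m x * u⁻¹) = u * (tz m x * tz m x) * u⁻¹ := by group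
      _ = 1 := by rw [h.zz]; group) with e | e
  · exact absurd (conj_eq_one_iff.1 e) h.z_ne
  · exact e

theorem z_comm (hu : u ∈ D) : u * tz m x = tz m x * u := mul_inv_eq_iff_eq_mul.1 (h.z_conj hu)

theorem fix' (hu : u ∈ D) (h1 : u ∉ zpowers x) (hv : v ∈ zpowers x) (e : u * v = v * u) :
    v = 1 ∨ v = tz m x :=
  h.fix hv (by rw [← h.conj_out hu h1 hv, e]; group)

theorem sq_out (hu : u ∈ D) (h1 : u ∉ zpowers x) : u * u = 1 ∨ u * u = tz m x :=
  h.fix' hu h1 ((h.mul_mem_iff hu hu).2 Iff.rfl) (mul_assoc _ _ _).symm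

theorem pow_four_out (hu : u ∈ D) (h1 : u ∉ zpowers x) : u * u * (u * u) = 1 := by
  rcases h.sq_out hu h1 with e | e <;> rw [e]
  exacts [one_mul _, h.zz]

theorem x_ne_one : x ≠ 1 := fun e => h.z_ne (by rw [e, tz, one_pow])

theorem x_ne_z : x ≠ tz m x := fun e => by
  have := h.z_ord
  rw [← e, h.ord, pow_succ] at this
  have : 2 ^ (m + 1) = 1 := by omega
  simp at this

theorem inf_centralizer (hv : v ∈ zpowers x) (h1 : v ≠ 1) (h2 : v ≠ tz m x) :
    D ⊓ centralizer (zpowers v : Set G) = zpowers x := by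
  rw [centralizer_zpowers]
  refine le_antisymm (fun u hu => ?_) (le_inf h.le fun u hu => ?_)
  · by_contra h3
    exact (h.fix' hu.1 h3 hv (mem_centralizer_singleton_iff.1 hu.2)).elim h1 h2
  · exact mem_centralizer_singleton_iff.2 (comm hu hv)

theorem mem_cases_out (hu : u ∈ D) (h1 : u ∉ zpowers x) (hw : w ∈ D) (e : w * u = u * w) :
    w = 1 ∨ w = tz m x ∨ w = u ∨ w = tz m x * u := by
  by_cases h2 : w ∈ zpowers x
  · rcases h.fix' hu h1 h2 e.symm with e | e <;> simp [e]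
  · rcases h.fix' hu h1 (h.mul_inv_mem hw hu h2 h1) (by
      rw [← mul_assoc, ← e]; group) with e | e
    · simp [mul_inv_eq_one.1 e]
    · simp [mul_inv_eq_iff_eq_mul.1 e]

theorem card_inf_out (hu : u ∈ D) (h1 : u ∉ zpowers x) :
    Nat.card (D ⊓ centralizer (zpowers u : Set G) : Subgroup G) = 4 := by
  have h2 : ((D ⊓ centralizer (zpowers u : Set G) : Subgroup G) : Set G) =
      {1, tz m x, u, tz m x * u} := by
    rw [centralizer_zpowers]
    ext w
    refine ⟨fun hw => h.mem_cases_out hu h1 hw.1 (mem_centralizer_singleton_iff.1 hw.2), ?_⟩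
    have h3 : tz m x ∈ D ⊓ centralizer ({u} : Set G) :=
      ⟨h.z_memD, mem_centralizer_singleton_iff.2 (h.z_comm hu).symm⟩
    have h4 : u ∈ D ⊓ centralizer ({u} : Set G) := ⟨hu, mem_centralizer_singleton_iff.2 rfl⟩
    rintro (rfl | rfl | rfl | rfl)
    exacts [one_mem _, h3, h4, mul_mem h3 h4]
  have h3 : tz m x * u ∉ zpowers x := fun e => h1 ((mul_mem_cancel_left z_mem).1 e)
  have h4 : (1 : G) ≠ u := fun e => h1 (e ▸ one_mem _)
  have h5 : (1 : G) ≠ tz m x * u := fun e => h3 (e ▸ one_mem _)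
  have h6 : tz m x ≠ u := fun e => h1 (e ▸ z_mem)
  have h7 : tz m x ≠ tz m x * u := fun e => h3 (e ▸ z_mem)
  have h8 : u ≠ tz m x * u := fun e => h.z_ne (by simpa using e)
  change Nat.card ((D ⊓ centralizer (zpowers u : Set G) : Subgroup G) : Set G) = 4
  rw [h2, Nat.card_coe_set_eq, Set.ncard_insert_of_notMem (by simp [h.z_ne.symm, h4, h5]),
    Set.ncard_insert_of_notMem (by simp [h6, h4.symm]), Set.ncard_pair h8]

theorem card_inf_le (hu : u ∈ D) (h1 : u * u ≠ 1) :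
    Nat.card (D ⊓ centralizer (zpowers u : Set G) : Subgroup G) ≤ 2 ^ (m + 2) := by
  by_cases h2 : u ∈ zpowers x
  · rw [h.inf_centralizer h2 (fun e => h1 (by simp [e])) (fun e => h1 (e ▸ h.zz)), h.card_X]
  · rw [h.card_inf_out hu h2, pow_add]; nlinarith [Nat.one_le_two_pow (n := m)]

theorem exists_conj_out (hu : u ∈ D) (h1 : u ∉ zpowers x) :
    ∃ s ∈ D, s * u * s⁻¹ = y ∨ s * u * s⁻¹ = x * y := by
  obtain ⟨i, rfl⟩ := h.exists_eq hu h1
  obtain ⟨c, h2, hc⟩ := h.exists_conj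
  have h3 : ∀ j : ℤ, x ^ j * (x ^ i * y) * (x ^ j)⁻¹ = x ^ (i + (2 - 2 ^ (m + 1) * c) * j) * y :=
    fun j => by
      calc x ^ j * (x ^ i * y) * (x ^ j)⁻¹ = x ^ j * x ^ i * (y * x ^ (-j) * y⁻¹) * y := by group
        _ = _ := by rw [hc, ← zpow_add, ← zpow_add]; congr 2; ring
  have h4 : IsCoprime (1 - 2 ^ m * c) ((2 : ℤ) ^ (m + 1)) := by
    refine IsCoprime.pow_right (Int.isCoprime_two_right.2 ?_)
    rcases h2 with rfl | h2
    · simp
    · obtain ⟨n, rfl⟩ := Nat.exists_eq_add_of_le' h2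
      exact ⟨-(2 ^ n * c), by ring⟩
  obtain ⟨a, b, hab⟩ := h4
  have h5 : ∀ k r : ℤ, i = 2 * k + r →
      x ^ (-(a * k)) * (x ^ i * y) * (x ^ (-(a * k)))⁻¹ = x ^ r * y := fun k r e => by
    rw [h3, mul_left_inj, ← mul_inv_eq_one, ← zpow_neg, ← zpow_add, h.zpow_eq_one_iff]
    exact ⟨b * k, by rw [e]; linear_combination (-2 * k) * hab⟩
  rcases Int.even_or_odd' i with ⟨k, e | e⟩
  · exact ⟨_, h.le (zpow_mem_zpowers _ _), Or.inl ((h5 k 0 (by simpa using e)).trans (by simp))⟩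
  · exact ⟨_, h.le (zpow_mem_zpowers _ _), Or.inr ((h5 k 1 e).trans (by simp))⟩

theorem isPGroup : IsPGroup 2 D := IsPGroup.of_card h.card

theorem z_mem_zpowers (hu : u ∈ D) (h1 : u * u ≠ 1) : tz m x ∈ zpowers u := by
  by_cases h2 : u ∈ zpowers x
  · obtain ⟨k, hk⟩ := (IsPGroup.iff_orderOf (p := 2)).1 h.isPGroup ⟨u, hu⟩
    rw [← orderOf_coe] at hk
    rcases k with _ | k
    · have h3 : u = 1 := orderOf_eq_one_iff.1 hk
      exact absurd (by simp [h3]) h1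
    rcases h.eq_of_sq (pow_mem h2 (2 ^ k)) (by
      rw [← pow_add, ← mul_two, ← pow_succ, ← hk, pow_orderOf_eq_one]) with e | e
    · have := Nat.le_of_dvd (by positivity) (orderOf_dvd_of_pow_eq_one e)
      rw [hk, Nat.pow_le_pow_iff_right one_lt_two] at this
      omega
    · exact e ▸ npow_mem_zpowers _ _
  · rw [← (h.sq_out hu h2).resolve_left h1]
    exact mul_mem (mem_zpowers u) (mem_zpowers u)

omit [Finite G] in
theorem map {G' : Type*} [Group G'] {f : G →* G'} (hf : Function.Injective f) :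
    TD (D.map f) m (f x) (f y) where
  xm := mem_map_of_mem f h.xm
  ym := mem_map_of_mem f h.ym
  ord := by rw [orderOf_injective f hf, h.ord]
  card := by rw [← h.card]; exact (Nat.card_congr (D.equivMapOfInjective f hf).toEquiv).symm
  yn := fun e => by
    obtain ⟨i, hi⟩ := mem_zpowers_iff.1 e
    exact h.yn (mem_zpowers_iff.2 ⟨i, hf (by rw [map_zpow, hi])⟩)
  cj := by
    obtain ⟨e, h1, h2⟩ := h.cj
    exact ⟨e, h1, by simpa using congrArg f h2⟩

omit [Finite G] in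
theorem subgroupOf {H : Subgroup G} (hH : D ≤ H) :
    TD (D.subgroupOf H) m ⟨x, hH h.xm⟩ ⟨y, hH h.ym⟩ where
  xm := h.xm
  ym := h.ym
  ord := by rw [← orderOf_coe, h.ord]
  card := by rw [← h.card]; exact Nat.card_congr (subgroupOfEquivOfLe hH).toEquiv
  yn := fun e => by
    obtain ⟨i, hi⟩ := mem_zpowers_iff.1 e
    exact h.yn (mem_zpowers_iff.2 ⟨i, by simpa using congrArg Subtype.val hi⟩)
  cj := by
    obtain ⟨e, h1, h2⟩ := h.cj
    exact ⟨e, h1, Subtype.ext (by simpa using h2)⟩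

end TD

end Cfsg.Agent.Block
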