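import Mathlib
import Cfsg.Agent.Block.Tame1
import Cfsg.Agent.Block.LocSys2
import Cfsg.Agent.Block.Quot2

/-! Tame defect groups: fusion and local blocks. -/

namespace Cfsg.Agent.Block

open Cfsg Cfsg.Agent.Char Subgroup
open Cfsg.Agent.LocalEven hiding isPGroup_zpowers_of_orderOf
open Cfsg.Agent.Fusion (FS PMod)

variable {G : Type*} [Group G] [Finite G] {p : ℕ} {M : Ideal AlgInt} {B : Set (IrrCharacter G)}
  {d : BrauerPairIdx G} {u v w : G}

theorem pmod_mem {A C : Subgroup G} (h : PMod 2 A C) {g : G} (hg : g ∈ A)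
    (hc : (orderOf g).Coprime 2) : g ∈ C := Fusion.pres_le_of_pmod h (Fusion.mem_pres hg hc)

theorem pmod_cz_zpowers {x : G} {n : ℕ} (hx : orderOf x = 2 ^ n) :
    PMod 2 (normalizer (zpowers x : Set G)) (centralizer (zpowers x : Set G)) := fun g hg =>
  ⟨n, by
    rw [centralizer_zpowers, mem_centralizer_singleton_iff, ← mul_inv_eq_iff_eq_mul]
    exact exists_two_pow_commute hx ((mem_normalizer_iff.1 hg x).1 (mem_zpowers x))⟩

theorem nilp_of_cyc (hM : IsPModular 2 M) (hB : IsPBlock M B) {D : Subgroup G}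
    (hD : IsDefectGroup 2 M B D) {x : G}
    (h1 : ∀ a ∈ D, ∀ b ∈ D, a ∉ zpowers x → b ∉ zpowers x → a * b⁻¹ ∈ zpowers x)
    (h2 : ∀ g : G, ∀ r ∈ D, r ∈ zpowers x → g * r * g⁻¹ ∈ D → g * r * g⁻¹ ∈ zpowers x) :
    IsNilpotentBlock 2 M B := by
  obtain ⟨d, rfl, hd⟩ := exists_isMaxBP hM hB hD
  refine (hd.nilpotent_iff hM).2 fun a ha => (pmod_iff_regular Nat.prime_two).2 fun g hg hr => ?_
  have hN := mem_normalizer_iff.1 (stabilizer_le_normalizer a hg)
  have hp : IsPGroup 2 (a.1 ⊓ zpowers x : Subgroup G) := (ha.left hd.bp).1.to_le inf_le_left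
  have hc : (orderOf g).Coprime 2 := (Nat.prime_two.coprime_iff_not_dvd.2 hr).symm
  have h3 : ∀ g : G, (∀ r, r ∈ a.1 ↔ g * r * g⁻¹ ∈ a.1) → ∀ r ∈ a.1 ⊓ zpowers x,
      g * r * g⁻¹ ∈ a.1 ⊓ zpowers x := fun g hg r hr =>
    ⟨(hg r).1 hr.1, h2 g r (ha.le hr.1) hr.2 (ha.le ((hg r).1 hr.1))⟩
  have h4 : g ∈ normalizer ((a.1 ⊓ zpowers x : Subgroup G) : Set G) :=
    mem_normalizer_iff.2 fun r => ⟨h3 g hN r, fun hr => by
      simpa [mul_assoc] using h3 g⁻¹ (mem_normalizer_iff.1 (inv_mem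
        (stabilizer_le_normalizer a hg))) _ hr⟩
  obtain ⟨r, hr⟩ : ∃ r, zpowers r = a.1 ⊓ zpowers x :=
    (Subgroup.isCyclic_iff_exists_zpowers_eq_top _).1 (isCyclic_of_le inf_le_right)
  obtain ⟨n, hn⟩ := (IsPGroup.iff_orderOf (p := 2)).1 hp ⟨r, hr ▸ mem_zpowers r⟩
  rw [← orderOf_coe] at hn
  refine pmod_mem (Fusion.pmod_cz_of_triv (K := zpowers g) hp (fun _ hk => (Fusion.mem_trv.1
    (zpowers_le.2 (Fusion.mem_trv.2 ⟨h4, fun s hs => ?_⟩) hk)).2)
    (PMod.of_le (zpowers_le.2 ?_))) (mem_zpowers g) hc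
  swap
  · rw [← hr] at h4 ⊢
    exact pmod_mem (pmod_cz_zpowers hn) h4 hc
  · by_cases h5 : s ∈ zpowers x
    · exact mul_mem (inv_mem (mem_inf.2 ⟨hs, h5⟩)) (h3 g hN s ⟨hs, h5⟩)
    · refine mem_inf.2 ⟨mul_mem (inv_mem hs) ((hN s).1 hs), ?_⟩
      have := h1 _ (inv_mem (ha.le hs)) _ (inv_mem (ha.le ((hN s).1 hs))) (by simpa using h5)
        fun e => h5 (by
          simpa [mul_assoc] using h2 g⁻¹ _ (ha.le ((hN s).1 hs)) (inv_mem_iff.1 e)
            (by simpa [mul_assoc] using ha.le hs))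
      rwa [inv_inv] at this

/-- Fusion of elements of the defect group. -/
def Fz (p : ℕ) (M : Ideal AlgInt) (d : BrauerPairIdx G) (u v : G) : Prop :=
  ∃ g : G, g • subAt p M d u = subAt p M d v

theorem Fz.refl (u : G) : Fz p M d u u := ⟨1, one_smul _ _⟩

theorem Fz.symm (h : Fz p M d u v) : Fz p M d v u := by
  obtain ⟨g, e⟩ := h
  exact ⟨g⁻¹, by rw [← e, inv_smul_smul]⟩

theorem Fz.trans (h : Fz p M d u v) (h' : Fz p M d v w) : Fz p M d u w := by
  obtain ⟨g, e⟩ := h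
  obtain ⟨k, e'⟩ := h'
  exact ⟨k * g, by rw [mul_smul, e, e']⟩

theorem Fz.isConj (h : Fz p M d u v) : ∃ g : G, g * u * g⁻¹ = v := by
  obtain ⟨g, e⟩ := h
  exact ⟨g, congrArg Subs.u e⟩

theorem Fz.orderOf_eq (h : Fz p M d u v) : orderOf u = orderOf v := by
  obtain ⟨g, rfl⟩ := h.isConj
  exact ((MulAut.conj g).orderOf_eq u).symm

theorem Fz.sq_iff (h : Fz p M d u v) : u * u = 1 ↔ v * v = 1 := by
  rw [← sq, ← sq, ← orderOf_dvd_iff_pow_eq_one, ← orderOf_dvd_iff_pow_eq_one, h.orderOf_eq]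

theorem Fz.eq_one (h : Fz p M d u 1) : u = 1 := by simpa using h.orderOf_eq

theorem fz_conj (hM : IsPModular p M) (hd : IsBP p M d) (hu : u ∈ d.1) (hv : v ∈ d.1) :
    Fz p M d u (v * u * v⁻¹) := ⟨v, smul_subAt_of_mem hM hd hu hv⟩

theorem Fz.exists_M (hM : IsPModular p M) (hd : IsBP p M d) (hu : u ∈ d.1) (hv : v ∈ d.1)
    (h : Fz p M d u v) : ∃ g : G, g * u * g⁻¹ = v ∧ (blockFS hM hd).M (zpowers u) g := by
  obtain ⟨g, e⟩ := h
  refine ⟨g, congrArg Subs.u e, ?_⟩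
  rw [← (subAt_spec hM hd hu).1, blockFS_M (subAt_le hM hd hu), ← Subs.smul_a, e]
  exact subAt_le hM hd hv

theorem fz_of_M (hM : IsPModular p M) (hd : IsBP p M d) (hu : u ∈ d.1) {g : G}
    (h : (blockFS hM hd).M (zpowers u) g) : Fz p M d u (g * u * g⁻¹) := by
  rw [← (subAt_spec hM hd hu).1, blockFS_M (subAt_le hM hd hu)] at h
  exact ⟨g, smul_subAt hM hd hu h⟩

theorem blockRank_smul (x : G) (a : BrauerPairIdx G) :
    blockRank p (x • a).2 = blockRank p a.2 := by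
  obtain ⟨e, h1, -, -⟩ := exists_equiv_smul (M := ⊥) x a
  rw [h1, blockRank_compSet]

theorem Fz.rank (h : Fz p M d u v) :
    blockRank p (subAt p M d u).a.2 = blockRank p (subAt p M d v).a.2 := by
  obtain ⟨g, e⟩ := h
  rw [← e, Subs.smul_a, blockRank_smul]

theorem IsMaxBP.fc_of (hM : IsPModular p M) (hd : IsMaxBP p M B d) (hv : v ∈ d.1)
    (h : ∀ w ∈ d.1, Fz p M d v w →
      Nat.card (d.1 ⊓ centralizer (zpowers w : Set G) : Subgroup G) ≤
        Nat.card (d.1 ⊓ centralizer (zpowers v : Set G) : Subgroup G)) :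
    (blockFS hM hd.bp).FC (zpowers v) := by
  refine ⟨zpowers_le.2 hv, fun g hg => ?_⟩
  have e : Fusion.cj g (zpowers v) = zpowers (g * v * g⁻¹) := cj_zpowers' g v
  rw [e]
  exact h _ ((blockFS hM hd.bp).conj_mem hg (mem_zpowers v)) (fz_of_M hM hd.bp hv hg)

theorem IsMaxBP.defect_of_fc (hM : IsPModular p M) (hd : IsMaxBP p M B d) (hv : v ∈ d.1)
    (h : (blockFS hM hd.bp).FC (zpowers v)) :
    IsDefectGroup p M (subAt p M d v).a.2
      ((d.1 ⊓ centralizer (zpowers v : Set G)).subgroupOf _) := by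
  have h1 := subAt_spec hM hd.bp hv
  rw [← h1.1] at h ⊢
  exact (isDefectGroup_iff_defIn hM (subAt_ok hM hd.bp hv).bp.2 inf_le_right).2
    ((hd.fc_iff hM h1.2).1 h)

/-- A nilpotent block with abelian defect groups of order `2 ^ n`. -/
structure UL (n : ℕ) (B : Set (IrrCharacter G)) : Prop where
  unif : Unif 2 B
  card : Nat.card B = 2 ^ n
  defect : blockDefect 2 B = n
  rank : blockRank 2 B = 1

theorem ul_of (hM : IsPModular 2 M) (hB : IsPBlock M B) {D : Subgroup G}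
    (hD : IsDefectGroup 2 M B D) (hn : IsNilpotentBlock 2 M B)
    (hab : ∀ a ∈ D, ∀ b ∈ D, a * b = b * a) {n : ℕ} (hc : Nat.card D = 2 ^ n) : UL n B := by
  obtain ⟨d, rfl, hd⟩ := exists_isMaxBP hM hB hD
  obtain ⟨h1, h2⟩ := hd.unif hM (fun a ha b hb => hab b hb a ha) hn
  refine ⟨h1, h2.trans hc, ?_, blockRank_of_nilpotent hM hn⟩
  rw [← factorization_card_defect hM hB hD, hc, Nat.prime_two.factorization_pow]; simp

variable {m : ℕ} {x y : G}

theorem TD.fc_in (h : TD d.1 m x y) (hM : IsPModular 2 M) (hd : IsMaxBP 2 M B d)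
    (hv : v ∈ zpowers x) (h1 : v * v ≠ 1) : (blockFS hM hd.bp).FC (zpowers v) :=
  hd.fc_of hM (h.le hv) fun w hw e => by
    rw [h.inf_centralizer hv (fun e => h1 (by simp [e])) (fun e => h1 (e ▸ h.zz)), h.card_X]
    exact h.card_inf_le hw (mt e.sq_iff.2 h1)

theorem TD.ul_in (h : TD d.1 m x y) (hM : IsPModular 2 M) (hd : IsMaxBP 2 M B d)
    (hv : v ∈ zpowers x) (h1 : v * v ≠ 1) : UL (m + 2) (subAt 2 M d v).a.2 := by
  have h2 := hd.defect_of_fc hM (h.le hv) (h.fc_in hM hd hv h1)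
  have h3 := subAt_ok hM hd.bp (h.le hv)
  have h4 := h.inf_centralizer hv (fun e => h1 (by simp [e])) (fun e => h1 (e ▸ h.zz))
  have h5 : zpowers x ≤ centralizer ((subAt 2 M d v).a.1 : Set G) := by
    rw [h3.fst, ← h4]; exact inf_le_right
  rw [h4] at h2
  have h6 : ∀ a : centralizer ((subAt 2 M d v).a.1 : Set G), (a : G) ∈ zpowers x →
      a ∈ zpowers (⟨x, h5 (mem_zpowers x)⟩ : centralizer ((subAt 2 M d v).a.1 : Set G)) :=
    fun a ha => by
      obtain ⟨i, hi⟩ := mem_zpowers_iff.1 ha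
      exact mem_zpowers_iff.2 ⟨i, Subtype.ext (by simpa using hi)⟩
  refine ul_of hM h3.bp.2 h2 (nilp_of_cyc hM h3.bp.2 h2 (x := ⟨x, h5 (mem_zpowers x)⟩)
    (fun a ha _ _ e => absurd (h6 a ha) e) fun g r _ _ e => h6 _ e)
    (fun a ha b hb => Subtype.ext (TD.comm ha hb)) ?_
  rw [card_subgroupOf h5, h.card_X]

theorem TD.ul_out (h : TD d.1 m x y) (hM : IsPModular 2 M) (hd : IsMaxBP 2 M B d)
    (hu : u ∈ d.1) (h1 : ∀ v ∈ zpowers x, ¬ Fz 2 M d u v) : UL 2 (subAt 2 M d u).a.2 := by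
  have h0 : u ∉ zpowers x := fun e => h1 u e (Fz.refl u)
  have h2 := hd.defect_of_fc hM hu (hd.fc_of hM hu fun w hw e => by
    rw [h.card_inf_out hu h0, h.card_inf_out hw fun e' => h1 w e' e])
  have h3 := subAt_ok hM hd.bp hu
  have h5 : d.1 ⊓ centralizer (zpowers u : Set G) ≤ centralizer ((subAt 2 M d u).a.1 : Set G) := by
    rw [h3.fst]; exact inf_le_right
  have h4 : ∀ a ∈ d.1 ⊓ centralizer (zpowers u : Set G),
      a = 1 ∨ a = tz m x ∨ a = u ∨ a = tz m x * u := fun a ha =>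
    h.mem_cases_out hu h0 ha.1 (ha.2 u (mem_zpowers u)).symm
  have h6 : ∀ a : centralizer ((subAt 2 M d u).a.1 : Set G), a ∈ zpowers
      (⟨u, h3.mem_cent⟩ : centralizer ((subAt 2 M d u).a.1 : Set G)) ↔ (a : G) ∈ zpowers u :=
    fun a => by
      simp only [mem_zpowers_iff, Subtype.ext_iff, SubgroupClass.coe_zpow]
  have h7 := h.z_comm hu
  refine ul_of hM h3.bp.2 h2 (nilp_of_cyc hM h3.bp.2 h2 (x := ⟨u, h3.mem_cent⟩)
    (fun a ha b hb e e' => ?_) fun g r _ e _ => ?_) (fun a ha b hb => Subtype.ext ?_) ?_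
  · rw [h6] at e e' ⊢
    rcases h4 a ha with e1 | e1 | e1 | e1 <;> rcases h4 b hb with e2 | e2 | e2 | e2 <;>
      simp only [coe_mul, coe_inv, e1, e2, one_mem, mem_zpowers, not_true, mul_inv_cancel]
        at e e' ⊢
    · rw [← h7, mul_inv_rev, mul_inv_cancel_left]; exact inv_mem (mem_zpowers u)
    · rw [← h7, mul_inv_cancel_right]; exact mem_zpowers u
  · rw [h6] at e ⊢
    have : (g : G) * r = r * g := (g.2 r (h3.fst.ge e)).symm
    simpa [this] using e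
  · rcases h4 a ha with e1 | e1 | e1 | e1 <;> rcases h4 b hb with e2 | e2 | e2 | e2 <;>
      simp only [coe_mul, e1, e2, one_mul, mul_one, mul_assoc, h7]
    all_goals rw [← mul_assoc u, h7, mul_assoc]
  · rw [card_subgroupOf h5, h.card_inf_out hu h0]; rfl

theorem TD.fz_cases (h : TD d.1 m x y) (hM : IsPModular 2 M) (hd : IsMaxBP 2 M B d)
    (hv : v ∈ zpowers x) (hw : w ∈ zpowers x) (e : Fz 2 M d v w) :
    w = v ∨ w = y * v * y⁻¹ := by
  by_cases h1 : v * v = 1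
  · have h2 := e.orderOf_eq
    rcases h.eq_of_sq hv h1 with e1 | e1 <;> rcases h.eq_of_sq hw (e.sq_iff.1 h1) with e2 | e2 <;>
      simp [e1, e2, h.z_ord] at h2 ⊢
  have hy : y * v * y⁻¹ ≠ v := fun e' => h1 (by
    rcases h.fix hv e' with e1 | e1 <;> simp [e1, h.zz])
  by_cases h2 : v * v * (v * v) = 1
  · have h3 : ∀ t ∈ zpowers x, (∃ g : G, g * v * g⁻¹ = t) → t = v ∨ t = tz m x * v := by
      rintro _ ht ⟨g, rfl⟩
      have h4 := (h.eq_of_sq (mul_mem hv hv) h2).resolve_left h1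
      have h5 := (h.eq_of_sq (mul_mem ht ht) (by
        calc _ = g * (v * v * (v * v)) * g⁻¹ := by group
          _ = 1 := by rw [h2]; group)).resolve_left fun e' => h1 (by
        calc _ = g⁻¹ * (g * v * g⁻¹ * (g * v * g⁻¹)) * g := by group
          _ = 1 := by rw [e']; group)
      rcases h.eq_of_sq (mul_mem ht (inv_mem hv)) (by
        generalize g * v * g⁻¹ = t at ht h5
        rw [mul_assoc, ← mul_assoc v⁻¹, TD.comm (inv_mem hv) ht, mul_assoc, ← mul_assoc t t,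
          h5, ← h4]; group) with e' | e'
      · exact Or.inl (mul_inv_eq_one.1 e')
      · exact Or.inr (mul_inv_eq_iff_eq_mul.1 e')
    exact (h3 w hw e.isConj).imp_right fun e' =>
      e'.trans ((h3 _ (h.conj_mem hv) ⟨y, rfl⟩).resolve_left hy).symm
  obtain ⟨g, rfl, hg⟩ := e.exists_M hM hd.bp (h.le hv) (h.le hw)
  have hF := hd.sat hM
  obtain ⟨c, hc, h3⟩ := (hF.rec_of_fc (h.fc_in hM hd hw (mt e.sq_iff.2 h1))).extend_cz hg
    (cj_zpowers' g v)
  have h4 : (blockFS hM hd.bp).M (zpowers x) (g * c) := (blockFS hM hd.bp).mono h3 (by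
    rw [← h.inf_centralizer hv (fun e => h1 (by simp [e])) (fun e => h1 (e ▸ h.zz))]
    exact le_sup_right)
  have h5 : g * c * x * (g * c)⁻¹ ∈ zpowers x := by
    by_contra h5
    have h6 := h.pow_four_out ((blockFS hM hd.bp).conj_mem h4 (mem_zpowers x)) h5
    have h7 : x ^ 4 = 1 := by
      rw [← conj_eq_one_iff (a := g * c), ← h6]; simp [pow_succ, mul_assoc]
    obtain ⟨i, rfl⟩ := mem_zpowers_iff.1 hv
    refine h2 ?_
    calc _ = (x ^ 4) ^ i := by rw [← zpow_natCast, ← zpow_mul]; group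
      _ = 1 := by rw [h7, one_zpow]
  have h6 : g * c ∈ (blockFS hM hd.bp).aut (zpowers x) := FS.mem_aut_of h4
    (Fusion.mem_nz_of_le (by
      have e : Fusion.cj (g * c) (zpowers x) = _ := cj_zpowers' _ x
      rw [e]; exact zpowers_le.2 h5))
  obtain ⟨s, hs, -, t, ht, e1⟩ := Fusion.mem_ai'.1 ((hF.fa (FS.FN.of_normal h.le
    h.le_normalizer)).le_aiS le_rfl ((pmod_cz_zpowers h.ord).mono (FS.aut_le_nz _ _) le_rfl)
    ((FS.aiS_le_aut h.le).trans (Fusion.le_nz _)) h6)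
  have h7 : g * v * g⁻¹ = s * v * s⁻¹ := by
    calc g * v * g⁻¹ = g * c * v * (g * c)⁻¹ := by
          rw [mul_assoc g c, ← hc v (mem_zpowers v)]; group
      _ = _ := by rw [e1, mul_assoc s t, ← ht v hv]; group
  rw [h7]
  exact h.conj_cases hs hv

end Cfsg.Agent.Block
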