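import Mathlib
import Cfsg.Agent.Block.Tame2
import Cfsg.Agent.Block.Gens

/-! Tame defect groups: sums over subsections. -/

namespace Cfsg.Agent.Block

open Cfsg Cfsg.Agent.Char Subgroup
open scoped ComplexConjugate

variable {G : Type*} [Group G] [Finite G] {p : ℕ} {M : Ideal AlgInt} {B : Set (IrrCharacter G)}
  {d : BrauerPairIdx G} {u v w : G} {F : G → ℂ}

theorem GalF.exists_mean_tame (hM : IsPModular 2 M) {r : ℕ} (hu : orderOf u = 2 ^ (r + 2))
    (h : GalF u F) (hint : IsIntegral ℤ (F u)) {k : ℕ} (hk : k.Coprime (Nat.card G))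
    (hk2 : u ^ (k + 1) = 1 ∨ (u ^ (k + 1) = u ^ 2 ^ (r + 1) ∧ 1 ≤ r))
    (hinv : ∀ v ∈ gens u, F (v ^ k) = F v) :
    ∃ c : ℤ, ∑ v ∈ gens u, F v = 2 ^ (r + 1) * c ∧ val M (F u - c) < 1 := by
  have hζ := Complex.isPrimitiveRoot_exp _ (orderOf_pos u).ne'
  obtain ⟨l, hl⟩ := exists_hom_zpowers u hζ.pow_eq_one
  rw [← hl] at hζ
  choose c hc using fun i : ℤ => h.exists_sum_mul Nat.prime_two hu hint (l ^ i)
  have hN : ((2 : ℕ) : ℂ) ^ (r + 1) ≠ 0 := pow_ne_zero _ (p_ne_zero hM)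
  have h0' : ∀ (j : ℕ) (i : ℤ), lext (l ^ i) (u ^ j) = ((l ⟨u, mem_zpowers u⟩ : ℂ) ^ j) ^ i :=
    fun j i => by
      have e : u ^ j = ((⟨u, mem_zpowers u⟩ : zpowers u) ^ j : zpowers u) := rfl
      rw [e, lext_coe, MonoidHom.zpow_apply, map_pow l]
      simp
  have h1 : ∀ v ∈ gens u, ∃ j : ℕ, Odd j ∧ u ^ j = v := fun v hv => by
    obtain ⟨j, hj, rfl⟩ := exists_pow_of_mem_gens hv
    exact ⟨j, Nat.coprime_two_right.1 (hj.coprime_dvd_right
      ((dvd_pow_self 2 (r + 1).succ_ne_zero).trans (hu ▸ orderOf_dvd_natCard u))), rfl⟩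
  set ζ : ℂ := (l ⟨u, mem_zpowers u⟩).val with hζd
  have h0 : ζ ≠ 0 := Units.ne_zero _
  have h2 : ζ ^ 2 ^ (r + 1) = -1 :=
    (hζ.pow (orderOf_pos u) (by rw [hu, pow_succ])).eq_neg_one_of_two_right
  have hp : ∀ a b : ℕ, u ^ a = u ^ b → ζ ^ a = ζ ^ b := fun a b e => by
    simpa using (h0' a 1).symm.trans ((congrArg _ e).trans (h0' b 1))
  obtain ⟨s, hs, hs'⟩ : ∃ s : ℤ, ζ ^ (k + 1) = s ∧ (s = 1 ∨ (s = -1 ∧ 1 ≤ r)) := by
    rcases hk2 with e | ⟨e, e'⟩
    · exact ⟨1, by simpa using hp (k + 1) 0 (by simpa using e), Or.inl rfl⟩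
    · exact ⟨-1, by simpa [h2] using hp _ _ e, Or.inr ⟨rfl, e'⟩⟩
  have h3 : ∀ i : ℕ, c (2 ^ (r + 1) - i) = -(s ^ i * c i) := fun i => by
    refine Int.cast_injective (α := ℂ) (mul_left_cancel₀ hN ?_)
    rw [← hc, Int.cast_neg, Int.cast_mul, mul_neg, mul_left_comm, ← hc,
      ← sum_gens_pow hk fun v => F v * lext (l ^ (i : ℤ)) v, Finset.mul_sum,
      ← Finset.sum_neg_distrib]
    refine Finset.sum_congr rfl fun v hv => ?_
    obtain ⟨j, hj, rfl⟩ := h1 v hv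
    have e1 : ζ ^ (j * k) = s * (ζ ^ j)⁻¹ := by
      rw [eq_mul_inv_iff_mul_eq₀ (pow_ne_zero _ h0), ← pow_add, ← mul_add_one, mul_comm, pow_mul,
        hs]
      rcases hs' with rfl | ⟨rfl, -⟩ <;> simp [hj.neg_one_pow]
    have e2 : (s : ℂ) ^ i * s ^ i = 1 := by
      rw [← mul_pow]; rcases hs' with rfl | ⟨rfl, -⟩ <;> simp
    rw [hinv _ hv, ← pow_mul, h0', h0', e1, zpow_sub₀ (pow_ne_zero _ h0), ← Nat.cast_ofNat (R := ℤ),
      ← Nat.cast_pow, zpow_natCast, ← pow_mul, mul_comm j, pow_mul, h2, hj.neg_one_pow,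
      zpow_natCast, zpow_natCast, mul_pow, Int.cast_pow]
    linear_combination (F (u ^ j) * ((ζ ^ j)⁻¹) ^ i) * e2
  have h4 : (2 : ℤ) ∣ ∑ i ∈ Finset.range (2 ^ (r + 1)), c i - c 0 := by
    have h5 : c (2 ^ r : ℕ) = 0 := by
      have := h3 (2 ^ r)
      rw [show (2 : ℤ) ^ (r + 1) - (2 ^ r : ℕ) = (2 ^ r : ℕ) by push_cast; ring] at this
      rcases hs' with rfl | ⟨rfl, e⟩
      · simp only [one_pow] at this; omega
      · rw [(Nat.even_pow.2 ⟨even_two, by omega⟩).neg_one_pow] at this; omega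
    obtain ⟨n, hn⟩ : ∃ n, 2 ^ r = n + 1 := ⟨2 ^ r - 1, by have := Nat.one_le_two_pow (n := r); omega⟩
    rw [pow_succ, mul_two, Finset.sum_range_add, hn, Finset.sum_range_succ',
      Finset.sum_range_succ', add_zero, ← hn, h5, ← Finset.sum_range_reflect (fun i => c (2 ^ r + (i + 1) : ℕ))]
    simp only [Nat.cast_zero, add_zero, add_right_comm _ (c 0), add_sub_cancel_right,
      ← Finset.sum_add_distrib]
    refine Finset.dvd_sum fun i hi => ?_
    have := h3 (i + 1)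
    rw [show (2 : ℤ) ^ (r + 1) - (i + 1 : ℕ) = (2 ^ r + (n - 1 - i + 1) : ℕ) by
      have := Finset.mem_range.1 hi
      have e : (2 : ℤ) ^ r = n + 1 := by exact_mod_cast hn
      rw [pow_succ, e, hn]; omega] at this
    rw [this]
    rcases hs' with rfl | ⟨rfl, -⟩
    · simp
    · rcases neg_one_pow_eq_or ℤ (i + 1) with e | e <;> simp [e, ← two_mul]
  have h5 : F u = ∑ i ∈ Finset.range (2 ^ (r + 1)), c i * ζ⁻¹ ^ i := by
    refine mul_left_cancel₀ hN ?_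
    simp only [Finset.mul_sum, ← mul_assoc, ← hc, Finset.sum_mul]
    rw [Finset.sum_comm, Finset.sum_eq_single_of_mem u (self_mem_gens u) fun v hv hne => ?_]
    · simp [lext_coe _ ⟨u, mem_zpowers u⟩, ζ, mul_comm]
    · obtain ⟨k, hk, rfl⟩ := h1 v hv
      simp only [h0', mul_assoc, zpow_natCast, ← mul_pow, ← Finset.mul_sum]
      rw [geom_sum_eq, mul_pow, ← pow_mul, mul_comm k, pow_mul, inv_pow, h2, hk.neg_one_pow]
      · simp
      · intro e'
        rw [mul_inv_eq_one₀ h0, ← pow_one ζ, ← pow_mul, one_mul,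
          (isOfFinOrder_iff_pow_eq_one.2 ⟨_, orderOf_pos u, hζ.pow_eq_one⟩).pow_eq_pow_iff_modEq,
          ← hζ.eq_orderOf, ← pow_eq_pow_iff_modEq, pow_one] at e'
        exact hne e'
  refine ⟨c 0, ?_, ?_⟩
  · rw [← Finset.sum_congr rfl (f := fun v => F v * lext (l ^ (0 : ℤ)) v)
      fun v hv => by obtain ⟨k, -, rfl⟩ := h1 v hv; rw [h0', zpow_zero, mul_one], hc]
    push_cast; ring
  · rw [← sub_add_sub_cancel _ ((∑ i ∈ Finset.range (2 ^ (r + 1)), c i : ℤ) : ℂ), ← Int.cast_sub]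
    refine val_add_lt_one ?_ ((val_intCast_lt_one_iff hM _).2 h4)
    rw [h5, Int.cast_sum, ← Finset.sum_sub_distrib]
    refine val_sum_lt_one _ fun i _ => ?_
    rw [← mul_sub_one]
    refine val_mul_lt_one_right (mem_V_iff.2 (val_intCast_le_one M _))
      (val_sub_one_lt_one_of_pow_eq_one hM (k := r + 2) ?_)
    rw [← pow_mul, mul_comm, pow_mul, inv_pow, ← hu, hζ.pow_eq_one, inv_one, one_pow]

open Classical in
theorem FReps.sum_fiber {X : Finset d.1} (hX : FReps p M d X) {A : Type*} [AddCommMonoid A]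
    {F : G → A} (hF : ∀ u ∈ d.1, ∀ v ∈ d.1, Fz p M d u v → F u = F v) {Y : Finset G}
    (hY : ∀ v ∈ Y, v ∈ d.1) :
    ∑ v ∈ Y, F v = ∑ r ∈ X, (Y.filter fun v => Fz p M d v r).card • F r := by
  simp only [Finset.card_filter, Finset.sum_smul]
  rw [Finset.sum_comm]
  refine Finset.sum_congr rfl fun v hv => ?_
  obtain ⟨r, hr, e⟩ := hX.ex ⟨v, hY v hv⟩
  replace e : Fz p M d r v := e
  rw [Finset.sum_eq_single_of_mem r hr fun r' hr' hne => ?_, if_pos e.symm, one_smul,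
    hF _ r.2 _ (hY v hv) e]
  rw [if_neg fun e' => hne ?_, zero_smul]
  obtain ⟨g, e''⟩ := e.trans e'
  exact (hX.uniq r hr r' hr' g e'').symm

/-- The elements of order at least four in a cyclic group. -/
noncomputable def tW (x : G) : Finset G := (Set.toFinite {v | v ∈ zpowers x ∧ v * v ≠ 1}).toFinset

theorem mem_tW {x : G} : v ∈ tW x ↔ v ∈ zpowers x ∧ v * v ≠ 1 := Set.Finite.mem_toFinset _

/-- Not fused into `zpowers x`. -/
def Unf (M : Ideal AlgInt) (d : BrauerPairIdx G) (x u : G) : Prop :=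
  ∀ v ∈ zpowers x, ¬ Fz 2 M d u v

/-- Representatives of the classes not fused into `zpowers x`. -/
noncomputable def tU (M : Ideal AlgInt) (d : BrauerPairIdx G) (x y : G) : Finset G :=
  (Set.toFinite {u | (u = y ∨ u = x * y ∧ ¬ Fz 2 M d y u) ∧ Unf M d x u}).toFinset

theorem mem_tU {x y : G} :
    u ∈ tU M d x y ↔ (u = y ∨ u = x * y ∧ ¬ Fz 2 M d y u) ∧ Unf M d x u :=
  Set.Finite.mem_toFinset _

variable {m : ℕ} {x y : G}

theorem TD.tU_mem (h : TD d.1 m x y) (hu : u ∈ tU M d x y) : u ∈ d.1 := by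
  rcases (mem_tU.1 hu).1 with rfl | ⟨rfl, -⟩
  exacts [h.ym, h.xy_mem]

theorem tU_card_le : (tU M d x y).card ≤ 2 := by
  classical
  refine (Finset.card_le_card (t := {y, x * y}) fun u hu => ?_).trans Finset.card_le_two
  rcases (mem_tU.1 hu).1 with rfl | ⟨rfl, -⟩ <;> simp

theorem tU_uniq (hu : u ∈ tU M d x y) (hv : v ∈ tU M d x y) (e : Fz 2 M d u v) : u = v := by
  rcases (mem_tU.1 hu).1 with rfl | ⟨rfl, h1⟩ <;> rcases (mem_tU.1 hv).1 with rfl | ⟨rfl, h2⟩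
  exacts [rfl, absurd e h2, absurd e.symm h1, rfl]

theorem TD.card_tW {D : Subgroup G} (h : TD D m x y) : (tW x).card + 2 = 2 ^ (m + 2) := by
  classical
  have := Fintype.ofFinite G
  rw [← h.card_X, ← Finset.card_pair h.z_ne, ← Finset.card_union_of_disjoint,
    ← SetLike.coe_sort_coe, Nat.card_coe_set_eq, Set.ncard_eq_toFinset_card']
  · congr 1
    ext v
    simp only [Finset.mem_union, mem_tW, Finset.mem_insert, Finset.mem_singleton,
      Set.mem_toFinset, SetLike.mem_coe]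
    refine ⟨?_, fun hv => (em' _).imp (fun e => ⟨hv, e⟩) fun e => (h.eq_of_sq hv e).symm⟩
    rintro (hv | rfl | rfl)
    exacts [hv.1, TD.z_mem, one_mem _]
  · simp [Finset.disjoint_right, mem_tW, h.zz]

theorem TD.two_sum (h : TD d.1 m x y) (hM : IsPModular 2 M) (hd : IsMaxBP 2 M B d)
    {X : Finset d.1} (hX : FReps 2 M d X) {A : Type*} [AddCommMonoid A]
    {F : G → A} (hF : ∀ u ∈ d.1, ∀ v ∈ d.1, Fz 2 M d u v → F u = F v) :
    2 • ∑ r ∈ X, F r = 2 • F 1 + 2 • F (tz m x) + ∑ v ∈ tW x, F v + 2 • ∑ u ∈ tU M d x y, F u := by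
  classical
  rw [← Finset.sum_singleton F 1, ← Finset.sum_singleton F (tz m x),
    hX.sum_fiber hF (Y := {1}) (by simp), hX.sum_fiber hF (Y := {_}) (by simpa using h.z_memD),
    hX.sum_fiber hF fun v hv => h.le (mem_tW.1 hv).1, hX.sum_fiber hF fun v hv => h.tU_mem hv]
  simp only [Finset.smul_sum, ← Finset.sum_add_distrib, smul_smul, ← add_smul]
  refine Finset.sum_congr rfl fun r _ => congrArg (· • F r) ?_
  simp only [Finset.filter_singleton]
  by_cases h1 : ∃ v ∈ zpowers x, Fz 2 M d v r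
  · obtain ⟨v, hv, e⟩ := h1
    rw [Finset.filter_false_of_mem (s := tU M d x y) fun u hu e' =>
      (mem_tU.1 hu).2 v hv (e'.trans e.symm)]
    by_cases h2 : v * v = 1
    · rw [Finset.filter_false_of_mem (s := tW x) fun u hu e' =>
        (mem_tW.1 hu).2 ((e.trans e'.symm).sq_iff.1 h2)]
      rcases h.eq_of_sq hv h2 with rfl | rfl
      · rw [if_pos e, if_neg fun e' => h.z_ne (e'.trans e.symm).eq_one]; simp
      · rw [if_pos e, if_neg fun e' => h.z_ne (e.trans e'.symm).eq_one]; simp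
    · rw [if_neg fun e' => h2 ((e.trans e'.symm).sq_iff.2 (mul_one 1)),
        if_neg fun e' => h2 ((e.trans e'.symm).sq_iff.2 h.zz),
        show (tW x).filter (Fz 2 M d · r) = {y * v * y⁻¹, v} from ?_,
        Finset.card_pair fun e' => h2 (by rcases h.fix hv e' with e1 | e1 <;> simp [e1, h.zz])]
      · simp
      have h3 := fz_conj hM hd.bp (h.le hv) h.ym
      ext w
      simp only [Finset.mem_filter, mem_tW, Finset.mem_insert, Finset.mem_singleton]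
      refine ⟨fun hw => (h.fz_cases hM hd hv hw.1.1 (e.trans hw.2.symm)).symm, ?_⟩
      rintro (rfl | rfl)
      exacts [⟨⟨h.conj_mem hv, mt h3.sq_iff.2 h2⟩, h3.symm.trans e⟩, ⟨⟨hv, h2⟩, e⟩]
  push Not at h1
  rw [if_neg (h1 _ (one_mem _)), if_neg (h1 _ TD.z_mem), Finset.filter_false_of_mem
    (s := tW x) fun u hu => h1 u (mem_tW.1 hu).1]
  have h2 : ∀ u, Fz 2 M d u r → Unf M d x u := fun u e v hv e' => h1 v hv (e'.symm.trans e)
  obtain ⟨u, hu, e⟩ : ∃ u ∈ tU M d x y, Fz 2 M d u r := by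
    by_cases h3 : Fz 2 M d y r
    · exact ⟨y, mem_tU.2 ⟨Or.inl rfl, h2 y h3⟩, h3⟩
    obtain ⟨s, hs, e⟩ := h.exists_conj_out r.2 fun e => h1 r e (Fz.refl _)
    have h4 := (fz_conj hM hd.bp r.2 hs).symm
    rw [e.resolve_left fun e' => h3 (e' ▸ h4)] at h4
    exact ⟨_, mem_tU.2 ⟨Or.inr ⟨rfl, fun e' => h3 (e'.trans h4)⟩, h2 _ h4⟩, h4⟩
  rw [show (tU M d x y).filter (Fz 2 M d · r) = {u} from Finset.eq_singleton_iff_unique_mem.2
    ⟨Finset.mem_filter.2 ⟨hu, e⟩, fun w hw => tU_uniq (Finset.mem_filter.1 hw).1 hu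
      ((Finset.mem_filter.1 hw).2.trans e.symm)⟩]
  simp

theorem subAt_one (hM : IsPModular p M) (hd : IsBP p M d) : (subAt p M d 1).a.1 = ⊥ := by
  rw [(subAt_spec hM hd (one_mem _)).1, zpowers_one_eq_bot]

theorem TD.card_eq (h : TD d.1 m x y) (hM : IsPModular 2 M) (hd : IsMaxBP 2 M B d) :
    Nat.card B + 1 = blockRank 2 B + blockRank 2 (subAt 2 M d (tz m x)).a.2 + 2 ^ (m + 1) +
      (tU M d x y).card := by
  obtain ⟨X, hX⟩ := exists_fReps 2 M d
  have h1 := h.two_sum hM hd hX (F := fun v => blockRank 2 (subAt 2 M d v).a.2)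
    fun _ _ _ _ e => e.rank
  rw [← hX.card_eq_sum hM hd, (blockDefect_of_fst_eq_bot hM (subAt_isBPOf hM hd.of (one_mem _))
    (subAt_one hM hd.bp)).2.1, Finset.sum_congr rfl (g := fun _ => 1) fun v hv =>
      (h.ul_in hM hd (mem_tW.1 hv).1 (mem_tW.1 hv).2).rank, Finset.sum_congr rfl (g := fun _ => 1)
    fun v hv => (h.ul_out hM hd (h.tU_mem hv) (mem_tU.1 hv).2).rank] at h1
  have := h.card_tW
  simp only [smul_eq_mul, Finset.sum_const, mul_one, pow_succ] at h1 this ⊢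
  omega

theorem Subs.Ok.val_gdn_iff {σ : Subs G} (hM : IsPModular p M) (h : σ.Ok p M) (hu : Unif p σ.a.2)
    (hB : IsBPOf p M B σ.a) (hc : Nat.card σ.a.2 = p ^ blockDefect p σ.a.2) {χ : IrrCharacter G}
    (hχ : χ ∈ B) : val M (gdn χ σ) = 1 ↔ blockHeight p B χ.1 = 0 := by
  obtain ⟨ψ, hψ, h0⟩ := exists_height_zero (p := p) ⟨χ, hχ⟩
  have h1 := fun {χ : IrrCharacter G} (hχ : χ ∈ B) => val_con_eq_one_iff hM h hB hχ hψ
  simp only [← Nat.cast_pow, ← hc, h.card_mul_con_eq hM hu, map_mul, h0, and_true] at h1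
  have h2 := (h1 hψ).2 h0
  have h3 := h.isIntegral_gdn hM hu ψ
  have h4 : val M (conj (gdn ψ.1 σ)) = 1 :=
    (val_le_one_of_isIntegral M (h3.map (starRingEnd ℂ).toIntAlgHom)).antisymm
      (h2.ge.trans (mul_le_of_le_one_left' (val_le_one_of_isIntegral M h3)))
  rw [← h1 hχ, h4, mul_one]

open Classical in
theorem IsMaxBP.sum_gdn (hM : IsPModular 2 M) (hd : IsMaxBP 2 M B d) (hv : v ∈ d.1) (hw : w ∈ d.1)
    {n : ℕ} (h : UL n (subAt 2 M d v).a.2) :
    ∑ χ with χ ∈ B, conj (gdn χ.1 (subAt 2 M d v)) * gdn χ.1 (subAt 2 M d w) =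
      if Fz 2 M d v w then 2 ^ n else 0 := by
  have h1 := subAt_ok hM hd.bp hv
  have h2 := subAt_ok hM hd.bp hw
  split_ifs with e
  · obtain ⟨g, e⟩ := e
    simp only [← e, h1.gdn_smul hM h.unif (irr_classFun _)]
    rw [h1.sum_gdn_self hM h.unif (subAt_isBPOf hM hd.of hv), h.card]; simp
  · have := h1.sum_gdn_of_not hM h.unif (subAt_isBPOf hM hd.of hv) h2 (g := (subAt 2 M d w).u)
      (by simpa using h2.pp_mul hM (one_regular hM.1)) fun g e' => e ⟨g, e'⟩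
    simp only [gdn] at this ⊢
    simp only [← mul_div_assoc, ← Finset.sum_div, this, zero_div]

theorem TD.exists_pow {D : Subgroup G} (h : TD D m x y) : ∃ k : ℕ, k.Coprime (Nat.card G) ∧
    (∀ v ∈ zpowers x, v ^ k = y * v * y⁻¹) ∧
    (x ^ (k + 1) = 1 ∨ (x ^ (k + 1) = x ^ 2 ^ (m + 1) ∧ 1 ≤ m)) := by
  obtain ⟨k, hk, e⟩ := exists_pow_of_mem_gens (mem_gens.2 (eq_of_le_of_card_ge
    (zpowers_le.2 (h.conj_mem (mem_zpowers x))) (by
      rw [Nat.card_zpowers, Nat.card_zpowers]; exact ((MulAut.conj y).orderOf_eq x).ge)))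
  refine ⟨k, hk, fun v hv => ?_, ?_⟩
  · obtain ⟨i, rfl⟩ := mem_zpowers_iff.1 hv
    rw [← conj_zpow, ← e, ← zpow_natCast, ← zpow_natCast, zpow_comm]
  obtain ⟨c, h1, h2⟩ := h.cj
  rw [pow_succ, e, h2, inv_mul_cancel_right]
  rcases h1 with rfl | h1
  · exact Or.inl (pow_zero _)
  · exact (h.eq_of_sq (pow_mem TD.z_mem c) (by
      rw [← (Commute.refl _).mul_pow, h.zz, one_pow])).imp_right fun e => ⟨e, h1⟩

theorem TD.gens_sub {D : Subgroup G} (h : TD D m x y) (hv : v ∈ gens x) : v ∈ tW x := by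
  refine mem_tW.2 ⟨mem_gens.1 hv ▸ mem_zpowers v, fun e => ?_⟩
  have h1 := Nat.le_of_dvd two_pos (orderOf_dvd_of_pow_eq_one ((sq v).trans e))
  rw [← Nat.card_zpowers, mem_gens.1 hv, h.card_X, pow_add] at h1
  have := Nat.one_le_two_pow (n := m)
  omega

theorem subAt_gens (hM : IsPModular p M) (hd : IsBP p M d) (hu : u ∈ d.1) (hv : v ∈ gens u) :
    subAt p M d v = ⟨v, (subAt p M d u).a⟩ := by
  obtain ⟨k, hk, rfl⟩ := exists_pow_of_mem_gens hv
  exact subAt_pow hM hd hu hk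

theorem galF_gdn (hM : IsPModular p M) (hd : IsBP p M d) (hu : u ∈ d.1)
    (h : Unif p (subAt p M d u).a.2) (χ : IrrCharacter G) :
    GalF u fun v => gdn χ.1 (subAt p M d v) := fun φ k hk hφ v hv => by
  have h1 := subAt_ok hM hd hu
  obtain ⟨ζ, hζ⟩ := block_nonempty hM h1.bp.2
  dsimp only
  rw [subAt_gens hM hd hu hv, subAt_gens hM hd hu ((pow_mem_gens_iff hk).2 hv), gdn, gdn,
    h.bdeg_eq hM.1 hζ, map_div₀, map_sec φ (irr_isGenChar χ) hφ (h1.of_gens hv).mem_cent,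
    ← charDegree_cast (irr_isChar ζ), map_natCast]

open Classical in
theorem TD.exists_a0 (h : TD d.1 m x y) (hM : IsPModular 2 M) (hd : IsMaxBP 2 M B d) :
    ∃ a : IrrCharacter G → ℤ,
      (∀ χ : IrrCharacter G, ∑ v ∈ gens x, gdn χ.1 (subAt 2 M d v) = 2 ^ (m + 1) * a χ) ∧
      (∀ χ ∈ B, Odd (a χ) ↔ blockHeight 2 B χ.1 = 0) ∧ ∑ χ with χ ∈ B, a χ ^ 2 = 4 ∧
      ∀ τ : Subs G, τ.Ok 2 M → τ.u * τ.u = 1 → ∀ g, pp 2 g = τ.u →
        ∑ χ with χ ∈ B, a χ * sec χ.1 τ.a g = 0 := by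
  have hW := fun {v} (hv : v ∈ gens x) => mem_tW.1 (h.gens_sub hv)
  have hU := fun {v} (hv : v ∈ gens x) => h.ul_in hM hd (hW hv).1 (hW hv).2
  have hx := subAt_ok hM hd.bp h.xm
  have hu := hU (self_mem_gens x)
  obtain ⟨k, hk, k1, k2⟩ := h.exists_pow
  choose a a1 a2 using fun χ : IrrCharacter G => (galF_gdn hM hd.bp h.xm hu.unif χ).exists_mean_tame
    hM h.ord (hx.isIntegral_gdn hM hu.unif χ) hk k2 fun v hv => by
      rw [k1 v (hW hv).1, ← smul_subAt_of_mem hM hd.bp (h.le (hW hv).1) h.ym,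
        (subAt_ok hM hd.bp (h.le (hW hv).1)).gdn_smul hM (hU hv).unif (irr_classFun _)]
  have hN : (2 : ℂ) ^ (m + 1) ≠ 0 := by simp
  have a3 : ∀ χ : IrrCharacter G, ∑ v ∈ gens x, conj (gdn χ.1 (subAt 2 M d v)) =
      2 ^ (m + 1) * a χ := fun χ => by rw [← map_sum, a1, map_mul, map_pow, map_ofNat, map_intCast]
  refine ⟨a, a1, fun χ hχ => ?_, ?_, fun τ hτ h2 g hg => mul_left_cancel₀ hN ?_⟩
  · rw [← hx.val_gdn_iff hM hu.unif (subAt_isBPOf hM hd.of h.xm) (by rw [hu.card, hu.defect]) hχ,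
      ← Int.not_even_iff_odd, even_iff_two_dvd, ← Nat.cast_ofNat, ← val_intCast_eq_one_iff hM]
    exact ⟨fun e => e ▸ Valuation.map_eq_of_sub_lt _ (e.symm ▸ a2 χ),
      fun e => e ▸ Valuation.map_eq_of_sub_lt _ (by rw [e, Valuation.map_sub_swap]; exact a2 χ)⟩
  · refine Int.cast_injective (α := ℂ) (mul_left_cancel₀ (mul_ne_zero hN hN) ?_)
    have h1 : ∀ v ∈ gens x, ∑ w ∈ gens x, ∑ χ with χ ∈ B, conj (gdn χ.1 (subAt 2 M d v)) *
        gdn χ.1 (subAt 2 M d w) = 2 * 2 ^ (m + 2) := fun v hv => by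
      have h3 := fz_conj hM hd.bp (h.le (hW hv).1) h.ym
      rw [Finset.sum_congr rfl fun w hw => hd.sum_gdn hM (h.le (hW hv).1) (h.le (hW hw).1) (hU hv),
        ← Finset.sum_filter, Finset.sum_const, show (gens x).filter (Fz 2 M d v) =
          {y * v * y⁻¹, v} from ?_, Finset.card_pair fun e' => (hW hv).2 (by
            rcases h.fix (hW hv).1 e' with e1 | e1 <;> simp [e1, h.zz]), nsmul_eq_mul,
        Nat.cast_ofNat]
      ext w
      simp only [Finset.mem_filter, Finset.mem_insert, Finset.mem_singleton]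
      refine ⟨fun hw => (h.fz_cases hM hd (hW hv).1 (hW hw.1).1 hw.2).symm, ?_⟩
      rintro (rfl | rfl)
      exacts [⟨k1 v (hW hv).1 ▸ (pow_mem_gens_iff hk).2 hv, h3⟩, ⟨hv, Fz.refl _⟩]
    have h2 : ((gens x).card : ℂ) = 2 ^ (m + 1) := by
      have := congrArg (Int.cast : ℤ → ℂ) (card_gens Nat.prime_two h.ord)
      push_cast at this
      rw [this]; ring
    calc _ = ∑ χ with χ ∈ B, (2 ^ (m + 1) * a χ) * (2 ^ (m + 1) * a χ : ℂ) := by
          rw [Int.cast_sum, Finset.mul_sum]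
          exact Finset.sum_congr rfl fun χ _ => by push_cast; ring
      _ = ∑ v ∈ gens x, ∑ w ∈ gens x, ∑ χ with χ ∈ B, conj (gdn χ.1 (subAt 2 M d v)) *
          gdn χ.1 (subAt 2 M d w) := by
          simp only [Finset.sum_comm (s := gens x) (t := Finset.filter _ _)]
          exact Finset.sum_congr rfl fun χ _ => by rw [← Finset.sum_mul_sum, a1, a3]
      _ = _ := by rw [Finset.sum_congr rfl h1, Finset.sum_const, nsmul_eq_mul, h2]; push_cast; ring
  · simp only [Finset.mul_sum, ← mul_assoc, ← a3, Finset.sum_mul, mul_zero]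
    rw [Finset.sum_comm]
    refine Finset.sum_eq_zero fun v hv => (subAt_ok hM hd.bp (h.le (hW hv).1)).sum_gdn_of_not hM
      (hU hv).unif (subAt_isBPOf hM hd.of (h.le (hW hv).1)) hτ hg fun t e => (hW hv).2 ?_
    rw [← e, Subs.smul_u, subAt_u] at h2
    calc v * v = t⁻¹ * (t * v * t⁻¹ * (t * v * t⁻¹)) * t := by group
      _ = 1 := by rw [h2]; group

end Cfsg.Agent.Block
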