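import Mathlib

/-! Tame defect groups: integral columns. -/

namespace Cfsg.Agent.Block.TN

open Finset

variable {ι : Type*} [DecidableEq ι] {S : Finset ι} {t β γ a g : ι → ℤ} {N : ℕ}

theorem sq_card (h : ∀ i ∈ S, a i = 0 ∨ a i = 1 ∨ a i = -1) :
    ∑ i ∈ S, a i ^ 2 = #{i ∈ S | Odd (a i)} := by
  rw [card_filter, Nat.cast_sum]
  exact sum_congr rfl fun i hi => by rcases h i hi with e | e | e <;> simp [e]

omit [DecidableEq ι] in
theorem sq_le {i : ι} (hi : i ∈ S) : a i ^ 2 ≤ ∑ i ∈ S, a i ^ 2 :=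
  single_le_sum (fun j _ => sq_nonneg (a j)) hi

theorem unit_of_lt {c : ℤ} (h : c ^ 2 < 4) : c = 0 ∨ c = 1 ∨ c = -1 := by
  have h1 : c < 2 := by nlinarith
  have h2 : -2 < c := by nlinarith
  omega

theorem sq_lt_four (h : ∑ i ∈ S, a i ^ 2 < 4) : (∀ i ∈ S, a i = 0 ∨ a i = 1 ∨ a i = -1) ∧
    ∑ i ∈ S, a i ^ 2 = #{i ∈ S | Odd (a i)} :=
  have h1 := fun i hi => unit_of_lt ((sq_le (i := i) hi).trans_lt h)
  ⟨h1, sq_card h1⟩

theorem sq_four (h : ∑ i ∈ S, a i ^ 2 = 4) :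
    (∃ π ∈ S, (a π = 2 ∨ a π = -2) ∧ ∀ i ∈ S, i ≠ π → a i = 0) ∨
      (#{i ∈ S | Odd (a i)} = 4 ∧ ∀ i ∈ S, a i = 0 ∨ a i = 1 ∨ a i = -1) := by
  by_cases h1 : ∀ i ∈ S, a i ^ 2 < 4
  · have h2 := fun i hi => unit_of_lt (h1 i hi)
    exact Or.inr ⟨by exact_mod_cast (sq_card h2).symm.trans h, h2⟩
  push Not at h1
  obtain ⟨π, hπ, h1⟩ := h1
  have h2 := (sq_le (a := a) hπ).trans h.le
  rw [← add_sum_erase _ _ hπ] at h
  refine Or.inl ⟨π, hπ, sq_eq_sq_iff_eq_or_eq_neg.1 (by omega), fun i hi hne => ?_⟩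
  have := sq_le (a := a) (mem_erase.2 ⟨hne, hi⟩)
  exact pow_eq_zero_iff two_ne_zero |>.1 (le_antisymm (by omega) (sq_nonneg _))

omit [DecidableEq ι] in
theorem sq_gap {c n : ℤ} (h : ∀ i ∈ S, t i ^ 2 = c ∨ c + n ≤ t i ^ 2) (hn : 0 ≤ n) :
    c * #S ≤ ∑ i ∈ S, t i ^ 2 ∧ (∑ i ∈ S, t i ^ 2 < c * #S + n →
      (∀ i ∈ S, t i ^ 2 = c) ∧ ∑ i ∈ S, t i ^ 2 = c * #S) := by
  have h1 : ∀ i ∈ S, 0 ≤ t i ^ 2 - c := fun i hi => by have := h i hi; omega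
  have h2 : ∑ i ∈ S, (t i ^ 2 - c) = ∑ i ∈ S, t i ^ 2 - c * #S := by
    rw [sum_sub_distrib, sum_const, nsmul_eq_mul, mul_comm]
  have h3 := sum_nonneg h1
  refine ⟨by omega, fun h4 => ?_⟩
  have h5 : ∀ i ∈ S, t i ^ 2 = c := fun i hi => by
    have := single_le_sum h1 hi
    have := h i hi
    omega
  exact ⟨h5, by rw [sum_congr rfl h5, sum_const, nsmul_eq_mul, mul_comm]⟩

omit [DecidableEq ι] in
theorem sq_even (h : ∀ i ∈ S, ¬ Odd (t i) ∧ t i ≠ 0) :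
    4 * #S ≤ ∑ i ∈ S, t i ^ 2 ∧ (∑ i ∈ S, t i ^ 2 < 4 * #S + 12 →
      (∀ i ∈ S, t i = 2 ∨ t i = -2) ∧ ∑ i ∈ S, t i ^ 2 = 4 * #S) := by
  refine (sq_gap (fun i hi => ?_) (by norm_num)).imp_right fun h1 h2 => (h1 h2).imp_left
    fun h3 i hi => sq_eq_sq_iff_eq_or_eq_neg.1 (h3 i hi)
  obtain ⟨h1, h2⟩ := h i hi
  rw [Int.odd_iff] at h1
  rcases (show t i = 2 ∨ t i = -2 ∨ 4 ≤ t i ∨ t i ≤ -4 by omega) with e | e | e | e
  exacts [Or.inl (by simp [e]), Or.inl (by simp [e]), Or.inr (by nlinarith), Or.inr (by nlinarith)]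

omit [DecidableEq ι] in
theorem sq_odd (h : ∀ i ∈ S, Odd (t i)) :
    #S ≤ ∑ i ∈ S, t i ^ 2 ∧ (∑ i ∈ S, t i ^ 2 < #S + 8 →
      (∀ i ∈ S, t i = 1 ∨ t i = -1) ∧ ∑ i ∈ S, t i ^ 2 = #S) := by
  have := sq_gap (S := S) (t := t) (c := 1) (n := 8) (fun i hi => ?_) (by norm_num)
  · simp only [one_mul] at this
    exact this.imp_right fun h1 h2 => (h1 h2).imp_left fun h3 i hi => sq_eq_one_iff.1
      (h3 i hi)
  have h1 := Int.odd_iff.1 (h i hi)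
  rcases (show t i = 1 ∨ t i = -1 ∨ 3 ≤ t i ∨ t i ≤ -3 by omega) with e | e | e | e
  exacts [Or.inl (by simp [e]), Or.inl (by simp [e]), Or.inr (by nlinarith), Or.inr (by nlinarith)]

theorem num1 (hO : #{i ∈ S | Odd (t i)} = 4) (ht : ∑ i ∈ S, t i ^ 2 = 4 * N)
    (h0 : ∀ i ∈ S, t i ≠ 0) (hk : N + 1 ≤ #S) : (∀ i ∈ S, ¬ Odd (t i) → t i = 2 ∨ t i = -2) ∧
      (#S = N + 3 ∧ (∀ i ∈ S, Odd (t i) → t i = 1 ∨ t i = -1) ∨
        #S = N + 1 ∧ ∑ i ∈ S with Odd (t i), t i ^ 2 = 12) := by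
  rw [← sum_filter_add_sum_filter_not S fun i => Odd (t i)] at ht
  have h1 := card_filter_add_card_filter_not (s := S) fun i => Odd (t i)
  obtain ⟨h2, h3⟩ := sq_odd (S := {i ∈ S | Odd (t i)}) fun i hi => (mem_filter.1 hi).2
  obtain ⟨-, h4⟩ := sq_even (S := {i ∈ S | ¬ Odd (t i)}) fun i hi =>
    ⟨(mem_filter.1 hi).2, h0 i (mem_filter.1 hi).1⟩
  obtain ⟨h5, h6⟩ := h4 (by omega)
  refine ⟨fun i hi e => h5 i (mem_filter.2 ⟨hi, e⟩), ?_⟩
  by_cases h7 : ∑ i ∈ S with Odd (t i), t i ^ 2 < 12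
  · obtain ⟨h8, h9⟩ := h3 (by omega)
    exact Or.inl ⟨by omega, fun i hi e => h8 i (mem_filter.2 ⟨hi, e⟩)⟩
  · exact Or.inr ⟨by omega, by omega⟩

theorem four_of_odd (h : ∑ i ∈ S, a i ^ 2 = 4) (h1 : ∃ i ∈ S, Odd (a i)) :
    #{i ∈ S | Odd (a i)} = 4 ∧ (∀ i ∈ S, Odd (a i) → a i = 1 ∨ a i = -1) ∧
      ∀ i ∈ S, ¬ Odd (a i) → a i = 0 := by
  obtain ⟨i, hi, e⟩ := h1
  rcases sq_four h with ⟨π, -, h2, h3⟩ | ⟨h2, h3⟩
  · rw [Int.odd_iff] at e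
    by_cases e' : i = π
    · subst e'; omega
    · have := h3 i hi e'; omega
  · exact ⟨h2, fun j hj e => by have := h3 j hj; rw [Int.odd_iff] at e; omega,
      fun j hj e => by have := h3 j hj; rw [Int.odd_iff] at e; omega⟩

theorem aux2 {u1 u2 u3 u4 w1 w2 w3 w4 : ℤ} (h1 : Odd u1) (h2 : Odd u2) (h3 : Odd u3) (h4 : Odd u4)
    (hs : u1 ^ 2 + u2 ^ 2 + u3 ^ 2 + u4 ^ 2 = 12) (k1 : w1 = 1 ∨ w1 = -1) (k2 : w2 = 1 ∨ w2 = -1)
    (k3 : w3 = 1 ∨ w3 = -1) (k4 : w4 = 1 ∨ w4 = -1) (e1 : u1 + u2 + u3 + u4 = 0)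
    (e2 : w1 + w2 + w3 + w4 = 0) (e3 : u1 * w1 + u2 * w2 + u3 * w3 + u4 * w4 = 0) : False := by
  have h : ∀ a b : ℤ, Odd a → Odd b → 2 * a ^ 2 + 2 * b ^ 2 ≠ 12 := by
    rintro _ _ ⟨a, rfl⟩ ⟨b, rfl⟩ e
    have := Int.even_mul_succ_self a
    have := Int.even_mul_succ_self b
    grind
  rcases k1 with rfl | rfl <;> rcases k2 with rfl | rfl <;> rcases k3 with rfl | rfl <;>
    rcases k4 with rfl | rfl <;> first
      | omega
      | exact h u1 u3 h1 h3 (by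
          rw [show u2 = -u1 by omega, show u4 = -u3 by omega] at hs; linear_combination hs)
      | exact h u1 u2 h1 h2 (by
          rw [show u3 = -u1 by omega, show u4 = -u2 by omega] at hs; linear_combination hs)
      | exact h u1 u2 h1 h2 (by
          rw [show u4 = -u1 by omega, show u3 = -u2 by omega] at hs; linear_combination hs)

theorem sum_four {A : Type*} [AddCommMonoid A] {i j k l : ι} (h1 : i ≠ j) (h2 : i ≠ k) (h3 : i ≠ l)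
    (h4 : j ≠ k) (h5 : j ≠ l) (h6 : k ≠ l) (f : ι → A) :
    ∑ x ∈ {i, j, k, l}, f x = f i + f j + f k + f l := by
  rw [sum_insert (by simp [*]), sum_insert (by simp [*]), sum_pair h6, add_assoc, add_assoc]

theorem num2 (ha : ∑ i ∈ S, a i ^ 2 = 4) (hne : ∃ i ∈ S, Odd (a i))
    (hat : ∀ i ∈ S, Odd (a i) ↔ Odd (t i)) (ht : ∑ i ∈ S, t i ^ 2 = 4 * N)
    (hβ : ∑ i ∈ S, β i ^ 2 = 8) (htβ : ∑ i ∈ S, t i * β i = 0)
    (hp : ∀ i ∈ S, Even (t i + β i)) (h1 : ∑ i ∈ S, a i * t i = 0) (h2 : ∑ i ∈ S, a i * β i = 0)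
    (h0 : ∀ i ∈ S, t i ≠ 0 ∨ β i ≠ 0) (hk : N + 2 ≤ #S) :
    (∀ i ∈ S, Odd (t i) → (t i = 1 ∨ t i = -1) ∧ (β i = 1 ∨ β i = -1)) ∧
    ∃ π ∈ S, ¬ Odd (t π) ∧ (β π = 2 ∨ β π = -2) ∧
      (∀ i ∈ S, ¬ Odd (t i) → i ≠ π → (t i = 2 ∨ t i = -2) ∧ β i = 0) ∧
      (#S = N + 4 ∧ t π = 0 ∨ #S = N + 3 ∧ (t π = 2 ∨ t π = -2) ∧
        ∀ i ∈ S, Odd (t i) → 4 * (t i * β i) = -(t π * β π)) := by
  obtain ⟨a1, a2, a3⟩ := four_of_odd ha hne
  rw [filter_congr hat] at a1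
  have hc := card_filter_add_card_filter_not (s := S) fun i => Odd (t i)
  have hs := fun f : ι → ℤ => (sum_filter_add_sum_filter_not S (fun i => Odd (t i)) f).symm
  have hO : ∀ i ∈ S, Odd (β i) ↔ Odd (t i) := fun i hi => by
    have := hp i hi; grind
  obtain ⟨b1, b2⟩ := sq_odd (S := {i ∈ S | Odd (t i)}) (t := β) fun i hi =>
    (hO i (mem_filter.1 hi).1).2 (mem_filter.1 hi).2
  have b3 : 0 ≤ ∑ i ∈ S with ¬ Odd (t i), β i ^ 2 := sum_nonneg fun i _ => sq_nonneg _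
  rw [hs] at ht hβ htβ h1 h2
  obtain ⟨b4, b5⟩ := b2 (by omega)
  obtain ⟨π, hπ, b6, b7⟩ := (sq_four (S := {i ∈ S | ¬ Odd (t i)}) (a := β) (by omega)).resolve_right
    fun h => by
      obtain ⟨i, hi⟩ := card_pos.1 (h.1 ▸ four_pos)
      simp only [mem_filter] at hi
      exact hi.1.2 ((hO i hi.1.1).1 hi.2)
  rw [sum_eq_zero (s := {i ∈ S | ¬ Odd (t i)}) fun i hi => by
    rw [a3 i (mem_filter.1 hi).1 (mt (hat i (mem_filter.1 hi).1).1 (mem_filter.1 hi).2),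
      zero_mul]] at h1 h2
  rw [sum_eq_single_of_mem π hπ fun i hi e => by rw [b7 i hi e, mul_zero]] at htβ
  rw [← add_sum_erase _ _ hπ] at ht
  have hc' := card_erase_add_one hπ
  obtain ⟨c1, c2⟩ := sq_even (S := {i ∈ S | ¬ Odd (t i)}.erase π) (t := t) fun i hi =>
    have := mem_erase.1 hi
    ⟨(mem_filter.1 this.2).2, (h0 i (mem_filter.1 this.2).1).resolve_right
      (not_not.2 (b7 i this.2 this.1))⟩
  obtain ⟨d1, d2⟩ := sq_odd (S := {i ∈ S | Odd (t i)}) fun i hi => (mem_filter.1 hi).2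
  have d3 := sq_nonneg (t π)
  obtain ⟨c3, c4⟩ := c2 (by omega)
  obtain ⟨i, j, k, l, n1, n2, n3, n4, n5, n6, e⟩ := card_eq_four.1 a1
  have hm : ∀ x ∈ ({i, j, k, l} : Finset ι), x ∈ S ∧ Odd (t x) := fun x hx => mem_filter.1 (e ▸ hx)
  have ha' : ∀ x ∈ ({i, j, k, l} : Finset ι), a x = 1 ∨ a x = -1 := fun x hx =>
    a2 x (hm x hx).1 ((hat x (hm x hx).1).2 (hm x hx).2)
  have d4 : ∑ i ∈ S with Odd (t i), t i ^ 2 < 12 := by
    by_contra d4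
    have d5 : t π = 0 := pow_eq_zero_iff two_ne_zero |>.1 (by omega)
    have hu : ∀ x ∈ ({i, j, k, l} : Finset ι), Odd (a x * t x) ∧ (a x * t x) ^ 2 = t x ^ 2 ∧
        (a x * β x = 1 ∨ a x * β x = -1) ∧ a x * t x * (a x * β x) = t x * β x := fun x hx => by
      rcases ha' x hx with e1 | e1 <;> rcases b4 x (e ▸ hx) with e2 | e2 <;>
        simp [e1, e2, (hm x hx).2]
    have d6 : ∑ i ∈ S with Odd (t i), t i ^ 2 = 12 := by omega
    rw [e, sum_four n1 n2 n3 n4 n5 n6] at h1 h2 htβ d6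
    have u1 := hu i (by simp)
    have u2 := hu j (by simp)
    have u3 := hu k (by simp)
    have u4 := hu l (by simp)
    exact aux2 u1.1 u2.1 u3.1 u4.1 (by omega) u1.2.2.1 u2.2.2.1 u3.2.2.1 u4.2.2.1 (by omega)
      (by omega) (by rw [d5, zero_mul] at htβ; omega)
  obtain ⟨d5, d6⟩ := d2 (by omega)
  refine ⟨fun x hx e => ⟨d5 x (mem_filter.2 ⟨hx, e⟩), b4 x (mem_filter.2 ⟨hx, e⟩)⟩, π,
    (mem_filter.1 hπ).1, (mem_filter.1 hπ).2, b6, fun x hx e e' => ⟨c3 x (mem_erase.2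
      ⟨e', mem_filter.2 ⟨hx, e⟩⟩), b7 x (mem_filter.2 ⟨hx, e⟩) e'⟩, ?_⟩
  have d7 := Int.not_odd_iff_even.1 (mem_filter.1 hπ).2
  have d8 : t π = 0 ∨ t π = 2 ∨ t π = -2 := by
    have : t π < 4 := by nlinarith
    have : -4 < t π := by nlinarith
    rw [Int.even_iff] at d7; omega
  rcases d8 with d8 | d8
  · exact Or.inl ⟨by rw [d8] at ht; omega, d8⟩
  refine Or.inr ⟨by rcases d8 with d8 | d8 <;> rw [d8] at ht <;> omega, d8, fun x hx e' => ?_⟩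
  have hv : ∀ x ∈ ({i, j, k, l} : Finset ι), t x * β x = 1 ∨ t x * β x = -1 := fun x hx => by
    rcases d5 x (e ▸ hx) with e1 | e1 <;> rcases b4 x (e ▸ hx) with e2 | e2 <;> simp [e1, e2]
  have hπ' : t π * β π = 4 ∨ t π * β π = -4 := by
    rcases d8 with e1 | e1 <;> rcases b6 with e2 | e2 <;> simp [e1, e2]
  rw [e, sum_four n1 n2 n3 n4 n5 n6] at htβ
  have u1 := hv i (by simp)
  have u2 := hv j (by simp)
  have u3 := hv k (by simp)
  have u4 := hv l (by simp)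
  have : x ∈ ({i, j, k, l} : Finset ι) := e ▸ mem_filter.2 ⟨hx, e'⟩
  simp only [mem_insert, mem_singleton] at this
  rcases this with rfl | rfl | rfl | rfl <;> omega

/-- The shape of a column of contributions. -/
def Shape (S : Finset ι) (N : ℕ) (t : ι → ℤ) (A : ι → ι → ℤ) : Prop :=
  ∃ R ⊆ S, #R + 1 = N ∧ (∀ i ∈ R, ∃ j ∈ S, Odd (t j) ∧ A i j % 4 = 2) ∧
    ∀ i ∈ S, Odd (t i) ∨ i ∈ R ∨ ∃ j ∈ S, Odd (t j) ∧ (A i j = N ∨ A i j = -N)

omit [DecidableEq ι] in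
theorem aux3 {π j : ι} (hπ : π ∈ S) (h1 : β π = 2 ∨ β π = -2) (h2 : ∀ i ∈ S, i ≠ π → β i = 0)
    (htβ : ∑ i ∈ S, t i * β i = 0) (hβγ : ∑ i ∈ S, γ i * β i = 0) (hj : j ∈ S) (ho : Odd (t j)) :
    t π = 0 ∧ γ π = 0 ∧ β j = 0 := by
  rw [sum_eq_single_of_mem π hπ fun i hi e => by rw [h2 i hi e, mul_zero]] at htβ hβγ
  have h3 : t π = 0 := (mul_eq_zero.1 htβ).resolve_right (by omega)
  exact ⟨h3, (mul_eq_zero.1 hβγ).resolve_right (by omega), h2 j hj fun e => by simp [e, h3] at ho⟩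

theorem aux4 {u1 u2 u3 u4 s5 s6 n : ℤ} (h1 : Odd u1) (h2 : Odd u2) (h3 : Odd u3) (h4 : Odd u4)
    (h5 : ¬ Odd s5) (h6 : ¬ Odd s6) (hn : n ≤ 3)
    (hs : u1 ^ 2 + u2 ^ 2 + u3 ^ 2 + u4 ^ 2 + s5 ^ 2 + s6 ^ 2 = 4 * n) (e1 : u1 + u2 + s5 + s6 = 0)
    (e2 : u3 + u4 + s5 - s6 = 0 ∨ u3 + u4 - s5 + s6 = 0) : (u1 = 1 ∨ u1 = -1) ∧
      (s5 = 0 ∧ s6 = 0 ∧ n = 1 ∨ s5 = 0 ∧ s6 = -2 * u1 ∧ n = 2 ∨ s6 = 0 ∧ s5 = -2 * u1 ∧ n = 2) := by
  have ho : ∀ c : ℤ, Odd c → c ^ 2 < 16 → c = 1 ∨ c = -1 ∨ c = 3 ∨ c = -3 := fun c h1 h2 => by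
    have : c < 4 := by nlinarith
    have : -4 < c := by nlinarith
    rw [Int.odd_iff] at h1; omega
  have he : ∀ c : ℤ, ¬ Odd c → c ^ 2 < 16 → c = 0 ∨ c = 2 ∨ c = -2 := fun c h1 h2 => by
    have : c < 4 := by nlinarith
    have : -4 < c := by nlinarith
    rw [Int.odd_iff] at h1; omega
  have := sq_nonneg u1; have := sq_nonneg u2; have := sq_nonneg u3; have := sq_nonneg u4
  have := sq_nonneg s5; have := sq_nonneg s6
  have w3 : u3 ^ 2 + u4 ^ 2 = 2 ∧ (u3 + u4 = 0 ∨ u3 + u4 = 2 ∨ u3 + u4 = -2) ∨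
      u3 ^ 2 + u4 ^ 2 = 10 ∧ u3 + u4 ≠ 0 ∨ u3 ^ 2 + u4 ^ 2 = 18 := by
    rcases ho _ h3 (by omega) with rfl | rfl | rfl | rfl <;>
      rcases ho _ h4 (by omega) with rfl | rfl | rfl | rfl <;> norm_num
  rcases he _ h5 (by omega) with rfl | rfl | rfl <;> rcases he _ h6 (by omega) with rfl | rfl | rfl <;>
    rcases ho _ h1 (by omega) with rfl | rfl | rfl | rfl <;>
    rcases ho _ h2 (by omega) with rfl | rfl | rfl | rfl <;> omega

/-- A sign. -/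
def U (c : ℤ) : Prop := c = 1 ∨ c = -1

theorem U.sq {c : ℤ} (h : U c) : c ^ 2 = 1 := by rcases h with rfl | rfl <;> rfl

set_option maxHeartbeats 1000000 in
theorem num3 (hO : #{i ∈ S | Odd (t i)} = 4) (ht : ∑ i ∈ S, t i ^ 2 = 4 * N)
    (hβ : ∑ i ∈ S, β i ^ 2 = 4) (hγ : ∑ i ∈ S, γ i ^ 2 = 4) (htβ : ∑ i ∈ S, t i * β i = 0)
    (htγ : ∑ i ∈ S, t i * γ i = 0) (hβγ : ∑ i ∈ S, β i * γ i = 0)
    (hp : ∀ i ∈ S, Even (t i + β i + γ i))
    (h0 : ∀ i ∈ S, ∀ j ∈ S, Odd (t j) → t i * t j + N * (β i * β j + γ i * γ j) ≠ 0)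
    (hk : N + 3 ≤ #S) (hN : N = 2 ∨ 4 ∣ N) :
    #S ≤ N + 5 ∧ Shape S N t fun i j => t i * t j + N * (β i * β j + γ i * γ j) := by
  obtain ⟨j, hj⟩ := card_pos.1 (hO ▸ four_pos)
  obtain ⟨hj, hj'⟩ := mem_filter.1 hj
  rcases sq_four hβ with ⟨π, hπ, b1, b2⟩ | ⟨-, b2⟩
  · obtain ⟨e1, e2, e3⟩ := aux3 hπ b1 b2 htβ (by simpa only [mul_comm] using hβγ) hj hj'
    exact absurd (by simp [e1, e2, e3]) (h0 π hπ j hj hj')
  rcases sq_four hγ with ⟨π, hπ, c1, c2⟩ | ⟨-, c2⟩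
  · obtain ⟨e1, e2, e3⟩ := aux3 hπ c1 c2 htγ hβγ hj hj'
    exact absurd (by simp [e1, e2, e3]) (h0 π hπ j hj hj')
  have hs : ∀ f : ι → ℤ, ∑ i ∈ S, f i = ∑ i ∈ S with β i ≠ 0 ∧ γ i ≠ 0, f i +
      ∑ i ∈ S with β i ≠ 0 ∧ γ i = 0, f i + ∑ i ∈ S with β i = 0 ∧ γ i ≠ 0, f i +
      ∑ i ∈ S with β i = 0 ∧ γ i = 0, f i := fun f => by
    simp only [sum_filter, ← sum_add_distrib]
    exact sum_congr rfl fun i _ => by by_cases β i = 0 <;> by_cases γ i = 0 <;> simp [*]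
  set P := {i ∈ S | β i ≠ 0 ∧ γ i ≠ 0} with hP
  set O1 := {i ∈ S | β i ≠ 0 ∧ γ i = 0} with hO1
  set O2 := {i ∈ S | β i = 0 ∧ γ i ≠ 0} with hO2
  set E := {i ∈ S | β i = 0 ∧ γ i = 0} with hE
  have mP : ∀ i ∈ P, i ∈ S ∧ ¬ Odd (t i) ∧ U (β i) ∧ U (γ i) :=
    fun i hi => by
      obtain ⟨h1, h2⟩ := mem_filter.1 hi
      have := hp i h1; have := b2 i h1; have := c2 i h1; unfold U; grind
  have m1 : ∀ i ∈ O1, i ∈ S ∧ Odd (t i) ∧ U (β i) ∧ γ i = 0 := fun i hi => by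
    obtain ⟨h1, h2⟩ := mem_filter.1 hi
    have := hp i h1; have := b2 i h1; unfold U; grind
  have m2 : ∀ i ∈ O2, i ∈ S ∧ Odd (t i) ∧ β i = 0 ∧ U (γ i) := fun i hi => by
    obtain ⟨h1, h2⟩ := mem_filter.1 hi
    have := hp i h1; have := c2 i h1; unfold U; grind
  have mE : ∀ i ∈ E, i ∈ S ∧ ¬ Odd (t i) ∧ β i = 0 ∧ γ i = 0 := fun i hi => by
    obtain ⟨h1, h2⟩ := mem_filter.1 hi
    have := hp i h1; grind
  have hc : ∀ (f : ι → ℤ) (T : Finset ι) (c : ℤ), (∀ i ∈ T, f i = c) → ∑ i ∈ T, f i = c * #T :=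
    fun f T c h => by rw [sum_congr rfl h, sum_const, nsmul_eq_mul, mul_comm]
  rw [hs, hc _ P 1 fun i hi => (mP i hi).2.2.1.sq, hc _ O1 1 fun i hi => (m1 i hi).2.2.1.sq,
    hc _ O2 0 fun i hi => by simp [(m2 i hi).2.2.1],
    hc _ E 0 fun i hi => by simp [(mE i hi).2.2.1]] at hβ
  rw [hs, hc _ P 1 fun i hi => (mP i hi).2.2.2.sq, hc _ O1 0 fun i hi => by simp [(m1 i hi).2.2.2],
    hc _ O2 1 fun i hi => (m2 i hi).2.2.2.sq, hc _ E 0 fun i hi => by simp [(mE i hi).2.2.2]] at hγ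
  have k1 := hs fun i => if Odd (t i) then 1 else 0
  rw [sum_boole, hO, hc _ P 0 fun i hi => if_neg (mP i hi).2.1, hc _ O1 1 fun i hi =>
    if_pos (m1 i hi).2.1, hc _ O2 1 fun i hi => if_pos (m2 i hi).2.1,
    hc _ E 0 fun i hi => if_neg (mE i hi).2.1] at k1
  have k2 := hs fun _ => 1
  simp only [sum_const, nsmul_eq_mul, mul_one] at k2
  obtain ⟨p, q, n1, e1⟩ := card_eq_two.1 (show #P = 2 by omega)
  obtain ⟨i1, i2, n2, e2⟩ := card_eq_two.1 (show #O1 = 2 by omega)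
  obtain ⟨i3, i4, n3, e3⟩ := card_eq_two.1 (show #O2 = 2 by omega)
  obtain ⟨p1, p2, p3, p4⟩ := mP p (by simp [e1])
  obtain ⟨q1, q2, q3, q4⟩ := mP q (by simp [e1])
  obtain ⟨r1, r2, r3, r4⟩ := m1 i1 (by simp [e2])
  obtain ⟨s1, s2, s3, s4⟩ := m1 i2 (by simp [e2])
  obtain ⟨u1, u2, u3, u4⟩ := m2 i3 (by simp [e3])
  obtain ⟨v1, v2, v3, v4⟩ := m2 i4 (by simp [e3])
  rw [hs, hc _ E 0 fun i hi => by simp [(mE i hi).2.2]] at htβ htγ hβγ
  rw [hs] at ht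
  simp only [e1, e2, e3, sum_pair n1, sum_pair n2, sum_pair n3, r4, s4, u3, v3, mul_zero, zero_mul,
    add_zero] at htβ htγ hβγ ht
  obtain ⟨c3, c4⟩ := sq_even (S := E) (t := t) fun i hi => ⟨(mE i hi).2.1, fun e =>
    h0 i (mE i hi).1 j hj hj' (by simp [e, (mE i hi).2.2])⟩
  have hsq : ∀ {c e : ℤ}, U e → (c * e) ^ 2 = c ^ 2 := by
    rintro _ _ (rfl | rfl) <;> simp
  have hod : ∀ {c e : ℤ}, U e → (Odd (c * e) ↔ Odd c) := by
    rintro _ _ (rfl | rfl) <;> simp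
  have z1 := sq_odd (S := {i1, i2}) (t := t) (by simp [r2, s2])
  have z2 := sq_odd (S := {i3, i4}) (t := t) (by simp [u2, v2])
  rw [sum_pair n2, card_pair n2] at z1
  rw [sum_pair n3, card_pair n3] at z2
  have z3 := sq_nonneg (t p)
  have z4 := sq_nonneg (t q)
  obtain ⟨c5, c6⟩ := c4 (by omega)
  have key : U (t i1) ∧ (t p = 0 ∧ t q = 0 ∧ #E + 1 = N ∨
      t p = 0 ∧ t q = -2 * (t i1 * β i1 * β q) ∧ #E + 2 = N ∨
      t q = 0 ∧ t p = -2 * (t i1 * β i1 * β p) ∧ #E + 2 = N) := by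
    have := aux4 (n := N - #E) ((hod r3).2 r2) ((hod s3).2 s2) ((hod u4).2 u2) ((hod v4).2 v2)
      (mt (hod p3).1 p2) (mt (hod q3).1 q2) (by omega) (by
        rw [hsq r3, hsq s3, hsq u4, hsq v4, hsq p3, hsq q3]; omega) (by omega) (by
        rcases p3 with p3 | p3 <;> rcases p4 with p4 | p4 <;> rcases q3 with q3 | q3 <;>
          rcases q4 with q4 | q4 <;> simp only [p3, p4, q3, q4] at hβγ htγ ⊢ <;> omega)
    clear hN
    rcases p3 with p3 | p3 <;> rcases q3 with q3 | q3 <;> rcases r3 with r3 | r3 <;>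
      simp only [p3, q3, r3, U] at this ⊢ <;> omega
  obtain ⟨t1, key⟩ := key
  have hE1 : ∀ i ∈ E, ∃ j ∈ S, Odd (t j) ∧ (t i * t j + N * (β i * β j + γ i * γ j)) % 4 = 2 :=
    fun i hi => ⟨i1, r1, r2, by
      rcases c5 i hi with e | e <;> rcases t1 with e' | e' <;> simp [e, e', (mE i hi).2.2]⟩
  have hP0 : ∀ i ∈ P, t i = 0 → ∃ j ∈ S, Odd (t j) ∧ (t i * t j + N * (β i * β j + γ i * γ j) = N ∨
      t i * t j + N * (β i * β j + γ i * γ j) = -N) := fun i hi e => ⟨i1, r1, r2, by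
    rcases (mP i hi).2.2.1 with e' | e' <;> rcases r3 with e'' | e'' <;> simp [e, e', e'', r4]⟩
  have hP2 : ∀ i ∈ P, t i = -2 * (t i1 * β i1 * β i) → ∃ j ∈ S, Odd (t j) ∧
      (t i * t j + N * (β i * β j + γ i * γ j)) % 4 = 2 := fun i hi e => ⟨i1, r1, r2, by
    have := h0 i (mP i hi).1 i1 r1 r2
    rcases (mP i hi).2.2.1 with e' | e' <;> rcases r3 with e'' | e'' <;> rcases t1 with e3 | e3 <;>
      simp only [e, e', e'', e3, r4] at this ⊢ <;> omega⟩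
  have hall : ∀ i ∈ S, Odd (t i) ∨ i ∈ E ∨ i = p ∨ i = q := fun i hi => by
    by_cases β i = 0 <;> by_cases γ i = 0
    · exact Or.inr (Or.inl (mem_filter.2 ⟨hi, ‹_›, ‹_›⟩))
    · exact Or.inl (m2 i (mem_filter.2 ⟨hi, ‹_›, ‹_›⟩)).2.1
    · exact Or.inl (m1 i (mem_filter.2 ⟨hi, ‹_›, ‹_›⟩)).2.1
    · have : i ∈ P := mem_filter.2 ⟨hi, ‹_›, ‹_›⟩
      rw [e1, mem_insert, mem_singleton] at this
      exact Or.inr (Or.inr this)
  have hp' : p ∈ P := by simp [e1]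
  have hq' : q ∈ P := by simp [e1]
  have hES : E ⊆ S := filter_subset _ _
  have hn : ∀ i ∈ P, i ∉ E := fun i hi e => (mem_filter.1 hi).2.1 (mE i e).2.2.1
  refine ⟨by clear hN; omega, ?_⟩
  clear hN
  rcases key with ⟨x1, x2, x3⟩ | ⟨x1, x2, x3⟩ | ⟨x1, x2, x3⟩
  · refine ⟨E, hES, x3, hE1, fun i hi => (hall i hi).imp_right (Or.imp_right ?_)⟩
    rintro (rfl | rfl)
    exacts [hP0 _ hp' x1, hP0 _ hq' x2]
  · refine ⟨insert q E, insert_subset q1 hES, by rw [card_insert_of_notMem (hn q hq')]; omega,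
      forall_mem_insert .. |>.2 ⟨hP2 q hq' x2, hE1⟩, fun i hi => (hall i hi).imp_right ?_⟩
    rintro (e | rfl | rfl)
    exacts [Or.inl (mem_insert_of_mem e), Or.inr (hP0 _ hp' x1), Or.inl (mem_insert_self _ _)]
  · refine ⟨insert p E, insert_subset p1 hES, by rw [card_insert_of_notMem (hn p hp')]; omega,
      forall_mem_insert .. |>.2 ⟨hP2 p hp' x2, hE1⟩, fun i hi => (hall i hi).imp_right ?_⟩
    rintro (e | rfl | rfl)
    exacts [Or.inl (mem_insert_of_mem e), Or.inl (mem_insert_self _ _), Or.inr (hP0 _ hq' x1)]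

theorem exists_units {n : ℕ} (hn : n < 4) (h : ∑ i ∈ S, g i ^ 2 = n) :
    ∃ T ⊆ S, #T = n ∧ (∀ i ∈ T, U (g i)) ∧ (∀ i ∈ S, i ∉ T → g i = 0) ∧
      ∀ {A : Type} [Ring A] (f : ι → A), ∑ i ∈ S, g i * f i = ∑ i ∈ T, g i * f i := by
  obtain ⟨h1, h2⟩ := sq_lt_four (S := S) (a := g) (by omega)
  have h3 : ∀ i ∈ S, i ∉ {i ∈ S | Odd (g i)} → g i = 0 := fun i hi e => by
    have := h1 i hi; simp only [mem_filter, hi, true_and, Int.odd_iff] at e; omega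
  refine ⟨_, filter_subset _ _, by exact_mod_cast h2.symm.trans h, fun i hi => ?_, h3, fun f =>
    (sum_subset (filter_subset _ _) fun i hi e => by rw [h3 i hi e, Int.cast_zero, zero_mul]).symm⟩
  have := h1 i (mem_filter.1 hi).1
  have := Int.odd_iff.1 (mem_filter.1 hi).2
  unfold U; omega

theorem three (h1 : ∀ i ∈ S, Odd (t i) → U (t i) ∧ U (a i))
    (h2 : ∀ i ∈ S, ¬ Odd (t i) → (t i = 2 ∨ t i = -2) ∧ a i = 0) (hg : ∑ i ∈ S, g i ^ 2 = 3)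
    (ht : 4 ∣ ∑ i ∈ S, g i * t i) (ha : ∑ i ∈ S, g i * a i = 2 ∨ ∑ i ∈ S, g i * a i = -2) :
    ∃ i ∈ S, ∃ j ∈ S, ∃ r ∈ S, Odd (t i) ∧ Odd (t j) ∧ i ≠ j ∧ a i * t i = a j * t j ∧
      (∀ k ∈ S, ¬ Odd (t k) → g k ≠ 0 → k = r) ∧ ∃ c, U c ∧
      ∀ f : ι → ℂ, ∑ k ∈ S, g k * f k = 0 → f r = c * (t i * f i + t j * f j) := by
  obtain ⟨T, hT, c1, c2, c3, c4⟩ := exists_units (n := 3) (by norm_num) hg
  have c5 := c4 t
  have c6 := c4 a
  simp only [Int.cast_id] at c5 c6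
  rw [c5] at ht
  rw [c6] at ha
  have key : ∀ i j r : ι, i ≠ j → i ≠ r → j ≠ r → T = {i, j, r} → ¬ Odd (t r) →
      ∃ i ∈ S, ∃ j ∈ S, ∃ r ∈ S, Odd (t i) ∧ Odd (t j) ∧ i ≠ j ∧ a i * t i = a j * t j ∧
      (∀ k ∈ S, ¬ Odd (t k) → g k ≠ 0 → k = r) ∧ ∃ c, U c ∧
      ∀ f : ι → ℂ, ∑ k ∈ S, g k * f k = 0 → f r = c * (t i * f i + t j * f j) := by
    rintro i j r n1 n2 n3 rfl hr
    have hs : ∀ {A : Type} [Ring A] (f : ι → A), ∑ k ∈ {i, j, r}, f k = f i + f j + f r :=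
      fun f => by rw [sum_insert (by simp [*]), sum_pair n3, add_assoc]
    have si : i ∈ S := hT (by simp)
    have sj : j ∈ S := hT (by simp)
    have sr : r ∈ S := hT (by simp)
    have gi := c2 i (by simp)
    have gj := c2 j (by simp)
    have gr := c2 r (by simp)
    obtain ⟨r1, r2⟩ := h2 r sr hr
    rw [hs] at ht ha
    rw [r2] at ha
    have oi : Odd (t i) := by_contra fun e => by
      rw [(h2 i si e).2] at ha
      by_cases e' : Odd (t j)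
      · rcases gj with e1 | e1 <;> rcases (h1 j sj e').2 with e2 | e2 <;> simp [e1, e2] at ha
      · simp [(h2 j sj e').2] at ha
    have oj : Odd (t j) := by_contra fun e => by
      rw [(h2 j sj e).2] at ha
      rcases gi with e1 | e1 <;> rcases (h1 i si oi).2 with e2 | e2 <;> simp [e1, e2] at ha
    obtain ⟨ti, ai⟩ := h1 i si oi
    obtain ⟨tj, aj⟩ := h1 j sj oj
    have e1 : g i * t i = g j * t j := by
      rcases gi with e1 | e1 <;> rcases gj with e2 | e2 <;> rcases ti with e3 | e3 <;>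
        rcases tj with e4 | e4 <;> rcases gr with e5 | e5 <;> rcases r1 with e6 | e6 <;>
        simp only [e1, e2, e3, e4, e5, e6] at ht ⊢ <;> first | rfl | exact absurd ht (by decide)
    refine ⟨i, si, j, sj, r, sr, oi, oj, n1, ?_, fun k hk e e' => ?_, -(g r * (g i * t i)), ?_,
      fun f hf => ?_⟩
    · rcases gi with e1 | e1 <;> rcases gj with e2 | e2 <;> rcases ti with e3 | e3 <;>
        rcases tj with e4 | e4 <;> rcases ai with e5 | e5 <;> rcases aj with e6 | e6 <;>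
        simp only [*] at * <;> omega
    · have := not_imp_comm.1 (c3 k hk) e'
      simp only [mem_insert, mem_singleton] at this
      rcases this with rfl | rfl | rfl
      exacts [absurd oi e, absurd oj e, rfl]
    · rcases gi with e1 | e1 <;> rcases gr with e2 | e2 <;> rcases ti with e3 | e3 <;>
        simp [U, e1, e2, e3]
    · rw [c4, hs] at hf
      have k1 : (g r : ℂ) ^ 2 = 1 := by exact_mod_cast gr.sq
      have k2 : (t i : ℂ) ^ 2 = 1 := by exact_mod_cast ti.sq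
      have k3 : (t j : ℂ) ^ 2 = 1 := by exact_mod_cast tj.sq
      have k4 : (g i : ℂ) * t i = g j * t j := by exact_mod_cast e1
      push_cast
      linear_combination g r * hf - f r * k1 + g r * g i * f i * k2 + g r * g j * f j * k3 +
        g r * t j * f j * k4
  obtain ⟨i, j, r, n1, n2, n3, e⟩ := card_eq_three.1 c1
  by_cases hr : Odd (t r)
  swap
  · exact key i j r n1 n2 n3 e hr
  by_cases hj : Odd (t j)
  swap
  · exact key i r j n2 n1 n3.symm (by rw [e, pair_comm]) hj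
  by_cases hi : Odd (t i)
  swap
  · exact key j r i n3 n1.symm n2.symm (by rw [e, insert_comm, pair_comm]) hi
  rw [e, sum_insert (by simp [*]), sum_pair n3] at ha
  have hu : ∀ k ∈ T, Odd (t k) → U (g k * a k) := fun k hk e => by
    rcases c2 k hk with e1 | e1 <;> rcases (h1 k (hT hk) e).2 with e2 | e2 <;> simp [U, e1, e2]
  have u1 := hu i (by simp [e]) hi
  have u2 := hu j (by simp [e]) hj
  have u3 := hu r (by simp [e]) hr
  unfold U at u1 u2 u3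
  omega

theorem glue {I J : Type*} [Fintype I] [Fintype J] [DecidableEq I] [DecidableEq J] {n : ℕ}
    (hI : Fintype.card I = n + 1) (hJ : Fintype.card J = n) (hn : 3 ≤ n) {g : I → J → ι → ℤ}
    (hg : ∀ i j k l, ∑ x ∈ S, g i j x * g k l x = (if i = k then 1 else 0) + if j = l then 1 else 0)
    {c : ℤ} (hc : c = 4 ∨ c = -4) (ht : ∀ i j, ∑ x ∈ S, g i j x * t x = c)
    (hO : #{i ∈ S | Odd (t i)} = 4) (h2 : ∀ i ∈ S, ¬ Odd (t i) → t i = 2 ∨ t i = -2)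
    (hk : #S = 2 * n + 3) (h12 : ∑ i ∈ S with Odd (t i), t i ^ 2 = 12) : False := by
  by_cases h : ∀ i j, ∀ x ∈ S, Odd (t x) → g i j x = 0
  · have h1 := card_filter_add_card_filter_not (s := S) fun i => Odd (t i)
    have h3 : ∀ f : ι → ℤ, ∑ x ∈ S with ¬ Odd (t x), (∑ i, ∑ j, g i j x) * f x =
        ∑ i, ∑ j, ∑ x ∈ S, g i j x * f x := fun f => by
      rw [sum_filter_of_ne (p := fun x => ¬ Odd (t x)) fun x hx e e' => e (by simp [h _ _ x hx e'])]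
      simp only [sum_mul, sum_comm (s := S)]
    have h4 := sum_mul_sq_le_sq_mul_sq {x ∈ S | ¬ Odd (t x)} (fun x => ∑ i, ∑ j, g i j x) t
    rw [h3, sum_congr rfl (f := fun x => t x ^ 2) (g := fun _ => 4) fun x hx => by
      rcases h2 x (mem_filter.1 hx).1 (mem_filter.1 hx).2 with e | e <;> simp [e]] at h4
    have h5 : ∀ i j, ∑ x ∈ S, g i j x * ∑ k, ∑ l, g k l x = 2 * n + 1 := fun i j => by
      simp only [mul_sum, sum_comm (s := S), hg]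
      simp [sum_add_distrib, hI, hJ]
      ring
    simp only [sq (∑ i, ∑ j, g i j _), h3, h5, ht, sum_const, card_univ, hI, hJ,
      nsmul_eq_mul] at h4
    rw [show (#{x ∈ S | ¬ Odd (t x)} : ℤ) = 2 * n - 1 by omega] at h4
    have : (3 : ℤ) ≤ n := by exact_mod_cast hn
    push_cast at h4
    rcases hc with rfl | rfl <;> nlinarith [mul_pos (mul_pos (by omega : (0 : ℤ) < n)
      (by omega : (0 : ℤ) < n + 1)) (by omega : (0 : ℤ) < n)]
  push Not at h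
  obtain ⟨i0, j0, x0, hx0, o0, g0⟩ := h
  obtain ⟨s, hs, s1⟩ : ∃ s ∈ {i ∈ S | Odd (t i)}, 4 ≤ t s ^ 2 := by
    by_contra h
    push Not at h
    have := sq_card fun i hi => unit_of_lt (h i hi)
    have := card_filter_le {i ∈ S | Odd (t i)} fun i => Odd (t i)
    omega
  have s2 := card_erase_add_one hs
  rw [← add_sum_erase _ _ hs] at h12
  obtain ⟨s3, s4⟩ := sq_odd (S := {i ∈ S | Odd (t i)}.erase s) (t := t) fun i hi =>
    (mem_filter.1 (mem_erase.1 hi).2).2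
  obtain ⟨s5, s6⟩ := s4 (by omega)
  have s7 : t s = 3 ∨ t s = -3 := sq_eq_sq_iff_eq_or_eq_neg.1 (by omega)
  have P : ∀ i, (∃ x ∈ S, Odd (t x) ∧ g i j0 x ≠ 0) → ∃ l ∈ {i ∈ S | Odd (t i)}.erase s,
      4 * (g i j0 s * t s) = 3 * c ∧ 4 * (g i j0 l * t l) = c ∧
      ∀ f : ι → ℤ, ∑ x ∈ S, g i j0 x * f x = g i j0 s * f s + g i j0 l * f l := by
    rintro i ⟨x, hx, ox, gx⟩
    obtain ⟨T, hT, c1, c2, c3, c4⟩ := exists_units (S := S) (g := g i j0) (n := 2) (by norm_num)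
      (by simpa [sq] using hg i j0 i j0)
    obtain ⟨p, q, hpq, rfl, op⟩ : ∃ p q, p ≠ q ∧ T = {p, q} ∧ Odd (t p) := by
      obtain ⟨p, q, hpq, rfl⟩ := card_eq_two.1 c1
      rcases mem_insert.1 (not_imp_comm.1 (c3 x hx) gx) with rfl | e
      exacts [⟨_, _, hpq, rfl, ox⟩, ⟨_, _, hpq.symm, pair_comm _ _, mem_singleton.1 e ▸ ox⟩]
    have c5 : ∀ f : ι → ℤ, ∑ x ∈ S, g i j0 x * f x = g i j0 p * f p + g i j0 q * f q := fun f => by
      simpa [sum_pair hpq] using c4 f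
    have c6 := (c5 t).symm.trans (ht i j0)
    have gp := c2 p (by simp)
    have gq := c2 q (by simp)
    have oq : Odd (t q) := by
      rw [Int.odd_iff] at op ⊢
      rcases gp with e | e <;> rcases gq with e' | e' <;> rw [e, e'] at c6 <;> omega
    have mp : p ≠ s → p ∈ {i ∈ S | Odd (t i)}.erase s := fun e =>
      mem_erase.2 ⟨e, mem_filter.2 ⟨hT (by simp), op⟩⟩
    have mq : q ≠ s → q ∈ {i ∈ S | Odd (t i)}.erase s := fun e =>
      mem_erase.2 ⟨e, mem_filter.2 ⟨hT (by simp), oq⟩⟩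
    by_cases e1 : p = s
    · subst e1
      have := s5 q (mq hpq.symm)
      refine ⟨q, mq hpq.symm, ?_, ?_, c5⟩ <;> rcases gp with e | e <;> rcases gq with e' | e' <;>
        rw [e, e'] at c6 <;> simp only [e, e'] <;> omega
    by_cases e2 : q = s
    · subst e2
      have := s5 p (mp e1)
      refine ⟨p, mp e1, ?_, ?_, fun f => (c5 f).trans (add_comm _ _)⟩ <;> rcases gp with e | e <;>
        rcases gq with e' | e' <;> rw [e, e'] at c6 <;> simp only [e, e'] <;> omega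
    have := s5 p (mp e1)
    have := s5 q (mq e2)
    rcases gp with e | e <;> rcases gq with e' | e' <;> rw [e, e'] at c6 <;> omega
  obtain ⟨l0, m0, -, -, p0⟩ := P i0 ⟨x0, hx0, o0, g0⟩
  choose l l1 l2 l3 l4 using fun i => P i (by
    by_contra h
    push Not at h
    have h1 := hg i0 j0 i j0
    have h3 := mem_filter.1 (mem_erase.1 m0).2
    rw [p0, h s (mem_filter.1 hs).1 (mem_filter.1 hs).2, h l0 h3.1 h3.2] at h1
    simp only [mul_zero, if_true] at h1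
    split_ifs at h1 <;> omega)
  obtain ⟨i, -, k, -, hik, e⟩ := exists_ne_map_eq_of_card_lt_of_maps_to (s := univ)
    (t := {i ∈ S | Odd (t i)}.erase s) (by rw [card_univ]; omega) fun i _ => l1 i
  have h1 := hg i j0 k j0
  have h3 := l2 i
  have h4 := l2 k
  have h5 := l3 i
  have h6 := l3 k
  rw [l4, if_neg hik, if_pos rfl] at h1
  rw [← e] at h6
  rcases s7 with e1 | e1 <;> rcases s5 _ (l1 i) with e2 | e2 <;> rw [e1] at h3 h4 <;>
    rw [e2] at h5 h6 <;> rw [show g k j0 s = g i j0 s by omega,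
      show g k j0 (l i) = g i j0 (l i) by omega, ← l4, hg] at h1 <;> simp at h1

end Cfsg.Agent.Block.TN
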