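import Mathlib
import Cfsg.Agent.Block.Tame3
import Cfsg.Agent.Block.TameN
import Cfsg.Agent.Block.KB

/-! Tame defect groups: the lattice of a major subsection. -/

namespace Cfsg.Agent.Block

open Cfsg Cfsg.Agent.Char Subgroup
open scoped ComplexConjugate Classical

variable {G K : Type*} [Group G] [Finite G] [Group K] [Finite K] {M : Ideal AlgInt}
  {B : Set (IrrCharacter G)} {b : Set (IrrCharacter K)} {f0 f1 f2 : K → ℂ} {m : ℕ}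
  {P : IrrCharacter G → K → ℂ} {a : IrrCharacter G → ℤ}

/-- Coordinates for the regular parts of the generalized characters of a block. -/
structure Lat (w c : ℕ) (b : Set (IrrCharacter K)) (f0 f1 f2 : K → ℂ) : Prop where
  b0 : blockPart b f0 = f0
  b1 : blockPart b f1 = f1
  b2 : blockPart b f2 = f2
  span : ∀ x, IsGeneralizedCharacter K x → blockPart b x = x → ∃ t β γ : ℤ, Even (t + β + γ) ∧
    ∀ s, ¬ 2 ∣ orderOf s → x s = (((t : ℂ) • f0 + (β : ℂ) • f1 + (γ : ℂ) • f2 : K → ℂ)) s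
  g0 : w * bf 2 f0 f0 = 1
  g1 : bf 2 f0 f1 = 0
  g2 : bf 2 f0 f2 = 0
  cases : (blockRank 2 b = 3 ∧ c * bf 2 f1 f1 = 1 ∧ c * bf 2 f2 f2 = 1 ∧ bf 2 f1 f2 = 0) ∨
    (blockRank 2 b = 2 ∧ 2 * c * bf 2 f1 f1 = 1 ∧ ∀ s, ¬ 2 ∣ orderOf s → f2 s = f1 s) ∨
    (blockRank 2 b = 1 ∧ ∀ s, ¬ 2 ∣ orderOf s → f1 s = 0 ∧ f2 s = 0)

/-- The rows of a major subsection. -/
structure Sys (M : Ideal AlgInt) (B : Set (IrrCharacter G)) (m : ℕ) (b : Set (IrrCharacter K))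
    (P : IrrCharacter G → K → ℂ) (a : IrrCharacter G → ℤ) : Prop where
  ne : B.Nonempty
  gen : ∀ χ ∈ B, IsGeneralizedCharacter K (P χ) ∧ blockPart b (P χ) = P χ
  frame : ∀ x y, blockPart b x = x → blockPart b y = y →
    ∑ χ with χ ∈ B, bf 2 (P χ) x * bf 2 (P χ) y = bf 2 x y
  ht : ∀ χ ∈ B, ∀ ψ ∈ B, blockHeight 2 B ψ.1 = 0 →
    val M (2 ^ (m + 3) * bf 2 (P χ) (P ψ)) = val M 2 ^ blockHeight 2 B χ.1
  ht0 : ∀ χ ∈ B, val M (2 ^ (m + 3) * bf 2 (P χ) (P χ)) = 1 ↔ blockHeight 2 B χ.1 = 0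
  a1 : ∑ χ with χ ∈ B, a χ ^ 2 = 4
  a2 : ∀ χ ∈ B, Odd (a χ) ↔ blockHeight 2 B χ.1 = 0
  a3 : ∀ s, ¬ 2 ∣ orderOf s → ∑ χ with χ ∈ B, a χ * P χ s = 0

/-- The heights in a tame block. -/
def HS (B : Set (IrrCharacter G)) (m : ℕ) : Prop :=
  ∃ R : Finset (IrrCharacter G), (∀ χ ∈ R, χ ∈ B ∧ blockHeight 2 B χ.1 = 1) ∧
    R.card + 1 = 2 ^ (m + 1) ∧
    ∀ χ ∈ B, blockHeight 2 B χ.1 = 0 ∨ χ ∈ R ∨ blockHeight 2 B χ.1 = m + 1

theorem mem_bS {χ : IrrCharacter G} : χ ∈ Finset.univ.filter (· ∈ B) ↔ χ ∈ B := by simp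

theorem card_bS : (Finset.univ.filter (· ∈ B)).card = Nat.card B := by
  rw [Nat.card_eq_fintype_card, Fintype.card_subtype]

theorem val_odd (hM : IsPModular 2 M) {n : ℤ} : val M (n : ℂ) = 1 ↔ Odd n := by
  rw [val_intCast_eq_one_iff hM, ← Int.not_even_iff_odd, even_iff_two_dvd, Nat.cast_ofNat]

theorem odd_aux (t c x : ℤ) (m : ℕ) (h : c = 2 ^ (m + 1)) : Odd (t * t + c * x) ↔ Odd t := by
  simp [h, pow_succ, parity_simps, Int.odd_mul]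

theorem odd_aux' {t β γ : ℤ} (h : Even (t + β + γ)) :
    ¬ Odd (t * t + 2 ^ 0 * ((β + γ) * (β + γ))) := by
  rw [add_assoc] at h
  generalize β + γ = c at h
  simpa [parity_simps, Int.odd_mul, ← Int.not_even_iff_odd] using h

theorem Sys.hs (hM : IsPModular 2 M) (h : Sys M B m b P a) {t : IrrCharacter G → ℤ}
    {A : IrrCharacter G → IrrCharacter G → ℤ} (ht : ∀ χ ∈ B, Odd (t χ) ↔ blockHeight 2 B χ.1 = 0)
    (hA : ∀ χ ∈ B, ∀ ψ ∈ B, 2 ^ (m + 3) * bf 2 (P χ) (P ψ) = A χ ψ)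
    (hs : TN.Shape (Finset.univ.filter (· ∈ B)) (2 ^ (m + 1)) t A) : HS B m := by
  obtain ⟨R, h1, h2, h3, h4⟩ := hs
  have h5 : ∀ χ ∈ B, ∀ ψ ∈ B, Odd (t ψ) → ∀ (n : ℕ) (c : ℤ), Odd c → A χ ψ = 2 ^ n * c →
      blockHeight 2 B χ.1 = n := fun χ hχ ψ hψ e n c hc e' => by
    have := h.ht χ hχ ψ hψ ((ht ψ hψ).1 e)
    rw [hA χ hχ ψ hψ, e', Int.cast_mul, map_mul, (val_odd hM).2 hc, mul_one, Int.cast_pow,
      map_pow, Int.cast_ofNat] at this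
    exact ((val_p_pow_inj hM).1 this).symm
  refine ⟨R, fun χ hχ => ⟨mem_bS.1 (h1 hχ), ?_⟩, h2, fun χ hχ => ?_⟩
  · obtain ⟨ψ, hψ, e, e'⟩ := h3 χ hχ
    exact h5 χ (mem_bS.1 (h1 hχ)) ψ (mem_bS.1 hψ) e 1 (A χ ψ / 2) (Int.odd_iff.2 (by omega))
      (by omega)
  · refine (h4 χ (mem_bS.2 hχ)).imp (ht χ hχ).1 (Or.imp_right ?_)
    rintro ⟨ψ, hψ, e, e' | e'⟩
    · exact h5 χ hχ ψ (mem_bS.1 hψ) e _ 1 odd_one (by simp [e'])
    · exact h5 χ hχ ψ (mem_bS.1 hψ) e _ (-1) odd_neg_one (by simp [e'])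

theorem Sys.four (h : Sys M B m b P a) :
    ((Finset.univ.filter (· ∈ B)).filter fun χ => Odd (a χ)).card = 4 ∧
    (∀ χ ∈ B, Odd (a χ) → a χ = 1 ∨ a χ = -1) ∧ ∀ χ ∈ B, ¬ Odd (a χ) → a χ = 0 := by
  obtain ⟨χ, hχ, h0⟩ := exists_height_zero (p := 2) h.ne
  simpa only [mem_bS] using TN.four_of_odd h.a1 ⟨χ, mem_bS.2 hχ, (h.a2 χ hχ).2 h0⟩

theorem Sys.orth (h : Sys M B m b P a) (g : K → ℂ) :
    ∑ χ with χ ∈ B, a χ * bf 2 (P χ) g = 0 := by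
  simp only [← bf_smul_left, ← bf_sum_left]
  rw [bf_congr_left (f' := 0) fun s hs => by simpa using h.a3 s hs, bf_zero_left]

theorem Sys.main (hM : IsPModular 2 M) (h : Sys M B m b P a) (hL : Lat (2 ^ (m + 3)) 4 b f0 f1 f2)
    (hk : 2 ^ (m + 1) + blockRank 2 b ≤ Nat.card B) : ∃ t : IrrCharacter G → ℤ,
      (∀ χ ∈ B, 2 ^ (m + 3) * bf 2 (P χ) f0 = t χ) ∧
      (∀ χ ∈ B, Odd (t χ) ↔ blockHeight 2 B χ.1 = 0) ∧
      ((blockRank 2 b = 3 ∧ Nat.card B ≤ 2 ^ (m + 1) + 5 ∧ HS B m) ∨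
      (blockRank 2 b = 2 ∧ HS B m ∧ (Nat.card B = 2 ^ (m + 1) + 4 ∨ Nat.card B = 2 ^ (m + 1) + 3 ∧
        ∃ c : ℂ, ∀ χ ∈ B, blockHeight 2 B χ.1 = 0 → bf 2 (P χ) f0 * bf 2 (P χ) f1 = c)) ∨
      (blockRank 2 b = 1 ∧ (∀ χ ∈ B, ¬ Odd (t χ) → t χ = 2 ∨ t χ = -2) ∧
        (∀ χ ∈ B, ∀ ψ ∈ B, 2 ^ (m + 3) * bf 2 (P χ) (P ψ) = t χ * t ψ) ∧
        ((Nat.card B = 2 ^ (m + 1) + 3 ∧ HS B m ∧ ∀ χ ∈ B, Odd (t χ) → t χ = 1 ∨ t χ = -1) ∨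
        (Nat.card B = 2 ^ (m + 1) + 1 ∧
          ∑ χ ∈ Finset.univ.filter (· ∈ B) with Odd (t χ), t χ ^ 2 = 12)))) := by
  choose! t β γ hp hr using fun χ hχ => hL.span _ (h.gen χ hχ).1 (h.gen χ hχ).2
  have e1 : ∀ χ ∈ B, ∀ g, bf 2 (P χ) g = t χ * bf 2 f0 g + β χ * bf 2 f1 g + γ χ * bf 2 f2 g :=
    fun χ hχ g => by simp only [bf_congr_left (hr χ hχ), bf_add_left, bf_smul_left]
  have g0 := hL.g0
  have g1 := hL.g1
  have g2 := hL.g2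
  have g1' := (bf_symm _ _).trans g1
  have g2' := (bf_symm _ _).trans g2
  push_cast at g0
  have hw : (2 : ℂ) ^ (m + 3) = 4 * 2 ^ (m + 1) := by ring
  have e2 : ∀ χ ∈ B, 2 ^ (m + 3) * bf 2 (P χ) f0 = t χ := fun χ hχ => by
    rw [e1 χ hχ, g1', g2']; linear_combination t χ * g0
  have fr : ∀ (x y : K → ℂ) (c d : ℂ) (r s : IrrCharacter G → ℤ) (n : ℤ), blockPart b x = x →
      blockPart b y = y → (∀ χ ∈ B, c * bf 2 (P χ) x = r χ) → (∀ χ ∈ B, d * bf 2 (P χ) y = s χ) →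
      c * d * bf 2 x y = n → ∑ χ with χ ∈ B, r χ * s χ = n := fun x y c d r s n hx hy hr hs e => by
    rw [← h.frame x y hx hy, Finset.mul_sum] at e
    refine Int.cast_injective (α := ℂ) ?_
    rw [← e, Int.cast_sum]
    exact Finset.sum_congr rfl fun χ hχ => by
      rw [Int.cast_mul, ← hr χ (mem_bS.1 hχ), ← hs χ (mem_bS.1 hχ)]; ring
  have or : ∀ (x : K → ℂ) (c : ℂ) (r : IrrCharacter G → ℤ), (∀ χ ∈ B, c * bf 2 (P χ) x = r χ) →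
      ∑ χ with χ ∈ B, a χ * r χ = 0 := fun x c r hr => by
    refine Int.cast_injective (α := ℂ) ?_
    rw [Int.cast_zero, ← mul_zero c, ← h.orth x, Finset.mul_sum, Int.cast_sum]
    exact Finset.sum_congr rfl fun χ hχ => by rw [Int.cast_mul, ← hr χ (mem_bS.1 hχ)]; ring
  have tt : ∑ χ with χ ∈ B, t χ ^ 2 = 4 * (2 ^ (m + 1) : ℕ) := by
    simp only [sq]
    exact fr f0 f0 _ _ t t _ hL.b0 hL.b0 e2 e2 (by push_cast; linear_combination 2 ^ (m + 3) * g0)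
  have key : ∀ A : IrrCharacter G → IrrCharacter G → ℤ,
      (∀ χ ∈ B, ∀ ψ ∈ B, 2 ^ (m + 3) * bf 2 (P χ) (P ψ) = A χ ψ) →
      (∀ χ ∈ B, Odd (A χ χ) ↔ blockHeight 2 B χ.1 = 0) ∧
      ∀ χ ∈ B, ∀ ψ ∈ B, blockHeight 2 B ψ.1 = 0 → A χ ψ ≠ 0 := fun A hA =>
    ⟨fun χ hχ => by rw [← h.ht0 χ hχ, hA χ hχ χ hχ, val_odd hM], fun χ hχ ψ hψ e e' => by
      have := h.ht χ hχ ψ hψ e
      rw [hA χ hχ ψ hψ, e', Int.cast_zero, map_zero] at this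
      exact pow_ne_zero _ (val_p_ne_zero hM) this.symm⟩
  obtain ⟨a1, -, -⟩ := h.four
  obtain ⟨χ₀, hχ₀, h0⟩ := exists_height_zero (p := 2) h.ne
  have hO : (∀ χ ∈ B, Odd (t χ) ↔ blockHeight 2 B χ.1 = 0) →
      ((Finset.univ.filter (· ∈ B)).filter fun χ => Odd (t χ)).card = 4 := fun ho => by
    rw [← a1, Finset.filter_congr fun χ hχ => (ho χ (mem_bS.1 hχ)).trans
      (h.a2 χ (mem_bS.1 hχ)).symm]
  rw [← card_bS] at hk ⊢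
  refine ⟨t, e2, ?_⟩
  rcases hL.cases with ⟨r, c1, c2, c3⟩ | ⟨r, c1, c2⟩ | ⟨r, c1⟩
  · have c3' := (bf_symm _ _).trans c3
    push_cast at c1 c2
    have e3 : ∀ χ ∈ B, 4 * bf 2 (P χ) f1 = β χ := fun χ hχ => by
      rw [e1 χ hχ, g1, c3']; linear_combination β χ * c1
    have e4 : ∀ χ ∈ B, 4 * bf 2 (P χ) f2 = γ χ := fun χ hχ => by
      rw [e1 χ hχ, g2, c3]; linear_combination γ χ * c2
    have hA : ∀ χ ∈ B, ∀ ψ ∈ B, 2 ^ (m + 3) * bf 2 (P χ) (P ψ) =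
        (t χ * t ψ + (2 ^ (m + 1) : ℕ) * (β χ * β ψ + γ χ * γ ψ) : ℤ) := fun χ hχ ψ hψ => by
      rw [e1 χ hχ, bf_symm f0, bf_symm f1, bf_symm f2]
      push_cast
      linear_combination t χ * e2 ψ hψ + 2 ^ (m + 1) * β χ * e3 ψ hψ + 2 ^ (m + 1) * γ χ * e4 ψ hψ
    obtain ⟨k1, k2⟩ := key _ hA
    have ho : ∀ χ ∈ B, Odd (t χ) ↔ blockHeight 2 B χ.1 = 0 := fun χ hχ => by
      rw [← k1 χ hχ, odd_aux _ _ _ m (by simp)]
    obtain ⟨n1, n2⟩ := TN.num3 (hO ho) tt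
      (by simpa only [sq] using fr f1 f1 _ _ β β 4 hL.b1 hL.b1 e3 e3 (by linear_combination 4 * c1))
      (by simpa only [sq] using fr f2 f2 _ _ γ γ 4 hL.b2 hL.b2 e4 e4 (by linear_combination 4 * c2))
      (fr f0 f1 _ _ t β 0 hL.b0 hL.b1 e2 e3 (by simp [g1]))
      (fr f0 f2 _ _ t γ 0 hL.b0 hL.b2 e2 e4 (by simp [g2]))
      (fr f1 f2 _ _ β γ 0 hL.b1 hL.b2 e3 e4 (by simp [c3])) (fun χ hχ => hp χ (mem_bS.1 hχ))
      (fun χ hχ ψ hψ e => k2 χ (mem_bS.1 hχ) ψ (mem_bS.1 hψ) ((ho ψ (mem_bS.1 hψ)).1 e))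
      (r ▸ hk) (by rcases m with _ | m; exacts [Or.inl rfl, Or.inr ⟨2 ^ m, by ring⟩])
    exact ⟨ho, Or.inl ⟨r, n1, h.hs hM ho hA n2⟩⟩
  · push_cast at c1
    have e3 : ∀ χ ∈ B, 8 * bf 2 (P χ) f1 = (β χ + γ χ : ℤ) := fun χ hχ => by
      rw [e1 χ hχ, g1, bf_congr_left c2]; push_cast; linear_combination (β χ + γ χ) * c1
    have hA : ∀ χ ∈ B, ∀ ψ ∈ B, 2 ^ (m + 3) * bf 2 (P χ) (P ψ) =
        (t χ * t ψ + 2 ^ m * ((β χ + γ χ) * (β ψ + γ ψ)) : ℤ) := fun χ hχ ψ hψ => by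
      have := e3 ψ hψ
      rw [e1 χ hχ, bf_congr_left c2, bf_symm f0, bf_symm f1]
      push_cast at this ⊢
      linear_combination t χ * e2 ψ hψ + 2 ^ m * (β χ + γ χ) * this
    obtain ⟨k1, k2⟩ := key _ hA
    obtain ⟨n, rfl⟩ : ∃ n, m = n + 1 := by
      rcases m with _ | m
      · exact absurd ((k1 χ₀ hχ₀).2 h0) (odd_aux' (hp χ₀ hχ₀))
      · exact ⟨m, rfl⟩
    have ho : ∀ χ ∈ B, Odd (t χ) ↔ blockHeight 2 B χ.1 = 0 := fun χ hχ => by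
      rw [← k1 χ hχ, odd_aux _ _ _ n rfl]
    obtain ⟨n1, π, hπ, n2, n3, n4, n5⟩ := TN.num2 (β := fun χ => β χ + γ χ) h.a1
      ⟨χ₀, mem_bS.2 hχ₀, (h.a2 _ hχ₀).2 h0⟩
      (fun χ hχ => (h.a2 χ (mem_bS.1 hχ)).trans (ho χ (mem_bS.1 hχ)).symm) tt
      (by simpa only [sq] using fr f1 f1 _ _ _ _ 8 hL.b1 hL.b1 e3 e3 (by linear_combination 8 * c1))
      (fr f0 f1 _ _ t _ 0 hL.b0 hL.b1 e2 e3 (by simp [g1]))
      (fun χ hχ => add_assoc (t χ) _ _ ▸ hp χ (mem_bS.1 hχ)) (or _ _ _ e2) (or _ _ _ e3)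
      (fun χ hχ => by
        by_contra e
        push Not at e
        exact k2 χ (mem_bS.1 hχ) χ₀ hχ₀ h0 (by simp [e.1, e.2])) (by rwa [r] at hk)
    have o0 := (ho χ₀ hχ₀).2 h0
    obtain ⟨u1, u2⟩ := n1 χ₀ (mem_bS.2 hχ₀) o0
    set E := ((Finset.univ.filter (· ∈ B)).filter fun χ => ¬ Odd (t χ)).erase π with hE
    have hE1 : E.card + 5 = (Finset.univ.filter (· ∈ B)).card := by
      have := Finset.card_filter_add_card_filter_not (s := Finset.univ.filter (· ∈ B))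
        fun χ => Odd (t χ)
      have := Finset.card_erase_add_one (Finset.mem_filter.2 ⟨hπ, n2⟩ :
        π ∈ (Finset.univ.filter (· ∈ B)).filter fun χ => ¬ Odd (t χ))
      have := hO ho
      rw [hE]
      omega
    have hE2 : E ⊆ Finset.univ.filter (· ∈ B) :=
      (Finset.erase_subset _ _).trans (Finset.filter_subset _ _)
    have hE3 : ∀ χ ∈ E, ∃ ψ ∈ Finset.univ.filter (· ∈ B), Odd (t ψ) ∧
        (t χ * t ψ + 2 ^ (n + 1) * ((β χ + γ χ) * (β ψ + γ ψ))) % 4 = 2 := fun χ hχ => by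
      obtain ⟨x1, x2⟩ := Finset.mem_erase.1 hχ
      obtain ⟨x3, x4⟩ := n4 χ (hE2 hχ) (Finset.mem_filter.1 x2).2 x1
      refine ⟨χ₀, mem_bS.2 hχ₀, o0, ?_⟩
      rcases x3 with x3 | x3 <;> rcases u1 with u1 | u1 <;> simp [x3, x4, u1]
    have hE4 : ∀ χ ∈ Finset.univ.filter (· ∈ B), Odd (t χ) ∨ χ ∈ E ∨ χ = π := fun χ hχ =>
      (em _).imp_right fun e => (em' _).imp_left fun e' =>
        Finset.mem_erase.2 ⟨e', Finset.mem_filter.2 ⟨hχ, e⟩⟩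
    refine ⟨ho, Or.inr (Or.inl ⟨r, h.hs hM ho hA ?_, n5.imp (·.1) fun e => ⟨e.1,
      -(t π * (β π + γ π) : ℤ) / (4 * 8 * 2 ^ (n + 1 + 3)), fun χ hχ e' => ?_⟩⟩)⟩
    · rcases n5 with ⟨x1, x2⟩ | ⟨x1, x2, -⟩
      · refine ⟨E, hE2, by omega, hE3, fun χ hχ => (hE4 χ hχ).imp_right (Or.imp_right ?_)⟩
        rintro rfl
        refine ⟨χ₀, mem_bS.2 hχ₀, o0, ?_⟩
        rcases n3 with x3 | x3 <;> rcases u2 with u2 | u2 <;> simp [x2, x3, u2, pow_succ]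
      · refine ⟨insert π E, Finset.insert_subset hπ hE2, by
          rw [Finset.card_insert_of_notMem (Finset.notMem_erase _ _), ← hE]; omega,
          Finset.forall_mem_insert .. |>.2 ⟨⟨χ₀, mem_bS.2 hχ₀, o0, ?_⟩, hE3⟩,
          fun χ hχ => (hE4 χ hχ).imp_right fun e => Or.inl (Finset.mem_insert.2 e.symm)⟩
        rcases n3 with x3 | x3 <;> rcases u2 with u2 | u2 <;> rcases u1 with u1 | u1 <;>
          rcases x2 with x2 | x2 <;> simp only [x2, x3, u1, u2, pow_succ] <;> omega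
    · have := congrArg (Int.cast : ℤ → ℂ) (e.2.2 χ (mem_bS.2 hχ) ((ho χ hχ).2 e'))
      rw [Int.cast_mul, Int.cast_mul, ← e2 χ hχ, ← e3 χ hχ, Int.cast_neg] at this
      rw [eq_div_iff (by simp), ← this]
      push_cast; ring
  · have hA : ∀ χ ∈ B, ∀ ψ ∈ B, 2 ^ (m + 3) * bf 2 (P χ) (P ψ) = (t χ * t ψ : ℤ) :=
      fun χ hχ ψ hψ => by
        rw [e1 χ hχ, bf_congr_left (f' := 0) fun s hs => (c1 s hs).1,
          bf_congr_left (f := f2) (f' := 0) fun s hs => (c1 s hs).2, bf_zero_left, bf_symm f0]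
        push_cast
        linear_combination t χ * e2 ψ hψ
    obtain ⟨k1, k2⟩ := key _ hA
    have ho : ∀ χ ∈ B, Odd (t χ) ↔ blockHeight 2 B χ.1 = 0 := fun χ hχ => by
      rw [← k1 χ hχ, Int.odd_mul, and_self]
    obtain ⟨n1, n2⟩ := TN.num1 (hO ho) tt
      (fun χ hχ => left_ne_zero_of_mul (k2 χ (mem_bS.1 hχ) χ₀ hχ₀ h0)) (r ▸ hk)
    simp only [mem_bS] at n1
    refine ⟨ho, Or.inr (Or.inr ⟨r, n1, by exact_mod_cast hA, n2.imp_left fun e =>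
      ⟨e.1, h.hs hM ho hA ⟨(Finset.univ.filter (· ∈ B)).filter fun χ => ¬ Odd (t χ),
        Finset.filter_subset _ _, ?_, fun χ hχ => ⟨χ₀, mem_bS.2 hχ₀, (ho _ hχ₀).2 h0, ?_⟩,
        fun χ hχ => (em _).imp_right fun e => Or.inl (Finset.mem_filter.2 ⟨hχ, e⟩)⟩,
        fun χ hχ => e.2 χ (mem_bS.2 hχ)⟩⟩)⟩
    · have := Finset.card_filter_add_card_filter_not (s := Finset.univ.filter (· ∈ B))
        fun χ => Odd (t χ)
      have := hO ho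
      omega
    · obtain ⟨x1, x2⟩ := Finset.mem_filter.1 hχ
      rcases n1 χ (mem_bS.1 x1) x2 with x3 | x3 <;>
        rcases e.2 χ₀ (mem_bS.2 hχ₀) ((ho _ hχ₀).2 h0) with x4 | x4 <;> simp [x3, x4]

end Cfsg.Agent.Block
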