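import Mathlib
import Cfsg.Agent.Block.Tame4

/-! Tame defect groups: major subsections, passage to the centralizer of the central involution. -/

namespace Cfsg.Agent.Block

open Cfsg Cfsg.Agent.Char Subgroup MonoidAlgebra
open Cfsg.Agent.LocalEven hiding isPGroup_zpowers_of_orderOf
open scoped ComplexConjugate Classical

variable {G : Type*} [Group G] [Finite G] {p : ℕ} {M : Ideal AlgInt} {B : Set (IrrCharacter G)}
  {d : BrauerPairIdx G} {m : ℕ} {x y : G} {a : IrrCharacter G → ℤ}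

section Lift

variable {H : Subgroup G} {b b' : BrauerPairIdx H} {c c' : BrauerPairIdx G}

theorem Lift.smul_iff' (h : Lift H b c) (h' : Lift H b' c') (e : c.1 = b.1.map H.subtype)
    (e' : c'.1 = b'.1.map H.subtype) {t : H} : t • b = b' ↔ (t : G) • c = c' := by
  have h1 : ((t : G) • c).1 = (t • b).1.map H.subtype := by
    rw [fst_smul, fst_smul, map_cj_quot, e]; rfl
  have h2 : Block.cid ((t : G) • c) = incl H (Block.cid (t • b)) := by
    rw [cid_smul, h.cid, ← incl_cjA, ← cid_smul]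
  exact ⟨fun e1 => pair_ext (by rw [h1, e1, e']) (by rw [h2, e1, h'.cid]), fun e1 => pair_ext
    (map_injective (subtype_injective H) (by rw [← h1, e1, e']))
    (incl_injective H (by rw [← h2, e1, h'.cid]))⟩

theorem Lift.bp (h : Lift H b c) (e : c.1 = b.1.map H.subtype) (hb : IsBP p M b) : IsBP p M c :=
  ⟨e ▸ hb.1.map _, h.block_iff.2 hb.2⟩

theorem Lift.ple (hM : IsPModular p M) (h' : Lift H b' c') (e' : c'.1 = b'.1.map H.subtype)
    (hle : PLe p M b b') : ∀ c, Lift H b c → c.1 = b.1.map H.subtype → PLe p M c c' := by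
  induction hle using Relation.ReflTransGen.head_induction_on with
  | refl => exact fun c h e => pair_ext (e.trans e'.symm) (h.cid.trans h'.cid.symm) ▸ PLe.refl _
  | @head b b'' hn _ ih =>
    intro c h e
    replace hn : NSub p M b b'' := hn
    have h1 : c.1 ≤ b''.1.map H.subtype := e ▸ map_mono hn.le
    obtain ⟨c'', e'', h''⟩ := exists_lift_up b'' (R := b''.1.map H.subtype) (by
      rw [map_centralizer_eq, inf_eq_right.2 ((Subgroup.centralizer_le h1).trans h.centralizer_le)])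
    refine (nsub_of hM (h.bp e hn.left) (h''.bp e'' hn.right) (e'' ▸ h1) ?_ ?_).ple.trans
      (ih c'' h'' e'')
    · rw [e'']
      rintro _ ⟨t, ht, rfl⟩
      exact (h.smul_iff' h e e).1 (hn.stab ht)
    · rw [h.fid, h''.mu hM hn.right.2 hn.linv.isCentral_br, hn.mu_fid hM]
      exact one_ne_zero

theorem Lift.subAt (hM : IsPModular p M) (h : Lift H b d) (e : d.1 = b.1.map H.subtype)
    (hb : IsBP p M b) {v : H} (hv : v ∈ b.1) (hC : centralizer (zpowers (v : G) : Set G) ≤ H) :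
    Lift H (subAt p M b v).a (subAt p M d v).a := by
  have h1 := subAt_spec hM hb hv
  have h2 : zpowers (v : G) = (Block.subAt p M b v).a.1.map H.subtype := by
    rw [h1.1, MonoidHom.map_zpowers]; rfl
  obtain ⟨c, e1, h3⟩ := exists_lift_up (Block.subAt p M b v).a (R := zpowers (v : G)) (by
    rw [map_centralizer_eq, ← h2, inf_eq_right.2 hC])
  have h4 := h.ple hM e h1.2 c h3 (e1.trans h2)
  have h5 : (⟨v, c⟩ : Subs G).Ok p M := ⟨e1, h4.left (h.bp e hb)⟩
  rw [← h5.is_subAt hM (h.bp e hb) h4]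
  exact h3

theorem Lift.fz_iff (hM : IsPModular p M) (h : Lift H b d) (e : d.1 = b.1.map H.subtype)
    (hb : IsBP p M b) {v w : H} (hv : v ∈ b.1) (hw : w ∈ b.1)
    (hC : centralizer (zpowers (v : G) : Set G) ≤ H)
    (hC' : centralizer (zpowers (w : G) : Set G) ≤ H) (hg : ∀ g : G, g * v * g⁻¹ = w → g ∈ H) :
    Fz p M d v w ↔ Fz p M b v w := by
  have hd := h.bp e hb
  have h1 : ∀ {v : H}, v ∈ b.1 → (Block.subAt p M d v).a.1 =
      (Block.subAt p M b v).a.1.map H.subtype := fun hv => by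
    rw [(subAt_spec hM hb hv).1, (subAt_spec hM hd (e ▸ mem_map_of_mem _ hv)).1,
      MonoidHom.map_zpowers]; rfl
  have h2 := fun t => (h.subAt hM e hb hv hC).smul_iff' (h.subAt hM e hb hw hC') (h1 hv) (h1 hw)
    (t := t)
  constructor
  · rintro ⟨g, e1⟩
    have h3 : g * v * g⁻¹ = w := congrArg Subs.u e1
    exact ⟨⟨g, hg g h3⟩, congrArg₂ Subs.mk (Subtype.ext h3) ((h2 _).2 (congrArg Subs.a e1))⟩
  · rintro ⟨g, e1⟩
    exact ⟨g, congrArg₂ Subs.mk (congrArg Subtype.val (congrArg Subs.u e1))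
      ((h2 _).1 (congrArg Subs.a e1))⟩

end Lift

theorem sec_one (hM : IsPModular p M) (hd : IsBPOf p M B d) {χ : IrrCharacter G} (hχ : χ ∈ B)
    (g : G) : sec χ.1 (subAt p M d 1).a g = χ.1 g := by
  rw [sec, (blockDefect_of_fst_eq_bot hM (subAt_isBPOf hM hd (one_mem _))
    (subAt_one hM hd.bp)).2.2, ← (isCentral_blockIdem B).commute, lin_blockIdem_mul_of_mem hχ,
    lin_single, one_mul]

theorem con_one (hM : IsPModular p M) (hd : IsBPOf p M B d) {χ : IrrCharacter G} (hχ : χ ∈ B)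
    {ψ : G → ℂ} (hψ : IsClassFunction G ψ) : con p χ.1 ψ (subAt p M d 1) = bf p χ.1 ψ := by
  have := Fintype.ofFinite G
  have h1 := card_mul_con hM (subAt_ok hM hd.bp (one_mem _)) (irr_classFun χ) hψ
  rw [subAt_one hM hd.bp, coe_bot, centralizer_eq_top_iff_subset.2 (by simp), card_top] at h1
  rw [bf_eq_sum, eq_inv_mul_iff_mul_eq₀ card_ne_zero, h1]
  refine Finset.sum_congr (Finset.filter_congr fun g _ => ⟨fun e => ?_, pp_of_regular hM.1⟩)
    fun g _ => by rw [sec_one hM hd hχ]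
  have := pp_mul_pr (p := p) g
  rw [e, subAt_u, one_mul] at this
  exact this ▸ pr_regular hM.1 g

theorem sum_bf_mul (hM : IsPModular p M) (hB : IsPBlock M B) {f : G → ℂ} (hf : blockPart B f = f)
    (g : G → ℂ) : ∑ χ with χ ∈ B, bf p χ.1 f * bf p χ.1 g = bf p f g := by
  have := Fintype.ofFinite G
  have h1 := blockPart_pRegularPart hM (isV_blockIdem hM hB) f
  rw [hf, blockPart_eq_sum_smul] at h1
  rw [← bf_pReg_left f, ← h1, bf_sum_left]
  exact Finset.sum_congr rfl fun χ _ => by rw [bf_smul_left, bf_symm _ f, bf_irr_right]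

/-- The column attached to the generators of the cyclic subgroup. -/
def A0 (M : Ideal AlgInt) (B : Set (IrrCharacter G)) (d : BrauerPairIdx G) (m : ℕ) (x : G)
    (a : IrrCharacter G → ℤ) : Prop :=
  (∀ χ : IrrCharacter G, ∑ v ∈ gens x, gdn χ.1 (subAt 2 M d v) = 2 ^ (m + 1) * a χ) ∧
    (∀ χ ∈ B, Odd (a χ) ↔ blockHeight 2 B χ.1 = 0) ∧ ∑ χ with χ ∈ B, a χ ^ 2 = 4 ∧
    ∀ τ : Subs G, τ.Ok 2 M → τ.u * τ.u = 1 → ∀ g, pp 2 g = τ.u →
      ∑ χ with χ ∈ B, a χ * sec χ.1 τ.a g = 0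

theorem TD.defect (h : TD d.1 m x y) (hM : IsPModular 2 M) (hd : IsMaxBP 2 M B d) :
    blockDefect 2 B = m + 3 := by
  rw [← factorization_card_defect hM hd.of.block (hd.defect hM), h.card,
    Nat.prime_two.factorization_pow]; simp

theorem TD.z_cent {D : Subgroup G} (h : TD D m x y) : tz m x ∈ centralizer (D : Set G) :=
  fun _ hu => h.z_comm hu

theorem TD.sys_aux (h : TD d.1 m x y) (hM : IsPModular 2 M) (hd : IsMaxBP 2 M B d) {v : G}
    (hv : v ∈ d.1) (hC : v ∈ centralizer (d.1 : Set G)) {χ ψ : IrrCharacter G} (hχ : χ ∈ B)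
    (hψ : ψ ∈ B) : (blockHeight 2 B ψ.1 = 0 ↔
      val M (2 ^ (m + 3) * con 2 χ.1 ψ.1 (subAt 2 M d v)) = val M 2 ^ blockHeight 2 B χ.1) ∧
    (val M (2 ^ (m + 3) * con 2 χ.1 χ.1 (subAt 2 M d v)) = 1 ↔ blockHeight 2 B χ.1 = 0) := by
  have h1 := subAt_ok hM hd.bp hv
  have h2 := subAt_isBPOf hM hd.of hv
  have h3 := hd.blockDefect_subAt_of_central hM hv hC
  have h4 := val_con_eq_iff_of_major hM h1 h2 h3 hχ hψ
  have h5 := val_con_eq_one_iff hM h1 h2 hχ hχ
  rw [h3] at h5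
  rw [h.defect hM hd, Nat.cast_ofNat] at h4 h5
  exact ⟨h4.symm, h5.trans and_self_iff⟩

theorem TD.sys_one (h : TD d.1 m x y) (hM : IsPModular 2 M) (hd : IsMaxBP 2 M B d)
    (ha : A0 M B d m x a) : Sys M B m B (fun χ => χ.1) a where
  ne := block_nonempty hM hd.of.block
  gen χ hχ := ⟨irr_isGenChar χ, blockPart_irr_of_mem hχ⟩
  frame _ _ hx _ := sum_bf_mul hM hd.of.block hx _
  ht χ hχ ψ hψ e := by
    rw [← con_one hM hd.of hχ (irr_classFun ψ)]
    exact (h.sys_aux hM hd (one_mem _) (one_mem _) hχ hψ).1.1 e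
  ht0 χ hχ := by
    rw [← con_one hM hd.of hχ (irr_classFun χ)]
    exact (h.sys_aux hM hd (one_mem _) (one_mem _) hχ hχ).2
  a1 := ha.2.2.1
  a2 := ha.2.1
  a3 s hs := by
    rw [← ha.2.2.2 _ (subAt_ok hM hd.bp (one_mem _)) (mul_one _) s (pp_of_regular hM.1 hs)]
    exact Finset.sum_congr rfl fun χ hχ => by rw [sec_one hM hd.of (mem_bS.1 hχ)]

theorem Subs.Ok.isGenChar_secF {σ : Subs G} (h : σ.Ok p M) (h2 : σ.u * σ.u = 1) {χ : G → ℂ}
    (hχ : IsGeneralizedCharacter G χ) : IsGeneralizedCharacter _ (secF χ σ.a σ.u) := by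
  have := Fintype.ofFinite (zpowers σ.u →* ℂˣ)
  obtain ⟨a, h1, -, h3⟩ := h.exists_fourier hχ
  rw [h3 ⟨_, mem_zpowers _⟩]
  refine isGenChar_sum _ fun l _ => ?_
  have : (l ⟨_, mem_zpowers σ.u⟩ : ℂ) * l ⟨_, mem_zpowers σ.u⟩ = 1 := by
    rw [← Units.val_mul, ← map_mul, show (⟨_, mem_zpowers σ.u⟩ : zpowers σ.u) * ⟨_, mem_zpowers _⟩
      = 1 from Subtype.ext h2, map_one, Units.val_one]
  rcases mul_self_eq_one_iff.1 this with e | e
  · rw [e, one_smul]; exact h1 l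
  · rw [e, neg_one_smul]; exact isGenChar_neg (h1 l)

theorem TD.con_z {D : Subgroup G} (h : TD D m x y) (χ ψ : G → ℂ) :
    con 2 χ ψ (subAt 2 M d (tz m x)) = bf 2 (secF χ (subAt 2 M d (tz m x)).a (tz m x))
      (secF ψ (subAt 2 M d (tz m x)).a (tz m x)) := by
  rw [con, subAt_u, h.z_inv]

theorem TD.sys_z (h : TD d.1 m x y) (hM : IsPModular 2 M) (hd : IsMaxBP 2 M B d)
    (ha : A0 M B d m x a) : Sys M B m (subAt 2 M d (tz m x)).a.2
      (fun χ => secF χ.1 (subAt 2 M d (tz m x)).a (tz m x)) a :=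
  have h1 := subAt_ok hM hd.bp h.z_memD
  { ne := block_nonempty hM hd.of.block
    gen := fun χ _ => ⟨h1.isGenChar_secF h.zz (irr_isGenChar χ),
      blockPart_secF (irr_classFun χ) h1.mem⟩
    frame := fun f g hf hg => by
      have := sum_wt_mul hM h1 (hf ▸ classFun_blockPart _ f) (hg ▸ classFun_blockPart _ g)
      rw [hf, subAt_u, h.z_inv] at this
      rw [← this, Finset.sum_filter_of_ne fun χ _ e => by_contra fun e' => e ?_]
      · rfl
      · exact mul_eq_zero_of_right _ (wt_eq_zero_of_notMem hM h1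
          (subAt_isBPOf hM hd.of h.z_memD) e')
    ht := fun χ hχ ψ hψ e => h.con_z χ.1 ψ.1 ▸ (h.sys_aux hM hd h.z_memD h.z_cent hχ hψ).1.1 e
    ht0 := fun χ hχ => h.con_z χ.1 χ.1 ▸ (h.sys_aux hM hd h.z_memD h.z_cent hχ hχ).2
    a1 := ha.2.2.1
    a2 := ha.2.1
    a3 := fun s hs => ha.2.2.2 _ h1 h.zz _ (h1.pp_mul hM hs) }

omit [Finite G] in
theorem eq_of_two_zpowers {w a b : G} (ha : a ∈ zpowers w) (hb : b ∈ zpowers w)
    (ha2 : orderOf a = 2) (hb2 : orderOf b = 2) : a = b := by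
  obtain ⟨i, rfl⟩ := mem_zpowers_iff.1 ha
  obtain ⟨j, rfl⟩ := mem_zpowers_iff.1 hb
  obtain ⟨h3, h1⟩ := (orderOf_eq_prime_iff (p := 2)).1 ha2
  obtain ⟨h4, h2⟩ := (orderOf_eq_prime_iff (p := 2)).1 hb2
  rw [sq, ← zpow_add, ← orderOf_dvd_iff_zpow_eq_one] at h3 h4
  rw [Ne, ← orderOf_dvd_iff_zpow_eq_one] at h1 h2
  rw [zpow_eq_zpow_iff_modEq, Int.modEq_iff_dvd]
  obtain ⟨s, hs⟩ := h3
  obtain ⟨t, ht⟩ := h4
  rcases Int.even_or_odd' s with ⟨s, rfl | rfl⟩
  · exact absurd ⟨s, by linarith⟩ h1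
  rcases Int.even_or_odd' t with ⟨t, rfl | rfl⟩
  · exact absurd ⟨t, by linarith⟩ h2
  exact ⟨t - s, by linarith⟩

/-- The local situation at the central involution. -/
theorem TD.exists_local (h : TD d.1 m x y) (hM : IsPModular 2 M) (hd : IsMaxBP 2 M B d) :
    ∃ (b : BrauerPairIdx (centralizer ((subAt 2 M d (tz m x)).a.1 : Set G)))
      (x' y' : centralizer ((subAt 2 M d (tz m x)).a.1 : Set G)),
      (x' : G) = x ∧ (y' : G) = y ∧ TD b.1 m x' y' ∧ tz m x' ∈ center _ ∧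
      IsMaxBP 2 M (subAt 2 M d (tz m x)).a.2 b ∧ b.1.map (Subgroup.subtype _) = d.1 ∧
      ∀ v ∈ b.1, ∀ w ∈ b.1, v * v ≠ 1 → (Fz 2 M d v w ↔ Fz 2 M b v w) := by
  have h1 := subAt_ok hM hd.bp h.z_memD
  have h2 : ∀ g, g ∈ centralizer ((subAt 2 M d (tz m x)).a.1 : Set G) ↔
      g * tz m x = tz m x * g := fun g => by
    rw [← h1.cent, mem_centralizer_singleton_iff, subAt_u]
  have hC : d.1 ≤ _ := fun g hg => (h2 g).2 (h.z_comm hg)
  obtain ⟨b, e1, e2, e3⟩ := hd.exists_local_max hM (subAt_le hM hd.bp h.z_memD) hC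
  have e4 : d.1 = b.1.map (Subgroup.subtype _) := by
    rw [e1, subgroupOf_map_subtype, inf_eq_left.2 hC]
  refine ⟨b, _, _, rfl, rfl, e1 ▸ h.subgroupOf hC, mem_center_iff.2 fun g =>
    Subtype.ext ((h2 g).1 g.2), e3, e4.symm, fun v hv w hw e => ?_⟩
  by_cases e' : w * w = 1
  · exact iff_of_false (fun e1 => e (Subtype.ext (e1.sq_iff.2 (congrArg Subtype.val e'))))
      fun e1 => e (e1.sq_iff.2 e')
  have h3 : ∀ v ∈ b.1, v * v ≠ 1 → tz m x ∈ zpowers (v : G) := fun v hv e =>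
    h.z_mem_zpowers (e4 ▸ mem_map_of_mem _ hv) fun e' => e (Subtype.ext e')
  refine e2.fz_iff hM e4 e3.bp hv hw (fun g hg => (h2 g).2 (hg _ (h3 v hv e)).symm)
    (fun g hg => (h2 g).2 (hg _ (h3 w hw e')).symm) fun g hg => (h2 g).2 ?_
  obtain ⟨i, hi⟩ := mem_zpowers_iff.1 (h3 v hv e)
  have h4 : g * tz m x * g⁻¹ ∈ zpowers (w : G) :=
    ⟨i, (congrArg (· ^ i) hg).symm.trans (conj_zpow.trans (congrArg (g * · * g⁻¹) hi))⟩
  rw [← mul_inv_eq_iff_eq_mul]
  exact eq_of_two_zpowers h4 (h3 w hw e') (((MulAut.conj g).orderOf_eq _).trans h.z_ord) h.z_ord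

end Cfsg.Agent.Block
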