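import Mathlib
import Cfsg.Agent.Block.Tame5

/-! Tame defect groups: the lattice from four characters, central quotients. -/

namespace Cfsg.Agent.Block

open Cfsg Cfsg.Agent.Char Subgroup TN
open scoped ComplexConjugate Classical

variable {G : Type*} [Group G] [Finite G] {M : Ideal AlgInt} {B : Set (IrrCharacter G)}
  {f0 f1 f2 : G → ℂ} {w : ℕ}

/-- Four characters with known coordinates. -/
def Four (B : Set (IrrCharacter G)) (f0 f1 f2 : G → ℂ) : Prop :=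
  ∃ θ : Fin 4 → IrrCharacter G, Function.Injective θ ∧ ∀ i, θ i ∈ B ∧ ∃ c : ℤ, U c ∧
    ∀ s, ¬ 2 ∣ orderOf s → (θ i).1 s = ((c : ℂ) • ![f0 + f1, f0 - f1, f0 + f2, f0 - f2] i) s

theorem span_of_irr (h : ∀ χ ∈ B, ∃ t β γ : ℤ, Even (t + β + γ) ∧ ∀ s, ¬ 2 ∣ orderOf s →
      χ.1 s = (((t : ℂ) • f0 + (β : ℂ) • f1 + (γ : ℂ) • f2 : G → ℂ)) s) (x : G → ℂ)
    (hx : IsGeneralizedCharacter G x) (hb : blockPart B x = x) : ∃ t β γ : ℤ, Even (t + β + γ) ∧
      ∀ s, ¬ 2 ∣ orderOf s → x s = (((t : ℂ) • f0 + (β : ℂ) • f1 + (γ : ℂ) • f2 : G → ℂ)) s := by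
  have := Fintype.ofFinite G
  choose! t β γ h1 h2 using h
  choose n hn using fun χ : IrrCharacter G => classInner_isGenChar_int hx (irr_isGenChar χ)
  refine ⟨∑ χ with χ ∈ B, n χ * t χ, ∑ χ with χ ∈ B, n χ * β χ, ∑ χ with χ ∈ B, n χ * γ χ, ?_,
    fun s hs => ?_⟩
  · simp only [← Finset.sum_add_distrib, ← mul_add]
    exact Finset.even_sum _ fun χ hχ => (h1 χ (mem_bS.1 hχ)).mul_left _
  · rw [← hb, blockPart_eq_sum]
    simp only [Pi.add_apply, Pi.smul_apply, smul_eq_mul, Int.cast_sum, Finset.sum_mul,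
      ← Finset.sum_add_distrib, hb]
    refine Finset.sum_congr rfl fun χ hχ => ?_
    rw [hn, h2 χ (mem_bS.1 hχ) s hs]
    simp only [Pi.add_apply, Pi.smul_apply, smul_eq_mul]
    push_cast; ring

theorem TN.U.cast_sq {c : ℤ} (h : U c) : (c : ℂ) * c = 1 := by
  rcases h with rfl | rfl <;> simp

theorem eq_zero_of_bf_half {f g : G → ℂ} (hg : IsGeneralizedCharacter G g) (e : (2 : ℂ) • f = g)
    (h : bf 2 f f = 0) {s : G} (hs : ¬ 2 ∣ orderOf s) : f s = 0 := by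
  have := eq_zero_of_bf_eq_zero (p := 2) (fun s _ => isGenChar_inv hg s)
    (by rw [← e, bf_smul_left, bf_smul_right, h]; simp) hs
  simpa [← e] using this

theorem lat_of_four (hM : IsPModular 2 M) (hB : IsPBlock M B) {θ : Fin 4 → IrrCharacter G}
    (hθ : Function.Injective θ) (hm : ∀ i, θ i ∈ B) {t : Fin 4 → ℤ} (ht : ∀ i, U (t i))
    (h1 : ∀ s, ¬ 2 ∣ orderOf s →
      t 0 * (θ 0).1 s + t 1 * (θ 1).1 s = t 2 * (θ 2).1 s + t 3 * (θ 3).1 s)
    (h2 : ∀ ψ ∈ B, ψ ∉ Set.range θ → ∃ c : ℤ, U c ∧ ∀ s, ¬ 2 ∣ orderOf s →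
      ψ.1 s = c * (t 0 * (θ 0).1 s + t 1 * (θ 1).1 s)) {e : ℕ} (he : e ≤ 2)
    (hr : blockRank 2 B + e = 3) (hw : w ≠ 0)
    (h3 : ∀ i, bf 2 (θ i).1 (θ i).1 = (w : ℂ)⁻¹ + 1 / 2 - e / 4)
    (h4 : w * bf 2 ((t 0 : ℂ) • (θ 0).1 + (t 1 : ℂ) • (θ 1).1)
      ((t 0 : ℂ) • (θ 0).1 + (t 1 : ℂ) • (θ 1).1) = 4) :
    ∃ f0 f1 f2, Lat w 2 B f0 f1 f2 ∧ Four B f0 f1 f2 := by
  obtain ⟨a, ha⟩ : ∃ a : Fin 4 → G → ℂ, a = fun i => (t i : ℂ) • (θ i).1 := ⟨_, rfl⟩
  have a1 : ∀ i, bf 2 (a i) (a i) = (w : ℂ)⁻¹ + 1 / 2 - e / 4 := fun i => by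
    rw [ha, bf_smul_left, bf_smul_right, ← mul_assoc, (ht i).cast_sq, one_mul, h3]
  have a2 : ∀ i, blockPart B (a i) = a i := fun i => by
    rw [ha, blockPart_smul', blockPart_irr_of_mem (hm i)]
  have a3 : ∀ i, IsGeneralizedCharacter G (a i) := fun i => by
    rw [ha]
    rcases ht i with e | e <;> simp only [e, Int.cast_one, Int.cast_neg, one_smul, neg_smul]
    exacts [irr_isGenChar _, isGenChar_neg (irr_isGenChar _)]
  have a4 : ∀ i s, (θ i).1 s = t i * a i s := fun i s => by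
    simp only [ha, Pi.smul_apply, smul_eq_mul, ← mul_assoc, (ht i).cast_sq, one_mul]
  have a5 : ∀ s, ¬ 2 ∣ orderOf s → (a 0 + a 1) s = (a 2 + a 3) s := fun s hs => by
    simpa [ha] using h1 s hs
  rw [show (t 0 : ℂ) • (θ 0).1 + (t 1 : ℂ) • (θ 1).1 = a 0 + a 1 by rw [ha]] at h4
  obtain ⟨f0, e0⟩ : ∃ f, f = (1 / 2 : ℂ) • (a 0 + a 1) := ⟨_, rfl⟩
  obtain ⟨f1, e1⟩ : ∃ f, f = (1 / 2 : ℂ) • (a 0 - a 1) := ⟨_, rfl⟩
  have hw' : (w : ℂ) ≠ 0 := Nat.cast_ne_zero.2 hw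
  have g0 : w * bf 2 f0 f0 = 1 := by
    rw [e0, bf_smul_left, bf_smul_right]; linear_combination h4 / 4
  have k : ∀ i j (f : G → ℂ), (∀ s, ¬ 2 ∣ orderOf s → (a 0 + a 1) s = (a i + a j) s) →
      f = (1 / 2 : ℂ) • (a i - a j) → bf 2 f0 f = 0 ∧ bf 2 f f = 1 / 2 - e / 4 ∧
      blockPart B f = f ∧ ∀ s, ¬ 2 ∣ orderOf s → a i s = (f0 + f) s ∧ a j s = (f0 - f) s :=
    fun i j f h ef => by
      have h5 : bf 2 f0 f0 = (w : ℂ)⁻¹ := eq_inv_of_mul_eq_one_right g0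
      have h6 : ∀ s, ¬ 2 ∣ orderOf s → f0 s = ((1 / 2 : ℂ) • (a i + a j)) s := fun s hs => by
        rw [e0, Pi.smul_apply, h s hs, Pi.smul_apply]
      rw [bf_congr_left h6, bf_congr_right _ h6] at h5
      rw [bf_congr_left h6, ef]
      simp only [bf_smul_left, bf_smul_right, bf_add_left, bf_add_right, bf_sub_left, bf_sub_right,
        a1, bf_symm (a j) (a i)] at h5 ⊢
      refine ⟨by ring, by linear_combination -h5, by
        rw [blockPart_smul', blockPart_sub', a2, a2], fun s hs => ?_⟩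
      simp only [Pi.add_apply, Pi.sub_apply, h6 s hs, Pi.smul_apply, smul_eq_mul]
      constructor <;> ring
  obtain ⟨k1, k2, k3, k4⟩ := k 0 1 f1 (fun _ _ => rfl) e1
  have b0 : blockPart B f0 = f0 := by rw [e0, blockPart_smul', blockPart_add', a2, a2]
  have hψ : ∀ ψ ∈ B, ψ ∉ Set.range θ → ∃ c : ℤ, ∀ s, ¬ 2 ∣ orderOf s →
      ψ.1 s = (((2 * c : ℤ) : ℂ) • f0) s := fun ψ hψ hn => by
    obtain ⟨c, -, hc⟩ := h2 ψ hψ hn
    refine ⟨c, fun s hs => ?_⟩
    simp only [hc s hs, e0, ha, Pi.smul_apply, Pi.add_apply, smul_eq_mul]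
    push_cast; ring
  have key : ∀ (i j : Fin 4) (f2 : G → ℂ), (i = 2 ∧ j = 3 ∨ i = 3 ∧ j = 2) →
      f2 = (1 / 2 : ℂ) • (a i - a j) → (e = 0 → bf 2 f1 f2 = 0) → (e = 1 → bf 2 f1 f2 = 1 / 4) →
      Lat w 2 B f0 f1 f2 ∧ Four B f0 f1 f2 := fun i j f2 hij e2 c0 c1 => by
    obtain ⟨l1, l2, l3, l4⟩ := k i j f2 (fun s hs => by
      rcases hij with ⟨rfl, rfl⟩ | ⟨rfl, rfl⟩
      exacts [a5 s hs, (a5 s hs).trans (add_comm _ _)]) e2
    have h5 : ∀ n : Fin 4, ∀ s, ¬ 2 ∣ orderOf s → (θ (![0, 1, i, j] n)).1 s =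
        ((t (![0, 1, i, j] n) : ℂ) • ![f0 + f1, f0 - f1, f0 + f2, f0 - f2] n) s := fun n s hs => by
      rw [a4, Pi.smul_apply, smul_eq_mul]
      fin_cases n
      exacts [congrArg _ (k4 s hs).1, congrArg _ (k4 s hs).2, congrArg _ (l4 s hs).1,
        congrArg _ (l4 s hs).2]
    have h6 : Function.Bijective ![0, 1, i, j] := by
      rcases hij with ⟨rfl, rfl⟩ | ⟨rfl, rfl⟩ <;> decide
    refine ⟨⟨b0, k3, l3, span_of_irr fun χ hχ => ?_, g0, k1, l1, ?_⟩, _, hθ.comp h6.1, fun n =>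
      ⟨hm _, _, ht _, h5 n⟩⟩
    · by_cases hn : χ ∈ Set.range θ
      · obtain ⟨n, rfl⟩ := hn
        obtain ⟨n, rfl⟩ := h6.2 n
        have h7 := h5 n
        generalize t (![0, 1, i, j] n) = c at h7
        fin_cases n
        · exact ⟨c, c, 0, ⟨c, by ring⟩, fun s hs => (h7 s hs).trans (by simp [mul_add])⟩
        · exact ⟨c, -c, 0, by simp, fun s hs => (h7 s hs).trans (by simp [mul_add, sub_eq_add_neg])⟩
        · exact ⟨c, 0, c, ⟨c, by ring⟩, fun s hs => (h7 s hs).trans (by simp [mul_add])⟩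
        · exact ⟨c, 0, -c, by simp, fun s hs => (h7 s hs).trans (by simp [mul_add, sub_eq_add_neg])⟩
      · obtain ⟨c, hc⟩ := hψ χ hχ hn
        exact ⟨2 * c, 0, 0, by simp, fun s hs => (hc s hs).trans (by simp)⟩
    · interval_cases e
      · exact Or.inl ⟨hr, by rw [k2]; norm_num, by rw [l2]; norm_num, c0 rfl⟩
      · refine Or.inr (Or.inl ⟨by omega, by rw [k2]; norm_num, fun s hs => sub_eq_zero.1
          (eq_zero_of_bf_half (f := f2 - f1) (isGenChar_sub (isGenChar_sub (a3 i) (a3 j))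
            (isGenChar_sub (a3 0) (a3 1))) (by rw [e1, e2]; module) ?_ hs)⟩)
        simp only [bf_sub_left, bf_sub_right, k2, l2, bf_symm f2 f1, c1 rfl]; norm_num
      · exact Or.inr (Or.inr ⟨by omega, fun s hs => ⟨eq_zero_of_bf_half
          (isGenChar_sub (a3 0) (a3 1)) (by rw [e1]; module) (by rw [k2]; norm_num) hs,
          eq_zero_of_bf_half (isGenChar_sub (a3 i) (a3 j)) (by rw [e2]; module)
            (by rw [l2]; norm_num) hs⟩⟩)
  obtain ⟨f2, e2⟩ : ∃ f, f = (1 / 2 : ℂ) • (a 2 - a 3) := ⟨_, rfl⟩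
  obtain ⟨l1, -, -, l4⟩ := k 2 3 f2 a5 e2
  have h5 := sum_bf_mul hM hB k3 f1
  rw [← Finset.sum_subset (s₁ := Finset.univ.image θ) (by simp [Finset.subset_iff, hm])
    fun ψ hψ' hn => by
      obtain ⟨c, hc⟩ := hψ ψ (mem_bS.1 hψ') (by simpa using hn)
      rw [bf_congr_left hc, bf_smul_left, k1, mul_zero, mul_zero],
    Finset.sum_image fun _ _ _ _ e => hθ e, Finset.sum_congr rfl
      (g := fun i => bf 2 (a i) f1 * bf 2 (a i) f1) fun i _ => by
        rw [ha, bf_smul_left, mul_mul_mul_comm, (ht i).cast_sq, one_mul], Fin.sum_univ_four,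
    bf_congr_left fun s hs => (k4 s hs).1, bf_congr_left fun s hs => (k4 s hs).2,
    bf_congr_left fun s hs => (l4 s hs).1, bf_congr_left fun s hs => (l4 s hs).2] at h5
  simp only [bf_add_left, bf_sub_left, k1, k2, bf_symm f2 f1] at h5
  have c0 : e = 0 → bf 2 f1 f2 = 0 := by
    rintro rfl; exact mul_self_eq_zero.1 (by push_cast at h5; linear_combination h5 / 2)
  by_cases c1 : e = 1 → bf 2 f1 f2 = 1 / 4
  · exact ⟨_, _, _, key 2 3 f2 (Or.inl ⟨rfl, rfl⟩) e2 c0 c1⟩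
  obtain ⟨rfl, c2⟩ := Classical.not_imp.1 c1
  refine ⟨_, _, _, key 3 2 (-f2) (Or.inr ⟨rfl, rfl⟩) (by rw [e2]; module) (by simp) fun _ => ?_⟩
  rw [← neg_one_smul ℂ f2, bf_smul_right]
  have : (bf 2 f1 f2 - 1 / 4) * (bf 2 f1 f2 + 1 / 4) = 0 := by
    push_cast at h5; linear_combination h5 / 2
  linear_combination -(mul_eq_zero.1 this).resolve_left (sub_ne_zero.2 c2)

section Quot

variable {Q : Type*} [Group Q] [Finite Q] {f : G →* Q} {g0 g1 g2 : Q → ℂ}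

theorem bf_comp (hf : Function.Surjective f) (hk : Nat.card f.ker = 2) (hc : f.ker ≤ center G)
    (x y : Q → ℂ) : 2 * bf 2 (fun g => x (f g)) (fun g => y (f g)) = bf 2 x y := by
  have h1 := card_mul_bf_regDown Nat.prime_two hf (IsPGroup.of_card (n := 1) hk)
    (fun g _ z hz => (mem_center_iff.1 (hc hz) g).symm) (fun g => x (f g)) y
  rw [bf_congr_left (f' := x) fun q hq => by
    obtain ⟨g, -, rfl, e⟩ := exists_regDown Nat.prime_two hf hq
    exact e _, card_eq_card_quotient_mul_card_subgroup f.ker, hk,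
    Nat.card_congr (QuotientGroup.quotientKerEquivOfSurjective f hf).toEquiv, Nat.cast_mul,
    mul_assoc, mul_right_inj' card_ne_zero] at h1
  exact h1.symm

theorem Lat.infl (hM : IsPModular 2 M) (hB : IsPBlock M B) (hf : Function.Surjective f)
    (hk : Nat.card f.ker = 2) (hc : f.ker ≤ center G) (h : Lat w 2 (domSet f hf B) g0 g1 g2)
    (h' : Four (domSet f hf B) g0 g1 g2) :
    Lat (2 * w) 4 B (fun g => g0 (f g)) (fun g => g1 (f g)) (fun g => g2 (f g)) ∧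
      Four B (fun g => g0 (f g)) (fun g => g1 (f g)) (fun g => g2 (f g)) := by
  have := Fintype.ofFinite G
  have hp : IsPGroup 2 f.ker := IsPGroup.of_card (n := 1) hk
  have hC : ∀ g, ¬ 2 ∣ orderOf g → g ∈ centralizer (f.ker : Set G) :=
    fun g _ z hz => (mem_center_iff.1 (hc hz) g).symm
  have hb : ∀ y : Q → ℂ, blockPart (domSet f hf B) y = y →
      blockPart B (fun g => y (f g)) = fun g => y (f g) := fun y hy => funext fun g => by
    rw [← blockPart_domSet hf (hy ▸ classFun_blockPart _ y), hy]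
  have h2 := bf_comp hf hk hc
  have h3 : ∀ x y, bf 2 x y = 0 → bf 2 (fun g => x (f g)) (fun g => y (f g)) = 0 := fun x y e =>
    (mul_eq_zero.1 ((h2 x y).trans e)).resolve_left two_ne_zero
  have hr := blockRank_domSet hM hf hp hC (isV_blockIdem hM hB)
  refine ⟨⟨hb _ h.b0, hb _ h.b1, hb _ h.b2, fun x hx e => ?_, ?_, h3 _ _ h.g1, h3 _ _ h.g2, ?_⟩, ?_⟩
  · have h4 : ∀ r ∈ f.ker, ∀ v, pr 2 (v * r) = pr 2 v := fun r hr =>
      pr_mul_central hM.1 (exists_orderOf_eq_pow_of_mem hM.1 hp hr) (hc hr)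
    let φ := QuotientGroup.quotientKerEquivOfSurjective f hf
    have hy := isGenChar_comp φ.symm.toMonoidHom (isGenChar_descend f.ker
      (isGenChar_comp_pr hM hx) fun r hr v => by rw [h4 r hr])
    obtain ⟨t, β, γ, h5, h6⟩ := h.span _ (isGenChar_blockPart _ hy) (blockPart_blockPart _ _)
    refine ⟨t, β, γ, h5, fun s hs => Eq.trans ?_ (h6 _ (regular_map_of_regular f hs))⟩
    rw [blockPart_domSet hf (isGenChar_classFun hy), ← congrFun e s]
    refine blockPart_congr_regular hM (isV_blockIdem hM hB) (fun g hg => ?_) hs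
    obtain ⟨z, hz⟩ := QuotientGroup.mk_out_eq_mul f.ker g
    have : φ.symm (f g) = g := φ.symm_apply_eq.2 rfl
    simp only [MulEquiv.toMonoidHom_eq_coe, MonoidHom.coe_coe, this, hz, h4 z z.2,
      pr_of_regular hM.1 hg]
  · rw [← h.g0, ← h2]; push_cast; ring
  · rw [← hr]
    refine h.cases.imp (And.imp_right fun e => ⟨?_, ?_, h3 _ _ e.2.2⟩) (Or.imp (And.imp_right
      fun e => ⟨?_, fun s hs => e.2 _ (regular_map_of_regular f hs)⟩) (And.imp_right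
        fun e s hs => e _ (regular_map_of_regular f hs)))
    · rw [← e.1, ← h2]; push_cast; ring
    · rw [← e.2.1, ← h2]; push_cast; ring
    · rw [← e.1, ← h2]; push_cast; ring
  · obtain ⟨θ, h4, h5⟩ := h'
    refine ⟨fun i => inflIrr f hf (θ i), fun i j e => h4 (Subtype.ext (funext fun q => ?_)),
      fun i => ⟨(h5 i).1, (h5 i).2.imp fun c e => ⟨e.1, fun s hs =>
        (e.2 _ (regular_map_of_regular f hs)).trans (by fin_cases i <;> rfl)⟩⟩⟩
    obtain ⟨g, rfl⟩ := hf q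
    exact congrFun (congrArg Subtype.val e) g

end Quot

end Cfsg.Agent.Block
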