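import Mathlib
import Cfsg.Agent.Block.Tame6
import Cfsg.Agent.Char.IndRep

/-! Tame defect groups: characters of the dihedral group. -/

namespace Cfsg.Agent.Block

open Cfsg Cfsg.Agent.Char Subgroup TN
open scoped ComplexConjugate Classical

variable {G : Type*} [Group G] [Finite G] {D : Subgroup G} {m : ℕ} {x y : G}

theorem TD.sum_range (h : TD D m x y) (F : G → ℂ) :
    ∑ v ∈ tW x, F v + F 1 + F (tz m x) = ∑ k ∈ Finset.range (2 ^ (m + 2)), F (x ^ k) := by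
  rw [← Finset.sum_image (s := Finset.range _) (g := (x ^ ·)) (by
    rw [Finset.coe_range, ← h.ord]; exact pow_injOn_Iio_orderOf), add_assoc,
    ← Finset.sum_pair h.z_ne.symm, ← Finset.sum_union (by
      simp [Finset.disjoint_right, mem_tW, h.zz])]
  congr 1
  ext v
  rw [← h.ord, ← mem_zpowers_iff_mem_range_orderOf]
  simp only [Finset.mem_union, mem_tW, Finset.mem_insert, Finset.mem_singleton]
  refine ⟨?_, fun hv => (em' _).imp (fun e => ⟨hv, e⟩) fun e => h.eq_of_sq hv e⟩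
  rintro (hv | rfl | rfl)
  exacts [hv.1, one_mem _, TD.z_mem]

theorem TD.sum_gens (h : TD D m x y) (F : G → ℂ) :
    2 * ∑ v ∈ gens x, F v = ∑ k ∈ Finset.range (2 ^ (m + 2)), (1 - (-1) ^ k) * F (x ^ k) := by
  have h1 : ∀ k : ℕ, x ^ k ∈ gens x ↔ Odd k := fun k => by
    rw [mem_gens, ← Nat.coprime_two_right, ← Nat.coprime_pow_right_iff (n := m + 2) (by omega),
      ← h.ord, Nat.Coprime, ← mem_zpowers_pow_iff]
    exact ⟨fun e => e ▸ mem_zpowers x, fun e => le_antisymm (zpowers_le.2 (npow_mem_zpowers _ _))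
      (zpowers_le.2 e)⟩
  rw [show gens x = ((Finset.range (2 ^ (m + 2))).filter Odd).image (x ^ ·) from ?_,
    Finset.sum_image (by
      rw [← h.ord]
      exact pow_injOn_Iio_orderOf.mono fun k hk => by simp at hk ⊢; exact hk.1),
    Finset.sum_filter, Finset.mul_sum]
  · refine Finset.sum_congr rfl fun k _ => ?_
    split_ifs with e
    · rw [e.neg_one_pow]; ring
    · rw [(Nat.not_odd_iff_even.1 e).neg_one_pow]; ring
  ext v
  simp only [Finset.mem_image, Finset.mem_filter]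
  refine ⟨fun hv => ?_, fun ⟨k, hk, e⟩ => e ▸ (h1 k).2 hk.2⟩
  obtain ⟨k, hk, rfl⟩ := Finset.mem_image.1 (mem_zpowers_iff_mem_range_orderOf.1
    (mem_tW.1 (h.gens_sub hv)).1)
  exact ⟨k, ⟨h.ord ▸ hk, (h1 k).1 hv⟩, rfl⟩

theorem geom_sum_root {ζ : ℂ} {n : ℕ} (hζ : IsPrimitiveRoot ζ n) (c : ℤ) :
    ∑ k ∈ Finset.range n, (ζ ^ c) ^ k = if (n : ℤ) ∣ c then (n : ℂ) else 0 := by
  split_ifs with e
  · simp [(hζ.zpow_eq_one_iff_dvd c).2 e]
  · rw [geom_sum_eq (mt (hζ.zpow_eq_one_iff_dvd c).1 e), ← zpow_natCast, ← zpow_mul, mul_comm,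
      zpow_mul, zpow_natCast, hζ.pow_eq_one, one_zpow, sub_self, zero_div]

/-- The characters of a dihedral group induced from the cyclic subgroup. -/
structure Lam (D : Subgroup G) (m : ℕ) (x : G) (lam : ℕ → G → ℂ) : Prop where
  gen : ∀ a, IsGeneralizedCharacter D fun v => lam a v
  out : ∀ a v, v ∉ zpowers x → lam a v = 0
  inv : ∀ a v, lam a v⁻¹ = lam a v
  one : ∀ a, lam a 1 = 2
  z : ∀ a, lam a (tz m x) = 2 * (-1) ^ a
  zero : ∀ v ∈ zpowers x, lam 0 v = 2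
  inner : ∀ a b : ℕ, ∑ v ∈ tW x, lam a v * lam b v = 2 ^ (m + 3) *
    ((if (2 : ℤ) ^ (m + 2) ∣ a - b then 1 else 0) + if (2 : ℤ) ^ (m + 2) ∣ a + b then 1 else 0) -
      4 - 4 * (-1) ^ (a + b)
  alt : ∀ v ∈ tW x, ∑ a ∈ Finset.range (2 ^ (m + 2)), (-1) ^ a * lam a v = 0
  gens : ∀ a : ℕ, ∑ v ∈ gens x, lam a v = 2 ^ (m + 2) * ((if (2 : ℤ) ^ (m + 2) ∣ a then 1 else 0) -
    if (2 : ℤ) ^ (m + 2) ∣ a + 2 ^ (m + 1) then 1 else 0)

theorem TD.conj_inv (h : TD D m x y) (hy : y * x * y⁻¹ = x⁻¹) {u v : G} (hu : u ∈ D)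
    (h1 : u ∉ zpowers x) (hv : v ∈ zpowers x) : u * v * u⁻¹ = v⁻¹ := by
  obtain ⟨i, rfl⟩ := mem_zpowers_iff.1 hv
  rw [h.conj_out hu h1 hv, ← conj_zpow, hy, inv_zpow]

theorem TD.exists_lam (h : TD D m x y) (hy : y * x * y⁻¹ = x⁻¹) : ∃ lam, Lam D m x lam := by
  have hζ := Complex.isPrimitiveRoot_exp _ (orderOf_pos x).ne'
  obtain ⟨l, hl⟩ := exists_hom_zpowers x hζ.pow_eq_one
  rw [← hl, h.ord] at hζ
  set ζ : ℂ := (l ⟨x, mem_zpowers x⟩).val with hζd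
  have h0 : ζ ≠ 0 := Units.ne_zero _
  have h2 : ζ ^ (2 ^ (m + 1) : ℤ) = -1 := by
    exact_mod_cast (hζ.pow (by positivity) (pow_succ 2 (m + 1))).eq_neg_one_of_two_right
  have h3 : ∀ (a : ℕ) (k : ℤ), lext (l ^ a) (x ^ k) = ζ ^ (a * k) := fun a k => by
    have e : x ^ k = ((⟨x, mem_zpowers x⟩ : zpowers x) ^ k : zpowers x) := rfl
    rw [e, lext_coe, MonoidHom.pow_apply, map_zpow, mul_comm, zpow_mul]
    simp [ζ]
  have h4 : ∀ (a k : ℕ), lext (l ^ a) (x ^ k) + lext (l ^ a) (x ^ k)⁻¹ =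
      (ζ ^ (a : ℤ)) ^ k + (ζ ^ (-a : ℤ)) ^ k := fun a k => by
    rw [← zpow_natCast x, ← zpow_neg, h3, h3, ← zpow_natCast, ← zpow_natCast, ← zpow_mul,
      ← zpow_mul, mul_neg, neg_mul]
  have h5 : ∀ a v, v ∉ zpowers x → lext (l ^ a) v + lext (l ^ a) v⁻¹ = 0 := fun a v hv => by
    simp [lext, hv]
  have gs := geom_sum_root hζ
  push_cast at gs
  have hm : ∀ (c : ℤ) (k : ℕ), (-1) ^ k * (ζ ^ c) ^ k = (ζ ^ (c + 2 ^ (m + 1))) ^ k := fun c k => by
    rw [zpow_add₀ h0, h2, mul_pow, mul_comm]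
  have hz : ∀ a : ℕ, lext (l ^ a) (tz m x) + lext (l ^ a) (tz m x)⁻¹ = 2 * (-1) ^ a := fun a => by
    rw [h.z_inv, tz, ← zpow_natCast x, h3, mul_comm, zpow_mul, Nat.cast_pow, Nat.cast_ofNat, h2,
      zpow_natCast, two_mul]
  refine ⟨fun a v => lext (l ^ a) v + lext (l ^ a) v⁻¹, fun a => ?_, h5, fun a v => by
    rw [inv_inv, add_comm], fun a => by simpa [one_add_one_eq_two] using h4 a 0, hz, fun v hv => ?_, fun a b => ?_,
    fun v hv => ?_, fun a => mul_left_cancel₀ two_ne_zero ?_⟩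
  · have := Fintype.ofFinite D
    let N := (zpowers x).subgroupOf D
    have := Fintype.ofFinite N
    have hN : N.Normal := normal_subgroupOf_of_le_normalizer h.le_normalizer
    convert IndRep.isGenChar_indFun N (isChar_isGenChar (isChar_linear ((l ^ a).comp
      (subgroupOfEquivOfLe h.le).toMonoidHom))) using 1
    funext v
    by_cases hv : (v : G) ∈ zpowers x
    swap
    · rw [h5 a v hv, Ind.indFun_eq_zero_of_normal N _ hv]
    refine Eq.trans ?_ (Ind.indFun_coe_normal N _ ⟨v, hv⟩).symm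
    have c1 : Nat.card N = 2 ^ (m + 2) := by
      rw [Nat.card_congr (subgroupOfEquivOfLe h.le).toEquiv, h.card_X]
    have c2 : (Finset.univ.filter (· ∈ N)).card = 2 ^ (m + 2) := by
      rw [← c1, Nat.card_eq_fintype_card, Fintype.card_subtype]
    have c3 : (Finset.univ.filter (· ∉ N)).card = 2 ^ (m + 2) := by
      have := Finset.card_filter_add_card_filter_not (s := Finset.univ) (· ∈ N)
      rw [c2, Finset.card_univ, ← Nat.card_eq_fintype_card, h.card, pow_succ 2 (m + 2)] at this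
      omega
    rw [eq_inv_mul_iff_mul_eq₀ card_ne_zero, ← Finset.sum_filter_add_sum_filter_not _ (· ∈ N),
      Finset.sum_congr (s₁ := Finset.univ.filter (· ∈ N)) rfl (g := fun _ => lext (l ^ a) v)
        fun s hs => ?_,
      Finset.sum_congr (s₁ := Finset.univ.filter (· ∉ N)) rfl
        (g := fun _ => lext (l ^ a) (v : G)⁻¹) fun s hs => ?_,
      Finset.sum_const, Finset.sum_const, c1, c2, c3, nsmul_eq_mul, nsmul_eq_mul, mul_add]
    · have e := h.conj_inv hy s.2 (Finset.mem_filter.1 hs).2 hv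
      rw [← e]
      exact (lext_coe (l ^ a) ⟨(s : G) * v * (s : G)⁻¹, e ▸ inv_mem hv⟩).symm
    · have hs' : (s : G) ∈ zpowers x := (Finset.mem_filter.1 hs).2
      have e : (s : G) * v * (s : G)⁻¹ = v := by
        rw [TD.comm hs' hv, mul_inv_cancel_right]
      rw [← e]
      exact (lext_coe (l ^ a) ⟨(s : G) * v * (s : G)⁻¹, e.symm ▸ hv⟩).symm
  · obtain ⟨k, rfl⟩ := mem_powers_iff_mem_zpowers.2 hv
    simpa [one_add_one_eq_two] using h4 0 k
  · have := h.sum_range fun v => (lext (l ^ a) v + lext (l ^ a) v⁻¹) *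
      (lext (l ^ b) v + lext (l ^ b) v⁻¹)
    rw [hz, hz, ← pow_zero x, h4, h4, Finset.sum_congr rfl (s₂ := Finset.range _) (g := fun k =>
      (ζ ^ (a - b : ℤ)) ^ k + (ζ ^ (-(a - b) : ℤ)) ^ k + (ζ ^ (a + b : ℤ)) ^ k +
        (ζ ^ (-(a + b) : ℤ)) ^ k) fun k _ => by
          rw [h4, h4, neg_sub, neg_add]
          simp only [sub_eq_add_neg, zpow_add₀ h0, mul_pow]; ring] at this
    simp only [Finset.sum_add_distrib, gs, dvd_neg, pow_zero] at this
    rw [eq_sub_of_add_eq (eq_sub_of_add_eq this)]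
    split_ifs <;> ring
  · obtain ⟨k, e⟩ := mem_powers_iff_mem_zpowers.2 (mem_tW.1 hv).1
    replace e : x ^ k = v := e
    subst e
    have h6 : ∀ (c : ℤ) (a k : ℕ), (ζ ^ (c * a)) ^ k = (ζ ^ (c * k)) ^ a := fun c a k => by
      rw [← zpow_natCast, ← zpow_natCast, ← zpow_mul, ← zpow_mul, mul_right_comm]
    have h7 : ∀ c : ℤ, (c = 1 ∨ c = -1) → ¬ (2 : ℤ) ^ (m + 2) ∣ c * k + 2 ^ (m + 1) :=
      fun c hc e => (mem_tW.1 hv).2 (by
        rw [← zpow_natCast, ← zpow_add, h.zpow_eq_one_iff]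
        obtain ⟨j, hj⟩ := e
        rcases hc with rfl | rfl
        · exact ⟨2 * j - 1, by rw [pow_succ] at hj ⊢; linear_combination 2 * hj⟩
        · exact ⟨1 - 2 * j, by rw [pow_succ] at hj ⊢; linear_combination -2 * hj⟩)
    rw [Finset.sum_congr rfl (g := fun a => (ζ ^ (1 * k + 2 ^ (m + 1) : ℤ)) ^ a +
      (ζ ^ (-1 * k + 2 ^ (m + 1) : ℤ)) ^ a) fun a _ => by
        rw [h4, ← hm, ← hm, ← h6 1 a k, ← h6 (-1) a k, one_mul, neg_one_mul, mul_add],
      Finset.sum_add_distrib, gs, gs, if_neg (h7 _ (Or.inl rfl)), if_neg (h7 _ (Or.inr rfl)),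
      add_zero]
  · rw [h.sum_gens, Finset.sum_congr rfl (g := fun k => (ζ ^ (a : ℤ)) ^ k + (ζ ^ (-a : ℤ)) ^ k -
      ((ζ ^ (a + 2 ^ (m + 1) : ℤ)) ^ k + (ζ ^ (-a + 2 ^ (m + 1) : ℤ)) ^ k)) fun k _ => by
        rw [h4, ← hm, ← hm]; ring]
    have h6 : (2 : ℤ) ^ (m + 2) ∣ -a + 2 ^ (m + 1) ↔ (2 : ℤ) ^ (m + 2) ∣ a + 2 ^ (m + 1) := by
      rw [← dvd_neg, ← dvd_add_left (dvd_refl ((2 : ℤ) ^ (m + 2)))]
      ring_nf
    simp only [Finset.sum_sub_distrib, Finset.sum_add_distrib, gs, dvd_neg, h6]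
    split_ifs <;> ring

end Cfsg.Agent.Block
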