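import Mathlib
import Cfsg.Agent.Block.Tame7
import Cfsg.Agent.Block.CycCh
import Cfsg.Agent.Char.IndTI

/-! Dihedral defect groups: generalized characters induced from the centralizer of `z`. -/

namespace Cfsg.Agent.Block

open Cfsg Cfsg.Agent.Char Subgroup TN
open scoped ComplexConjugate Classical

variable {G : Type*} [Group G] [Finite G] {D : Subgroup G} {m p : ℕ} {x y : G} {M : Ideal AlgInt}
  {B : Set (IrrCharacter G)} {d : BrauerPairIdx G}

theorem Stable.bstar_apply_central (hM : IsPModular p M) (hd : IsMaxBP p M B d) {l : d.1 → ℂ}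
    (h : Stable p M d l) {χ : IrrCharacter G} (hχ : χ ∈ B) {g : G} (v : d.1)
    (hv : (v : G) ∈ center G) (hg : pp p g = v) : bstar p M d l χ g = l v * χ.1 g := by
  rw [← sum_sec hM χ (zpowers (v : G)) g, bstar, star_apply _ hg, Finset.mul_sum]
  refine Finset.sum_congr rfl fun a ha => ?_
  have h2 := subs_ok_of_mem (hg ▸ pp_order hM.1 g) ha (p := p)
  by_cases h0 : sec (χ : G → ℂ) a g = 0
  · rw [h0, mul_zero, mul_zero]
  · obtain ⟨t, ht⟩ := hd.exists_smul_le hM (isBPOf_of_sec_ne_zero hM h2 hd.of.block hχ hg h0)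
    rw [h.lamS_of_le hM hd.bp h2 ht]
    congr 2
    exact Subtype.ext (by simp [mem_center_iff.1 hv t])

theorem exists_of_bstar_ne_zero {l : d.1 → ℂ} {χ : G → ℂ} {g : G} (h : bstar p M d l χ g ≠ 0) :
    ∃ v : d.1, l v ≠ 0 ∧ ∃ t : G, t * v * t⁻¹ = pp p g := by
  obtain ⟨a, -, h1⟩ := Finset.exists_ne_zero_of_sum_ne_zero h
  replace h1 := left_ne_zero_of_mul h1
  rw [lamS] at h1
  split_ifs at h1 with e
  · obtain ⟨t, ht⟩ := e.choose_spec
    exact ⟨_, h1, t, congrArg Subs.u ht⟩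
  · exact absurd rfl h1

theorem TD.sq_dih (h : TD D m x y) (hy : y * x * y⁻¹ = x⁻¹) (hy2 : y * y = 1) {u : G} (hu : u ∈ D)
    (h1 : u ∉ zpowers x) : u * u = 1 := by
  obtain ⟨i, rfl⟩ := h.exists_eq hu h1
  calc _ = x ^ i * (y * x ^ i * y⁻¹) * (y * y) := by group
    _ = 1 := by rw [hy2, ← conj_zpow, hy]; group

theorem TD.sum_D (h : TD D m x y) [Fintype D] {F : G → ℂ} (hF : ∀ v ∉ zpowers x, F v = 0) :
    ∑ v : D, F v = ∑ v ∈ tW x, F v + F 1 + F (tz m x) := by
  have := Fintype.ofFinite G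
  rw [add_assoc, ← Finset.sum_pair h.z_ne.symm, ← Finset.sum_union (by
      simp [Finset.disjoint_right, mem_tW, h.zz]),
    ← Finset.sum_subtype (Finset.univ.filter (· ∈ D)) (by simp)]
  refine (Finset.sum_subset (fun v => ?_) fun v _ hv => hF v fun e => hv ?_).symm <;>
    simp only [Finset.mem_union, mem_tW, Finset.mem_insert, Finset.mem_singleton,
      Finset.mem_filter, Finset.mem_univ, true_and]
  · rintro (hv | rfl | rfl)
    exacts [h.le hv.1, one_mem _, h.z_memD]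
  · exact (em' _).imp (fun e' => ⟨e, e'⟩) fun e' => h.eq_of_sq e e'

/-- Indicator of divisibility. -/
def dv (m : ℕ) (c : ℤ) : ℤ := if 2 ^ (m + 2) ∣ c then 1 else 0

/-- The Gram matrix of the columns. -/
def gr (m a b : ℕ) : ℤ := 2 - 2 * dv m a - 2 * dv m b + dv m (a - b) + dv m (a + b)

theorem Lam.classInner (h : TD D m x y) [Fintype D] {lam : ℕ → G → ℂ} (hl : Lam D m x lam)
    (a b : ℕ) :
    classInner (fun v : D => lam a v) (fun v => lam b v) = dv m (a - b) + dv m (a + b) := by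
  rw [classInner_def, Finset.sum_congr rfl (g := fun v : D => lam a v * lam b v) fun v _ => by
      rw [← isGenChar_inv (hl.gen b), coe_inv, hl.inv],
    h.sum_D (F := fun v => lam a v * lam b v) fun v hv => by rw [hl.out a v hv, zero_mul],
    hl.inner, hl.one, hl.one, hl.z, hl.z, h.card, inv_mul_eq_iff_eq_mul₀ (by simp)]
  simp only [dv]
  push_cast
  ring

theorem TD.cols_loc [Fintype G] (h : TD d.1 m x y) (hM : IsPModular 2 M) (hd : IsMaxBP 2 M B d)
    (hy : y * x * y⁻¹ = x⁻¹) (hy2 : y * y = 1) (hz : tz m x ∈ center G) :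
    ∃ f0, Lat (2 ^ (m + 3)) 4 B f0 0 0 ∧ blockRank 2 B = 1 ∧ ∃ (θ : ℕ → G → ℂ) (c : ℤ), U c ∧
      (∀ a, IsGeneralizedCharacter G (θ a) ∧ blockPart B (θ a) = θ a ∧
        (∀ g, tz m x ∉ zpowers g → θ a g = 0) ∧
        ∀ s, ¬ 2 ∣ orderOf s → θ a (tz m x * s) = c * (2 - 2 * (-1) ^ a) * f0 s) ∧
      ∀ a b, classInner (θ a) (θ b) = gr m a b := by
  have := Fintype.ofFinite d.1
  have hB := hd.of.block
  have hzc : ∀ g : G, g * tz m x * g⁻¹ = tz m x := fun g => by
    rw [mem_center_iff.1 hz g, mul_inv_cancel_right]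
  have hn : IsNilpotentBlock 2 M B := nilp_of_cyc hM hB (hd.defect hM) (x := x)
    (fun a ha b hb => h.mul_inv_mem ha hb) fun g r hr h1 h2 => by
      by_contra h3
      rcases h.eq_of_sq h1 (by simpa using h.sq_dih hy hy2 h2 h3) with rfl | rfl
      · simp at h3
      · exact h3 ((hzc g).symm ▸ TD.z_mem)
  obtain ⟨χ, hχ, h0⟩ := exists_height_zero (p := 2) (block_nonempty hM hB)
  obtain ⟨lam, hl⟩ := h.exists_lam hy
  have hr := blockRank_of_nilpotent hM hn
  have hg : ∀ a, IsGeneralizedCharacter d.1 ((fun v : d.1 => lam 0 v) - fun v : d.1 => lam a v) := fun a =>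
    isGenChar_sub (hl.gen 0) (hl.gen a)
  have hs := fun a => hd.stable_of_nilpotent hM hn (isGenChar_classFun (hg a))
  obtain ⟨c, hc, hc'⟩ : ∃ c : ℤ, U c ∧ ∀ g, χ.1 (tz m x * g) = c * χ.1 g := by
    have e := irr_central_mul χ hz
    have e1 := e (tz m x * 1)
    rw [← mul_assoc, h.zz, one_mul, e, ← mul_assoc, eq_comm,
      mul_eq_right₀ (irr_one_ne_zero χ)] at e1
    rcases mul_self_eq_one_iff.1 e1 with e1 | e1
    · exact ⟨1, Or.inl rfl, fun g => by rw [e g, e1]; simp⟩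
    · exact ⟨-1, Or.inr rfl, fun g => by rw [e g, e1]; simp⟩
  have b0 : blockPart B (0 : G → ℂ) = 0 := by simpa using blockPart_smul' B 0 0
  refine ⟨χ.1, ⟨blockPart_irr_of_mem hχ, b0, b0,
    span_of_irr fun ψ hψ => ?_, ?_, bf_zero_right _, bf_zero_right _,
    Or.inr (Or.inr ⟨hr, fun _ _ => ⟨rfl, rfl⟩⟩)⟩, hr,
    fun a => bstar 2 M d ((fun v : d.1 => lam 0 v) - fun v : d.1 => lam a v) χ, c, hc,
    fun a => ⟨(hs a).isGenChar_bstar hM hd (hg a) (irr_isGenChar χ),
      blockPart_eq_self_of_inner ((hs a).classFun_bstar hM.1 (irr_classFun χ))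
        fun ψ hψ => (hs a).inner_bstar_eq_zero hM hB hχ hψ, fun g e => ?_, fun s e => ?_⟩,
    fun a b => ?_⟩
  · obtain ⟨n, e⟩ := exists_nat_mul_of_nilpotent hM hn hχ h0 hψ
    exact ⟨n, n, 0, by simp, fun s hs => by simp [e s hs]⟩
  · have := hd.con_self_of_nilpotent hM hn hχ h0 1
    rwa [coe_one, con_one hM hd.of hχ (irr_classFun χ), centralizer_eq_top_iff_subset.2 (by simp),
      card_top, h.card] at this
  · by_contra h1
    obtain ⟨v, h2, t, h3⟩ := exists_of_bstar_ne_zero h1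
    have h4 : tz m x ∈ zpowers (v : G) := by
      by_cases h5 : (v : G) * v = 1
      swap
      · exact h.z_mem_zpowers v.2 h5
      by_cases h6 : (v : G) ∈ zpowers x
      · rcases h.eq_of_sq h6 h5 with h7 | h7
        · exact absurd (by simp [h7, hl.one]) h2
        · exact h7 ▸ mem_zpowers _
      · exact absurd (by simp [hl.out _ _ h6]) h2
    obtain ⟨k, hk⟩ := mem_zpowers_iff.1 h4
    refine e (zpowers_le.2 (pPart_mem hM.1 (isPPart_pp hM.1 g) (mem_zpowers g)) ⟨k, ?_⟩)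
    simp only [← h3, conj_zpow, hk, hzc]
  · refine ((hs a).bstar_apply_central hM hd hχ ⟨_, h.z_memD⟩ hz
      (pp_mul hM.1 ⟨1, h.z_ord⟩ e (mem_center_iff.1 hz s).symm)).trans ?_
    rw [hc']
    simp only [Pi.sub_apply, hl.z]
    ring
  · rw [hd.inner_bstar_of_nilpotent hM hn hχ h0 (isGenChar_classFun (hg a)) (hg b)]
    simp only [classInner_sub_left, classInner_sub_right, hl.classInner h, gr]
    simp only [dv, Nat.cast_zero, sub_zero, add_zero, zero_add, zero_sub, dvd_neg, dvd_zero, if_true]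
    push_cast
    ring

theorem TD.cols (h : TD d.1 m x y) (hM : IsPModular 2 M) (hd : IsMaxBP 2 M B d)
    (hy : y * x * y⁻¹ = x⁻¹) (hy2 : y * y = 1) :
    ∃ f0, Lat (2 ^ (m + 3)) 4 (subAt 2 M d (tz m x)).a.2 f0 0 0 ∧
      blockRank 2 (subAt 2 M d (tz m x)).a.2 = 1 ∧ ∃ (e : ℕ → IrrCharacter G → ℤ) (c : ℤ), U c ∧
      (∀ a b, ∑ χ with χ ∈ B, e a χ * e b χ = gr m a b) ∧
      (∀ a s, ¬ 2 ∣ orderOf s → ∑ χ with χ ∈ B, e a χ * χ.1 s = 0) ∧
      ∀ a, ∑ χ with χ ∈ B, e a χ * (2 ^ (m + 3) *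
        bf 2 (secF χ.1 (subAt 2 M d (tz m x)).a (tz m x)) f0) = c * (2 - 2 * (-1) ^ a) := by
  have := Fintype.ofFinite G
  obtain ⟨b, x', y', hx', hy', h', hz, hb, -, -⟩ := h.exists_local hM hd
  have hZ := (subAt_spec hM hd.bp h.z_memD).1
  have hof := subAt_isBPOf hM hd.of h.z_memD
  generalize (subAt 2 M d (tz m x)).a = a at *
  subst hx' hy'
  have := Fintype.ofFinite (centralizer (a.1 : Set G))
  obtain ⟨f0, hL, hr, θ, c, hc, h1, h2⟩ := h'.cols_loc hM hb (Subtype.ext hy) (Subtype.ext hy2) hz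
  have hT : ∀ g : centralizer (a.1 : Set G), tz m x' ∈ zpowers g ↔ tz m (x' : G) ∈ zpowers (g : G) :=
    fun g => by simp only [mem_zpowers_iff, Subtype.ext_iff]; rfl
  have hTI : ∀ g ∉ centralizer (a.1 : Set G), ∀ t ∈ {g | tz m (x' : G) ∈ zpowers g},
      g * t * g⁻¹ ∈ {g | tz m (x' : G) ∈ zpowers g} → t = 1 := fun g hg t ht e => absurd (by
    obtain ⟨k, hk⟩ := mem_zpowers_iff.1 ht
    have := eq_of_two_zpowers (w := g * t * g⁻¹) (a := g * tz m (x' : G) * g⁻¹) ⟨k, by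
      simp only [conj_zpow, hk]⟩ e (by
        rw [← h.z_ord]; exact (MulAut.conj g).orderOf_eq _) h.z_ord
    rw [hZ, centralizer_zpowers, mem_centralizer_singleton_iff, ← mul_inv_eq_iff_eq_mul, this])
    hg
  have hcl := fun i => isGenChar_classFun (h1 i).1
  have h3 : ∀ i (g : centralizer (a.1 : Set G)), (g : G) ∉ {g | tz m (x' : G) ∈ zpowers g} →
    θ i g = 0 := fun i g e => (h1 i).2.2.1 g (mt (hT g).1 e)
  choose e he he' using fun i => isGenChar_exists_mult (IndRep.isGenChar_indFun _ (h1 i).1)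
  have h4 : ∀ i, ∀ χ ∉ B, e i χ = 0 := fun i χ hχ => Int.cast_injective (α := ℂ) (by
    rw [← he, Int.cast_zero]
    exact inner_indFun_eq_zero_of_notMem hM (by rw [hZ, Nat.card_zpowers, h.z_ord])
      ((isBrauerPairOf_iff_induced hM).1 hof).2 (hcl i) (h1 i).2.1
      (fun g e => h3 i g fun e' => e (hZ.le.trans (zpowers_le.2 e'))) hχ)
  have h5 : ∀ i, indFun _ (θ i) = ∑ χ with χ ∈ B, (e i χ : ℂ) • χ.1 := fun i => by
    rw [he', Finset.sum_filter_of_ne fun χ _ e1 => by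
      by_contra e2
      simp [h4 i χ e2] at e1]
  refine ⟨f0, hL, hr, e, c, hc, fun i j => Int.cast_injective (α := ℂ) ?_, fun i s hs => ?_,
    fun i => ?_⟩
  · rw [← h2, ← IndTI.inner_indFun_of_TI _ _ hTI (hcl j) (h3 i) (h3 j) (h3 i 1 (by simp [h.z_ne])),
      classInner_eq_sum_of_mult (Ind.indFun_classFun _ _) (he i) (he j),
      Finset.sum_filter_of_ne fun χ _ e1 => by
        by_contra e2
        simp [h4 i χ e2] at e1]
  · have := congrFun (h5 i) s
    rw [Ind.indFun_eq_zero_of_forall _ _ fun t ht => h3 i _ fun e1 => hs (by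
      rw [← h.z_ord, ← (MulAut.conj t⁻¹).orderOf_eq s]
      simpa using orderOf_dvd_of_mem_zpowers e1)] at this
    simpa using this.symm
  · have hza : tz m (x' : G) ∈ a.1 := hZ.ge (mem_zpowers _)
    have g0 := hL.g0
    simp only [mul_left_comm _ ((2 : ℂ) ^ (m + 3)), ← Finset.mul_sum]
    rw [show ∑ χ with χ ∈ B, (e i χ : ℂ) * bf 2 (secF χ.1 a (tz m x')) f0 = bf 2 _ f0 by
      simp only [← bf_smul_left, ← bf_sum_left, ← secF_smul, ← secF_sum, ← h5]; rfl]
    rw [bf_congr_left (f' := (c * (2 - 2 * (-1) ^ i) : ℂ) • f0) fun s hs => by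
      rw [secF_eq_blockPart (Ind.indFun_classFun _ _) hza, blockPart_congr_regular hM
        (isV_blockIdem hM hb.of.block) (f' := (c * (2 - 2 * (-1) ^ i) : ℂ) • f0) (fun s hs => by
          refine (IndTI.indFun_eq_of_TI _ _ hTI (hcl i) (h3 i) (tz m x' * s) ((hT _).1 ?_) ?_).trans
            ((h1 i).2.2.2 s hs)
          · exact pPart_mem hM.1 (isPPart_mul (mem_center_iff.1 hz s).symm ⟨1, h'.z_ord⟩ hs)
              (mem_zpowers _)
          · exact fun e1 => hs (by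
              rw [eq_inv_of_mul_eq_one_right e1, orderOf_inv, h'.z_ord])) hs,
        blockPart_smul', hL.b0], bf_smul_left]
    push_cast at g0
    linear_combination (c * (2 - 2 * (-1) ^ i) : ℂ) * g0

end Cfsg.Agent.Block
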