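import Mathlib
import Cfsg.Agent.Block.TameN

/-! Numerical lemmas for dihedral defect groups. -/

namespace Cfsg.Agent.Block.TN

open Finset

variable {ι : Type*} [DecidableEq ι] {S : Finset ι} {t a : ι → ℤ} {N : ℕ}

theorem exists_order (hO : #{i ∈ S | Odd (t i)} = 4)
    (h1 : ∀ i ∈ S, Odd (t i) → U (t i) ∧ U (a i)) (h2 : ∀ i ∈ S, ¬ Odd (t i) → a i = 0)
    (h3 : ∑ i ∈ S, a i * t i = 0) : ∃ θ : Fin 4 → ι, Function.Injective θ ∧
      (∀ i, θ i ∈ S ∧ Odd (t (θ i))) ∧ (∀ r ∈ S, Odd (t r) → r ∈ Set.range θ) ∧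
      a (θ 0) = t (θ 0) ∧ a (θ 1) = t (θ 1) ∧ a (θ 2) = -t (θ 2) ∧ a (θ 3) = -t (θ 3) ∧
      ∀ f : ι → ℂ, ∑ i ∈ S, a i * f i =
        t (θ 0) * f (θ 0) + t (θ 1) * f (θ 1) - (t (θ 2) * f (θ 2) + t (θ 3) * f (θ 3)) := by
  set O := {i ∈ S | Odd (t i)}
  have h4 : ∀ {A : Type} [Ring A] (f : ι → A), ∑ i ∈ S, a i * f i =
      ∑ i ∈ O with a i = t i, t i * f i - ∑ i ∈ O with ¬ a i = t i, t i * f i := fun f => by
    rw [← sum_filter_of_ne (p := fun i => Odd (t i)) fun i hi e => by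
      by_contra e'
      simp [h2 i hi e'] at e, ← sum_filter_add_sum_filter_not O (fun i => a i = t i),
      sub_eq_add_neg, ← sum_neg_distrib]
    refine congrArg₂ _ (sum_congr rfl fun i hi => by rw [(mem_filter.1 hi).2])
      (sum_congr rfl fun i hi => ?_)
    obtain ⟨e1, e2⟩ := mem_filter.1 hi
    obtain ⟨e3 | e3, e4 | e4⟩ := h1 i (mem_filter.1 e1).1 (mem_filter.1 e1).2 <;> simp_all
  have h5 : ∀ T ⊆ O, ∑ i ∈ T, t i * t i = #T := fun T hT => by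
    rw [sum_congr rfl (g := fun _ => 1) fun i hi => by
      rw [← sq, (h1 i (mem_filter.1 (hT hi)).1 (mem_filter.1 (hT hi)).2).1.sq]]
    simp
  have h6 := h4 t
  simp only [Int.cast_id] at h6
  rw [h3, h5 _ (filter_subset _ _), h5 _ (filter_subset _ _)] at h6
  have h7 := card_filter_add_card_filter_not (s := O) fun i => a i = t i
  obtain ⟨p, q, hpq, e⟩ := card_eq_two.1 (show #{i ∈ O | a i = t i} = 2 by omega)
  obtain ⟨r, s, hrs, e'⟩ := card_eq_two.1 (show #{i ∈ O | ¬ a i = t i} = 2 by omega)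
  have hp := mem_filter.1 (e.ge (mem_insert_self p {q}))
  have hq := mem_filter.1 (e.ge (mem_insert_of_mem (mem_singleton_self q)))
  have hr := mem_filter.1 (e'.ge (mem_insert_self r {s}))
  have hs := mem_filter.1 (e'.ge (mem_insert_of_mem (mem_singleton_self s)))
  have h8 : ∀ i ∈ O, ¬ a i = t i → a i = -t i := fun i hi e => by
    obtain ⟨e3 | e3, e4 | e4⟩ := h1 i (mem_filter.1 hi).1 (mem_filter.1 hi).2 <;> omega
  refine ⟨![p, q, r, s], ?_, fun i => ?_, fun i hi hi' => ?_, hp.2, hq.2, h8 r hr.1 hr.2,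
    h8 s hs.1 hs.2, fun f => ?_⟩
  · have n1 : p ≠ r := fun e => hr.2 (e ▸ hp.2)
    have n2 : p ≠ s := fun e => hs.2 (e ▸ hp.2)
    have n3 : q ≠ r := fun e => hr.2 (e ▸ hq.2)
    have n4 : q ≠ s := fun e => hs.2 (e ▸ hq.2)
    intro i j
    fin_cases i <;> fin_cases j <;> simp [hpq, hrs, n1, n2, n3, n4, hpq.symm, hrs.symm, n1.symm,
      n2.symm, n3.symm, n4.symm]
  · fin_cases i
    exacts [mem_filter.1 hp.1, mem_filter.1 hq.1, mem_filter.1 hr.1, mem_filter.1 hs.1]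
  · by_cases h : a i = t i
    · rcases mem_insert.1 (e.le (mem_filter.2 ⟨mem_filter.2 ⟨hi, hi'⟩, h⟩)) with rfl | h
      exacts [⟨0, rfl⟩, ⟨1, (mem_singleton.1 h).symm⟩]
    · rcases mem_insert.1 (e'.le (mem_filter.2 ⟨mem_filter.2 ⟨hi, hi'⟩, h⟩)) with rfl | h
      exacts [⟨2, rfl⟩, ⟨3, (mem_singleton.1 h).symm⟩]
  · rw [h4, e, e', sum_pair hpq, sum_pair hrs]
    rfl

theorem sum_alt (hN : Even N) (h : 1 ≤ N) : ∑ a ∈ Ico 1 N, (-1 : ℤ) ^ a = -1 := by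
  have := neg_one_geom_sum (R := ℤ) (n := N)
  rw [if_pos hN, range_eq_Ico, sum_eq_sum_Ico_succ_bot h] at this
  linear_combination this

theorem struct {e : ℕ → ι → ℤ} {c : ℤ} (hN : Even N) (hN' : 1 ≤ N) (hc : U c)
    (hO : #{i ∈ S | Odd (t i)} = 4) (h1 : ∀ i ∈ S, Odd (t i) → U (t i))
    (h2 : ∀ i ∈ S, ¬ Odd (t i) → t i = 2 ∨ t i = -2) (htt : ∑ i ∈ S, t i ^ 2 = 4 * N)
    (hg : ∀ a ∈ Ico 1 N, ∀ b ∈ Ico 1 N, ∑ i ∈ S, e a i * e b i = 2 + if a = b then 1 else 0)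
    (hg1 : ∀ a ∈ Ico 1 N, ∑ i ∈ S, e a i * e N i = 2) (hg2 : ∑ i ∈ S, e N i ^ 2 = 4)
    (ht : ∀ a, ∑ i ∈ S, e a i * t i = c * (2 - 2 * (-1) ^ a)) :
    ∃ θ : Fin 4 → ι, Function.Injective θ ∧ (∀ i, θ i ∈ S ∧ Odd (t (θ i))) ∧
      (∀ r ∈ S, Odd (t r) → r ∈ Set.range θ) ∧
      (∀ f : ι → ℂ, (∀ a, ∑ i ∈ S, e a i * f i = 0) →
        t (θ 0) * f (θ 0) + t (θ 1) * f (θ 1) = t (θ 2) * f (θ 2) + t (θ 3) * f (θ 3)) ∧
      ∀ r ∈ S, r ∉ Set.range θ → ∃ c, U c ∧ ∀ f : ι → ℂ, (∀ a, ∑ i ∈ S, e a i * f i = 0) →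
        f r = c * (t (θ 0) * f (θ 0) + t (θ 1) * f (θ 1)) := by
  have hs := sum_alt hN hN'
  let u : ι → ℤ := fun i => ∑ a ∈ Ico 1 N, (-1) ^ a * e a i
  have u0 : ∀ f : ι → ℤ, ∑ i ∈ S, u i * f i = ∑ a ∈ Ico 1 N, (-1) ^ a * ∑ i ∈ S, e a i * f i :=
    fun f => by simp only [u, sum_mul, mul_sum, mul_assoc]; exact sum_comm
  have hq : ∀ a : ℕ, (-1 : ℤ) ^ a * (-1) ^ a = 1 := fun a => by rw [← mul_pow]; simp
  have hk : (#(Ico 1 N) : ℤ) = N - 1 := by rw [Nat.card_Ico, Nat.cast_sub hN', Nat.cast_one]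
  have u1 : ∑ i ∈ S, u i * u i = N + 1 := by
    rw [u0, sum_congr rfl (g := fun a => 1 - 2 * (-1) ^ a) fun a ha => by
      simp only [mul_comm (e a _)]
      rw [u0, sum_congr rfl fun b hb => by rw [hg b hb a ha]]
      simp only [mul_add, mul_ite, mul_one, mul_zero, sum_add_distrib, ← sum_mul, hs, sum_ite_eq',
        if_pos ha, hq]
      ring]
    simp only [sum_sub_distrib, ← mul_sum, hs, sum_const, nsmul_eq_mul, hk]
    ring
  have u2 : ∑ i ∈ S, u i * e N i = -2 := by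
    rw [u0, sum_congr rfl fun a ha => by rw [hg1 a ha], ← sum_mul, hs]; rfl
  have u3 : ∑ i ∈ S, u i * t i = -2 * c * N := by
    rw [u0, sum_congr rfl (g := fun a => 2 * c * (-1) ^ a - 2 * c) fun a ha => by
      rw [ht]; linear_combination -2 * c * hq a]
    simp only [sum_sub_distrib, ← mul_sum, hs, sum_const, nsmul_eq_mul, hk]
    ring
  have u4 := ht N
  rw [hN.neg_one_pow] at u4
  have u5 : ∀ i ∈ S, e N i + 2 * u i + c * t i = 0 := fun i hi => (pow_eq_zero_iff two_ne_zero).1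
    ((sum_eq_zero_iff_of_nonneg (f := fun i => (e N i + 2 * u i + c * t i) ^ 2)
      fun _ _ => sq_nonneg _).1 (by
      rw [sum_congr rfl (g := fun i => e N i ^ 2 + 4 * (u i * u i) + c ^ 2 * t i ^ 2 +
        4 * (u i * e N i) + 2 * c * (e N i * t i) + 4 * c * (u i * t i)) fun i _ => by ring]
      simp only [sum_add_distrib, ← mul_sum, hg2, u1, u2, u3, u4, htt]
      linear_combination (-4 * N) * hc.sq) i hi)
  have u6 : ∀ i ∈ S, Odd (e N i) ↔ Odd (t i) := fun i hi => by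
    have := u5 i hi
    rw [Int.odd_iff, Int.odd_iff]
    rcases hc with rfl | rfl <;> omega
  obtain ⟨i0, hi0⟩ : {i ∈ S | Odd (t i)}.Nonempty := card_pos.1 (by omega)
  obtain ⟨-, u7, u8⟩ := four_of_odd hg2
    ⟨i0, (mem_filter.1 hi0).1, (u6 _ (mem_filter.1 hi0).1).2 (mem_filter.1 hi0).2⟩
  have v1 : ∀ i ∈ S, Odd (t i) → U (t i) ∧ U (e N i) := fun i hi h =>
    ⟨h1 i hi h, u7 i hi ((u6 i hi).2 h)⟩
  have v2 : ∀ i ∈ S, ¬ Odd (t i) → e N i = 0 := fun i hi h => u8 i hi (mt (u6 i hi).1 h)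
  obtain ⟨θ, k1, k2, k3, k4, k5, k6, k7, k8⟩ := exists_order hO v1 v2 (by simpa using u4)
  have k9 : ∀ f : ι → ℂ, (∀ a, ∑ i ∈ S, e a i * f i = 0) →
      t (θ 0) * f (θ 0) + t (θ 1) * f (θ 1) = t (θ 2) * f (θ 2) + t (θ 3) * f (θ 3) :=
    fun f hf => sub_eq_zero.1 ((k8 f).symm.trans (hf N))
  refine ⟨θ, k1, k2, k3, k9, fun r hr h => ?_⟩
  have h3 := mt (k3 r hr) h
  obtain ⟨b, hb, h4⟩ := exists_ne_zero_of_sum_ne_zero (show u r ≠ 0 by
    have := u5 r hr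
    have := h2 r hr h3
    have := v2 r hr h3
    rcases hc with rfl | rfl <;> omega)
  obtain ⟨i, hi, j, hj, r', -, l1, l2, l3, l4, l5, c', l6, l7⟩ := three (g := e b) v1
    (fun i hi h => ⟨h2 i hi h, v2 i hi h⟩) (by simpa [sq] using hg b hb b hb) (by
      rw [ht]; rcases neg_one_pow_eq_or ℤ b with h | h <;> simp [h]) (Or.inl (hg1 b hb))
  obtain rfl := l5 r hr h3 (right_ne_zero_of_mul h4)
  refine ⟨c', l6, fun f hf => ?_⟩
  obtain ⟨i, rfl⟩ := k3 i hi l1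
  obtain ⟨j, rfl⟩ := k3 j hj l2
  have q := fun i => (h1 _ (k2 i).1 (k2 i).2).sq
  have q0 := q 0
  have q1 := q 1
  have q2 := q 2
  have q3 := q 3
  have := k9 f hf
  rw [l7 f (hf b)]
  congr 1
  fin_cases i <;> fin_cases j <;> simp only [Fin.zero_eta, Fin.mk_one, Fin.reduceFinMk, k4, k5, k6,
    k7, ne_eq, not_true] at l3 l4 ⊢ <;>
    first | ring1 | linear_combination -this | (exfalso; nlinarith)

end Cfsg.Agent.Block.TN
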