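import Mathlib
import Cfsg.Agent.Block.Tame8
import Cfsg.Agent.Block.TameN2
import Cfsg.Agent.Block.CK4

/-! Blocks with dihedral defect groups. -/

namespace Cfsg.Agent.Block

open Cfsg Cfsg.Agent.Char Subgroup TN
open scoped ComplexConjugate Classical

variable {G : Type*} [Group G] [Finite G] {D : Subgroup G} {m p : ℕ} {x y : G} {M : Ideal AlgInt}
  {B : Set (IrrCharacter G)} {d : BrauerPairIdx G}

theorem card_sub (q : IrrCharacter G → Prop) [DecidablePred q] :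
    Nat.card {χ // χ ∈ B ∧ q χ} = ((Finset.univ.filter (· ∈ B)).filter q).card := by
  rw [Nat.card_eq_fintype_card, Fintype.card_subtype, Finset.filter_filter]

theorem sum_bf_self (hM : IsPModular p M) (hB : IsPBlock M B) :
    ∑ χ with χ ∈ B, bf p χ.1 χ.1 = blockRank p B := by
  have := Fintype.ofFinite G
  rw [blockRank_eq_sum hM (isV_blockIdem hM hB)]
  exact Finset.sum_congr rfl fun χ _ => bf_irr_right _ χ

theorem gr_eq {a b : ℕ} (ha : a ∈ Finset.Icc 1 (2 ^ (m + 1))) (hb : b ∈ Finset.Icc 1 (2 ^ (m + 1))) :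
    gr m a b = 2 + (if a = b then 1 else 0) + if a = 2 ^ (m + 1) ∧ b = 2 ^ (m + 1) then 1 else 0 := by
  have h1 : ∀ c : ℤ, -2 ^ (m + 2) < c → c < 2 ^ (m + 2) → dv m c = if c = 0 then 1 else 0 :=
    fun c h h' => if_congr ⟨fun e => Int.eq_zero_of_abs_lt_dvd e (abs_lt.2 ⟨h, h'⟩),
      fun e => e ▸ dvd_zero _⟩ rfl rfl
  have h2 : dv m (a + b) = dv m (a + b - 2 ^ (m + 2)) := if_congr (dvd_sub_self_right).symm rfl rfl
  have h3 : (2 : ℤ) ^ (m + 2) = 2 * (2 ^ (m + 1) : ℕ) := by push_cast; ring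
  simp only [Finset.mem_Icc] at ha hb
  rw [gr, h2, h1, h1, h1, h1] <;> rw [h3]
  · split_ifs <;> omega
  all_goals omega

theorem gr_glue {n : ℕ} (hn : 2 ^ (m + 1) = 2 * n + 2) (i k : Fin (n + 1)) (j l : Fin n) :
    gr m (2 * j + 2) (2 * l + 2) - gr m (2 * i + 1) (2 * l + 2) - (gr m (2 * j + 2) (2 * k + 1) -
      gr m (2 * i + 1) (2 * k + 1)) = (if i = k then 1 else 0) + if j = l then 1 else 0 := by
  rw [gr_eq, gr_eq, gr_eq, gr_eq]
  · simp only [Fin.ext_iff, hn]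
    split_ifs <;> omega
  all_goals rw [Finset.mem_Icc]; omega

theorem IsMaxBP.le_sum_con (hM : IsPModular 2 M) (hd : IsMaxBP 2 M B d) {χ : IrrCharacter G}
    (hχ : χ ∈ B) (h0 : blockHeight 2 B χ.1 = 0) {Y : Finset G} {n : ℕ}
    (h1 : ∀ v ∈ Y, v ∈ d.1 ∧ UL n (subAt 2 M d v).a.2)
    (h2 : ∀ v ∈ Y, ∀ k, k.Coprime (Nat.card G) → v ^ k ∈ Y) :
    (Y.card : ℝ) ≤ (2 ^ n * ∑ v ∈ Y, con 2 χ.1 χ.1 (subAt 2 M d v)).re := by
  have hg := irr_isGenChar χ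
  rw [Finset.mul_sum, Complex.re_sum]
  refine (card_le_sum_of_gal Y (a := fun v => 2 ^ n * con 2 χ.1 χ.1 (subAt 2 M d v)) (fun v hv => ?_) (fun v hv => mul_ne_zero (by simp)
    (con_ne_zero_of_height_zero hM (subAt_ok hM hd.bp (h1 v hv).1) (subAt_isBPOf hM hd.of (h1 v hv).1)
      hχ hχ h0 h0)) (fun v hv => isIntegral_pow_mul_con hM (subAt_ok hM hd.bp (h1 v hv).1)
        (h1 v hv).2.defect.le (irr_mem_IntC χ) (irr_mem_IntC χ)) fun φ => ?_).1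
  · have := con_self_re_nonneg (p := 2) (subAt_ok hM hd.bp (h1 v hv).1) hg
    rw [show (2 : ℂ) ^ n = ((2 ^ n : ℝ) : ℂ) by simp, Complex.re_ofReal_mul, Complex.im_ofReal_mul,
      this.2]
    exact ⟨mul_nonneg (by positivity) this.1, mul_zero _⟩
  · obtain ⟨k, hk, hφ⟩ := GaloisAut.exists_pow_of_ringHom (φ : ℂ →+* ℂ) (Nat.card_pos (α := G)).ne'
    have hi := (powCoprime hk.symm).injective
    rw [map_prod]
    refine Finset.prod_bij (fun v _ => v ^ k) (fun v hv => h2 v hv k hk) (fun v _ w _ e => hi e)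
      (fun w hw => ?_) fun v hv => ?_
    · obtain ⟨v, hv, e⟩ := Finset.surj_on_of_inj_on_of_card_le (s := Y) (t := Y) (fun v _ => v ^ k)
        (fun v hv => h2 v hv k hk) (fun v w _ _ e => hi e) le_rfl w hw
      exact ⟨v, hv, e.symm⟩
    · rw [map_mul, map_pow, map_ofNat]
      exact congrArg _ (map_con_subAt hM hd.bp (φ : ℂ →+* ℂ) hk hφ hg hg (h1 v hv).1)

theorem TD.bound (h : TD d.1 m x y) (hM : IsPModular 2 M) (hd : IsMaxBP 2 M B d)
    (hu : ∀ u ∈ tU M d x y, u * u = 1) {χ : IrrCharacter G} (hχ : χ ∈ B)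
    (h0 : blockHeight 2 B χ.1 = 0) {r s : ℤ} (hr : 2 ^ (m + 3) * bf 2 χ.1 χ.1 = r)
    (hs : 2 ^ (m + 3) * con 2 χ.1 χ.1 (subAt 2 M d (tz m x)) = s) :
    r + s + 2 ^ (m + 1) * (tU M d x y).card ≤ 2 * 2 ^ (m + 1) + 2 := by
  have := Fintype.ofFinite G
  obtain ⟨X, hX⟩ := exists_fReps 2 M d
  have hc := irr_classFun χ
  have h1 := h.two_sum hM hd hX (F := fun v => con 2 χ.1 χ.1 (subAt 2 M d v))
    fun u hu v _ ⟨g, e⟩ => by rw [← e, con_smul hM (subAt_ok hM hd.bp hu) hc hc]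
  rw [← hX.inner_eq_sum hM hd hχ (irr_isGenChar χ), classInner_irr_self, con_one hM hd.of hχ hc]
    at h1
  have hk : ∀ k : ℕ, k.Coprime (Nat.card G) → Odd k := fun k hk => by
    rw [← Nat.coprime_two_right]
    exact hk.coprime_dvd_right (h.z_ord ▸ orderOf_dvd_natCard _)
  have h2 := hd.le_sum_con hM hχ h0 (Y := tW x) (fun v hv =>
    ⟨h.le (mem_tW.1 hv).1, h.ul_in hM hd (mem_tW.1 hv).1 (mem_tW.1 hv).2⟩) fun v hv k hk =>
      mem_tW.2 ⟨pow_mem (mem_tW.1 hv).1 k, fun e => (mem_tW.1 hv).2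
        ((powCoprime hk.symm).injective (by simpa [← sq, ← pow_mul, mul_comm] using e))⟩
  have h3 := hd.le_sum_con hM hχ h0 (Y := tU M d x y) (fun v hv =>
    ⟨h.tU_mem hv, h.ul_out hM hd (h.tU_mem hv) (mem_tU.1 hv).2⟩) fun v hv k hk' => by
      obtain ⟨j, rfl⟩ := hk k hk'
      rwa [pow_succ, pow_mul, sq, hu v hv, one_pow, one_mul]
  have h4 := h.card_tW
  have h5 : (((2 ^ (m + 3) - r - s : ℤ) : ℝ) : ℂ) =
      2 ^ (m + 2) * ∑ v ∈ tW x, con 2 χ.1 χ.1 (subAt 2 M d v) + ((2 ^ (m + 1) : ℝ) : ℂ) *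
        (2 ^ 2 * ∑ v ∈ tU M d x y, con 2 χ.1 χ.1 (subAt 2 M d v)) := by
    simp only [nsmul_eq_mul] at h1
    push_cast at h1 ⊢
    rw [← hr, ← hs]
    linear_combination 2 ^ (m + 2) * h1
  replace h5 := congrArg Complex.re h5
  rw [Complex.ofReal_re, Complex.add_re, Complex.re_ofReal_mul] at h5
  have h6 := mul_le_mul_of_nonneg_left h3 (show (0 : ℝ) ≤ 2 ^ (m + 1) by positivity)
  replace h4 : ((tW x).card : ℝ) + 2 = 2 ^ (m + 2) := by exact_mod_cast h4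
  have : (r + s + 2 ^ (m + 1) * (tU M d x y).card : ℝ) ≤ 2 * 2 ^ (m + 1) + 2 := by
    push_cast at h5
    simp only [pow_succ] at *
    linarith
  exact_mod_cast this

theorem TD.dih_aux (h : TD d.1 m x y) (hM : IsPModular 2 M) (hd : IsMaxBP 2 M B d)
    (hy : y * x * y⁻¹ = x⁻¹) (hy2 : y * y = 1) :
    ∃ (t : IrrCharacter G → ℤ) (e : ℕ → IrrCharacter G → ℤ) (c : ℤ), U c ∧
      (∀ a b, ∑ χ with χ ∈ B, e a χ * e b χ = gr m a b) ∧
      (∀ a s, ¬ 2 ∣ orderOf s → ∑ χ with χ ∈ B, e a χ * χ.1 s = 0) ∧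
      (∀ i, ∑ χ with χ ∈ B, e i χ * t χ = c * (2 - 2 * (-1) ^ i)) ∧
      (∀ χ ∈ B, Odd (t χ) ↔ blockHeight 2 B χ.1 = 0) ∧
      (∀ χ ∈ B, ¬ Odd (t χ) → t χ = 2 ∨ t χ = -2) ∧ (∀ χ ∈ B, blockHeight 2 B χ.1 ≤ 1) ∧
      (∀ χ ∈ B, 2 ^ (m + 3) * con 2 χ.1 χ.1 (subAt 2 M d (tz m x)) = t χ * t χ) ∧
      Nat.card B = 2 ^ (m + 1) + 3 ∧ (∀ χ ∈ B, Odd (t χ) → U (t χ)) ∧
      ((Finset.univ.filter (· ∈ B)).filter fun χ => Odd (t χ)).card = 4 ∧
      blockRank 2 B + (tU M d x y).card = 3 := by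
  have hB := hd.of.block
  obtain ⟨f0, hL, hr, e, c, hc, e1, e2, e3⟩ := h.cols hM hd hy hy2
  obtain ⟨a, ha⟩ := h.exists_a0 hM hd
  have hs := h.sys_z hM hd ha
  have hk := h.card_eq hM hd
  have hl := blockRank_pos (p := 2) hM.1 hs.ne
  obtain ⟨t, t1, t2, t3⟩ := hs.main hM hL (by omega)
  rcases t3 with t3 | t3 | ⟨-, t3, t4, t5⟩
  iterate 2 omega
  have hO : ((Finset.univ.filter (· ∈ B)).filter fun χ => Odd (t χ)).card = 4 := by
    rw [← hs.four.1]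
    exact congrArg _ (Finset.filter_congr fun χ hχ => by
      rw [t2 χ (mem_bS.1 hχ), hs.a2 χ (mem_bS.1 hχ)])
  have e4 : ∀ i, ∑ χ with χ ∈ B, e i χ * t χ = c * (2 - 2 * (-1) ^ i) := fun i =>
    Int.cast_injective (α := ℂ) (by
      push_cast
      rw [← e3]
      exact Finset.sum_congr rfl fun χ hχ => by rw [t1 χ (mem_bS.1 hχ)])
  rcases t5 with ⟨t5, -, t6⟩ | ⟨t5, t6⟩
  swap
  · exfalso
    rcases m with _ | _ | m
    · have := Finset.card_filter_le (Finset.univ.filter (· ∈ B)) fun χ => Odd (t χ)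
      rw [card_bS] at this
      omega
    · have := defect_of_rank_one_five hM hB (hd.defect hM) (by omega) t5
      rw [h.card] at this
      omega
    obtain ⟨n, hn⟩ : ∃ n, 2 ^ (m + 2) = n + 1 := ⟨_, (Nat.succ_pred (by positivity)).symm⟩
    have hn' : 2 ^ (m + 1 + 1 + 1) = 2 * n + 2 := by rw [pow_succ, hn]; ring
    have : 1 ≤ 2 ^ m := Nat.one_le_two_pow
    refine glue (I := Fin (n + 1)) (J := Fin n) (Fintype.card_fin _) (Fintype.card_fin _)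
      (by rw [pow_add] at hn; omega) (g := fun i j χ => e (2 * j + 2) χ - e (2 * i + 1) χ)
      (fun i j k l => ?_) (c := -4 * c) (by rcases hc with rfl | rfl <;> simp) (fun i j => ?_) hO
      (fun χ hχ => t3 χ (mem_bS.1 hχ)) (by rw [card_bS]; omega) t6
    · simp only [sub_mul, mul_sub, Finset.sum_sub_distrib, e1]
      exact gr_glue hn' i k j l
    · simp only [sub_mul, Finset.sum_sub_distrib, e4, pow_succ, pow_mul]
      ring
  refine ⟨t, e, c, hc, e1, e2, e4, t2, t3, fun χ hχ => ?_, fun χ hχ => by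
    rw [h.con_z, t4 χ hχ χ hχ], t5, t6, hO, by omega⟩
  by_cases h1 : Odd (t χ)
  · rw [(t2 χ hχ).1 h1]; simp
  obtain ⟨ψ, hψ, h0⟩ := exists_height_zero (p := 2) hs.ne
  have := hs.ht χ hχ ψ hψ h0
  rw [t4 χ hχ ψ hψ, map_mul, (val_odd hM).2 ((t2 ψ hψ).2 h0), mul_one] at this
  refine ((val_p_pow_inj hM).1 (this.symm.trans ?_)).le
  rcases t3 χ hχ h1 with e | e <;> simp [e]

theorem TD.dih (h : TD d.1 m x y) (hM : IsPModular 2 M) (hd : IsMaxBP 2 M B d)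
    (hy : y * x * y⁻¹ = x⁻¹) (hy2 : y * y = 1) :
    Nat.card B = 2 ^ (m + 1) + 3 ∧ blockRank 2 B + (tU M d x y).card = 3 ∧
      Nat.card {χ // χ ∈ B ∧ blockHeight 2 B χ.1 = 0} = 4 ∧ (∀ χ ∈ B, blockHeight 2 B χ.1 ≤ 1) ∧
      ∃ f0 f1 f2, Lat (2 ^ (m + 3)) 2 B f0 f1 f2 ∧ Four B f0 f1 f2 := by
  have hB := hd.of.block
  obtain ⟨t, e, c, hc, e1, e2, e4, t2, t3, t1, t4, t5, t6, hO, hl'⟩ := h.dih_aux hM hd hy hy2
  have hI : ∀ i ∈ Finset.Ico 1 (2 ^ (m + 1)), i ∈ Finset.Icc 1 (2 ^ (m + 1)) ∧ i ≠ 2 ^ (m + 1) :=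
    fun i hi => ⟨Finset.Ico_subset_Icc_self hi, (Finset.mem_Ico.1 hi).2.ne⟩
  have hN := Finset.right_mem_Icc.2 (Nat.one_le_two_pow (n := m + 1))
  have c1 := Finset.card_filter_add_card_filter_not (s := Finset.univ.filter (· ∈ B))
    fun χ => Odd (t χ)
  rw [card_bS, hO, t5] at c1
  have hsum : ∀ {A : Type} [CommRing A] (F : IrrCharacter G → A) (r : A),
      (∀ χ ∈ B, ¬ Odd (t χ) → F χ = r) → ∑ χ with χ ∈ B, F χ =
        ∑ χ ∈ Finset.univ.filter (· ∈ B) with Odd (t χ), F χ + (2 ^ (m + 1) - 1) * r :=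
    fun F r hF => by
      rw [← Finset.sum_filter_add_sum_filter_not _ fun χ => Odd (t χ),
        Finset.sum_congr (s₁ := Finset.filter (fun χ => ¬ Odd (t χ)) _) rfl fun χ hχ =>
          hF χ (mem_bS.1 (Finset.mem_filter.1 hχ).1) (Finset.mem_filter.1 hχ).2, Finset.sum_const,
        nsmul_eq_mul, eq_tsub_of_add_eq (show Finset.card _ + 1 = 2 ^ (m + 1) by omega),
        Nat.cast_sub Nat.one_le_two_pow]
      simp
  obtain ⟨θ, k1, k2, k3, k4, k5⟩ := struct (S := Finset.univ.filter (· ∈ B)) (e := e)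
    (N := 2 ^ (m + 1)) (by simp [parity_simps]) Nat.one_le_two_pow hc hO
    (fun χ hχ => t6 χ (mem_bS.1 hχ)) (fun χ hχ => t3 χ (mem_bS.1 hχ)) (by
      rw [hsum _ 4 fun χ hχ e => by rcases t3 χ hχ e with e | e <;> simp [e],
        Finset.sum_congr rfl (g := fun _ => 1) fun χ hχ => U.sq
          (t6 χ (mem_bS.1 (Finset.mem_filter.1 hχ).1) (Finset.mem_filter.1 hχ).2)]
      simp [hO]; ring)
    (fun i hi j hj => by simp [e1, gr_eq (hI i hi).1 (hI j hj).1, (hI i hi).2])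
    (fun i hi => by simp [e1, gr_eq (hI i hi).1 hN, (hI i hi).2])
    (by simp [sq, e1, gr_eq hN hN]) e4
  simp only [mem_bS] at k2 k3 k5
  have hU := fun i => t6 _ (k2 i).1 (k2 i).2
  have hθ : ∀ {A : Type} [CommRing A] (F : IrrCharacter G → A),
      ∑ χ ∈ Finset.univ.filter (· ∈ B) with Odd (t χ), F χ = ∑ i, F (θ i) := fun F => by
    rw [← Finset.sum_image fun i _ j _ e => k1 e]
    congr 1
    ext χ
    simp only [Finset.mem_filter, Finset.mem_univ, true_and, Finset.mem_image]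
    exact ⟨fun e => k3 χ e.1 e.2, fun ⟨i, e⟩ => e ▸ k2 i⟩
  have k6 : ∀ ψ ∈ B, ψ ∉ Set.range θ → ∃ c : ℤ, U c ∧ ∀ s, ¬ 2 ∣ orderOf s →
      ψ.1 s = c * (t (θ 0) * (θ 0).1 s + t (θ 1) * (θ 1).1 s) := fun ψ hψ e =>
    (k5 ψ hψ e).imp fun c hc => ⟨hc.1, fun s hs => hc.2 (fun χ => χ.1 s) fun i => e2 i s hs⟩
  have k7 := fun s hs => k4 (fun χ => χ.1 s) fun i => e2 i s hs
  refine ⟨t5, hl', ?_, t1, ?_⟩
  · rw [card_sub, ← hO]
    exact congrArg _ (Finset.filter_congr fun χ hχ => (t2 χ (mem_bS.1 hχ)).symm)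
  have hA : ∀ f g, IsGeneralizedCharacter G f → blockPart B f = f → IsGeneralizedCharacter G g →
      ∃ n : ℤ, 2 ^ (m + 3) * bf 2 f g = n := fun f g hf hf' hg => by
    simpa only [hf', Nat.cast_ofNat] using exists_int_pow_mul_bf hM (h.defect hM hd).le hf hg
  obtain ⟨s, hs0⟩ : ∃ s, s = (t (θ 0) : ℂ) • (θ 0).1 + (t (θ 1) : ℂ) • (θ 1).1 := ⟨_, rfl⟩
  have s1 : IsGeneralizedCharacter G s := by
    simp only [hs0, Int.cast_smul_eq_zsmul]
    exact isGenChar_add (isGenChar_zsmul _ (irr_isGenChar _)) (isGenChar_zsmul _ (irr_isGenChar _))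
  have s2 : blockPart B s = s := by
    simp only [hs0, blockPart_add', blockPart_smul', blockPart_irr_of_mem (k2 _).1]
  obtain ⟨σ, hσ⟩ := hA s s s1 s2 s1
  choose! q hq using fun (χ : IrrCharacter G) hχ =>
    hA _ _ (irr_isGenChar χ) (blockPart_irr_of_mem hχ) s1
  choose! r hr' using fun (χ : IrrCharacter G) hχ =>
    hA _ _ (irr_isGenChar χ) (blockPart_irr_of_mem hχ) (irr_isGenChar χ)
  have s3 : ∀ χ ∈ B, ¬ Odd (t χ) → q χ ^ 2 = σ ^ 2 ∧ r χ = σ := fun χ hχ e => by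
    obtain ⟨c, hc, e⟩ := k6 χ hχ fun ⟨i, e'⟩ => e (e' ▸ (k2 i).2)
    have e' : ∀ g, ¬ 2 ∣ orderOf g → χ.1 g = ((c : ℂ) • s) g := fun g hg => by simp [e g hg, hs0]
    constructor <;> refine Int.cast_injective (α := ℂ) ?_ <;> push_cast
    · rw [← hq χ hχ, ← hσ, bf_congr_left e', bf_smul_left]
      linear_combination (2 ^ (m + 3) * bf 2 s s) ^ 2 * hc.cast_sq
    · rw [← hr' χ hχ, ← hσ, bf_congr_left e', bf_congr_right _ e', bf_smul_left, bf_smul_right]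
      linear_combination (2 ^ (m + 3) * bf 2 s s) * hc.cast_sq
  have s4 : t (θ 0) * q (θ 0) + t (θ 1) * q (θ 1) = σ := Int.cast_injective (α := ℂ) (by
    push_cast
    rw [← hσ, ← hq _ (k2 0).1, ← hq _ (k2 1).1]
    nth_rewrite 3 [hs0]
    rw [bf_add_left, bf_smul_left, bf_smul_left]; ring)
  have s5 : t (θ 2) * q (θ 2) + t (θ 3) * q (θ 3) = σ := Int.cast_injective (α := ℂ) (by
    push_cast
    rw [← hσ, ← hq _ (k2 2).1, ← hq _ (k2 3).1, bf_congr_left (f := s)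
      (f' := (t (θ 2) : ℂ) • (θ 2).1 + (t (θ 3) : ℂ) • (θ 3).1) fun g hg => by
        simpa [hs0] using k7 g hg, bf_add_left, bf_smul_left, bf_smul_left]; ring)
  have s6 : ∑ χ with χ ∈ B, q χ ^ 2 = 2 ^ (m + 3) * σ := Int.cast_injective (α := ℂ) (by
    push_cast
    rw [← hσ, ← sum_bf_mul hM hB s2, Finset.mul_sum, Finset.mul_sum]
    exact Finset.sum_congr rfl fun χ hχ => by rw [← hq χ (mem_bS.1 hχ)]; ring)
  have s7 : ∑ χ with χ ∈ B, r χ = 2 ^ (m + 3) * blockRank 2 B := Int.cast_injective (α := ℂ) (by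
    push_cast
    rw [← sum_bf_self hM hB, Finset.mul_sum]
    exact Finset.sum_congr rfl fun χ hχ => (hr' χ (mem_bS.1 hχ)).symm)
  rw [hsum _ _ fun χ hχ e => (s3 χ hχ e).1, hθ, Fin.sum_univ_four] at s6
  rw [hsum _ _ fun χ hχ e => (s3 χ hχ e).2, hθ, Fin.sum_univ_four] at s7
  have s8 := fun i => h.bound hM hd (fun u hu => h.sq_dih hy hy2 (h.tU_mem hu) fun e =>
    (mem_tU.1 hu).2 u e (Fz.refl u)) (k2 i).1 ((t2 _ (k2 i).1).1 (k2 i).2) (hr' _ (k2 i).1)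
      (s := 1) (by rw [t4 _ (k2 i).1, U.cast_sq (hU i), Int.cast_one])
  have s9 : (blockRank 2 B : ℤ) = 3 - (tU M d x y).card := by omega
  have hw : (2 : ℤ) ^ (m + 3) = 4 * 2 ^ (m + 1) := by ring
  have hN2 : (2 : ℤ) ≤ 2 ^ (m + 1) := by
    simpa using pow_le_pow_right₀ (one_le_two (α := ℤ)) (Nat.le_add_left 1 m)
  rw [s9, hw] at s7
  rw [hw] at s6
  have q0 : ∀ i j : Fin 4, t (θ i) * q (θ i) + t (θ j) * q (θ j) = σ →
      σ ^ 2 ≤ 2 * (q (θ i) ^ 2 + q (θ j) ^ 2) := fun i j e => by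
    rw [← e, ← one_mul (q (θ i) ^ 2), ← one_mul (q (θ j) ^ 2), ← U.sq (hU j)]
    nth_rewrite 1 [U.sq (hU j), ← U.sq (hU i)]
    nlinarith [sq_nonneg (t (θ i) * q (θ i) - t (θ j) * q (θ j))]
  have q1 : σ ≤ 4 := by
    by_contra e
    nlinarith [q0 0 1 s4, q0 2 3 s5, mul_pos (show 0 < σ by omega) (show 0 < σ - 4 by omega)]
  have q2 := mul_le_mul_of_nonneg_left q1 (show 0 ≤ (2 : ℤ) ^ (m + 1) - 1 by omega)
  have q3 : ∀ i, r (θ i) = 2 * 2 ^ (m + 1) + 1 - 2 ^ (m + 1) * (tU M d x y).card := fun i => by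
    have := s8 0
    have := s8 1
    have := s8 2
    have := s8 3
    fin_cases i <;> simp only [Fin.zero_eta, Fin.mk_one, Fin.reduceFinMk] <;> linarith
  have q4 : σ = 4 := mul_left_cancel₀ (show (2 : ℤ) ^ (m + 1) - 1 ≠ 0 by omega) (by
    rw [q3, q3, q3, q3] at s7
    linear_combination s7)
  refine lat_of_four hM hB k1 (fun i => (k2 i).1) hU k7 k6 tU_card_le hl' (by positivity)
    (fun i => ?_) (by rw [← hs0, Nat.cast_pow, Nat.cast_ofNat, hσ, q4, Int.cast_ofNat])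
  have := hr' _ (k2 i).1
  rw [q3] at this
  push_cast at this ⊢
  rw [eq_inv_mul_iff_mul_eq₀ (by simp) |>.2 this]
  field_simp
  ring

end Cfsg.Agent.Block
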