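import Mathlib
import Cfsg.Agent.Block.Tame9

/-! Blocks of defect two. -/

namespace Cfsg.Agent.Block

open Cfsg Cfsg.Agent.Char Subgroup TN
open scoped ComplexConjugate Classical

variable {G : Type*} [Group G] [Finite G] {D : Subgroup G} {M : Ideal AlgInt}
  {B : Set (IrrCharacter G)}

theorem TN.rank_one4 {A : Fin 4 → Fin 4 → ℤ} (h1 : ∀ i j, Odd (A i j)) (h2 : ∀ i j, A i j = A j i)
    (h3 : ∀ i j, ∑ k, A k i * A k j = 4 * A i j) (h4 : ∑ i, A i i = 4) (i j : Fin 4) :
    U (A i j) ∧ A i j = A 0 i * A 0 j := by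
  have h5 := fun i => sq_odd (S := Finset.univ) (t := fun k => A k i) fun k _ => h1 k i
  simp only [sq, h3, Finset.card_univ, Fintype.card_fin, Finset.mem_univ, true_imp_iff] at h5
  have h6 : ∀ i, A i i = 1 := fun i => by
    have := (h5 0).1
    have := (h5 1).1
    have := (h5 2).1
    have := (h5 3).1
    rw [Fin.sum_univ_four] at h4
    fin_cases i <;> simp only [Fin.zero_eta, Fin.mk_one, Fin.reduceFinMk] <;> omega
  have h7 : ∀ i j, U (A i j) := fun i j => ((h5 j).2 (by rw [h6]; norm_num)).1 i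
  have h8 : ∀ k, U (A k i * A k j) := fun k => by
    rcases h7 k i with e | e <;> rcases h7 k j with e' | e' <;> simp [e, e', U]
  have := h3 i j
  rw [Fin.sum_univ_four] at this
  refine ⟨h7 i j, ?_⟩
  obtain ⟨a0, a1, a2, a3, a4⟩ := (⟨h8 0, h8 1, h8 2, h8 3, h7 i j⟩ : _ ∧ _ ∧ _ ∧ _ ∧ _)
  simp only [U] at a0 a1 a2 a3 a4
  omega

theorem lat_order_four (hM : IsPModular 2 M) (hB : IsPBlock M B) (hD : IsDefectGroup 2 M B D)
    (h4 : Nat.card D = 4) : ∃ f0 f1 f2, Lat 4 2 B f0 f1 f2 ∧ Four B f0 f1 f2 := by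
  obtain ⟨d, rfl, hd⟩ := exists_isMaxBP hM hB hD
  obtain ⟨h1, h2⟩ := hd.abFree_two hM (IsPGroup.isMulCommutative_of_card_eq_prime_sq (p := 2) h4)
    ((Finite.card_subtype_le _).trans h4.le)
  have h3 := h1.rank_eq hM hd (fun e => by simp [e] at h4) (by omega)
  have h5 := h1.card_eq hM hd
  rw [← h3] at h2 h5
  have h6 : Nat.card B = 4 := by rcases h2 with e | e <;> rw [e, h4] at h5 <;> omega
  have h7 : blockDefect 2 B = 2 := Nat.pow_right_injective le_rfl
    ((card_defectGroup hM hB hD).symm.trans h4)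
  obtain ⟨e⟩ := Finite.card_eq.1 (h6.trans (Nat.card_fin 4).symm)
  let θ : Fin 4 → IrrCharacter G := fun i => e.symm i
  have hθ : Function.Injective θ := Subtype.val_injective.comp e.symm.injective
  have hm : ∀ i, θ i ∈ B := fun i => (e.symm i).2
  have hs : ∀ ψ ∈ B, ψ ∈ Set.range θ := fun ψ hψ => ⟨e ⟨ψ, hψ⟩, by simp [θ]⟩
  have hsum : ∀ F : IrrCharacter G → ℂ, ∑ χ with χ ∈ B, F χ = ∑ i, F (θ i) := fun F => by
    rw [← Finset.sum_image fun i _ j _ e => hθ e]
    congr 1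
    ext χ
    simp only [Finset.mem_filter, Finset.mem_univ, true_and, Finset.mem_image]
    exact ⟨hs χ, fun ⟨i, e⟩ => e ▸ hm i⟩
  have hP : ∀ i j, ∃ n : ℤ, 4 * bf 2 (θ i).1 (θ j).1 = n ∧ Odd n := fun i j => by
    obtain ⟨n, hn⟩ := exists_int_pow_mul_bf hM h7.le (irr_isGenChar (θ i)) (irr_isGenChar (θ j))
    have := (val_con_eq_one_iff hM (subAt_ok hM hd.bp (one_mem _))
      (subAt_isBPOf hM hd.of (one_mem _)) (hm i) (hm j)).2
        ⟨height_eq_zero_of_defect_le hM hB h7.le (hm i), height_eq_zero_of_defect_le hM hB h7.le (hm j)⟩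
    rw [blockPart_irr_of_mem (hm i)] at hn
    rw [(blockDefect_of_fst_eq_bot hM (subAt_isBPOf hM hd.of (one_mem _)) (subAt_one hM hd.bp)).1,
      h7, con_one hM hd.of (hm i) (irr_classFun _), hn, val_odd hM] at this
    exact ⟨n, by rw [← hn]; norm_num, this⟩
  choose P p1 p2 using hP
  have p3 : ∀ i j, P i j = P j i := fun i j => Int.cast_injective (α := ℂ) (by
    rw [← p1, ← p1, bf_symm])
  have p4 : ∀ i j, ∑ k, P k i * P k j = 4 * P i j := fun i j => Int.cast_injective (α := ℂ) (by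
    push_cast
    simp only [← p1]
    rw [← sum_bf_mul hM hB (blockPart_irr_of_mem (hm i)), hsum, Finset.mul_sum, Finset.mul_sum]
    exact Finset.sum_congr rfl fun k _ => by ring)
  have p5 : ∑ i, P i i = 4 * blockRank 2 B := Int.cast_injective (α := ℂ) (by
    push_cast
    simp only [← p1]
    rw [← sum_bf_self hM hB, hsum, Finset.mul_sum])
  have key : ∀ (t : Fin 4 → ℤ) (c : ℤ) (e : ℕ), (∀ i, U (t i)) → e ≤ 2 → blockRank 2 B + e = 3 →
      (∀ i, P i i = 3 - e) → t 0 * t 1 * P 0 1 = e - 1 → t 2 * t 3 * P 2 3 = e - 1 →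
      (∀ i j : Fin 4, i.1 < 2 → 2 ≤ j.1 → t i * t j * P i j = 1) →
      ∃ f0 f1 f2, Lat 4 2 B f0 f1 f2 ∧ Four B f0 f1 f2 := fun t c e k1 k2 k3 k4 k5 k6 k7 => by
    have q := fun i => (k1 i).cast_sq
    have q1 : ∀ i j, bf 2 (θ i).1 (θ j).1 = P i j / 4 := fun i j => by rw [← p1]; ring
    have k4' : ∀ i, (P i i : ℂ) = 3 - e := fun i => by exact_mod_cast k4 i
    replace k5 : (t 0 * t 1 * P 0 1 : ℂ) = e - 1 := by exact_mod_cast k5
    replace k6 : (t 2 * t 3 * P 2 3 : ℂ) = e - 1 := by exact_mod_cast k6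
    have k7' : ∀ i j : Fin 4, i.1 < 2 → 2 ≤ j.1 → (t i * t j * P i j : ℂ) = 1 := fun i j h h' => by
      exact_mod_cast k7 i j h h'
    refine lat_of_four hM hB hθ hm k1 (fun s hs => ?_) (fun ψ hψ h => absurd (hs ψ hψ) h) k2 k3
      four_ne_zero (fun i => by rw [q1, k4']; push_cast; ring) ?_
    · have hg : IsGeneralizedCharacter G ((t 0 : ℂ) • (θ 0).1 + (t 1 : ℂ) • (θ 1).1 -
          ((t 2 : ℂ) • (θ 2).1 + (t 3 : ℂ) • (θ 3).1)) := by
        simp only [Int.cast_smul_eq_zsmul]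
        exact isGenChar_sub
          (isGenChar_add (isGenChar_zsmul _ (irr_isGenChar _)) (isGenChar_zsmul _ (irr_isGenChar _)))
          (isGenChar_add (isGenChar_zsmul _ (irr_isGenChar _)) (isGenChar_zsmul _ (irr_isGenChar _)))
      refine sub_eq_zero.1 (eq_zero_of_bf_eq_zero (p := 2) (fun s _ => isGenChar_inv hg s) ?_ hs)
      simp only [bf_smul_left, bf_smul_right, bf_add_left, bf_add_right, bf_sub_left, bf_sub_right,
        q1, k4', p3 1 0, p3 2 0, p3 3 0, p3 2 1, p3 3 1, p3 3 2]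
      linear_combination (3 - e : ℂ) / 4 * (q 0 + q 1 + q 2 + q 3) + k5 / 2 + k6 / 2 -
        (k7' 0 2 (by simp) (by simp) + k7' 0 3 (by simp) (by simp) + k7' 1 2 (by simp) (by simp) +
          k7' 1 3 (by simp) (by simp)) / 2
    · simp only [bf_smul_left, bf_smul_right, bf_add_left, bf_add_right, q1, k4', p3 1 0]
      push_cast
      linear_combination (3 - e : ℂ) * (q 0 + q 1) + 2 * k5
  rcases h2 with h2 | h2
  · have k := rank_one4 p2 p3 p4 (by rw [p5, h2]; rfl)
    have k' : ∀ i j, P 0 i * P 0 j * P i j = 1 := fun i j => by rw [← (k i j).2, ← sq, (k i j).1.sq]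
    exact key (P 0) 1 2 (fun i => (k 0 i).1) le_rfl (by omega)
      (fun i => by rw [(k i i).2, ← sq, (k 0 i).1.sq]; rfl) (k' 0 1) (k' 2 3) fun i j _ _ => k' i j
  · have k := rank_one4 (A := fun i j => (if i = j then 4 else 0) - P i j)
      (fun i j => Even.sub_odd (by split_ifs <;> decide) (p2 i j))
      (fun i j => by simp [p3 i j, eq_comm]) (fun i j => by
        simp only [sub_mul, mul_sub, Finset.sum_sub_distrib, p4, ite_mul, mul_ite, zero_mul,
          mul_zero, Finset.sum_ite_eq', Finset.mem_univ, if_true, p3 j i, @eq_comm _ j i]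
        split_ifs <;> ring) (by simp [p5, h2])
    obtain ⟨η, hη⟩ : ∃ η : Fin 4 → ℤ, ∀ i, η i = (if 0 = i then 4 else 0) - P 0 i := ⟨_, fun _ => rfl⟩
    simp only [← hη] at k
    have k1 : ∀ i, U (η i) := fun i => hη i ▸ (k 0 i).1
    have k' : ∀ i j, i ≠ j → η i * η j * P i j = -1 := fun i j h => by
      have := (k i j).2
      rw [if_neg h] at this
      linear_combination -η i * η j * this - η j ^ 2 * (k1 i).sq - (k1 j).sq
    refine key ![η 0, η 1, -η 2, -η 3] 1 0 (fun i => ?_) (by omega) (by omega) (fun i => ?_)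
      (k' 0 1 (by decide)) (by simpa using k' 2 3 (by decide)) fun i j hi hj => ?_
    · fin_cases i
      exacts [k1 0, k1 1, by simpa [U, or_comm, neg_eq_iff_eq_neg] using k1 2,
        by simpa [U, or_comm, neg_eq_iff_eq_neg] using k1 3]
    · have := (k i i).2
      rw [if_pos rfl, ← sq, (k1 i).sq] at this
      omega
    · fin_cases i <;> fin_cases j <;> simp at hi hj <;> simp [neg_eq_iff_eq_neg, k']

end Cfsg.Agent.Block
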