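import Mathlib
import Cfsg.Prelude.Def_CaseTheorems
import Cfsg.Agent.Block.Tame1

/-! Presentations of the tame defect groups. -/

namespace Cfsg.Agent.Block

open Cfsg Subgroup

variable {G : Type*} [Group G] {D : Subgroup G} {m : ℕ}

theorem td_of {x y : G} (xm : x ∈ D) (ym : y ∈ D) (ord : orderOf x = 2 ^ (m + 2))
    (card : Nat.card D = 2 ^ (m + 3)) {e : ℕ} (he : e = 0 ∨ 1 ≤ m)
    (cj : y * x * y⁻¹ = (x ^ 2 ^ (m + 1)) ^ e * x⁻¹) : TD D m x y := by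
  refine ⟨xm, ym, ord, card, fun h => ?_, e, he, cj⟩
  rw [TD.comm h (mem_zpowers x), mul_inv_cancel_right, eq_mul_inv_iff_mul_eq, ← sq] at cj
  rcases he with rfl | he
  · have := orderOf_dvd_of_pow_eq_one (show x ^ 2 ^ 1 = 1 from cj.trans (pow_zero _))
    rw [ord, Nat.pow_dvd_pow_iff_le_right one_lt_two] at this
    omega
  · have : x ^ 2 ^ 2 = 1 := by
      rw [sq 2, pow_mul, cj, ← pow_mul, mul_comm e, pow_mul, ← pow_mul x, ← pow_succ, ← ord,
        pow_orderOf_eq_one, one_pow]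
    have := orderOf_dvd_of_pow_eq_one this
    rw [ord, Nat.pow_dvd_pow_iff_le_right one_lt_two] at this
    omega

theorem exists_td_dih (e : D ≃* DihedralGroup (2 ^ (m + 2))) :
    ∃ x y, TD D m x y ∧ y * x * y⁻¹ = x⁻¹ ∧ y * y = 1 := by
  have h1 : (e.symm (.sr 0) * e.symm (.r 1) * (e.symm (.sr 0))⁻¹ : G) = (e.symm (.r 1) : G)⁻¹ := by
    norm_cast
    simp [← map_mul, ← map_inv]
  refine ⟨e.symm (.r 1), e.symm (.sr 0), td_of (e := 0) (Subtype.prop _) (Subtype.prop _) (by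
    rw [orderOf_coe, e.symm.orderOf_eq, DihedralGroup.orderOf_r_one]) (by
    rw [Nat.card_congr e.toEquiv, DihedralGroup.nat_card]; ring) (Or.inl rfl) (by simpa using h1),
    h1, ?_⟩
  norm_cast
  simp [← map_mul]

theorem exists_td_quat (e : D ≃* QuaternionGroup (2 ^ (m + 1))) :
    ∃ x y, TD D m x y ∧ y * x * y⁻¹ = x⁻¹ ∧ y * y = tz m x := by
  have h1 : (e.symm (.xa 0) * e.symm (.a 1) * (e.symm (.xa 0) : G)⁻¹ : G) = (e.symm (.a 1) : G)⁻¹ := by
    rw [mul_inv_eq_iff_eq_mul, eq_inv_mul_iff_mul_eq]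
    norm_cast
    simp [← map_mul]
  refine ⟨e.symm (.a 1), e.symm (.xa 0), td_of (e := 0) (Subtype.prop _) (Subtype.prop _) (by
    rw [orderOf_coe, e.symm.orderOf_eq, QuaternionGroup.orderOf_a_one]; ring) (by
    rw [Nat.card_congr e.toEquiv, Nat.card_eq_fintype_card, QuaternionGroup.card]; ring)
    (Or.inl rfl) (by simpa using h1), h1, ?_⟩
  rw [tz]
  norm_cast
  rw [← map_mul, ← map_pow, QuaternionGroup.a_one_pow]
  simp

theorem exists_td_sd (h : IsQuasiDihedral D) :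
    ∃ m x y, 1 ≤ m ∧ TD D m x y ∧ y * x * y⁻¹ = tz m x * x⁻¹ ∧ y * y = 1 := by
  obtain ⟨n, hn, h1, x, y, h2, h3, h4⟩ := h
  obtain ⟨m, rfl⟩ : ∃ m, n = m + 2 := ⟨n - 2, by omega⟩
  have h5 : (y * x * (y : G)⁻¹ : G) = tz m (x : G) * (x : G)⁻¹ := by
    rw [eq_mul_inv_iff_mul_eq, tz]
    norm_cast
    rw [h4, ← pow_succ, Nat.sub_add_cancel Nat.one_le_two_pow]
    rfl
  refine ⟨m, x, y, by omega, td_of (e := 1) x.2 y.2 (by rw [orderOf_coe, h2]) h1
    (Or.inr (by omega)) (by simpa using h5), h5, ?_⟩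
  norm_cast
  rw [← sq, ← h3, pow_orderOf_eq_one]

end Cfsg.Agent.Block
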