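import Mathlib
import Cfsg.Agent.Block.Tame10
import Cfsg.Agent.Block.TameG

/-! Blocks with quaternion or semidihedral defect groups. -/

namespace Cfsg.Agent.Block

open Cfsg Cfsg.Agent.Char Subgroup TN
open scoped ComplexConjugate Classical

variable {G : Type*} [Group G] [Finite G] {D : Subgroup G} {m p : ℕ} {x y : G} {M : Ideal AlgInt}
  {B : Set (IrrCharacter G)} {d a : BrauerPairIdx G}

theorem blockRank_of_le_center (hM : IsPModular p M) (ha : IsBPOf p M B a) (e : a.1 ≤ center G) :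
    blockRank p a.2 = blockRank p B := by
  obtain ⟨Q, f⟩ := a
  replace e : Q ≤ center G := e
  let φ : centralizer (Q : Set G) ≃* G :=
    (MulEquiv.subgroupCongr (centralizer_eq_top_iff_subset.2 e)).trans topEquiv
  have h1 := (isInducedBlock_iff_indAlong hM).1 ((isBrauerPairOf_iff_induced hM).1 ha).2
  obtain ⟨-, rfl⟩ := (indAlong_equiv_iff hM φ).1 h1
  exact blockRank_compSet φ B

theorem TD.lat_central (h : TD d.1 m x y) (hM : IsPModular 2 M) (hd : IsMaxBP 2 M B d)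
    (hz : tz m x ∈ center G) : ∃ f0 f1 f2, Lat (2 ^ (m + 3)) 4 B f0 f1 f2 ∧ Four B f0 f1 f2 := by
  have hc : zpowers (tz m x) ≤ center G := zpowers_le.2 hz
  have : (zpowers (tz m x)).Normal := ⟨fun z hz g => by
    rw [mem_center_iff.1 (hc hz) g]; simpa using hz⟩
  have hB := hd.of.block
  have hf := QuotientGroup.mk'_surjective (zpowers (tz m x))
  have k0 := QuotientGroup.ker_mk' (zpowers (tz m x))
  generalize QuotientGroup.mk' (zpowers (tz m x)) = f at hf k0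
  have k1 : Nat.card f.ker = 2 := by rw [k0, Nat.card_zpowers, h.z_ord]
  have k2 : IsPGroup 2 f.ker := .of_card (n := 1) k1
  have hb := isPBlock_domSet_of_centralizer hM hf k2
    (fun g _ z hz => (mem_center_iff.1 (hc (k0 ▸ hz :)) g).symm) hB
  have hD := isDefectGroup_domSet hM hf k2 hb hB (hd.defect hM)
  have k3 : ∀ K : Subgroup G, tz m x ∈ K → Nat.card (K.map f) * 2 = Nat.card K := fun K hK => by
    rw [← relIndex_ker, ← k1, relIndex, ← Nat.card_congr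
      (subgroupOfEquivOfLe (k0.le.trans (zpowers_le.2 hK))).toEquiv, index_mul_card]
  have k4 : f (tz m x) = 1 := k0.ge (mem_zpowers _)
  have k5 := k3 _ h.z_memD
  rw [h.card, pow_succ, Nat.mul_left_inj two_ne_zero] at k5
  suffices ∃ f0 f1 f2, Lat (2 ^ (m + 2)) 2 (domSet f hf B) f0 f1 f2 ∧ Four (domSet f hf B) f0 f1 f2 by
    obtain ⟨f0, f1, f2, h1, h2⟩ := this
    exact ⟨_, _, _, pow_succ' 2 (m + 2) ▸ h1.infl hM hB hf k1 (k0.le.trans hc) h2⟩
  rcases m with _ | m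
  · exact lat_order_four hM hb hD k5
  obtain ⟨c, hc, hd'⟩ := exists_isMaxBP hM hb hD
  have k6 : f y * f x * (f y)⁻¹ = (f x)⁻¹ := by
    obtain ⟨e, -, he⟩ := h.cj
    rw [← map_inv, ← map_mul, ← map_mul, he, map_mul, map_pow, k4, one_pow, one_mul, map_inv]
  have k7 := k3 _ (TD.z_mem (m := m + 1) (x := x))
  rw [h.card_X, pow_succ, Nat.mul_left_inj two_ne_zero, MonoidHom.map_zpowers,
    Nat.card_zpowers] at k7
  exact ((td_of (hc ▸ mem_map_of_mem f h.xm) (hc ▸ mem_map_of_mem f h.ym) k7 (hc ▸ k5) (e := 0)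
    (Or.inl rfl) (by simpa using k6)).dih hM hd' k6 (by
      rcases h.sq_out h.ym h.yn with e | e <;> rw [← map_mul, e] <;> simp only [map_one, k4])).2.2.2.2

theorem TD.rank_central (h : TD d.1 m x y) (hM : IsPModular 2 M) (hd : IsMaxBP 2 M B d)
    (hz : tz m x ∈ center G) : blockRank 2 B + (tU M d x y).card = 3 := by
  obtain ⟨f0, f1, f2, hL, θ, k1, k2⟩ := h.lat_central hM hd hz
  obtain ⟨a, ha⟩ := h.exists_a0 hM hd
  have hs := h.sys_one hM hd ha
  have hk := h.card_eq hM hd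
  rw [blockRank_of_le_center hM (subAt_isBPOf hM hd.of h.z_memD)
    ((subAt_spec hM hd.bp h.z_memD).1.le.trans (zpowers_le.2 hz))] at hk
  have hl := blockRank_pos (p := 2) hM.1 hs.ne
  obtain ⟨t, t1, t2, t3⟩ := hs.main hM hL (by omega)
  have g0 := hL.g0
  have g1 := hL.g1
  have g1' := (bf_symm _ _).trans g1
  have g2' := (bf_symm _ _).trans hL.g2
  push_cast at g0
  choose k2 c c1 c2 using k2
  have k3 : ∀ i, t (θ i) = c i := fun i => Int.cast_injective (α := ℂ) (by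
    rw [← t1 _ (k2 i), bf_congr_left (c2 i), bf_smul_left]
    fin_cases i <;> simp [bf_add_left, bf_sub_left, g1', g2'] <;> linear_combination c _ * g0)
  have k4 : ∀ i, Odd (t (θ i)) := fun i => by
    rcases c1 i with e | e <;> simp [k3, e]
  rcases t3 with t3 | ⟨t3, -, t4 | ⟨-, r, t4⟩⟩ | ⟨t3, -, -, t4 | ⟨-, t4⟩⟩
  iterate 2 omega
  · exfalso
    have e0 := t4 _ (k2 0) ((t2 _ (k2 0)).1 (k4 0))
    have e1 := t4 _ (k2 1) ((t2 _ (k2 1)).1 (k4 1))
    simp only [bf_congr_left (c2 _), bf_smul_left, Matrix.cons_val_zero, Matrix.cons_val_one,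
      bf_add_left, bf_sub_left, g1, g1'] at e0 e1
    rcases hL.cases with e | ⟨-, e, -⟩ | e
    · omega
    · push_cast at e
      have : (2 : ℂ) = 0 := by
        linear_combination 2 ^ (m + 3) * 8 * (e0 - e1) - 2 * g0 - 2 * 2 ^ (m + 3) * bf 2 f0 f0 * e -
          2 ^ (m + 3) * 8 * bf 2 f0 f0 * bf 2 f1 f1 * ((c1 0).cast_sq + (c1 1).cast_sq)
      simp at this
    · omega
  · omega
  · exfalso
    have : (Finset.univ.filter (· ∈ B)).filter (fun χ => Odd (t χ)) = Finset.univ.image θ := by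
      refine (Finset.eq_of_subset_of_card_le (fun χ hχ => ?_) ?_).symm
      · obtain ⟨i, -, rfl⟩ := Finset.mem_image.1 hχ
        exact Finset.mem_filter.2 ⟨mem_bS.2 (k2 i), k4 i⟩
      · rw [Finset.card_image_of_injective _ k1, Finset.filter_congr fun χ hχ =>
          (t2 χ (mem_bS.1 hχ)).trans (hs.a2 χ (mem_bS.1 hχ)).symm, hs.four.1]
        simp
    rw [this, Finset.sum_image fun i _ j _ e => k1 e] at t4
    simp [k3, (c1 _).sq] at t4

/-- Indicator of a proposition. -/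
noncomputable def tind (q : Prop) : ℕ := if q then 1 else 0

theorem tind_le (q : Prop) : tind q ≤ 1 := by unfold tind; split_ifs <;> simp

theorem card_tU (hx : x ≠ 1) : (tU M d x y).card =
    tind (Unf M d x y) + tind (¬ Fz 2 M d y (x * y) ∧ Unf M d x (x * y)) := by
  have h1 : y ≠ x * y := by simpa using hx
  refine Eq.trans ?_ ((Finset.sum_pair (f := fun u => if u ∈ tU M d x y then 1 else 0) h1).trans (by
      simp [mem_tU, h1.symm, tind]))
  rw [← Finset.card_filter]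
  congr 1
  ext u
  simp only [Finset.mem_filter, Finset.mem_insert, Finset.mem_singleton, iff_and_self]
  exact fun e => (mem_tU.1 e).1.imp_right (·.1)

theorem TD.main (h : TD d.1 m x y) (hM : IsPModular 2 M) (hd : IsMaxBP 2 M B d) :
    Nat.card {χ // χ ∈ B ∧ blockHeight 2 B χ.1 = 0} = 4 ∧ ∃ (l : ℕ) (p q : Prop),
      l + tind p + tind q = 3 ∧
      (y * y ≠ 1 → (p ↔ Unf M d x y)) ∧ (y * y = 1 → p) ∧
      (x * y * (x * y) ≠ 1 → (q ↔ ¬ Fz 2 M d y (x * y) ∧ Unf M d x (x * y))) ∧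
      Nat.card B + 1 = blockRank 2 B + l + 2 ^ (m + 1) + (tU M d x y).card ∧
      (Nat.card B = 2 ^ (m + 1) + 1 ∨ HS B m ∧ Nat.card B ≤ 2 ^ (m + 1) + 5 ∧
        (l ≠ 3 → Nat.card B = 2 ^ (m + 1) + 3 ∨ Nat.card B = 2 ^ (m + 1) + 4)) := by
  obtain ⟨b, x', y', hx', hy', h', hz, hb, -, hF⟩ := h.exists_local hM hd
  obtain ⟨f0, f1, f2, hL, -⟩ := h'.lat_central hM hb hz
  have h1 := h'.rank_central hM hb hz
  obtain ⟨a, ha⟩ := h.exists_a0 hM hd
  have hs := h.sys_z hM hd ha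
  have hk := h.card_eq hM hd
  have hl := blockRank_pos (p := 2) hM.1 hs.ne
  obtain ⟨t, -, -, t3⟩ := hs.main hM hL (by omega)
  rw [card_tU h'.x_ne_one, ← add_assoc] at h1
  generalize (subAt 2 M d (tz m x)).a = c at *
  subst hx' hy'
  have h2 : ∀ u ∈ b.1, (u : G) * u ≠ 1 → (Unf M b x' u ↔ Unf M d x' u) := fun u hu e =>
    have e' : u * u ≠ 1 := fun e' => e (congrArg Subtype.val e')
    ⟨fun k v ⟨i, hi⟩ => hi ▸ mt (hF u hu (x' ^ i) (zpow_mem h'.xm i) e').1 (k _ ⟨i, rfl⟩),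
      fun k v ⟨i, hi⟩ => hi ▸ mt (hF u hu (x' ^ i) (zpow_mem h'.xm i) e').2 (k _ ⟨i, rfl⟩)⟩
  refine ⟨?_, _, _, _, h1, h2 _ h'.ym, fun e v hv e' => ?_, fun e => and_congr (not_congr ?_)
    (h2 _ h'.xy_mem e), hk, ?_⟩
  · rw [card_sub, ← hs.four.1]
    exact congrArg _ (Finset.filter_congr fun χ hχ => (hs.a2 χ (mem_bS.1 hχ)).symm)
  · rcases h'.eq_of_sq hv (e'.sq_iff.1 (Subtype.ext e)) with rfl | rfl
    · exact h'.yn (e'.eq_one ▸ one_mem _)
    · obtain ⟨g, hg⟩ := e'.symm.isConj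
      rw [mem_center_iff.1 hz g, mul_inv_cancel_right] at hg
      exact h'.yn (hg ▸ TD.z_mem)
  · have := hF _ h'.xy_mem _ h'.ym fun e' => e (congrArg Subtype.val e')
    exact ⟨fun k => (this.2 k.symm).symm, fun k => (this.1 k.symm).symm⟩
  · rcases t3 with ⟨t3, t4, t5⟩ | ⟨t3, t4, t5⟩ | ⟨t3, -, -, ⟨t4, t5, -⟩ | t4⟩
    · exact Or.inr ⟨t5, t4, fun e => absurd t3 e⟩
    · exact Or.inr ⟨t4, by omega, fun _ => by omega⟩
    · exact Or.inr ⟨t5, by omega, fun _ => Or.inl t4⟩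
    · exact Or.inl t4.1

theorem HS.cases (h : HS B m) : (∀ χ ∈ B, blockHeight 2 B χ.1 = 0 ∨ blockHeight 2 B χ.1 = 1 ∨
    blockHeight 2 B χ.1 = m + 1) ∧
    (1 ≤ m → Nat.card {χ // χ ∈ B ∧ blockHeight 2 B χ.1 = 1} = 2 ^ (m + 1) - 1) := by
  obtain ⟨R, h1, h2, h3⟩ := h
  refine ⟨fun χ hχ => (h3 χ hχ).imp_right (Or.imp_left fun e => (h1 χ e).2), fun hm => ?_⟩
  rw [card_sub, ← h2, Nat.add_sub_cancel]
  congr 1
  ext χ
  rw [Finset.mem_filter, mem_bS]
  refine ⟨fun e => ?_, h1 χ⟩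
  rcases h3 χ e.1 with e' | e' | e'
  exacts [by omega, e', by omega]

theorem TD.quat (h : TD d.1 m x y) (hM : IsPModular 2 M) (hd : IsMaxBP 2 M B d)
    (hy : y * x * y⁻¹ = x⁻¹) (hy2 : y * y = tz m x) :
    blockRank 2 B ≤ 3 ∧ Nat.card B = blockRank 2 B + 2 ^ (m + 1) + 2 ∧ HS B m := by
  obtain ⟨-, l, p, q, h1, h2, -, h3, h4, h5⟩ := h.main hM hd
  have h6 : x * y * (x * y) = tz m x := by
    rw [← hy2, show x * y * (x * y) = x * (y * x * y⁻¹) * (y * y) by group, hy]; group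
  rw [card_tU h.x_ne_one, ← h2 (hy2 ▸ h.z_ne), ← h3 (h6 ▸ h.z_ne)] at h4
  rcases h5 with h5 | h5
  · omega
  · exact ⟨by omega, by omega, h5.1⟩

theorem TD.sd (h : TD d.1 m x y) (hM : IsPModular 2 M) (hd : IsMaxBP 2 M B d)
    (hy : y * x * y⁻¹ = tz m x * x⁻¹) (hy2 : y * y = 1) :
    (Nat.card B = 2 ^ (m + 1) + 3 ∨ Nat.card B = 2 ^ (m + 1) + 4) ∧ HS B m ∧
      Nat.card B = blockRank 2 B + 2 ^ (m + 1) + 1 + tind (Unf M d x y) := by
  obtain ⟨-, l, p, q, h1, -, h2, h3, h4, h5⟩ := h.main hM hd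
  have h6 : x * y * (x * y) = tz m x := by
    rw [show x * y * (x * y) = x * (y * x * y⁻¹) * (y * y) by group, hy, hy2, mul_one, ← mul_assoc,
      h.z_conj h.xm]
  have hl := blockRank_pos (p := 2) hM.1 (block_nonempty hM hd.of.block)
  rw [card_tU h.x_ne_one, ← h3 (h6 ▸ h.z_ne)] at h4
  rw [tind, if_pos (h2 hy2)] at h1
  rcases h5 with h5 | h5
  · omega
  · exact ⟨h5.2.2 (by omega), h5.1, by omega⟩

end Cfsg.Agent.Block
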