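import Mathlib
import Cfsg.Agent.Block.Van
import Cfsg.Agent.PGrp.Narrow

/-! Vanishing elements of a single order in solvable groups. -/

namespace Cfsg.Agent.Block.Vn

open Cfsg Cfsg.Agent.Char Cfsg.Agent.Core Subgroup
open scoped _root_.Classical

variable {G : Type*} [Group G] [Finite G] {p : ℕ} [hp : Fact p.Prime]
  {V : Subgroup G} [V.Normal] {Z : Subgroup (G ⧸ V)}

/-- A vanishing `p`-singular power of a vanishing `p`-singular element generates it. -/
def Two (p : ℕ) (G : Type*) [Group G] : Prop :=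
  ∀ (x : G) (n : ℕ), VP p x → VP p (x ^ n) → x ∈ zpowers (x ^ n)

omit hp in
theorem Two.quot (h : Two p G) (N : Subgroup G) [N.Normal] : Two p (G ⧸ N) := fun x n hx hy => by
  obtain ⟨x, rfl⟩ := QuotientGroup.mk'_surjective N x
  rw [← map_pow] at hy ⊢
  rw [← MonoidHom.map_zpowers]
  exact mem_map_of_mem _ (h _ _ (hx.lift _ (QuotientGroup.mk'_surjective N))
    (hy.lift _ (QuotientGroup.mk'_surjective N)))

theorem Two.pow (h : Two p G) {x : G} (hx : VP p x) : ¬ VP p (x ^ p) := fun hy => by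
  have h1 := Nat.le_of_dvd (orderOf_pos _) (orderOf_dvd_of_mem_zpowers (h x p hx hy))
  rw [orderOf_pow_of_dvd hp.out.ne_zero hx.2] at h1
  exact (Nat.div_lt_self (orderOf_pos x) hp.out.one_lt).not_ge h1

omit [V.Normal] in
theorem Two.cent (h : Two p G) (hc : (Nat.card V).Coprime p) {a : G} (ha : a ^ p = 1)
    (hv : ∀ v ∈ V, VP p (a * v)) : V ⊓ centralizer {a} ≤ ⊥ := fun v hv' => by
  have hco : Commute a v := (mem_centralizer_singleton_iff.1 hv'.2).symm
  have h1 : v ^ Nat.card V = 1 := congrArg Subtype.val (pow_card_eq_one' (x := (⟨v, hv'.1⟩ : V)))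
  have h2 : (a * v) ^ Nat.card V ^ p.totient = a := by
    rw [hco.mul_pow, orderOf_dvd_iff_pow_eq_one.1 ((orderOf_dvd_iff_pow_eq_one.2 h1).trans
      (dvd_pow_self _ (Nat.totient_pos.2 hp.out.pos).ne')),
      mul_one]
    conv_rhs => rw [← pow_one a]
    exact pow_eq_pow_of_modEq (Nat.ModEq.pow_totient hc) ha
  have h3 := h _ (Nat.card V ^ p.totient) (hv v hv'.1) (by simpa [h2] using hv 1 (one_mem _))
  rw [h2] at h3
  have h4 : (a * v) ^ p = 1 := orderOf_dvd_iff_pow_eq_one.1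
    ((orderOf_dvd_of_mem_zpowers h3).trans (orderOf_dvd_iff_pow_eq_one.2 ha))
  rw [hco.mul_pow, ha, one_mul] at h4
  exact (pow_eq_one_iff_of_coprime hc).1 ⟨h1, h4⟩

theorem order_mk (hc : (Nat.card V).Coprime p) {a : G} (ha : orderOf a = p) :
    orderOf (a : G ⧸ V) = p := by
  refine ((Nat.dvd_prime hp.out).1 (ha ▸ orderOf_map_dvd (QuotientGroup.mk' V) a)).resolve_left
    fun e => ?_
  have := orderOf_dvd_natCard (⟨a, (QuotientGroup.eq_one_iff a).1 (orderOf_eq_one_iff.1 e)⟩ : V)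
  rw [← orderOf_coe, ha] at this
  exact hp.out.one_lt.ne' (hc.symm.eq_one_of_dvd this)

theorem Two.cyc (h : Two p G) (hV1 : V ≠ ⊥) (hc : (Nat.card V).Coprime p) (hZ : IsPGroup p Z)
    (hZa : IsMulCommutative Z) (hk : ∀ g : G, (g : G ⧸ V) ∈ Z → orderOf (g : G ⧸ V) = p → VP p g) :
    IsCyclic Z := by
  set N := Z.comap (QuotientGroup.mk' V)
  have hVN : V ≤ N := fun v hv => by simp [N, mem_comap, (QuotientGroup.eq_one_iff v).2 hv]
  obtain ⟨A, hA⟩ := exists_isSylowOf p N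
  obtain ⟨n, hn⟩ := relIndex_pow hZ (C := N) le_rfl
  have h1 := hA.sup_eq_of_relIndex_eq_pow hVN hn
  have hcop : (Nat.card A).Coprime (Nat.card V) := (coprime_of_isPGroup hA.isPGroup hc).symm
  have hd : ∀ a ∈ A, a ∈ V → a = 1 := fun a ha hv =>
    (disjoint_def.1 (disjoint_of_coprime_natCard hcop)) ha hv
  have hAa : IsMulCommutative A := isMulCommutative_of_forall fun a ha b hb => by
    rw [← mul_inv_eq_one]
    refine hd _ (mul_mem (mul_mem ha hb) (inv_mem (mul_mem hb ha))) ?_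
    rw [← QuotientGroup.eq_one_iff, QuotientGroup.mk_mul, QuotientGroup.mk_inv, mul_inv_eq_one]
    exact comm_of_isMulCommutative hZa (hA.le ha) (hA.le hb)
  have hcy : IsCyclic A := by
    by_contra hnc
    refine hV1 (le_bot_iff.1 (le_of_centralizers hAa hnc (normalizer_eq_top V ▸ le_top) hcop
      fun a ha h1 => ?_))
    obtain ⟨k, hk2⟩ := IsPGroup.iff_orderOf.1 hA.isPGroup ⟨a, ha⟩
    rw [← orderOf_coe] at hk2
    have h3 : p ∣ orderOf a := by
      rcases k with _ | k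
      · exact absurd (orderOf_eq_one_iff.1 hk2) h1
      · exact hk2 ▸ dvd_pow_self p k.succ_ne_zero
    have h4 : orderOf (a ^ (orderOf a / p)) = p := orderOf_pow_orderOf_div (orderOf_pos _).ne' h3
    refine le_trans (inf_le_inf_left _ fun v hv => mem_centralizer_singleton_iff.2
      (Commute.pow_right (mem_centralizer_singleton_iff.1 hv) _))
      (h.cent hc (h4 ▸ pow_orderOf_eq_one _) fun v hv => hk _
        (mul_mem (hA.le (pow_mem ha _)) (hVN hv) : _ ∈ N) ?_)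
    rw [QuotientGroup.mk_mul, (QuotientGroup.eq_one_iff v).2 hv, mul_one, order_mk hc h4]
  have h5 : Z = A.map (QuotientGroup.mk' V) := by
    rw [← map_comap_eq_self_of_surjective (QuotientGroup.mk'_surjective V) Z]
    show N.map _ = _
    rw [← h1, Subgroup.map_sup, QuotientGroup.map_mk'_self, bot_sup_eq]
  rw [h5]
  exact isCyclic_of_surjective _ ((QuotientGroup.mk' V).subgroupMap_surjective A)

theorem Two.card_dvd (h : Two p G) (hV1 : V ≠ ⊥) (hc : (Nat.card V).Coprime p) (hZ : IsPGroup p Z)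
    (hZa : IsMulCommutative Z) (hk : ∀ g : G, (g : G ⧸ V) ∈ Z → g ∉ V → VP p g) :
    Nat.card Z ∣ p := by
  have := h.cyc hV1 hc hZ hZa fun g hg h1 => hk g hg fun e => by
    rw [(QuotientGroup.eq_one_iff g).2 e, orderOf_one] at h1
    exact hp.out.one_lt.ne h1
  rw [← IsCyclic.exponent_eq_card]
  refine Monoid.exponent_dvd_of_forall_pow_eq_one fun ⟨z, hz⟩ => Subtype.ext ?_
  obtain ⟨g, rfl⟩ := QuotientGroup.mk_surjective z
  by_contra h1
  have h2 : g ^ p ∉ V := fun e => h1 ((QuotientGroup.eq_one_iff _).2 e)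
  exact h.pow (hk g hz fun e => h2 (pow_mem e _)) (hk _ (pow_mem hz p) h2)

theorem vp_of_z2 (h2 : Nat.card (zc p G) ∣ p) {y : G} (hy2 : y ∉ zc p G)
    (hy : (y : G ⧸ zc p G) ∈ zc p (G ⧸ zc p G)) : VP p y := by
  have hc := comap_pCore_quotient p (zc p G) zc_p
  have hy3 : y ∈ pCore p G := hc ▸ hy.1
  obtain ⟨w, hw, hw1⟩ : ∃ w ∈ pCore p G, w * y * w⁻¹ * y⁻¹ ≠ 1 := by
    by_contra h
    push Not at h
    exact hy2 ⟨hy3, fun w hw => by rw [← mul_inv_eq_one, ← h w hw]; group⟩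
  have hz : w * y * w⁻¹ * y⁻¹ ∈ zc p G := by
    have := hy.2 (w : G ⧸ zc p G) (show w ∈ (pCore p _).comap (QuotientGroup.mk' _) from hc ▸ hw)
    rw [← QuotientGroup.eq_one_iff]
    simp [this]
  have hZ : zc p G ≠ ⊥ := fun e => hw1 (mem_bot.1 (e ▸ hz))
  have h4 : Nat.card (zc p G) = p := ((Nat.dvd_prime hp.out).1 h2).resolve_left fun e =>
    hZ (card_eq_one.1 e)
  set z := w * y * w⁻¹ * y⁻¹ with hzd
  have h6 : ∀ i : ℕ, w ^ i * y * (w ^ i)⁻¹ = z ^ i * y := fun i => by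
    induction i with
    | zero => simp
    | succ i ih =>
      have h7 : w * z ^ i = z ^ i * w := (pow_mem hz i).2 w hw
      calc _ = w * (w ^ i * y * (w ^ i)⁻¹) * w⁻¹ := by group
        _ = z ^ i * (w * y * w⁻¹ * y⁻¹) * y := by rw [ih, ← mul_assoc, h7]; group
        _ = _ := by rw [pow_succ]
  refine ⟨van_of_coset hZ fun x hx => ?_, ?_⟩
  · obtain ⟨i, hi⟩ := (Submonoid.mem_powers_iff _ _).1 (mem_powers_of_prime_card h4
      (g := ⟨z, hz⟩) (g' := ⟨x, hx⟩) fun e => hw1 (congrArg Subtype.val e))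
    exact isConj_iff.2 ⟨w ^ i, by rw [h6]; exact congrArg (fun t : zc p G => (t : G) * y) hi⟩
  · obtain ⟨k, hk⟩ := IsPGroup.iff_orderOf.1 (pCore_isPGroup (G := G) p) ⟨_, hy3⟩
    rw [← orderOf_coe] at hk
    rcases k with _ | k
    · exact absurd (orderOf_eq_one_iff.1 hk) fun e : y = 1 => hy2 (e ▸ one_mem _)
    · exact hk ▸ dvd_pow_self p k.succ_ne_zero

theorem Two.core_le (h : Two p G) (h0 : pCore p G = ⊥) (hV : IsMulCommutative V) (hV1 : V ≠ ⊥)
    (hc : (Nat.card V).Coprime p) :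
    Nat.card (zc p (G ⧸ V)) ∣ p ∧ pCore p (G ⧸ V) = zc p (G ⧸ V) := by
  have hk := fun g : G => key (g := g) h0 hV hc zc_p zc_comm
  have h1 := h.card_dvd hV1 hc zc_p zc_comm hk
  refine ⟨h1, ?_⟩
  have hc' := comap_pCore_quotient p (zc p (G ⧸ V)) zc_p
  by_cases h5 : pCore p ((G ⧸ V) ⧸ zc p (G ⧸ V)) = ⊥
  · rw [← hc', h5, MonoidHom.comap_bot, QuotientGroup.ker_mk']
  exfalso
  obtain ⟨y, hy, hy1⟩ := exists_zc h5
  obtain ⟨y, rfl⟩ := QuotientGroup.mk_surjective y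
  have hy2 : y ∉ zc p (G ⧸ V) := fun e => hy1 ((QuotientGroup.eq_one_iff y).2 e)
  have hy3 : y ∈ pCore p (G ⧸ V) := hc' ▸ hy.1
  have hle : zc p (G ⧸ V) ⊔ zpowers y ≤ (zc p _).comap (QuotientGroup.mk' (zc p (G ⧸ V))) :=
    sup_le (fun v hv => by simp [mem_comap, (QuotientGroup.eq_one_iff v).2 hv])
      (zpowers_le.2 hy)
  have h2 := h.card_dvd (Z := zc p (G ⧸ V) ⊔ zpowers y) hV1 hc
    ((pCore_isPGroup p).to_le (sup_le inf_le_left (zpowers_le.2 hy3))) ?_ fun g hg hgV => ?_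
  · obtain ⟨z1, hz1, hz2⟩ := exists_zc (G := G ⧸ V) (p := p) fun e =>
      hy2 (mem_bot.1 (e ▸ hy3) ▸ one_mem _)
    have h4 : Nat.card (zc p (G ⧸ V)) = p := ((Nat.dvd_prime hp.out).1 h1).resolve_left fun e =>
      hz2 (mem_bot.1 (card_eq_one.1 e ▸ hz1))
    have := eq_of_le_of_card_ge (le_sup_left : zc p (G ⧸ V) ≤ _ ⊔ zpowers y)
      ((Nat.le_of_dvd hp.out.pos h2).trans h4.ge)
    exact hy2 (this ▸ mem_sup_right (mem_zpowers y))
  · refine isMulCommutative_of_forall fun a ha b hb => ?_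
    rw [← SetLike.mem_coe, normal_mul] at ha hb
    obtain ⟨a, ha, _, ⟨i, rfl⟩, rfl⟩ := ha
    obtain ⟨b, hb, _, ⟨j, rfl⟩, rfl⟩ := hb
    have c1 : Commute a b := hb.2 a ha.1
    have c2 : Commute y a := ha.2 y hy3
    have c3 : Commute y b := hb.2 y hy3
    exact (c1.mul_right (c2.symm.zpow_right j)).mul_left
      ((c3.zpow_left i).mul_right (Commute.zpow_zpow_self y i j))
  · by_cases h3 : (g : G ⧸ V) ∈ zc p (G ⧸ V)
    · exact hk g h3 hgV
    · exact VP.lift _ (QuotientGroup.mk'_surjective V) (vp_of_z2 h1 h3 (hle hg))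

theorem main2 (G : Type*) [Group G] [Finite G] : Group.IsSolvable G → pCore p G = ⊥ → Two p G →
    (∀ g : G, orderOf g = p → VP p g) ∧ ∀ Q : Subgroup G, IsPGroup p Q → IsCyclic Q := by
  refine induction_on_card (P := fun G _ _ => Group.IsSolvable G → pCore p G = ⊥ → Two p G →
    (∀ g : G, orderOf g = p → VP p g) ∧ ∀ Q : Subgroup G, IsPGroup p Q → IsCyclic Q)
    (fun G _ _ ih hs h0 ho => ?_) G
  by_cases hd : p ∣ Nat.card G
  swap
  · refine ⟨fun g hg => absurd (hg ▸ orderOf_dvd_natCard g) hd, fun Q hQ => ?_⟩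
    obtain rfl : Q = ⊥ := by_contra fun e =>
      hd ((prime_dvd_card_of_isPGroup hQ e).trans Q.card_subgroup_dvd_card)
    infer_instance
  obtain ⟨V, _, h1, h2, h3⟩ := exists_V h0 hd
  obtain ⟨h4, h5⟩ := ho.core_le h0 h2 h1 h3
  obtain ⟨i1, i2⟩ := ih ((G ⧸ V) ⧸ pCore p (G ⧸ V)) (lt_of_le_of_lt
    (Nat.le_of_dvd Nat.card_pos (card_quotient_dvd_card _)) (card_lt h1)) inferInstance
    (pCore_quotient_pCore p) ((ho.quot V).quot _)
  have h6 : ∀ g : G, orderOf (g : G ⧸ V) = p → VP p g := fun g hg => by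
    by_cases h : (g : G ⧸ V) ∈ pCore p (G ⧸ V)
    · refine key h0 h2 h3 zc_p zc_comm (h5 ▸ h) fun e => ?_
      rw [(QuotientGroup.eq_one_iff g).2 e, orderOf_one] at hg
      exact hp.out.one_lt.ne hg
    · refine VP.lift _ (QuotientGroup.mk'_surjective V) (VP.lift _
        (QuotientGroup.mk'_surjective (pCore p (G ⧸ V))) (i1 _ ?_))
      exact ((Nat.dvd_prime hp.out).1 (hg ▸ orderOf_map_dvd _ _)).resolve_left fun e =>
        h ((QuotientGroup.eq_one_iff _).1 (orderOf_eq_one_iff.1 e))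
  refine ⟨fun g hg => h6 g (order_mk h3 hg), fun Q hQ => ?_⟩
  have hQ' := hQ.map (QuotientGroup.mk' V)
  have := i2 _ (hQ'.map (QuotientGroup.mk' (pCore p (G ⧸ V))))
  have := ho.cyc h1 h3 hQ' (((QuotientGroup.mk' (pCore p (G ⧸ V))).subgroupMap
    _).isMulCommutative_of_isCyclic_of_ker_le_center
      (PGrp.le_center_of_card_le_prime hQ' _ ?_)) fun g _ hg => h6 g hg
  · refine isCyclic_of_injective ((QuotientGroup.mk' V).subgroupMap Q)
      ((injective_iff_map_eq_one _).2 fun a ha => Subtype.ext ?_)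
    exact (disjoint_def.1 (disjoint_of_coprime_natCard (coprime_of_isPGroup hQ h3).symm)) a.2
      ((QuotientGroup.eq_one_iff _).1 (congrArg Subtype.val ha))
  · refine le_trans ?_ (Nat.le_of_dvd hp.out.pos (h5 ▸ h4))
    refine Nat.card_le_card_of_injective (fun x => (⟨x.1.1,
      (QuotientGroup.eq_one_iff _).1 (congrArg Subtype.val x.2)⟩ : pCore p (G ⧸ V))) fun x y e => ?_
    exact Subtype.ext (Subtype.ext (congrArg (fun t : pCore p (G ⧸ V) => t.1) e))

end Cfsg.Agent.Block.Vn
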