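import Mathlib

/-! Integer column combinatorics for the principal 3-block with extraspecial defect group of
order 27. -/

set_option autoImplicit false

namespace Cfsg.Agent.Block

open Finset

variable {ι α κ : Type*}

theorem x27_card_le [Fintype κ] [DecidableEq κ] (S : Finset ι) (v : κ → ι → ℤ)
    (h0 : ∀ k, ∃ i ∈ S, v k i ≠ 0) (h : ∀ k l, k ≠ l → ∑ i ∈ S, v k i * v l i = 0) :
    Fintype.card κ ≤ S.card := by
  classical
  have hli : LinearIndependent ℚ (fun k (i : S) => (v k i : ℚ)) := by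
    rw [Fintype.linearIndependent_iff]
    intro g hg l
    have h1 : ∑ i : S, (∑ k, g k • (fun (i : S) => (v k i : ℚ))) i * (v l i : ℚ) = 0 := by
      rw [hg]; simp
    simp only [Finset.sum_apply, Pi.smul_apply, smul_eq_mul, Finset.sum_mul] at h1
    rw [Finset.sum_comm, Finset.sum_eq_single l] at h1
    · have h2 : ∑ i : S, g l * (v l i : ℚ) * (v l i : ℚ) =
          g l * ((∑ i ∈ S, v l i * v l i : ℤ) : ℚ) := by
        push_cast
        rw [Finset.mul_sum, Finset.sum_coe_sort S (fun i => g l * (v l i : ℚ) * (v l i : ℚ))]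
        exact Finset.sum_congr rfl fun i _ => by ring
      rw [h2] at h1
      refine (mul_eq_zero.1 h1).resolve_right ?_
      obtain ⟨i, hi, hne⟩ := h0 l
      have : 0 < ∑ i ∈ S, v l i * v l i :=
        Finset.sum_pos' (fun i _ => mul_self_nonneg _) ⟨i, hi, mul_self_pos.2 hne⟩
      exact_mod_cast this.ne'
    · intro k _ hk
      have h2 : ∑ i : S, g k * (v k i : ℚ) * (v l i : ℚ) =
          g k * ((∑ i ∈ S, v k i * v l i : ℤ) : ℚ) := by
        push_cast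
        rw [Finset.mul_sum, Finset.sum_coe_sort S (fun i => g k * (v k i : ℚ) * (v l i : ℚ))]
        exact Finset.sum_congr rfl fun i _ => by ring
      rw [h2, h k l hk]; simp
    · simp
  simpa using hli.fintype_card_le_finrank

theorem x27_sq_le {S : Finset ι} {a : ι → ℤ} {i : ι} (hi : i ∈ S) :
    a i * a i ≤ ∑ i ∈ S, a i * a i :=
  Finset.single_le_sum (f := fun i => a i * a i) (fun _ _ => mul_self_nonneg _) hi

theorem x27_sq_le2 {S : Finset ι} {a : ι → ℤ} {i j : ι} (hi : i ∈ S) (hj : j ∈ S) (h : i ≠ j) :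
    a i * a i + a j * a j ≤ ∑ i ∈ S, a i * a i := by
  classical
  rw [← Finset.sum_pair (f := fun i => a i * a i) h]
  exact Finset.sum_le_sum_of_subset_of_nonneg (by simp [Finset.insert_subset_iff, hi, hj])
    fun _ _ _ => mul_self_nonneg _

theorem x27_sq_le4 {S : Finset ι} {a : ι → ℤ} {i j k l : ι} (hi : i ∈ S) (hj : j ∈ S)
    (hk : k ∈ S) (hl : l ∈ S) (hij : i ≠ j) (hik : i ≠ k) (hil : i ≠ l) (hjk : j ≠ k)
    (hjl : j ≠ l) (hkl : k ≠ l) :
    a i * a i + a j * a j + a k * a k + a l * a l ≤ ∑ i ∈ S, a i * a i := by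
  classical
  have : ∑ x ∈ ({i, j, k, l} : Finset ι), a x * a x =
      a i * a i + a j * a j + a k * a k + a l * a l := by
    rw [Finset.sum_insert (by simp [hij, hik, hil]), Finset.sum_insert (by simp [hjk, hjl]),
      Finset.sum_pair hkl]
    ring
  rw [← this]
  exact Finset.sum_le_sum_of_subset_of_nonneg (by simp [Finset.insert_subset_iff, hi, hj, hk, hl])
    fun _ _ _ => mul_self_nonneg _

theorem x27_norm9 {S : Finset ι} {a : ι → ℤ} (h : ∑ i ∈ S, a i * a i = 9)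
    (h3 : ∀ i ∈ S, ¬ 3 ∣ a i) :
    S.card + 3 * (S.filter fun i => 2 ∣ a i).card = 9 := by
  have key : ∀ i ∈ S, a i * a i = 1 + 3 * if 2 ∣ a i then 1 else 0 := by
    intro i hi
    have h1 := x27_sq_le (a := a) hi
    rw [h] at h1
    have h2 := h3 i hi
    have h4 : -3 ≤ a i := by nlinarith
    have h5 : a i ≤ 3 := by nlinarith
    interval_cases (a i) <;> simp_all
  rw [Finset.sum_congr rfl key, Finset.sum_add_distrib, ← Finset.mul_sum, Finset.sum_boole] at h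
  simp only [Finset.sum_const, smul_eq_mul, mul_one, nsmul_eq_mul] at h
  exact_mod_cast h

theorem x27_odd_sum {S : Finset ι} (hS : S.card = 9) {a b : ι → ℤ} (ha : ∀ i ∈ S, ¬ 2 ∣ a i)
    (hb : ∀ i ∈ S, ¬ 2 ∣ b i) : ∑ i ∈ S, a i * b i ≠ 0 := by
  intro h
  have h1 : (2 : ℤ) ∣ ∑ i ∈ S, (a i * b i - 1) := Finset.dvd_sum fun i hi => by
    have h2 := ha i hi
    have h3 := hb i hi
    obtain ⟨x, hx⟩ : ∃ x, a i = 2 * x + 1 := ⟨a i / 2, by omega⟩
    obtain ⟨y, hy⟩ : ∃ y, b i = 2 * y + 1 := ⟨b i / 2, by omega⟩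
    exact ⟨2 * x * y + x + y, by rw [hx, hy]; ring⟩
  rw [Finset.sum_sub_distrib, h] at h1
  simp [hS] at h1

theorem x27_norm2 {S : Finset ι} {b : ι → ℤ} (h : ∑ i ∈ S, b i * b i = 2) :
    ∃ x ∈ S, ∃ y ∈ S, x ≠ y ∧ b x * b x = 1 ∧ b y * b y = 1 ∧
      (∀ i ∈ S, b i ≠ 0 ↔ i = x ∨ i = y) ∧
      ∀ f : ι → ℤ, ∑ i ∈ S, f i * b i = f x * b x + f y * b y := by
  classical
  have key : ∀ i ∈ S, b i * b i = if b i ≠ 0 then 1 else 0 := by
    intro i hi
    have h1 := x27_sq_le (a := b) hi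
    rw [h] at h1
    have h4 : -1 ≤ b i := by nlinarith
    have h5 : b i ≤ 1 := by nlinarith
    interval_cases (b i) <;> simp
  have h2 := h
  rw [Finset.sum_congr rfl key, Finset.sum_boole] at h2
  obtain ⟨x, y, hxy, e⟩ := Finset.card_eq_two.1 (by exact_mod_cast h2 :
    (S.filter fun i => b i ≠ 0).card = 2)
  have hm : ∀ i, i ∈ S ∧ b i ≠ 0 ↔ i = x ∨ i = y := fun i => by
    have := Finset.ext_iff.1 e i
    simpa using this
  have hx := (hm x).2 (Or.inl rfl)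
  have hy := (hm y).2 (Or.inr rfl)
  refine ⟨x, hx.1, y, hy.1, hxy, by rw [key x hx.1, if_pos hx.2], by rw [key y hy.1, if_pos hy.2],
    fun i hi => ⟨fun h => (hm i).1 ⟨hi, h⟩, fun h => ((hm i).2 h).2⟩, fun f => ?_⟩
  rw [← Finset.sum_pair (f := fun i => f i * b i) hxy, ← e, Finset.sum_filter]
  exact Finset.sum_congr rfl fun i _ => by split_ifs with h <;> simp_all

/-- The integral columns of generalized decomposition numbers. -/
structure X27Col [DecidableEq α] [DecidableEq κ] (S : Finset ι) (U : Finset α) (J : Finset κ)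
    (o : ι) (d : ι → ℤ) (t : α → ι → ℤ) (R b : κ → ι → ℤ) : Prop where
  mem : o ∈ S
  d1 : d o = 1
  t1 : ∀ u ∈ U, t u o = 1
  tt : ∀ u ∈ U, ∀ v ∈ U, ∑ i ∈ S, t u i * t v i = if u = v then 9 else 0
  td : ∀ u ∈ U, ∀ i ∈ S, 3 ∣ t u i - d i
  dt : ∀ u ∈ U, ∑ i ∈ S, d i * t u i = 0
  RR : ∀ j ∈ J, ∀ k ∈ J, ∑ i ∈ S, R j i * R k i = if j = k then 54 else 0
  bb : ∀ j ∈ J, ∀ k ∈ J, ∑ i ∈ S, b j i * b k i = if j = k then 2 else 0
  Rb : ∀ j ∈ J, ∀ k ∈ J, ∑ i ∈ S, R j i * b k i = 0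
  tR : ∀ u ∈ U, ∀ k ∈ J, ∑ i ∈ S, t u i * R k i = 0
  tb : ∀ u ∈ U, ∀ k ∈ J, ∑ i ∈ S, t u i * b k i = 0
  par : ∀ j ∈ J, ∀ i ∈ S, 2 ∣ R j i - b j i
  R3 : ∀ j ∈ J, ∀ i ∈ S, (3 ∣ R j i ↔ 3 ∣ d i)
  nz : ∀ i ∈ S, (∀ u ∈ U, t u i = 0) → ∃ j ∈ J, R j i ≠ 0 ∨ b j i ≠ 0
  Une : U.Nonempty
  Jne : J.Nonempty

namespace X27Col

variable [DecidableEq α] [DecidableEq κ] {S : Finset ι} {U : Finset α} {J : Finset κ}
  {o : ι} {d : ι → ℤ} {t : α → ι → ℤ} {R b : κ → ι → ℤ}

theorem ne_o (h : X27Col S U J o d t R b) {i : ι} (h3 : 3 ∣ d i) : i ≠ o := by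
  rintro rfl
  rw [h.d1] at h3
  omega

theorem t_zero (h : X27Col S U J o d t R b) {u : α} (hu : u ∈ U) {i : ι} (hi : i ∈ S)
    (h3 : 3 ∣ d i) : t u i = 0 := by
  have h1 := x27_sq_le2 (a := t u) hi h.mem (h.ne_o h3)
  rw [h.tt u hu u hu, if_pos rfl, h.t1 u hu] at h1
  have h2 := h.td u hu i hi
  have h4 : -2 ≤ t u i := by nlinarith
  have h5 : t u i ≤ 2 := by nlinarith
  omega

theorem sum_t (h : X27Col S U J o d t R b) {u : α} (hu : u ∈ U) (f : ι → ℤ) :
    ∑ i ∈ S with ¬ 3 ∣ d i, t u i * f i = ∑ i ∈ S, t u i * f i := by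
  rw [Finset.sum_filter]
  refine Finset.sum_congr rfl fun i hi => ?_
  split_ifs with h3
  · rw [h.t_zero hu hi h3, zero_mul]
  · rfl

theorem t9 (h : X27Col S U J o d t R b) {u : α} (hu : u ∈ U) :
    (S.filter fun i => ¬ 3 ∣ d i).card +
      3 * ((S.filter fun i => ¬ 3 ∣ d i).filter fun i => 2 ∣ t u i).card = 9 := by
  refine x27_norm9 (by rw [h.sum_t hu, h.tt u hu u hu, if_pos rfl]) fun i hi => ?_
  obtain ⟨hi, h3⟩ := Finset.mem_filter.1 hi
  have := h.td u hu i hi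
  omega

theorem card0 (h : X27Col S U J o d t R b) :
    (S.filter fun i => ¬ 3 ∣ d i).card = 6 ∨ (S.filter fun i => ¬ 3 ∣ d i).card = 9 := by
  classical
  obtain ⟨u, hu⟩ := h.Une
  have h1 := h.t9 hu
  have ho : o ∈ S.filter fun i => ¬ 3 ∣ d i := Finset.mem_filter.2 ⟨h.mem, by rw [h.d1]; omega⟩
  have hsub : ((S.filter fun i => ¬ 3 ∣ d i).filter fun i => 2 ∣ t u i) ⊆
      (S.filter fun i => ¬ 3 ∣ d i).erase o := by
    intro i hi
    obtain ⟨hi, h2⟩ := Finset.mem_filter.1 hi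
    refine Finset.mem_erase.2 ⟨?_, hi⟩
    rintro rfl
    rw [h.t1 u hu] at h2
    omega
  have h2 := Finset.card_le_card hsub
  have h3 := Finset.card_erase_of_mem ho
  have h4 := Finset.card_pos.2 ⟨o, ho⟩
  by_contra hc
  have h5 := Finset.eq_of_subset_of_card_le hsub (by omega)
  have h6 := h.dt u hu
  simp only [mul_comm (d _)] at h6
  rw [← h.sum_t hu, ← Finset.add_sum_erase _ _ ho, h.t1 u hu, h.d1, ← h5] at h6
  have h7 : (2 : ℤ) ∣ ∑ i ∈ ((S.filter fun i => ¬ 3 ∣ d i).filter fun i => 2 ∣ t u i),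
      t u i * d i := Finset.dvd_sum fun i hi => (Finset.mem_filter.1 hi).2.mul_right _
  omega

theorem t_odd (h : X27Col S U J o d t R b) (h9 : (S.filter fun i => ¬ 3 ∣ d i).card = 9)
    {u : α} (hu : u ∈ U) : ∀ i ∈ S.filter fun i => ¬ 3 ∣ d i, ¬ 2 ∣ t u i := by
  have h1 := h.t9 hu
  have h2 : ((S.filter fun i => ¬ 3 ∣ d i).filter fun i => 2 ∣ t u i) = ∅ :=
    Finset.card_eq_zero.1 (by omega)
  exact fun i hi h3 => Finset.filter_eq_empty_iff.1 h2 hi h3

theorem supp (h : X27Col S U J o d t R b) {j : κ} (hj : j ∈ J) :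
    ∃ x ∈ S, ∃ y ∈ S, x ≠ y ∧ b j x * b j x = 1 ∧ b j y * b j y = 1 ∧
      (∀ i ∈ S, b j i ≠ 0 ↔ i = x ∨ i = y) ∧
      ∀ f : ι → ℤ, ∑ i ∈ S, f i * b j i = f x * b j x + f y * b j y :=
  x27_norm2 (by rw [h.bb j hj j hj, if_pos rfl])

theorem disj (h : X27Col S U J o d t R b) {j k : κ} (hj : j ∈ J) (hk : k ∈ J) (hjk : j ≠ k)
    {i : ι} (hi : i ∈ S) (h1 : b j i ≠ 0) : b k i = 0 := by
  by_contra h2
  obtain ⟨x, hx, y, hy, hxy, bx, by', hs, hf⟩ := h.supp hj
  obtain ⟨x', hx', y', hy', hxy', bx', by'', hs', hf'⟩ := h.supp hk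
  have e1 := hf (b k)
  rw [h.bb k hk j hj, if_neg hjk.symm] at e1
  have e2 := hf (R j)
  rw [h.Rb j hj j hj] at e2
  have e3 := hf' (R j)
  rw [h.Rb j hj k hk] at e3
  have p1 := h.par j hj x hx
  have hbx := mul_self_eq_one_iff.1 bx
  have hby := mul_self_eq_one_iff.1 by'
  have hkx : b k x ≠ 0 := by
    intro h0
    rw [h0] at e1
    have : b k y = 0 := by rcases hby with h | h <;> rw [h] at e1 <;> omega
    rcases (hs i hi).1 h1 with rfl | rfl <;> contradiction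
  have hky : b k y ≠ 0 := by
    intro h0
    rw [h0] at e1
    rcases hbx with h | h <;> rw [h] at e1 <;> omega
  have hbx' := mul_self_eq_one_iff.1 bx'
  have hby' := mul_self_eq_one_iff.1 by''
  rcases (hs' x hx).1 hkx with rfl | rfl <;> rcases (hs' y hy).1 hky with rfl | rfl
  · exact hxy rfl
  · rcases hbx with h1 | h1 <;> rcases hby with h2 | h2 <;> rcases hbx' with h3 | h3 <;>
      rcases hby' with h4 | h4 <;> simp only [h1, h2, h3, h4] at e1 e2 e3 p1 <;> omega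
  · rcases hbx with h1 | h1 <;> rcases hby with h2 | h2 <;> rcases hbx' with h3 | h3 <;>
      rcases hby' with h4 | h4 <;> simp only [h1, h2, h3, h4] at e1 e2 e3 p1 <;> omega
  · exact hxy rfl

theorem dich (h : X27Col S U J o d t R b) {j : κ} (hj : j ∈ J) :
    (∀ i ∈ S, b j i ≠ 0 → 3 ∣ d i) ∨ (∀ i ∈ S, b j i ≠ 0 → ¬ 3 ∣ d i) := by
  obtain ⟨x, hx, y, hy, hxy, bx, by', hs, hf⟩ := h.supp hj
  have e2 := hf (R j)
  rw [h.Rb j hj j hj] at e2
  have h1 := h.R3 j hj x hx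
  have h2 := h.R3 j hj y hy
  have h3 : 3 ∣ d x ↔ 3 ∣ d y := by
    rw [← h1, ← h2]
    rcases mul_self_eq_one_iff.1 bx with h1 | h1 <;> rcases mul_self_eq_one_iff.1 by' with h2 | h2
      <;> simp only [h1, h2] at e2 <;> omega
  by_cases h4 : 3 ∣ d x
  · exact Or.inl fun i hi h5 => by rcases (hs i hi).1 h5 with rfl | rfl <;> tauto
  · exact Or.inr fun i hi h5 => by rcases (hs i hi).1 h5 with rfl | rfl <;> tauto

/-- On a pair supporting another column, `R j` vanishes when the rows have positive height. -/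
theorem R_zero_other (h : X27Col S U J o d t R b) {j k : κ} (hj : j ∈ J) (hk : k ∈ J)
    (hjk : j ≠ k) (hP : ∀ i ∈ S, b k i ≠ 0 → 3 ∣ d i) {i : ι} (hi : i ∈ S) (h1 : b k i ≠ 0) :
    R j i = 0 := by
  obtain ⟨x, hx, y, hy, hxy, bx, by', hs, hf⟩ := h.supp hk
  have e2 := hf (R j)
  rw [h.Rb j hj k hk] at e2
  have hx0 : b k x ≠ 0 := (hs x hx).2 (Or.inl rfl)
  have p1 := h.par j hj x hx
  rw [h.disj hk hj hjk.symm hx hx0] at p1
  have p2 := (h.R3 j hj x hx).2 (hP x hx hx0)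
  have h2 := x27_sq_le2 (a := R j) hx hy hxy
  rw [h.RR j hj j hj, if_pos rfl] at h2
  have h3 : R j y = R j x ∨ R j y = - R j x := by
    rcases mul_self_eq_one_iff.1 bx with h1 | h1 <;> rcases mul_self_eq_one_iff.1 by' with h2 | h2
      <;> simp only [h1, h2] at e2 <;> omega
  have h4 : R j x * R j x ≤ 27 := by rcases h3 with h3 | h3 <;> rw [h3] at h2 <;> linarith
  have h5 : -5 ≤ R j x := by nlinarith
  have h6 : R j x ≤ 5 := by nlinarith
  have h7 : R j x = 0 := by omega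
  rcases (hs i hi).1 h1 with rfl | rfl
  · exact h7
  · omega

theorem typeP (h : X27Col S U J o d t R b) {j : κ} (hj : j ∈ J)
    (hP : ∀ i ∈ S, b j i ≠ 0 → 3 ∣ d i) :
    (∀ i ∈ S, 3 ∣ d i → b j i = 0 → R j i = 0) ∧
      ∑ i ∈ S with ¬ 3 ∣ d i, R j i * R j i = 36 := by
  classical
  obtain ⟨x, hx, y, hy, hxy, bx, by', hs, hf⟩ := h.supp hj
  have hx0 : b j x ≠ 0 := (hs x hx).2 (Or.inl rfl)
  have hy0 : b j y ≠ 0 := (hs y hy).2 (Or.inr rfl)
  have nine : ∀ x ∈ S, b j x ≠ 0 → b j x * b j x = 1 → R j x * R j x = 9 := by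
    intro x hx hx0 bx
    have p1 := h.par j hj x hx
    have p2 := (h.R3 j hj x hx).2 (hP x hx hx0)
    have h2 := x27_sq_le (a := R j) hx
    rw [h.RR j hj j hj, if_pos rfl] at h2
    have h5 : -7 ≤ R j x := by nlinarith
    have h6 : R j x ≤ 7 := by nlinarith
    have : R j x = 3 ∨ R j x = -3 := by
      rcases mul_self_eq_one_iff.1 bx with h1 | h1 <;> rw [h1] at p1 <;> omega
    rcases this with h | h <;> rw [h] <;> norm_num
  have hz : ∀ i ∈ S, 3 ∣ d i → b j i = 0 → R j i = 0 := by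
    intro i hi h3 h0
    have hix : i ≠ x := by rintro rfl; exact hx0 h0
    have hiy : i ≠ y := by rintro rfl; exact hy0 h0
    have h2 := x27_sq_le4 (a := R j) hi hx hy h.mem hix hiy (h.ne_o h3) hxy
      (h.ne_o (hP x hx hx0)) (h.ne_o (hP y hy hy0))
    rw [h.RR j hj j hj, if_pos rfl, nine x hx hx0 bx, nine y hy hy0 by'] at h2
    have h4 : R j o ≠ 0 := fun h4 => by
      have := (h.R3 j hj o h.mem).1 (by rw [h4]; exact dvd_zero _)
      rw [h.d1] at this
      omega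
    have h5 := mul_self_pos.2 h4
    have p1 := h.par j hj i hi
    have p2 := (h.R3 j hj i hi).2 h3
    have h6 : -5 ≤ R j i := by nlinarith
    have h7 : R j i ≤ 5 := by nlinarith
    omega
  refine ⟨hz, ?_⟩
  have h1 := Finset.sum_filter_add_sum_filter_not S (fun i => 3 ∣ d i) fun i => R j i * R j i
  rw [h.RR j hj j hj, if_pos rfl] at h1
  have h2 : ∑ i ∈ S with 3 ∣ d i, R j i * R j i = ∑ i ∈ {x, y}, R j i * R j i := by
    symm
    refine Finset.sum_subset ?_ fun i hi h3 => ?_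
    · simp [Finset.insert_subset_iff, hx, hy, hP x hx hx0, hP y hy hy0]
    · obtain ⟨hi, h4⟩ := Finset.mem_filter.1 hi
      have : b j i = 0 := by
        by_contra h5
        exact h3 (by simpa using (hs i hi).1 h5)
      rw [hz i hi h4 this, zero_mul]
  rw [h2, Finset.sum_pair hxy, nine x hx hx0 bx, nine y hy hy0 by'] at h1
  linarith

theorem not_typeP (h : X27Col S U J o d t R b) (h9 : (S.filter fun i => ¬ 3 ∣ d i).card = 9)
    {j : κ} (hj : j ∈ J) : ¬ ∀ i ∈ S, b j i ≠ 0 → 3 ∣ d i := by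
  intro hP
  have he : ∀ i ∈ S.filter fun i => ¬ 3 ∣ d i, R j i = 2 * (R j i / 2) := by
    intro i hi
    obtain ⟨hi, h3⟩ := Finset.mem_filter.1 hi
    have p1 := h.par j hj i hi
    have : b j i = 0 := by by_contra h4; exact h3 (hP i hi h4)
    omega
  have h1 := (h.typeP hj hP).2
  have h2 : ∑ i ∈ S with ¬ 3 ∣ d i, R j i / 2 * (R j i / 2) = 9 := by
    have : ∑ i ∈ S with ¬ 3 ∣ d i, R j i * R j i =
        4 * ∑ i ∈ S with ¬ 3 ∣ d i, R j i / 2 * (R j i / 2) := by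
      rw [Finset.mul_sum]
      refine Finset.sum_congr rfl fun i hi => ?_
      have := he i hi
      generalize R j i / 2 = a at this ⊢
      rw [this]; ring
    linarith
  have h3 := x27_norm9 h2 fun i hi h4 => by
    have := he i hi
    obtain ⟨hi, h3⟩ := Finset.mem_filter.1 hi
    exact h3 ((h.R3 j hj i hi).1 (by omega))
  have h4 : ((S.filter fun i => ¬ 3 ∣ d i).filter fun i => 2 ∣ R j i / 2) = ∅ :=
    Finset.card_eq_zero.1 (by omega)
  obtain ⟨u, hu⟩ := h.Une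
  refine x27_odd_sum h9 (h.t_odd h9 hu) (b := fun i => R j i / 2) (fun i hi h3 =>
    Finset.filter_eq_empty_iff.1 h4 hi h3) ?_
  have h5 := h.tR u hu j hj
  rw [← h.sum_t hu] at h5
  have : ∑ i ∈ S with ¬ 3 ∣ d i, t u i * R j i =
      2 * ∑ i ∈ S with ¬ 3 ∣ d i, t u i * (R j i / 2) := by
    rw [Finset.mul_sum]
    refine Finset.sum_congr rfl fun i hi => ?_
    have := he i hi
    generalize R j i / 2 = a at this ⊢
    rw [this]; ring
  linarith

theorem card_supp (h : X27Col S U J o d t R b) [DecidableEq ι] :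
    (J.biUnion fun j => S.filter fun i => b j i ≠ 0).card = 2 * J.card := by
  rw [Finset.card_biUnion, Finset.sum_congr rfl (g := fun _ => 2)]
  · simp [mul_comm]
  · intro j hj
    obtain ⟨x, hx, y, hy, hxy, -, -, hs, -⟩ := h.supp hj
    refine Finset.card_eq_two.2 ⟨x, y, hxy, Finset.ext fun i => ?_⟩
    simp only [Finset.mem_filter, Finset.mem_insert, Finset.mem_singleton]
    exact ⟨fun h => (hs i h.1).1 h.2, fun h => by
      rcases h with rfl | rfl
      exacts [⟨hx, (hs _ hx).2 (Or.inl rfl)⟩, ⟨hy, (hs _ hy).2 (Or.inr rfl)⟩]⟩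
  · intro j hj k hk hjk
    refine Finset.disjoint_left.2 fun i h1 h2 => ?_
    exact (Finset.mem_filter.1 h2).2 (h.disj hj hk hjk (Finset.mem_filter.1 h1).1
      (Finset.mem_filter.1 h1).2)

theorem all_typeP (h : X27Col S U J o d t R b) (h6 : U.card + J.card = 6) {j₀ : κ}
    (hj₀ : j₀ ∈ J) : ∀ i ∈ S, b j₀ i ≠ 0 → 3 ∣ d i := by
  classical
  refine (h.dich hj₀).resolve_right fun hZ => ?_
  rcases h.card0 with h0 | h9
  · have sb : ∀ k ∈ J, ¬ (∀ i ∈ S, b k i ≠ 0 → 3 ∣ d i) → ∀ f : ι → ℤ,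
        ∑ i ∈ S with ¬ 3 ∣ d i, f i * b k i = ∑ i ∈ S, f i * b k i := by
      intro k hk hk' f
      have := (h.dich hk).resolve_left hk'
      rw [Finset.sum_filter]
      refine Finset.sum_congr rfl fun i hi => ?_
      split_ifs with h3
      · have : b k i = 0 := by by_contra h4; exact this i hi h4 h3
        rw [this, mul_zero]
      · rfl
    have sR : ∀ j ∈ J, ∀ k ∈ J, j ≠ k → (∀ i ∈ S, b k i ≠ 0 → 3 ∣ d i) →
        ∑ i ∈ S with ¬ 3 ∣ d i, R j i * R k i = 0 := by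
      intro j hj k hk hjk hP
      have := h.RR j hj k hk
      rw [if_neg hjk] at this
      rw [← this, Finset.sum_filter]
      refine Finset.sum_congr rfl fun i hi => ?_
      split_ifs with h3
      · by_cases h4 : b k i = 0
        · rw [(h.typeP hk hP).1 i hi h3 h4, mul_zero]
        · rw [h.R_zero_other hj hk hjk hP hi h4, zero_mul]
      · rfl
    have hnP : ¬ ∀ i ∈ S, b j₀ i ≠ 0 → 3 ∣ d i := fun hP => by
      obtain ⟨x, hx, y, -, -, -, -, hs, -⟩ := h.supp hj₀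
      exact hZ x hx ((hs x hx).2 (Or.inl rfl)) (hP x hx ((hs x hx).2 (Or.inl rfl)))
    have ho : o ∈ S.filter fun i => ¬ 3 ∣ d i := Finset.mem_filter.2 ⟨h.mem, by rw [h.d1]; omega⟩
    have hRo : ∀ j ∈ J, R j o ≠ 0 := fun j hj h4 => by
      have := (h.R3 j hj o h.mem).1 (by rw [h4]; exact dvd_zero _)
      rw [h.d1] at this
      omega
    let w : κ → ι → ℤ := fun k => if ∀ i ∈ S, b k i ≠ 0 → 3 ∣ d i then R k else b k
    have tw : ∀ u ∈ U, ∀ k ∈ J, ∑ i ∈ S with ¬ 3 ∣ d i, t u i * w k i = 0 := by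
      intro u hu k hk
      rw [h.sum_t hu]
      simp only [w]
      split_ifs
      exacts [h.tR u hu k hk, h.tb u hu k hk]
    have Rw : ∀ k ∈ J, ∑ i ∈ S with ¬ 3 ∣ d i, R j₀ i * w k i = 0 := by
      intro k hk
      simp only [w]
      split_ifs with h1
      · exact sR j₀ hj₀ k hk (by rintro rfl; exact hnP h1) h1
      · rw [sb k hk h1, h.Rb j₀ hj₀ k hk]
    have ww : ∀ j ∈ J, ∀ k ∈ J, j ≠ k → ∑ i ∈ S with ¬ 3 ∣ d i, w j i * w k i = 0 := by
      intro j hj k hk hjk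
      simp only [w]
      split_ifs with h1 h2 h2
      · exact sR j hj k hk hjk h2
      · rw [sb k hk h2, h.Rb j hj k hk]
      · simp only [mul_comm (b j _)]
        rw [sb j hj h1, h.Rb k hk j hj]
      · rw [sb k hk h2, h.bb j hj k hk, if_neg hjk]
    have := x27_card_le (κ := Option (U ⊕ J)) (S.filter fun i => ¬ 3 ∣ d i)
      (fun x => x.elim (R j₀) (Sum.elim (fun u => t u) fun k => w k)) ?_ ?_
    · simp only [Fintype.card_option, Fintype.card_sum, Fintype.card_coe] at this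
      omega
    · rintro (_ | u | k)
      · exact ⟨o, ho, hRo j₀ hj₀⟩
      · exact ⟨o, ho, by simp [h.t1 u u.2]⟩
      · simp only [Option.elim, Sum.elim_inr, w]
        split_ifs with h1
        · exact ⟨o, ho, hRo k k.2⟩
        · obtain ⟨x, hx, y, -, -, -, -, hs, -⟩ := h.supp k.2
          have h2 := (hs x hx).2 (Or.inl rfl)
          exact ⟨x, Finset.mem_filter.2 ⟨hx, (h.dich k.2).resolve_left h1 x hx h2⟩, h2⟩
    · rintro (_ | u | k) (_ | v | l) hne <;> simp only [Option.elim, Sum.elim_inl, Sum.elim_inr]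
      · exact absurd rfl hne
      · simp only [mul_comm (R j₀ _)]
        rw [h.sum_t v.2, h.tR v v.2 j₀ hj₀]
      · exact Rw l l.2
      · rw [h.sum_t u.2, h.tR u u.2 j₀ hj₀]
      · rw [h.sum_t u.2, h.tt u u.2 v v.2, if_neg]
        intro e
        exact hne (by rw [Subtype.ext e])
      · exact tw u u.2 l l.2
      · simp only [mul_comm (w k _)]
        exact Rw k k.2
      · simp only [mul_comm (w k _)]
        exact tw v v.2 k k.2
      · exact ww k k.2 l l.2 fun e => hne (by rw [Subtype.ext e])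
  · have h1 : U.card ≤ 1 := Finset.card_le_one.2 fun u hu v hv => by
      by_contra hne
      refine x27_odd_sum h9 (h.t_odd h9 hu) (h.t_odd h9 hv) ?_
      rw [h.sum_t hu, h.tt u hu v hv, if_neg hne]
    have h2 : (J.biUnion fun j => S.filter fun i => b j i ≠ 0) ⊆ S.filter fun i => ¬ 3 ∣ d i := by
      intro i hi
      obtain ⟨j, hj, hi⟩ := Finset.mem_biUnion.1 hi
      obtain ⟨hi, h3⟩ := Finset.mem_filter.1 hi
      exact Finset.mem_filter.2 ⟨hi, (h.dich hj).resolve_left (h.not_typeP h9 hj) i hi h3⟩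
    have h3 := Finset.card_le_card h2
    rw [h.card_supp] at h3
    omega

theorem count (h : X27Col S U J o d t R b)
    (hH : U.card + J.card = 6 ∨ ∀ j ∈ J, ∀ i ∈ S, b j i ≠ 0 → 3 ∣ d i) :
    (S.filter fun i => ¬ 3 ∣ d i).card = 6 ∧ S.card = 6 + 2 * J.card := by
  classical
  have hP : ∀ j ∈ J, ∀ i ∈ S, b j i ≠ 0 → 3 ∣ d i :=
    hH.elim (fun h6 j hj => h.all_typeP h6 hj) id
  obtain ⟨j₀, hj₀⟩ := h.Jne
  have h0 := h.card0.resolve_right fun h9 => h.not_typeP h9 hj₀ (hP j₀ hj₀)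
  refine ⟨h0, ?_⟩
  have h1 : (S.filter fun i => 3 ∣ d i) = J.biUnion fun j => S.filter fun i => b j i ≠ 0 := by
    ext i
    simp only [Finset.mem_filter, Finset.mem_biUnion]
    refine ⟨fun ⟨hi, h3⟩ => ?_, fun ⟨j, hj, hi, h3⟩ => ⟨hi, hP j hj i hi h3⟩⟩
    obtain ⟨j, hj, h4⟩ := h.nz i hi fun u hu => h.t_zero hu hi h3
    refine ⟨j, hj, hi, fun h5 => ?_⟩
    rcases h4 with h4 | h4
    · exact h4 ((h.typeP hj (hP j hj)).1 i hi h3 h5)
    · exact h4 h5
  have h2 := Finset.card_filter_add_card_filter_not (s := S) (fun i => 3 ∣ d i)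
  rw [h1, h.card_supp, h0] at h2
  omega

end X27Col

end Cfsg.Agent.Block
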