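import Mathlib
import Cfsg.Agent.Block.Sect
import Cfsg.Agent.Block.Rank2
import Cfsg.Agent.Block.Nilp
import Cfsg.Agent.Block.X27a

/-! The principal 3-block of a group with a central element of order 3 and Sylow 3-subgroups
extraspecial of order 27. -/

set_option autoImplicit false

namespace Cfsg.Agent.Block

open Subgroup Cfsg.Agent.Char
open scoped ComplexConjugate

variable {H : Type*} [Group H] [Finite H] {p : ℕ} {M : Ideal AlgInt}

theorem principal_height (hM : IsPModular p M) {χ : IrrCharacter H}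
    (hχ : χ ∈ principalBlock M H) :
    blockHeight p (principalBlock M H) (χ : H → ℂ) = (charDegree (χ : H → ℂ)).factorization p ∧
      blockDefect p (principalBlock M H) = (Nat.card H).factorization p := by
  have h1 := factorization_degree_add_defect (p := p) (oneIrr_mem_principalBlock (G := H) hM)
  have h2 := factorization_degree_add_defect (p := p) hχ
  have h3 : charDegree (oneIrr H : H → ℂ) = 1 := by simp [coe_oneIrr, charDegree]
  rw [blockHeight_oneIrr, h3] at h1
  simp only [Nat.factorization_one, Finsupp.coe_zero, Pi.zero_apply, zero_add, add_zero] at h1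
  omega

theorem principal_height_zero_iff (hM : IsPModular p M) {χ : IrrCharacter H}
    (hχ : χ ∈ principalBlock M H) :
    blockHeight p (principalBlock M H) (χ : H → ℂ) = 0 ↔ ¬ p ∣ charDegree (χ : H → ℂ) := by
  rw [(principal_height hM hχ).1, Nat.factorization_eq_zero_iff]
  have := irr_degree_ne_zero χ
  have := hM.1
  tauto

theorem blockRank_principal_of_complement (hM : IsPModular p M) (h : HasNormalPComplement p H) :
    blockRank p (principalBlock M H) = 1 := by
  refine blockRank_eq_one_of_mul hM.1 ⟨_, oneIrr_mem_principalBlock hM⟩ (f := fun _ => 1)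
    fun ψ hψ => ⟨ψ.1 1, fun g hg => ?_⟩
  rw [mul_one]
  exact apply_eq_of_mem_charKer
    (pPrimeCore_le_charKer hM hψ (mem_pPrimeCore_of_complement hM.1 h hg))

/-- The square root of `-3` in the upper half plane. -/
noncomputable def th3 : ℂ := ⟨0, √3⟩

theorem th3_sq : th3 * th3 = -3 := by
  apply Complex.ext <;> simp [th3]

theorem conj_th3 : conj th3 = -th3 := by
  apply Complex.ext <;> simp [th3]

theorem th3_inj {a b c : ℤ} (h : (a : ℂ) + b * th3 = c) : a = c ∧ b = 0 := by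
  have h1 := congrArg Complex.re h
  have h2 := congrArg Complex.im h
  simp [th3] at h1 h2
  exact ⟨h1, h2⟩

theorem th3_mem_V : th3 ∈ V M := by
  rw [mem_V_iff]
  by_contra h
  have h1 : val M (th3 * th3) ≤ 1 := by
    rw [th3_sq, Valuation.map_neg]
    exact_mod_cast val_natCast_le_one M 3
  rw [map_mul] at h1
  exact absurd (one_lt_mul'' (not_le.1 h) (not_le.1 h)) (not_lt.2 h1)

theorem cube_root {x : ℂ} (h : x ^ 3 = 1) : x = 1 ∨ 2 * x = -1 + th3 ∨ 2 * x = -1 - th3 := by
  have : (x - 1) * ((2 * x - (-1 + th3)) * (2 * x - (-1 - th3))) = 0 := by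
    linear_combination 4 * h - (x - 1) * th3_sq
  simpa [sub_eq_zero] using this

/-- The scalar by which a central element acts. -/
noncomputable def lamz (z : H) (ξ : IrrCharacter H) : ℂ := ξ.1 z / ξ.1 1

theorem lamz_mul {z : H} (hz : z ∈ center H) (ξ : IrrCharacter H) (g : H) :
    ξ.1 (z * g) = lamz z ξ * ξ.1 g := by
  obtain ⟨lam, h⟩ := isIrr_exists_central_linear ξ.2
  have h1 := h ⟨z, hz⟩ 1
  have h2 := irr_one_ne_zero ξ
  rw [mul_one] at h1
  rw [h ⟨z, hz⟩ g, lamz, h1, mul_div_cancel_right₀ _ h2]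

theorem lamz_pow {z : H} (hz : z ∈ center H) (ξ : IrrCharacter H) (n : ℕ) (g : H) :
    ξ.1 (z ^ n * g) = lamz z ξ ^ n * ξ.1 g := by
  induction n with
  | zero => simp
  | succ n ih => rw [pow_succ', mul_assoc, lamz_mul hz, ih, pow_succ', mul_assoc]

theorem lamz_pow_orderOf {z : H} (hz : z ∈ center H) (ξ : IrrCharacter H) :
    lamz z ξ ^ orderOf z = 1 := by
  have h := lamz_pow hz ξ (orderOf z) 1
  rw [pow_orderOf_eq_one, one_mul] at h
  exact (mul_eq_right₀ (irr_one_ne_zero ξ)).1 h.symm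

theorem sum_inner_mul_conj [Fintype H] {ι : Type*} (S : Finset ι) (f g : ι → H → ℂ)
    (ψ ψ' : H → ℂ) : ∑ i ∈ S, classInner (f i) ψ * conj (classInner (g i) ψ') =
      (Nat.card H : ℂ)⁻¹ * (Nat.card H : ℂ)⁻¹ *
        ∑ s, ∑ t, (∑ i ∈ S, f i s * conj (g i t)) * (conj (ψ s) * ψ' t) := by
  have : ∀ i, classInner (f i) ψ * conj (classInner (g i) ψ') = ∑ s, ∑ t,
      (Nat.card H : ℂ)⁻¹ * (Nat.card H : ℂ)⁻¹ * (f i s * conj (g i t) * (conj (ψ s) * ψ' t)) := by
    intro i
    simp only [classInner, map_mul, map_sum, map_inv₀, Complex.conj_natCast, Complex.conj_conj]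
    rw [mul_mul_mul_comm, Finset.sum_mul_sum, Finset.mul_sum]
    refine Finset.sum_congr rfl fun s _ => ?_
    rw [Finset.mul_sum]
    exact Finset.sum_congr rfl fun t _ => by ring
  simp only [this, Finset.mul_sum, Finset.sum_mul]
  rw [Finset.sum_comm]
  exact Finset.sum_congr rfl fun s _ => Finset.sum_comm

theorem sum_inner_mul_const [Fintype H] {ι : Type*} (S : Finset ι) (f : ι → H → ℂ) (c : ι → ℂ)
    (ψ : H → ℂ) (h : ∀ s, ¬ p ∣ orderOf s → ∑ i ∈ S, f i s * c i = 0) :
    ∑ i ∈ S, classInner (pRegularPart p (f i)) ψ * c i = 0 := by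
  simp only [classInner, Finset.mul_sum, Finset.sum_mul]
  rw [Finset.sum_comm]
  refine Finset.sum_eq_zero fun s _ => ?_
  by_cases hs : p ∣ orderOf s
  · simp [pRegularPart_of_dvd hs]
  · simp only [pRegularPart_of_not_dvd hs]
    have : ∑ i ∈ S, (Nat.card H : ℂ)⁻¹ * (f i s * conj (ψ s)) * c i =
        (Nat.card H : ℂ)⁻¹ * conj (ψ s) * ∑ i ∈ S, f i s * c i := by
      rw [Finset.mul_sum]
      exact Finset.sum_congr rfl fun i _ => by ring
    rw [this, h s hs, mul_zero]

/-- A central element of order three in a group whose Sylow 3-subgroups look extraspecial. -/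
structure X27C (z : H) : Prop where
  cen : z ∈ center H
  ord : orderOf z = 3
  fac : (Nat.card H).factorization 3 = 3
  sec : ∀ x : H, (∃ k, orderOf x = 3 ^ k) → x ∉ zpowers z →
    IsConj x (z * x) ∧ HasNormalPComplement 3 (centralizer ({x} : Set H))
  ex : ∃ x : H, (∃ k, orderOf x = 3 ^ k) ∧ x ∉ zpowers z

open Classical in
/-- The characters of the principal block lying over a fixed faithful character of `⟨z⟩`. -/
noncomputable def x27J (M : Ideal AlgInt) (z : H) : Finset (IrrCharacter H) :=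
  Finset.univ.filter fun ψ => ψ ∈ principalBlock M H ∧ 2 * lamz z ψ = -1 + th3

theorem mem_x27J {z : H} {ψ : IrrCharacter H} :
    ψ ∈ x27J M z ↔ ψ ∈ principalBlock M H ∧ 2 * lamz z ψ = -1 + th3 := by
  simp [x27J]

theorem lamz_ne_one {z : H} {ψ : IrrCharacter H} (h : ψ ∈ x27J M z) : lamz z ψ ≠ 1 := by
  intro h1
  have h2 := (mem_x27J.1 h).2
  rw [h1] at h2
  have := @th3_inj (-1) 1 2 (by push_cast; linear_combination -h2)
  omega

namespace X27C

variable {z : H}

theorem cube (h : X27C z) (ξ : IrrCharacter H) : lamz z ξ ^ 3 = 1 :=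
  h.ord ▸ lamz_pow_orderOf h.cen ξ

theorem comm (h : X27C z) (g : H) : Commute z g := (mem_center_iff.1 h.cen g).symm

theorem ord_pow (h : X27C z) (n : ℕ) : ∃ k, orderOf (z ^ n) = 3 ^ k :=
  (Nat.dvd_prime_pow Nat.prime_three (m := 1)).1 (h.ord ▸ by simpa using orderOf_pow_dvd n)
    |>.imp fun _ h => h.2

theorem van (h : X27C z) (hM : IsPModular 3 M) {ψ : IrrCharacter H}
    (hψ : ψ ∈ principalBlock M H) (h1 : lamz z ψ ≠ 1) {g : H} (hg : pp 3 g ∉ zpowers z) :
    ψ.1 g = 0 := by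
  obtain ⟨h2, h3⟩ := h.sec _ (pp_order hM.1 g) hg
  rw [principal_const_on_section hM h3 hψ (isPPart_pp hM.1 g) (IsConj.refl _)]
  have h4 := classFun_isConj (irr_classFun ψ) h2
  rw [lamz_mul h.cen] at h4
  by_contra h5
  exact h1 ((mul_eq_right₀ h5).1 h4.symm)

theorem dvd_deg (h : X27C z) (hM : IsPModular 3 M) {ψ : IrrCharacter H}
    (hψ : ψ ∈ principalBlock M H) (h1 : lamz z ψ ≠ 1) : 3 ∣ charDegree ψ.1 := by
  obtain ⟨x, hx, hxz⟩ := h.ex
  refine dvd_degree_of_eq_zero hM (irr_isChar ψ) hx (h.van hM hψ h1 ?_)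
  rwa [(pp_eq_iff hM.1).2 (isPPart_self hM.1 hx)]

theorem fac_deg (h : X27C z) (hM : IsPModular 3 M) {ψ : IrrCharacter H}
    (hψ : ψ ∈ principalBlock M H) (h1 : lamz z ψ ≠ 1) :
    (charDegree ψ.1).factorization 3 = 1 := by
  have h2 := (principal_height_zero_iff hM hψ).not.2 (not_not.2 (h.dvd_deg hM hψ h1))
  have h3 := height_add_two_le hM isPBlock_principalBlock hψ h2
  obtain ⟨h4, h5⟩ := principal_height hM hψ
  rw [h4] at h2 h3
  rw [h5, h.fac] at h3
  omega

theorem kernel (h : X27C z) (hM : IsPModular 3 M) [DecidablePred (· ∈ principalBlock M H)]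
    {s t : H} (hs : ¬ 3 ∣ orderOf s) (ht : ¬ 3 ∣ orderOf t) :
    ∑ ξ : IrrCharacter H with ξ ∈ principalBlock M H, ξ.1 s * conj (ξ.1 t) =
      3 * ∑ ψ ∈ x27J M z, ψ.1 s * conj (ψ.1 t) := by
  classical
  have key : ∀ n, ¬ 3 ∣ n → ∑ ξ : IrrCharacter H with ξ ∈ principalBlock M H,
      lamz z ξ ^ n * (ξ.1 s * conj (ξ.1 t)) = 0 := by
    intro n hn
    have := block_orth_conj hM (isV_blockIdem hM (isPBlock_principalBlock (G := H)))
      (isPPart_mul ((h.comm s).pow_left n) (h.ord_pow n) hs) (isPPart_one ht) (by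
        rw [isConj_one_left, ← orderOf_dvd_iff_pow_eq_one, h.ord]; exact hn)
    simpa only [lamz_pow h.cen, mul_assoc] using this
  have h1 := key 1 (by norm_num)
  have h2 := key 2 (by norm_num)
  have h3 : x27J M z = (Finset.univ.filter (· ∈ principalBlock M H)).filter
      fun ψ => 2 * lamz z ψ = -1 + th3 := by
    ext ψ; simp [mem_x27J]
  rw [h3, Finset.sum_filter (fun ψ => 2 * lamz z ψ = -1 + th3), Finset.mul_sum]
  have h4 : ∀ ξ : IrrCharacter H, 3 * (if 2 * lamz z ξ = -1 + th3 then ξ.1 s * conj (ξ.1 t) else 0)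
      = ξ.1 s * conj (ξ.1 t) + (-1 - th3) / 2 * (lamz z ξ ^ 1 * (ξ.1 s * conj (ξ.1 t))) +
        (-1 + th3) / 2 * (lamz z ξ ^ 2 * (ξ.1 s * conj (ξ.1 t))) := by
    intro ξ
    generalize ξ.1 s * conj (ξ.1 t) = X
    split_ifs with h5
    · have : lamz z ξ = (-1 + th3) / 2 := by linear_combination h5 / 2
      rw [this]
      linear_combination (X * (5 - th3) / 8) * th3_sq
    · rcases cube_root (h.cube ξ) with h6 | h6 | h6
      · rw [h6]; ring
      · exact absurd h6 h5
      · have : lamz z ξ = (-1 - th3) / 2 := by linear_combination h6 / 2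
        rw [this]
        linear_combination (-X * (3 + th3) / 8) * th3_sq
  simp only [h4, Finset.sum_add_distrib, ← Finset.mul_sum, h1, h2]
  ring

theorem complete [Fintype H] (h : X27C z) (hM : IsPModular 3 M) (f : H → ℂ) {s : H}
    (hs : ¬ 3 ∣ orderOf s) : blockPart (principalBlock M H) f s =
      3 * ∑ ψ ∈ x27J M z, classInner (pRegularPart 3 f) ψ * ψ.1 s := by
  classical
  rw [← pRegularPart_of_not_dvd (χ := blockPart (principalBlock M H) f) hs,
    ← blockPart_pRegularPart hM (isV_blockIdem hM isPBlock_principalBlock),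
    blockPart_eq_sum_kernel]
  have : ∀ g, pRegularPart 3 f g * ∑ ξ : IrrCharacter H with ξ ∈ principalBlock M H,
      ξ.1 s * conj (ξ.1 g) = pRegularPart 3 f g * (3 * ∑ ψ ∈ x27J M z, ψ.1 s * conj (ψ.1 g)) := by
    intro g
    by_cases hg : 3 ∣ orderOf g
    · simp [pRegularPart_of_dvd hg]
    · rw [h.kernel hM hs hg]
  simp only [this, classInner, Finset.mul_sum, Finset.sum_mul]
  rw [Finset.sum_comm]
  exact Finset.sum_congr rfl fun t _ => Finset.sum_congr rfl fun i _ => by ring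

theorem inner [Fintype H] (h : X27C z) (hM : IsPModular 3 M) {ψ ψ' : IrrCharacter H}
    (hψ : ψ ∈ x27J M z) (hψ' : ψ' ∈ x27J M z) [Decidable (ψ = ψ')] :
    3 * classInner (pRegularPart 3 ψ.1) ψ' = if ψ = ψ' then 1 else 0 := by
  classical
  have key : ψ.1 = ∑ η ∈ x27J M z, (3 * classInner (pRegularPart 3 ψ.1) η) • η.1 := by
    funext g
    simp only [Finset.sum_apply, Pi.smul_apply, smul_eq_mul]
    by_cases hg : pp 3 g ∈ zpowers z
    · obtain ⟨n, hn⟩ := (mem_powers_iff_mem_zpowers (x := z)).2 hg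
      have e : ∀ η ∈ x27J M z, η.1 g = ((-1 + th3) / 2) ^ n * η.1 (pr 3 g) := by
        intro η hη
        have : lamz z η = (-1 + th3) / 2 := by linear_combination (mem_x27J.1 hη).2 / 2
        rw [← this, ← lamz_pow h.cen]
        simp only at hn
        rw [hn, pp_mul_pr]
      have h1 := h.complete hM ψ.1 (pr_regular hM.1 g)
      rw [blockPart_irr_of_mem (mem_x27J.1 hψ).1] at h1
      rw [e ψ hψ, h1, Finset.mul_sum, Finset.mul_sum]
      exact Finset.sum_congr rfl fun η hη => by rw [e η hη]; ring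
    · rw [h.van hM (mem_x27J.1 hψ).1 (lamz_ne_one hψ) hg]
      exact (Finset.sum_eq_zero fun η hη => by
        rw [h.van hM (mem_x27J.1 hη).1 (lamz_ne_one hη) hg, mul_zero]).symm
  have h1 : classInner ψ.1 ψ'.1 = _ := congrArg (fun f => classInner f ψ'.1) key
  rw [classInner_sum_smul_irr, if_pos hψ', classInner_irr] at h1
  rw [← h1]

theorem orth [Fintype H] (h : X27C z) (hM : IsPModular 3 M)
    [DecidablePred (· ∈ principalBlock M H)] {ι : Type*} (S : Finset ι) (f g : ι → H → ℂ) (c : ℂ)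
    (hfg : ∀ s t, ¬ 3 ∣ orderOf s → ¬ 3 ∣ orderOf t → ∑ i ∈ S, f i s * conj (g i t) =
      c * ∑ ξ : IrrCharacter H with ξ ∈ principalBlock M H, ξ.1 s * conj (ξ.1 t))
    {ψ ψ' : IrrCharacter H} (hψ : ψ ∈ x27J M z) (hψ' : ψ' ∈ x27J M z) [Decidable (ψ = ψ')] :
    3 * ∑ i ∈ S, classInner (pRegularPart 3 (f i)) ψ *
      conj (classInner (pRegularPart 3 (g i)) ψ') = if ψ = ψ' then c else 0 := by
  classical
  have h1 : ∑ i ∈ S, classInner (pRegularPart 3 (f i)) ψ *
      conj (classInner (pRegularPart 3 (g i)) ψ') = 3 * c * ∑ η ∈ x27J M z,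
        classInner (pRegularPart 3 η.1) ψ * conj (classInner (pRegularPart 3 η.1) ψ') := by
    rw [sum_inner_mul_conj, sum_inner_mul_conj, mul_left_comm (3 * c), Finset.mul_sum _ _ (3 * c)]
    congr 1
    refine Finset.sum_congr rfl fun s _ => ?_
    rw [Finset.mul_sum]
    refine Finset.sum_congr rfl fun t _ => ?_
    by_cases hs : 3 ∣ orderOf s
    · simp [pRegularPart_of_dvd hs]
    by_cases ht : 3 ∣ orderOf t
    · simp [pRegularPart_of_dvd ht]
    simp only [pRegularPart_of_not_dvd hs, pRegularPart_of_not_dvd ht]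
    rw [hfg s t hs ht, h.kernel hM hs ht]
    ring
  have h2 : ∀ η ∈ x27J M z, 9 * (classInner (pRegularPart 3 η.1) ψ *
      conj (classInner (pRegularPart 3 η.1) ψ')) = if ψ = η then (if ψ = ψ' then 1 else 0) else 0 := by
    intro η hη
    have e1 := h.inner hM hη hψ
    have e2 := congrArg conj (h.inner hM hη hψ')
    rw [map_mul, map_ofNat] at e2
    have : 9 * (classInner (pRegularPart 3 η.1) ψ * conj (classInner (pRegularPart 3 η.1) ψ')) =
        (3 * classInner (pRegularPart 3 η.1) ψ) *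
          (3 * conj (classInner (pRegularPart 3 η.1) ψ')) := by ring
    rw [this, e1, e2]
    by_cases h3 : η = ψ
    · subst h3; split_ifs <;> simp_all
    · rw [if_neg h3, if_neg (Ne.symm h3), zero_mul]
  have h3 := Finset.sum_congr rfl h2
  rw [← Finset.mul_sum, Finset.sum_ite_eq, if_pos hψ] at h3
  rw [h1]
  split_ifs at h3 ⊢ <;> linear_combination c * h3

theorem rank (h : X27C z) (hM : IsPModular 3 M) :
    blockRank 3 (principalBlock M H) = (x27J M z).card := by
  classical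
  have := Fintype.ofFinite H
  have h1 := card_mul_blockRank hM (isV_blockIdem hM (isPBlock_principalBlock (G := H)))
  rw [Finset.sum_congr rfl fun s hs => h.kernel hM (Finset.mem_filter.1 hs).2
    (Finset.mem_filter.1 hs).2, ← Finset.mul_sum, Finset.sum_comm, Finset.mul_sum,
    Finset.sum_congr rfl (g := fun _ => (Nat.card H : ℂ))] at h1
  · rw [Finset.sum_const, nsmul_eq_mul, mul_comm] at h1
    exact_mod_cast mul_right_cancel₀ card_ne_zero h1
  · intro ψ hψ
    have h2 := h.inner hM hψ hψ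
    rw [if_pos rfl, classInner] at h2
    have h3 : ∑ s with ¬ 3 ∣ orderOf s, ψ.1 s * conj (ψ.1 s) =
        ∑ g, pRegularPart 3 ψ.1 g * conj (ψ.1 g) := by
      rw [Finset.sum_filter]
      refine Finset.sum_congr rfl fun s _ => ?_
      by_cases hs : 3 ∣ orderOf s
      · simp [pRegularPart_of_dvd hs, hs]
      · simp [pRegularPart_of_not_dvd hs, hs]
    rw [h3]
    have h4 : (Nat.card H : ℂ) ≠ 0 := card_ne_zero
    field_simp at h2
    exact h2

theorem exists_W [Fintype H] (h : X27C z) (hM : IsPModular 3 M) {ψ : IrrCharacter H}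
    (hψ : ψ ∈ x27J M z) : ∃ κ : ℤ, ¬ 3 ∣ κ ∧ ∀ ξ ∈ principalBlock M H, ∃ W : ℤ,
      9 * classInner (pRegularPart 3 ξ.1) ψ = W ∧ 3 ∣ W - κ * charDegree ξ.1 := by
  have hb := (mem_x27J.1 hψ).1
  have hf := h.fac_deg hM hb (lamz_ne_one hψ)
  have hB := isPBlock_principalBlock (M := M) (G := H)
  have h1 := oneIrr_mem_principalBlock (G := H) hM
  have hc : val M (((3 : ℕ) : ℂ) ^ 2 * (ψ.1 1 / Nat.card H)) = 1 := by
    rw [val_pow_mul_degree_div hM ψ (h := 0) (by rw [hf, h.fac]), pow_zero]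
  set c := ((3 : ℕ) : ℂ) ^ 2 * (ψ.1 1 / Nat.card H) with hcd
  have key : ∀ ξ : IrrCharacter H, ∃ W : ℤ, 9 * classInner (pRegularPart 3 ξ.1) ψ = W ∧
      (W : ℂ) = c * omega ψ.1 (aReg 3 ξ.1) := by
    intro ξ
    obtain ⟨W, hW⟩ := exists_int_pow_mul_inner hM.1 ψ (n := 2) (by rw [hf, h.fac])
      (irr_isGenChar ξ)
    refine ⟨W, ?_, ?_⟩
    · rw [← hW, inner_pReg_symm (irr_isChar ξ) (irr_isChar ψ)]; norm_num
    · rw [← hW, inner_pReg_eq_omega, hcd]; ring
  obtain ⟨κ, -, hκ⟩ := key (oneIrr H)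
  have hv1 := val_omega_aReg_eq_one hM hB h1 hb (blockHeight_oneIrr _)
  refine ⟨κ, ?_, fun ξ hξ => ?_⟩
  · have := (val_intCast_eq_one_iff hM κ).1 (by rw [hκ, map_mul, hc, hv1, mul_one])
    exact_mod_cast this
  obtain ⟨W, hW, hW'⟩ := key ξ
  refine ⟨W, hW, ?_⟩
  have hV : ∀ η : IrrCharacter H, IsV M (aReg 3 η.1) := fun η =>
    isV_aReg fun g => apply_mem_V_of_mem_VC (irr_mem_VC η) g
  have hC : ∀ η : IrrCharacter H, IsCentral (aReg 3 η.1) := fun η =>
    isCentral_aReg (irr_classFun η)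
  have e1 := red_omega_eq_of_sameBlock hM (block_sameBlock hM hB hb h1) (hC ξ) (hV ξ)
  have e2 := red_omega_eq_of_sameBlock hM (block_sameBlock hM hB hξ hb) (hC (oneIrr H)) (hV _)
  have e3 := omega_aReg_symm (p := 3) ξ (oneIrr H)
  have e4 : (oneIrr H).1 1 = 1 := rfl
  rw [e4, mul_one, ← irr_degree_cast] at e3
  have hd : ((charDegree ξ.1 : ℕ) : ℂ) ∈ V M := natCast_mem _ _
  have hcV := mem_V_of_val_eq_one hc
  have : red M (W : ℂ) = red M ((κ * charDegree ξ.1 : ℤ) : ℂ) := by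
    push_cast
    rw [hW', hκ, red_mul hcV (omega_aReg_mem_V _ (irr_isChar _)), e1, e3,
      red_mul (omega_aReg_mem_V _ (irr_isChar _)) hd, e2,
      red_mul (mul_mem hcV (omega_aReg_mem_V _ (irr_isChar _))) hd,
      red_mul hcV (omega_aReg_mem_V _ (irr_isChar _)), mul_assoc]
  rw [red_eq_iff (intCast_mem _ _) (intCast_mem _ _), ← Int.cast_sub,
    val_intCast_lt_one_iff hM] at this
  exact_mod_cast this

theorem exists_Rb [Fintype H] (h : X27C z) (hM : IsPModular 3 M) {ψ : IrrCharacter H}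
    (hψ : ψ ∈ x27J M z) : ∃ κ : ℤ, ¬ 3 ∣ κ ∧ ∀ ξ ∈ principalBlock M H, ∃ R β : ℤ,
      18 * (lamz z ξ * classInner (pRegularPart 3 ξ.1) ψ) = R + 3 * β * th3 ∧
      18 * (lamz z ξ ^ 2 * classInner (pRegularPart 3 ξ.1) ψ) = R - 3 * β * th3 ∧
      2 ∣ R - β ∧ 3 ∣ R - κ * charDegree ξ.1 := by
  obtain ⟨κ, hκ, hW⟩ := h.exists_W hM hψ
  refine ⟨2 * κ, by omega, fun ξ hξ => ?_⟩
  obtain ⟨W, h1, h2⟩ := hW ξ hξ
  by_cases h3 : lamz z ξ = 1
  · refine ⟨2 * W, 0, ?_, ?_, by omega, by rw [mul_assoc]; omega⟩ <;> rw [h3] <;> push_cast <;>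
      linear_combination 2 * h1
  obtain ⟨d, hd⟩ := h.dvd_deg hM hξ h3
  rw [hd] at h2 ⊢
  push_cast at h2 ⊢
  have h4 : (3 : ℤ) ∣ κ * (3 * d) := ⟨κ * d, by ring⟩
  obtain ⟨v, rfl⟩ : 3 ∣ W := by omega
  have h5 : (3 : ℤ) ∣ -3 * v - 2 * κ * (3 * d) := ⟨-v - 2 * κ * d, by ring⟩
  push_cast at h1
  rcases (cube_root (h.cube ξ)).resolve_left h3 with h6 | h6
  · have : lamz z ξ = (-1 + th3) / 2 := by linear_combination h6 / 2
    refine ⟨-3 * v, v, ?_, ?_, by omega, h5⟩ <;> rw [this] <;> push_cast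
    · linear_combination (-1 + th3) * h1
    · linear_combination (-1 + th3) ^ 2 / 2 * h1 + 3 * v / 2 * th3_sq
  · have : lamz z ξ = (-1 - th3) / 2 := by linear_combination h6 / 2
    refine ⟨-3 * v, -v, ?_, ?_, by omega, h5⟩ <;> rw [this] <;> push_cast
    · linear_combination (-1 - th3) * h1
    · linear_combination (-1 - th3) ^ 2 / 2 * h1 + 3 * v / 2 * th3_sq

end X27C

end Cfsg.Agent.Block
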