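import Mathlib
import Cfsg.Agent.Block.X27b
import Cfsg.Agent.Char.Galois

/-! The principal 3-block with extraspecial defect group of order 27: the columns of
generalized decomposition numbers. -/

set_option autoImplicit false

namespace Cfsg.Agent.Block

open Subgroup Cfsg.Agent.Char Cfsg.Agent.Transfer
open scoped ComplexConjugate

variable {G : Type*} [Group G] [Finite G] {p : ℕ} {M : Ideal AlgInt}

theorem blockPart_principal' (hM : IsPModular p M) {x : G} {K : Subgroup G}
    (hK : centralizer ({x} : Set G) = K) (h : K) (hx : IsPPart p (h : G) x) {ϑ : G → ℂ}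
    (hϑ : IsClassFunction G ϑ) : blockPart (principalBlock M G) ϑ h =
      blockPart (principalBlock M K) (fun k : K => ϑ k) h := by
  subst hK
  exact blockPart_principal hM h hx hϑ

theorem blockRank_principal_top {K : Subgroup G} (hK : K = ⊤) :
    blockRank p (principalBlock M K) = blockRank p (principalBlock M G) := by
  subst hK
  rw [← compSet_principalBlock (topEquiv : (⊤ : Subgroup G) ≃* G), blockRank_compSet]

theorem nine_dvd_card {z u : G} (hz : z ∈ center G) (ho : orderOf z = 3) (hu : u ^ 3 = 1)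
    (h : u ∉ zpowers z) : 9 ∣ Nat.card G := by
  have : (zpowers z).Normal := ⟨fun x hx g => by
    rwa [mem_center_iff.1 (zpowers_le.2 hz hx) g, mul_inv_cancel_right]⟩
  have h1 : orderOf (u : G ⧸ zpowers z) = 3 := by
    refine orderOf_eq_prime (by rw [← QuotientGroup.mk_pow, hu, QuotientGroup.mk_one]) ?_
    rwa [Ne, QuotientGroup.eq_one_iff]
  rw [card_eq_card_quotient_mul_card_subgroup (zpowers z), Nat.card_zpowers, ho]
  exact Nat.mul_dvd_mul_right (h1 ▸ orderOf_dvd_natCard _ : 3 ∣ _) 3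

omit [Finite G] in
theorem mem_zpowers_three {z x : G} (ho : orderOf z = 3) (h : x ∈ zpowers z) :
    x = 1 ∨ x = z ∨ x = z ^ 2 := by
  obtain ⟨n, rfl⟩ := (isOfFinOrder_iff_pow_eq_one.2 ⟨3, by norm_num, ho ▸ pow_orderOf_eq_one z⟩
    |>.mem_powers_iff_mem_zpowers).2 h
  simp only
  rw [← pow_mod_orderOf, ho]
  have : n % 3 < 3 := Nat.mod_lt _ (by norm_num)
  interval_cases n % 3 <;> simp

/-- The local data at the prime three. -/
structure X27G (z : G) (U : Finset G) : Prop where
  ord : orderOf z = 3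
  nconj : ¬ IsConj z (z ^ 2)
  fac : (Nat.card G).factorization 3 = 3
  facC : (Nat.card (centralizer ({z} : Set G))).factorization 3 = 3
  cov0 : ∀ g : G, (∃ k, orderOf g = 3 ^ k) → ∃ x, IsConj g x ∧ Commute z x
  comm : ∀ u ∈ U, Commute z u
  ordU : ∀ u ∈ U, orderOf u = 3
  notZ : ∀ u ∈ U, ¬ IsConj z u ∧ ¬ IsConj (z ^ 2) u
  inj : ∀ u ∈ U, ∀ v ∈ U, IsConj u v → u = v
  cover : ∀ x : G, (∃ k, orderOf x = 3 ^ k) → Commute z x → x ∉ zpowers z →
    ∃ u ∈ U, ∃ c, Commute z c ∧ c * u * c⁻¹ = x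
  shift : ∀ u ∈ U, ∃ c, Commute z c ∧ c * u * c⁻¹ = z * u
  nilp : ∀ u ∈ U, HasNormalPComplement 3 (centralizer ({u} : Set G))
  facU : ∀ u ∈ U, (Nat.card (centralizer ({u} : Set G))).factorization 3 = 2
  une : U.Nonempty

/-- An element as a member of its centralizer. -/
abbrev selfC (z : G) : centralizer ({z} : Set G) := ⟨z, mem_centralizer_singleton_iff.2 rfl⟩

omit [Finite G] in
theorem commute_of_C {z : G} (c : centralizer ({z} : Set G)) : Commute z c :=
  (mem_centralizer_singleton_iff.1 c.2).symm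

omit [Finite G] in
theorem mem_C_of_commute {z c : G} (h : Commute z c) : c ∈ centralizer ({z} : Set G) :=
  mem_centralizer_singleton_iff.2 h.symm

omit [Finite G] in
theorem mem_zpowers_selfC {z : G} {x : centralizer ({z} : Set G)} :
    x ∈ zpowers (selfC z) ↔ (x : G) ∈ zpowers z := by
  simp only [mem_zpowers_iff, Subtype.ext_iff, SubgroupClass.coe_zpow]

theorem nilp_sub {K : Subgroup G} (x : K) {u c : G} (e : c * u * c⁻¹ = x)
    (h : HasNormalPComplement 3 (centralizer ({u} : Set G))) :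
    HasNormalPComplement 3 (centralizer ({x} : Set K)) := by
  refine hasNormalPComplement_of_injective (((MulAut.conj c⁻¹).toMonoidHom.comp
    (K.subtype.comp (centralizer ({x} : Set K)).subtype)).codRestrict _ fun y => ?_) ?_ h
  · have h1 := congrArg Subtype.val (mem_centralizer_singleton_iff.1 y.2)
    simp only [coe_mul, ← e] at h1
    simp only [mem_centralizer_singleton_iff, MonoidHom.comp_apply, MulEquiv.coe_toMonoidHom,
      MulAut.conj_apply, coe_subtype, inv_inv]
    calc c⁻¹ * y * c * u = c⁻¹ * (y * (c * u * c⁻¹)) * c := by group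
      _ = _ := by rw [h1]; group
  · intro a b hab
    have := congrArg Subtype.val hab
    simp only [MonoidHom.codRestrict_apply, MonoidHom.comp_apply, MulEquiv.coe_toMonoidHom,
      EmbeddingLike.apply_eq_iff_eq, coe_subtype] at this
    exact Subtype.ext (Subtype.ext this)

namespace X27G

variable {z : G} {U : Finset G}

theorem notMem (h : X27G z U) {u : G} (hu : u ∈ U) : u ∉ zpowers z := fun h1 => by
  rcases mem_zpowers_three h.ord h1 with rfl | rfl | rfl
  · have := h.ordU _ hu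
    simp at this
  · exact (h.notZ _ hu).1 (IsConj.refl _)
  · exact (h.notZ _ hu).2 (IsConj.refl _)

theorem ordU' (h : X27G z U) {u : G} (hu : u ∈ U) : ∃ k, orderOf u = 3 ^ k :=
  ⟨1, h.ordU u hu⟩

theorem ord2 (h : X27G z U) : orderOf (z ^ 2) = 3 := by
  rw [orderOf_pow' _ two_ne_zero, h.ord]; rfl

theorem ord_pow (h : X27G z U) {a : ℕ} (ha : a = 1 ∨ a = 2) : ∃ k, orderOf (z ^ a) = 3 ^ k := by
  rcases ha with rfl | rfl
  exacts [⟨1, by rw [pow_one]; exact h.ord⟩, ⟨1, h.ord2⟩]

theorem cent_pow (h : X27G z U) {a : ℕ} (ha : a = 1 ∨ a = 2) :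
    centralizer ({z ^ a} : Set G) = centralizer ({z} : Set G) := by
  rcases ha with rfl | rfl
  · rw [pow_one]
  · ext c
    refine ⟨fun hc => mem_C_of_commute ?_, fun hc =>
      mem_C_of_commute ((commute_of_C ⟨c, hc⟩).pow_left 2)⟩
    have h1 := (commute_of_C ⟨c, hc⟩).pow_left 2
    rwa [← pow_mul, show 2 * 2 = 3 + 1 from rfl, pow_succ, ← h.ord, pow_orderOf_eq_one,
      one_mul] at h1

theorem toC (h : X27G z U) : X27C (selfC z) where
  cen := mem_center_iff.2 fun c => Subtype.ext (commute_of_C c).symm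
  ord := by rw [← orderOf_coe]; exact h.ord
  fac := h.facC
  sec x hx hz := by
    obtain ⟨u, hu, c, hc, e⟩ := h.cover x (by simpa only [orderOf_coe] using hx) (commute_of_C x)
      (mt mem_zpowers_selfC.2 hz)
    obtain ⟨c', hc', e'⟩ := h.shift u hu
    refine ⟨isConj_iff.2 ⟨⟨c * c' * c⁻¹, mem_C_of_commute
      ((hc.mul_right hc').mul_right hc.inv_right)⟩, Subtype.ext ?_⟩, nilp_sub x e (h.nilp u hu)⟩
    simp only [coe_mul, coe_inv, ← e]
    calc _ = c * (c' * u * c'⁻¹) * c⁻¹ := by group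
      _ = _ := by rw [e', ← mul_assoc, ← hc.eq]; group
  ex := by
    obtain ⟨u, hu⟩ := h.une
    exact ⟨⟨u, mem_C_of_commute (h.comm u hu)⟩, by simpa only [← orderOf_coe] using h.ordU' hu,
      mt mem_zpowers_selfC.1 (h.notMem hu)⟩

theorem rep (h : X27G z U) {g : G} (hg : ∃ k, orderOf g = 3 ^ k) :
    g = 1 ∨ IsConj g z ∨ IsConj g (z ^ 2) ∨ ∃ u ∈ U, IsConj g u := by
  obtain ⟨x, hx, hc⟩ := h.cov0 g hg
  by_cases h1 : x ∈ zpowers z
  · rcases mem_zpowers_three h.ord h1 with rfl | rfl | rfl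
    exacts [Or.inl (isConj_one_left.1 hx), Or.inr (Or.inl hx), Or.inr (Or.inr (Or.inl hx))]
  · obtain ⟨a, rfl⟩ := isConj_iff.1 hx
    obtain ⟨u, hu, c, -, e⟩ := h.cover _ (by rwa [orderOf_conj']) hc h1
    exact Or.inr (Or.inr (Or.inr ⟨u, hu, hx.trans (isConj_iff.2 ⟨c, e⟩).symm⟩))

theorem card_eq (h : X27G z U) (hM : IsPModular 3 M) :
    Nat.card (principalBlock M G) = blockRank 3 (principalBlock M G) +
      2 * blockRank 3 (principalBlock M (centralizer ({z} : Set G))) + U.card := by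
  classical
  have hz1 : z ≠ 1 := fun e => by simpa [e] using h.ord
  have hz2 : z ^ 2 ≠ 1 := fun e => by simpa [e] using h.ord2
  have hzz : z ≠ z ^ 2 := fun e => h.nconj (e ▸ IsConj.refl _)
  have hU1 : (1 : G) ∉ U := fun e => h.notMem e (one_mem _)
  have hUz : z ∉ U := fun e => h.notMem e (mem_zpowers _)
  have hUz2 : z ^ 2 ∉ U := fun e => h.notMem e (pow_mem (mem_zpowers _) _)
  have hX : ∀ x ∈ insert 1 (insert z (insert (z ^ 2) U)), ∃ k, orderOf x = 3 ^ k := by
    simp only [Finset.forall_mem_insert]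
    exact ⟨⟨0, orderOf_one⟩, ⟨1, h.ord⟩, ⟨1, h.ord2⟩, fun u hu => h.ordU' hu⟩
  have key : ∀ x ∈ insert 1 (insert z (insert (z ^ 2) U)),
      ∀ y ∈ insert 1 (insert z (insert (z ^ 2) U)), IsConj x y → x = y := by
    simp only [Finset.forall_mem_insert, isConj_one_left, isConj_one_right]
    refine ⟨⟨fun _ => trivial, fun h => h.symm, fun h => h.symm, fun u _ h => h.symm⟩,
      ⟨fun h => h, fun _ => trivial, fun h1 => absurd h1 h.nconj, fun u hu h1 =>
        absurd h1 (h.notZ u hu).1⟩, ⟨fun h => h, fun h1 => absurd h1.symm h.nconj, fun _ => trivial,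
        fun u hu h1 => absurd h1 (h.notZ u hu).2⟩, fun u hu => ⟨fun h => h, fun h1 =>
          absurd h1.symm (h.notZ u hu).1, fun h1 => absurd h1.symm (h.notZ u hu).2, h.inj u hu⟩⟩
  rw [card_eq_sum_blockRank hM (isV_blockIdem hM isPBlock_principalBlock) hX,
    Finset.sum_congr rfl (g := fun x => blockRank 3 (principalBlock M (centralizer ({x} : Set G))))
      fun x hx => by rw [indSet_principal hM (exists_induced_centralizer_singleton hM (hX x hx)
        isPBlock_principalBlock)],
    Finset.sum_insert (by simp [hz1.symm, hz2.symm, hU1]), Finset.sum_insert (by simp [hzz, hUz]),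
    Finset.sum_insert hUz2, h.cent_pow (Or.inr rfl), blockRank_principal_top (K := centralizer {1})
      (by ext; simp [mem_centralizer_singleton_iff]),
    Finset.sum_congr rfl fun u hu => blockRank_principal_of_complement hM (h.nilp u hu)]
  · simp only [Finset.sum_const, smul_eq_mul, mul_one]
    ring
  · intro g hg
    have : ∃ x, x ∈ insert 1 (insert z (insert (z ^ 2) U)) ∧ IsConj g x := by
      rcases h.rep hg with rfl | h1 | h1 | ⟨u, hu, h1⟩
      exacts [⟨1, by simp, IsConj.refl _⟩, ⟨z, by simp, h1⟩, ⟨z ^ 2, by simp, h1⟩,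
        ⟨u, by simp [hu], h1⟩]
    obtain ⟨x, hx, h1⟩ := this
    exact ⟨x, ⟨hx, h1⟩, fun y hy => key y hy.1 x hx (hy.2.symm.trans h1)⟩

theorem ppart (h : X27G z U) {a : ℕ} (ha : a = 1 ∨ a = 2) {s : centralizer ({z} : Set G)}
    (hs : ¬ 3 ∣ orderOf s) : IsPPart 3 (z ^ a * s) (z ^ a) :=
  isPPart_mul ((commute_of_C s).pow_left a) (h.ord_pow ha) (by rwa [orderOf_coe])

theorem expand (h : X27G z U) (hM : IsPModular 3 M) {a : ℕ} (ha : a = 1 ∨ a = 2)
    {χ : IrrCharacter G} (hχ : χ ∈ principalBlock M G) {s : centralizer ({z} : Set G)}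
    (hs : ¬ 3 ∣ orderOf s) : χ.1 (z ^ a * s) =
      blockPart (principalBlock M _) (fun k : centralizer ({z} : Set G) => χ.1 k)
        (selfC z ^ a * s) := by
  rw [← blockPart_principal' hM (h.cent_pow ha) (selfC z ^ a * s) (h.ppart ha hs) (irr_classFun χ),
    blockPart_irr_of_mem hχ]
  rfl

theorem vanish [Fintype (centralizer ({z} : Set G))] (h : X27G z U) (hM : IsPModular 3 M)
    {χ : IrrCharacter G} (hχ : χ ∈ principalBlock M G) (hu : ∀ u ∈ U, χ.1 u = 0) :
    ¬ ∀ a, a = 1 ∨ a = 2 → ∀ ψ ∈ x27J M (selfC z),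
      classInner (pRegularPart 3 fun s : centralizer ({z} : Set G) => χ.1 (z ^ a * s)) ψ = 0 := by
  intro h0
  have key : ∀ a, a = 1 ∨ a = 2 → ∀ g, IsConj (pp 3 g) (z ^ a) → χ.1 g = 0 := by
    intro a ha g hg
    obtain ⟨c, e⟩ := isConj_iff.1 hg
    rw [← pp_conj hM.1] at e
    rw [← irr_classFun χ g c, ← pp_mul_pr (p := 3) (c * g * c⁻¹)]
    have h1 : pr 3 (c * g * c⁻¹) ∈ centralizer ({z} : Set G) := by
      rw [← h.cent_pow ha, ← e]
      exact mem_C_of_commute (commute_pp_pr hM.1 _)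
    have h2 : ¬ 3 ∣ orderOf (⟨_, h1⟩ : centralizer ({z} : Set G)) := by
      rw [← orderOf_coe]; exact pr_regular hM.1 _
    rw [e]
    refine (h.expand hM ha hχ h2).trans ?_
    rw [← blockPart_shift _ (classFun_res _ (irr_classFun χ)) fun c => by
      rw [← ((h.toC.comm c).pow_left a).eq, mul_inv_cancel_right], h.toC.complete hM _ h2,
      Finset.sum_eq_zero, mul_zero]
    intro ψ hψ
    exact mul_eq_zero_of_left (h0 a ha ψ hψ) _
  have h1 := defect_zero_of_vanishes hM (irr_isChar χ) (irr_one_ne_zero χ) fun g hg => by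
    rcases h.rep (pp_order hM.1 g) with h1 | h1 | h1 | ⟨u, hu', h1⟩
    · exact absurd hg ((pPart_eq_one_iff hM.1 (isPPart_pp hM.1 g)).1 h1)
    · exact key 1 (Or.inl rfl) g (by rwa [pow_one])
    · exact key 2 (Or.inr rfl) g h1
    · rw [principal_const_on_section hM (h.nilp u hu') hχ (isPPart_pp hM.1 g) h1.symm, hu u hu']
  obtain ⟨h4, h5⟩ := principal_height hM hχ
  have h3 := height_add_two_le hM isPBlock_principalBlock hχ (by rw [h4]; have := h.fac; omega)
  have := h.fac
  omega

theorem exists_Rb [Fintype (centralizer ({z} : Set G))] (h : X27G z U) (hM : IsPModular 3 M)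
    {ψ : IrrCharacter (centralizer ({z} : Set G))} (hψ : ψ ∈ x27J M (selfC z))
    {χ : IrrCharacter G} (hχ : χ ∈ principalBlock M G) : ∃ R β : ℤ,
      18 * classInner (pRegularPart 3 fun s : centralizer ({z} : Set G) => χ.1 (z ^ 1 * s)) ψ =
        R + 3 * β * th3 ∧
      18 * classInner (pRegularPart 3 fun s : centralizer ({z} : Set G) => χ.1 (z ^ 2 * s)) ψ =
        R - 3 * β * th3 ∧ 2 ∣ R - β ∧ (3 ∣ R ↔ (3 : ℤ) ∣ charDegree χ.1) := by
  classical
  obtain ⟨κ, hκ, hR⟩ := h.toC.exists_Rb hM hψ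
  choose! R β h1 h2 h3 h4 using hR
  choose n hn using fun ξ : IrrCharacter (centralizer ({z} : Set G)) =>
    classInner_isChar_nat (isChar_res _ (irr_isChar χ)) (irr_isChar ξ)
  set b := Finset.univ.filter (· ∈ principalBlock M (centralizer ({z} : Set G))) with hb
  have hmem : ∀ ξ ∈ b, ξ ∈ principalBlock M _ := fun ξ hξ => (Finset.mem_filter.1 hξ).2
  have e1 : ∀ a, a = 1 ∨ a = 2 → ∀ s : centralizer ({z} : Set G), ¬ 3 ∣ orderOf s →
      χ.1 (z ^ a * s) = ∑ ξ ∈ b, n ξ * (lamz (selfC z) ξ ^ a * ξ.1 s) := by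
    intro a ha s hs
    rw [h.expand hM ha hχ hs, blockPart_eq_sum]
    exact Finset.sum_congr rfl fun ξ _ => by rw [hn, lamz_pow h.toC.cen]
  have e2 : ∀ a, a = 1 ∨ a = 2 →
      classInner (pRegularPart 3 fun s : centralizer ({z} : Set G) => χ.1 (z ^ a * s)) ψ =
      ∑ ξ ∈ b, n ξ * (lamz (selfC z) ξ ^ a * classInner (pRegularPart 3 ξ.1) ψ) := by
    intro a ha
    have : (pRegularPart 3 fun s : centralizer ({z} : Set G) => χ.1 (z ^ a * s)) =
        ∑ ξ ∈ b, ((n ξ : ℂ) * lamz (selfC z) ξ ^ a) • pRegularPart 3 ξ.1 := by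
      funext s
      simp only [Finset.sum_apply, Pi.smul_apply, smul_eq_mul]
      by_cases hs : 3 ∣ orderOf s
      · simp [pRegularPart_of_dvd hs]
      · simp only [pRegularPart_of_not_dvd hs, e1 a ha s hs, mul_assoc]
    rw [this, classInner_sum_left]
    exact Finset.sum_congr rfl fun ξ _ => by rw [classInner_smul_left, mul_assoc]
  refine ⟨∑ ξ ∈ b, n ξ * R ξ, ∑ ξ ∈ b, n ξ * β ξ, ?_, ?_, ?_, ?_⟩
  · rw [e2 1 (Or.inl rfl)]
    push_cast
    rw [Finset.mul_sum, Finset.mul_sum, Finset.sum_mul, ← Finset.sum_add_distrib]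
    exact Finset.sum_congr rfl fun ξ hξ => by linear_combination (n ξ : ℂ) * h1 ξ (hmem ξ hξ)
  · rw [e2 2 (Or.inr rfl)]
    push_cast
    rw [Finset.mul_sum, Finset.mul_sum, Finset.sum_mul, ← Finset.sum_sub_distrib]
    exact Finset.sum_congr rfl fun ξ hξ => by linear_combination (n ξ : ℂ) * h2 ξ (hmem ξ hξ)
  · rw [← Finset.sum_sub_distrib]
    exact Finset.dvd_sum fun ξ hξ => by rw [← mul_sub]; exact (h3 ξ (hmem ξ hξ)).mul_left _
  · have e3 : (3 : ℤ) ∣ ∑ ξ ∈ b, n ξ * R ξ - κ * ∑ ξ ∈ b, (n ξ : ℤ) * charDegree ξ.1 := by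
      rw [Finset.mul_sum, ← Finset.sum_sub_distrib]
      exact Finset.dvd_sum fun ξ hξ => by
        rw [mul_left_comm, ← mul_sub]; exact (h4 ξ (hmem ξ hξ)).mul_left _
    have e4 : (3 : ℤ) ∣ ∑ ξ ∈ b, (n ξ : ℤ) * charDegree ξ.1 - charDegree χ.1 := by
      have e5 := val_char_mul_sub_lt_one hM (irr_isChar χ) (h.ord_pow (Or.inl rfl))
        (Commute.one_right _)
      have e6 := e1 1 (Or.inl rfl) 1 (by simp)
      rw [coe_one] at e6
      have e7 : val M (∑ ξ ∈ b, (n ξ * ξ.1 1) * (lamz (selfC z) ξ - 1)) < 1 :=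
        val_sum_lt_one _ fun ξ _ => val_mul_lt_one_right (mul_mem (natCast_mem _ _)
          (irr_mem_V ξ 1)) (val_sub_one_lt_one_of_pow_eq_one hM (k := 1) (h.toC.cube ξ))
      have e8 := val_sub_lt_one e5 e7
      refine (val_intCast_lt_one_iff hM _).1 (lt_of_eq_of_lt (congrArg _ ?_) e8)
      rw [e6]
      push_cast
      simp only [irr_degree_cast, mul_sub, Finset.sum_sub_distrib, pow_one, mul_one,
        mul_comm (lamz _ _), mul_assoc]
      ring
    have e5 : (3 : ℤ) ∣ ∑ ξ ∈ b, n ξ * R ξ - κ * charDegree χ.1 := by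
      have := dvd_add e3 (e4.mul_left κ)
      rwa [mul_sub, sub_add_sub_cancel] at this
    rw [dvd_iff_dvd_of_dvd_sub e5, Int.prime_three.dvd_mul]
    tauto

theorem exists_t (h : X27G z U) {u : G} (hu : u ∈ U) (hr : IsConj u u⁻¹) (χ : IrrCharacter G) :
    ∃ n : ℤ, χ.1 u = n := by
  refine Galois.exists_int_of_forall_pow (irr_isGenChar χ) fun k hk => ?_
  rw [← pow_mod_orderOf]
  rw [h.ordU u hu] at hk ⊢
  have h1 : k % 3 < 3 := Nat.mod_lt _ (by norm_num)
  have h2 : k % 3 ≠ 0 := fun h2 => by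
    have := Nat.Coprime.eq_one_of_dvd hk.symm (Nat.dvd_of_mod_eq_zero h2)
    omega
  interval_cases k % 3
  · exact absurd rfl h2
  · rw [pow_one]
  · rw [classFun_isConj (irr_classFun χ) hr]
    refine congrArg χ.1 ?_
    rw [eq_inv_iff_mul_eq_one, ← pow_succ, show 2 + 1 = 3 from rfl, ← h.ordU u hu,
      pow_orderOf_eq_one]

theorem count (h : X27G z U) (hM : IsPModular 3 M) (hr : ∀ u ∈ U, IsConj u u⁻¹)
    (hH : U.card + blockRank 3 (principalBlock M (centralizer ({z} : Set G))) = 6 ∨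
      z ∈ center G) :
    Nat.card {χ : IrrCharacter G // χ ∈ principalBlock M G ∧
      blockHeight 3 (principalBlock M G) (χ : G → ℂ) = 0} = 6 ∧
    Nat.card (principalBlock M G) =
      6 + 2 * blockRank 3 (principalBlock M (centralizer ({z} : Set G))) := by
  classical
  have := Fintype.ofFinite (centralizer ({z} : Set G))
  choose! t ht using fun u hu => h.exists_t (u := u) hu (hr u hu)
  choose! R β h1 h2 h3 h4 using fun ψ hψ χ hχ => h.exists_Rb hM (ψ := ψ) hψ (χ := χ) hχ
  set S := Finset.univ.filter (· ∈ principalBlock M G) with hS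
  have hmem : ∀ χ ∈ S, χ ∈ principalBlock M G := fun χ hχ => (Finset.mem_filter.1 hχ).2
  have hV := isV_blockIdem hM (isPBlock_principalBlock (G := G))
  have pu : ∀ u ∈ U, IsPPart 3 u u := fun u hu => isPPart_self hM.1 (h.ordU' hu)
  have o1 : ∀ j ∈ x27J M (selfC z), ∀ k ∈ x27J M (selfC z),
      ∑ χ ∈ S, R j χ * R k χ + 27 * ∑ χ ∈ S, β j χ * β k χ = (if j = k then 108 else 0) ∧
      3 * (∑ χ ∈ S, β j χ * R k χ - ∑ χ ∈ S, R j χ * β k χ) = 0 := by
    intro j hj k hk
    have e := h.toC.orth hM S (fun χ s => χ.1 (z ^ 1 * s)) (fun χ s => χ.1 (z ^ 1 * s)) 1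
      (fun s t hs ht => by
        have := sum_principal_mul_conj hM (selfC z * s) (selfC z * t)
          (by simpa using h.ppart (Or.inl rfl) hs) (by simpa using h.ppart (Or.inl rfl) ht)
        simp only [irr_central_mul_conj _ (conj_self_centralizer z)] at this
        rw [one_mul, ← this, pow_one]
        rfl) hj hk
    refine th3_inj ?_
    have e' : ∑ χ ∈ S, (R j χ + 3 * β j χ * th3) * (R k χ - 3 * β k χ * th3) =
        108 * if j = k then 1 else 0 := by
      rw [← e, ← mul_assoc, Finset.mul_sum]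
      refine Finset.sum_congr rfl fun χ hχ => ?_
      have e2 := congrArg conj (h1 k hk χ (hmem χ hχ))
      simp only [map_mul, map_add, map_ofNat, map_intCast, conj_th3] at e2
      rw [← h1 j hj χ (hmem χ hχ), sub_eq_add_neg, ← mul_neg, ← e2]
      ring
    push_cast
    rw [show (if j = k then (108 : ℂ) else 0) = 108 * if j = k then 1 else 0 by
      split_ifs <;> simp, ← e', Finset.mul_sum, ← Finset.sum_sub_distrib, Finset.mul_sum,
      Finset.sum_mul, ← Finset.sum_add_distrib, ← Finset.sum_add_distrib]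
    exact Finset.sum_congr rfl fun χ _ => by linear_combination (9 * β j χ * β k χ) * th3_sq
  have o2 : ∀ j ∈ x27J M (selfC z), ∀ k ∈ x27J M (selfC z),
      ∑ χ ∈ S, R j χ * R k χ - 27 * ∑ χ ∈ S, β j χ * β k χ = 0 ∧
      3 * (∑ χ ∈ S, β j χ * R k χ + ∑ χ ∈ S, R j χ * β k χ) = 0 := by
    intro j hj k hk
    have e := h.toC.orth hM S (fun χ s => χ.1 (z ^ 1 * s)) (fun χ s => χ.1 (z ^ 2 * s)) 0
      (fun s t hs ht => by
        rw [zero_mul]
        exact block_orth_conj hM hV (h.ppart (Or.inl rfl) hs) (h.ppart (Or.inr rfl) ht)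
          (by rw [pow_one]; exact h.nconj)) hj hk
    rw [ite_self] at e
    refine th3_inj ?_
    have e' : ∑ χ ∈ S, (R j χ + 3 * β j χ * th3) * (R k χ + 3 * β k χ * th3) = 108 * 0 := by
      rw [← e, ← mul_assoc, Finset.mul_sum]
      refine Finset.sum_congr rfl fun χ hχ => ?_
      have e2 := congrArg conj (h2 k hk χ (hmem χ hχ))
      simp only [map_mul, map_sub, map_ofNat, map_intCast, conj_th3, mul_neg, sub_neg_eq_add] at e2
      rw [← h1 j hj χ (hmem χ hχ), ← e2]
      ring
    push_cast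
    rw [← mul_zero (108 : ℂ), ← e', Finset.mul_sum, ← Finset.sum_add_distrib, Finset.mul_sum,
      Finset.sum_mul, ← Finset.sum_sub_distrib, ← Finset.sum_add_distrib]
    exact Finset.sum_congr rfl fun χ _ => by linear_combination (-9 * β j χ * β k χ) * th3_sq
  have o3 : ∀ u ∈ U, ∀ k ∈ x27J M (selfC z),
      ∑ χ ∈ S, t u χ * R k χ = 0 ∧ 3 * ∑ χ ∈ S, t u χ * β k χ = 0 := by
    intro u hu k hk
    have e := sum_inner_mul_const (p := 3) S
      (fun χ (s : centralizer ({z} : Set G)) => χ.1 (z ^ 1 * s)) (fun χ => conj (χ.1 u)) k.1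
      fun s hs => block_orth_conj hM hV (h.ppart (Or.inl rfl) hs) (pu u hu)
        (by rw [pow_one]; exact (h.notZ u hu).1)
    refine th3_inj ?_
    push_cast
    rw [← mul_zero (18 : ℂ), ← e, Finset.mul_sum, Finset.mul_sum, Finset.sum_mul,
      ← Finset.sum_add_distrib]
    refine Finset.sum_congr rfl fun χ hχ => ?_
    rw [ht u hu, map_intCast, ← mul_assoc 18, h1 k hk χ (hmem χ hχ)]
    ring
  have hc : X27Col S U (x27J M (selfC z)) (oneIrr G) (fun χ => charDegree χ.1) t R β :=
    { mem := Finset.mem_filter.2 ⟨Finset.mem_univ _, oneIrr_mem_principalBlock hM⟩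
      d1 := by simp [coe_oneIrr, charDegree]
      t1 := fun u hu => by
        have : ((1 : ℤ) : ℂ) = t u (oneIrr G) := by rw [← ht u hu]; simp [coe_oneIrr]
        exact_mod_cast this.symm
      tt := fun u hu v hv => by
        have : ∑ χ ∈ S, χ.1 u * conj (χ.1 v) = if u = v then 9 else 0 := by
          split_ifs with e
          · subst e
            rw [sum_principal_sq hM (h.ordU' hu) (h.nilp u hu), h.facU u hu]
            norm_num
          · exact block_orth_conj hM hV (pu u hu) (pu v hv) fun h1 => e (h.inj u hu v hv h1)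
        simp only [ht u hu, ht v hv, map_intCast] at this
        exact_mod_cast this
      td := fun u hu χ _ => by
        have := val_char_mul_sub_lt_one hM (irr_isChar χ) (h.ordU' hu) (Commute.one_right _)
        rw [mul_one, ht u hu, ← irr_degree_cast] at this
        exact (val_intCast_lt_one_iff hM _).1 (by push_cast; exact this)
      dt := fun u hu => by
        have := block_orth_conj hM hV (isPPart_one (y := (1 : G)) (by simp)) (pu u hu)
          (by rw [isConj_one_right]; rintro rfl; exact h.notMem hu (one_mem _))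
        simp only [ht u hu, map_intCast, ← irr_degree_cast] at this
        exact_mod_cast this
      RR := fun j hj k hk => by
        have := (o1 j hj k hk).1
        have := (o2 j hj k hk).1
        split_ifs at * <;> omega
      bb := fun j hj k hk => by
        have := (o1 j hj k hk).1
        have := (o2 j hj k hk).1
        split_ifs at * <;> omega
      Rb := fun j hj k hk => by
        have := (o1 j hj k hk).2
        have := (o2 j hj k hk).2
        omega
      tR := fun u hu k hk => (o3 u hu k hk).1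
      tb := fun u hu k hk => by
        have := (o3 u hu k hk).2
        omega
      par := fun j hj χ hχ => h3 j hj χ (hmem χ hχ)
      R3 := fun j hj χ hχ => h4 j hj χ (hmem χ hχ)
      nz := fun χ hχ h0 => by
        by_contra hn
        push Not at hn
        refine h.vanish hM (hmem χ hχ) (fun u hu => by rw [ht u hu, h0 u hu, Int.cast_zero]) ?_
        rintro a (rfl | rfl) ψ hψ
        · simpa [hn ψ hψ] using h1 ψ hψ χ (hmem χ hχ)
        · simpa [hn ψ hψ] using h2 ψ hψ χ (hmem χ hχ)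
      Une := h.une
      Jne := by
        rw [← Finset.card_pos, ← h.toC.rank hM]
        exact blockRank_pos hM.1 ⟨_, oneIrr_mem_principalBlock hM⟩ }
  rw [h.toC.rank hM] at hH ⊢
  obtain ⟨c1, c2⟩ := hc.count (hH.imp_right fun hz j hj χ hχ hb => by
    by_contra hd
    obtain ⟨u, hu⟩ := h.une
    obtain ⟨c, -, e⟩ := h.shift u hu
    have e1 := irr_classFun χ u c
    rw [e, lamz_mul hz] at e1
    have e2 : χ.1 u ≠ 0 := fun e2 => hd (by
      exact_mod_cast dvd_degree_of_eq_zero hM (irr_isChar χ) (h.ordU' hu) e2)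
    have e3 := (mul_eq_right₀ e2).1 e1
    have e4 := h1 j hj χ (hmem χ hχ)
    have e5 := h2 j hj χ (hmem χ hχ)
    simp only [lamz_pow hz, e3, one_pow] at e4 e5
    have := @th3_inj 0 (6 * β j χ) 0 (by push_cast; linear_combination e5 - e4)
    omega)
  refine ⟨?_, by rw [card_eq_card_filter, c2]⟩
  rw [← c1, Nat.card_eq_fintype_card, Fintype.card_subtype]
  congr 1
  ext χ
  simp only [Finset.mem_filter, Finset.mem_univ, true_and, hS]
  refine and_congr_right fun hχ => ?_
  rw [principal_height_zero_iff hM hχ]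
  norm_cast

theorem toCent (h : X27G z U) [DecidablePred (· ∈ centralizer ({z} : Set G))] :
    X27G (selfC z) (U.subtype (· ∈ centralizer ({z} : Set G))) := by
  have hC := h.toC
  have top : centralizer ({selfC z} : Set (centralizer ({z} : Set G))) = ⊤ :=
    eq_top_iff.2 fun c _ => mem_C_of_commute (hC.comm c)
  have cj : ∀ {a b : centralizer ({z} : Set G)}, IsConj a b → IsConj (a : G) b := fun h =>
    (centralizer ({z} : Set G)).subtype.map_isConj h
  refine ⟨hC.ord, fun h1 => h.nconj (cj h1), h.facC, by rw [top, card_top]; exact h.facC,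
    fun g _ => ⟨g, IsConj.refl _, hC.comm g⟩, fun u _ => hC.comm u, fun u hu => ?_,
    fun u hu => ?_, fun u hu v hv h1 => ?_, fun x hx _ hz => ?_, fun u hu => ?_, fun u hu => ?_,
    fun u hu => ?_, ?_⟩
  · rw [← orderOf_coe]; exact h.ordU _ (Finset.mem_subtype.1 hu)
  · exact (h.notZ _ (Finset.mem_subtype.1 hu)).imp (mt cj) (mt cj)
  · exact Subtype.ext (h.inj _ (Finset.mem_subtype.1 hu) _ (Finset.mem_subtype.1 hv) (cj h1))
  · obtain ⟨u, hu, c, hc, e⟩ := h.cover x (by simpa only [orderOf_coe] using hx) (commute_of_C x)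
      (mt mem_zpowers_selfC.2 hz)
    exact ⟨⟨u, mem_C_of_commute (h.comm u hu)⟩, Finset.mem_subtype.2 hu,
      ⟨c, mem_C_of_commute hc⟩, hC.comm _, Subtype.ext e⟩
  · obtain ⟨c, hc, e⟩ := h.shift _ (Finset.mem_subtype.1 hu)
    exact ⟨⟨c, mem_C_of_commute hc⟩, hC.comm _, Subtype.ext e⟩
  · exact nilp_sub u (c := 1) (by simp) (h.nilp _ (Finset.mem_subtype.1 hu))
  · have hu' := Finset.mem_subtype.1 hu
    refine le_antisymm ?_ ((Nat.prime_three.pow_dvd_iff_le_factorization Nat.card_pos.ne').1 ?_)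
    · rw [← h.facU _ hu']
      refine Nat.factorization_le_factorization_of_dvd_right ?_ Nat.card_pos.ne' Nat.card_pos.ne'
      refine card_dvd_of_injective (((centralizer ({z} : Set G)).subtype.comp
        (centralizer ({u} : Set _)).subtype).codRestrict _ fun y => ?_) fun a b hab => ?_
      · exact mem_centralizer_singleton_iff.2
          (congrArg Subtype.val (mem_centralizer_singleton_iff.1 y.2))
      · have := congrArg Subtype.val hab
        exact Subtype.ext (Subtype.ext this)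
    · refine nine_dvd_card (z := ⟨selfC z, mem_C_of_commute (hC.comm u).symm⟩) (u := selfC u)
        (mem_center_iff.2 fun c => Subtype.ext (hC.comm c).symm) ?_ ?_ ?_
      · rw [← orderOf_coe]; exact hC.ord
      · refine Subtype.ext (Subtype.ext ?_)
        simp only [SubmonoidClass.coe_pow, coe_one]
        rw [← h.ordU _ hu', pow_orderOf_eq_one]
      · intro h1
        obtain ⟨n, hn⟩ := mem_zpowers_iff.1 h1
        exact h.notMem hu' (mem_zpowers_iff.2 ⟨n, by
          simpa using congrArg (fun x => x.1.1) hn⟩)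
  · obtain ⟨u, hu⟩ := h.une
    exact ⟨⟨u, mem_C_of_commute (h.comm u hu)⟩, Finset.mem_subtype.2 hu⟩

theorem invariants (h : X27G z U) (hM : IsPModular 3 M)
    (hr : ∀ u ∈ U, ∃ c, Commute z c ∧ c * u * c⁻¹ = u⁻¹) :
    Nat.card {χ : IrrCharacter G // χ ∈ principalBlock M G ∧
      blockHeight 3 (principalBlock M G) (χ : G → ℂ) = 0} = 6 ∧
    Nat.card (principalBlock M G) + 2 * U.card = 18 ∧
    blockRank 3 (principalBlock M G) + U.card = 6 := by
  classical
  have hC := h.toCent
  have top : centralizer ({selfC z} : Set (centralizer ({z} : Set G))) = ⊤ :=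
    eq_top_iff.2 fun c _ => mem_C_of_commute (h.toC.comm c)
  have h1 := (hC.count hM (fun u hu => by
    obtain ⟨c, hc, e⟩ := hr _ (Finset.mem_subtype.1 hu)
    exact isConj_iff.2 ⟨⟨c, mem_C_of_commute hc⟩, Subtype.ext e⟩) (Or.inr h.toC.cen)).2
  have h2 := hC.card_eq hM
  rw [blockRank_principal_top top] at h1 h2
  rw [Finset.card_subtype, Finset.filter_true_of_mem fun u hu =>
    mem_C_of_commute (h.comm u hu)] at h2
  obtain ⟨h3, h4⟩ := h.count hM (fun u hu => by
    obtain ⟨c, -, e⟩ := hr u hu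
    exact isConj_iff.2 ⟨c, e⟩) (Or.inl (by omega))
  have h5 := h.card_eq hM
  exact ⟨h3, by omega, by omega⟩

end X27G

end Cfsg.Agent.Block
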