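import Mathlib
import Cfsg.Agent.Block.X27c
import Cfsg.Agent.Transfer.Focal
import Cfsg.Agent.Transfer.SylowConj
import Cfsg.Agent.Core.SylowOf

/-! Fusion in an extraspecial Sylow 3-subgroup of order 27 whose normalizer centralizes its
centre. -/

set_option autoImplicit false

namespace Cfsg.Agent.Block

open Subgroup Cfsg.Agent.Char Cfsg.Agent.Transfer Cfsg.Agent.Core
open scoped Pointwise

variable {G : Type*} [Group G] [Finite G]

theorem sylow_fuse {p : ℕ} [Fact p.Prime] (P : Sylow p G) {K : Subgroup G}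
    (hP : (P : Subgroup G) ≤ K) {g : G} (hg : ∀ a ∈ (P : Subgroup G), g * a * g⁻¹ ∈ K) :
    ∃ k ∈ K, k * g ∈ normalizer ((P : Subgroup G) : Set G) := by
  obtain ⟨k, hk, h⟩ := exists_conj_mem_sylow_of_le hP (g • P).isPGroup' fun a ha => by
    simpa [mul_assoc] using hg _ (mem_smul_sylow_iff.1 ha)
  refine ⟨k, hk, mem_normalizer_fintype fun a ha => ?_⟩
  have := h (g * a * g⁻¹) (mem_smul_sylow_iff.2 (by
    rwa [show g⁻¹ * (g * a * g⁻¹) * g = a by group]))
  rwa [show k * g * a * (k * g)⁻¹ = k * (g * a * g⁻¹) * k⁻¹ by group]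

omit [Finite G] in
theorem relIndex_centralizer_eq_ncard (K : Subgroup G) (u : G) :
    (centralizer ({u} : Set G)).relIndex K = {x | ∃ k ∈ K, k * u * k⁻¹ = x}.ncard := by
  letI : MulAction K G := MulAction.compHom G (MulAut.conj.comp K.subtype)
  have h1 : MulAction.stabilizer K u = (centralizer ({u} : Set G)).subgroupOf K := by
    ext k
    rw [MulAction.mem_stabilizer_iff, mem_subgroupOf, mem_centralizer_singleton_iff,
      ← mul_inv_eq_iff_eq_mul]
    rfl
  rw [relIndex, ← h1, MulAction.index_stabilizer]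
  congr 1
  ext x
  exact ⟨fun ⟨k, hk⟩ => ⟨k, k.2, hk⟩, fun ⟨k, hk, e⟩ => ⟨⟨k, hk⟩, e⟩⟩

/-- An extraspecial Sylow 3-subgroup of order 27 and exponent 3 with centre `⟨z⟩`. -/
structure X27P (P : Sylow 3 G) (z : G) : Prop where
  card : Nat.card (P : Subgroup G) = 27
  exp : ∀ x ∈ (P : Subgroup G), x ^ 3 = 1
  mem : z ∈ (P : Subgroup G)
  ord : orderOf z = 3
  cen : ∀ y ∈ (P : Subgroup G), Commute z y
  cen' : ∀ x ∈ (P : Subgroup G), (∀ y ∈ (P : Subgroup G), Commute x y) → x ∈ zpowers z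
  der : ∀ x ∈ (P : Subgroup G), ∀ y ∈ (P : Subgroup G), x * y * x⁻¹ * y⁻¹ ∈ zpowers z
  nc : ∀ g ∈ normalizer ((P : Subgroup G) : Set G), Commute z g

theorem exists_x27P (P : Sylow 3 G) (hE : IsExtraspecial 3 (P : Subgroup G))
    (h27 : Nat.card (P : Subgroup G) = 27) (hexp : ∀ x ∈ (P : Subgroup G), x ^ 3 = 1)
    (hNC : ∀ g ∈ normalizer ((P : Subgroup G) : Set G), ∀ z ∈ (P : Subgroup G),
      (∀ y ∈ (P : Subgroup G), z * y = y * z) → g * z = z * g) : ∃ z, X27P P z := by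
  obtain ⟨⟨-, -, hd⟩, hc⟩ := hE
  obtain ⟨z, hz⟩ := exists_prime_orderOf_dvd_card' (G := center (P : Subgroup G)) 3 (by rw [hc])
  have h1 : zpowers z = ⊤ := eq_top_of_card_eq _ (by rw [Nat.card_zpowers, hz, hc])
  have h2 : ∀ x ∈ center (P : Subgroup G), (x : G) ∈ zpowers (z.1.1 : G) := by
    intro x hx
    obtain ⟨n, hn⟩ := mem_zpowers_iff.1 (h1 ▸ mem_top (⟨x, hx⟩ : center (P : Subgroup G)))
    exact mem_zpowers_iff.2 ⟨n, by simpa using congrArg (fun x => x.1.1) hn⟩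
  have h3 : ∀ y ∈ (P : Subgroup G), Commute z.1.1 y := fun y hy =>
    (congrArg Subtype.val (mem_center_iff.1 z.2 ⟨y, hy⟩)).symm
  refine ⟨z.1.1, h27, hexp, z.1.2, by rw [orderOf_coe, orderOf_coe, hz], h3, fun x hx h => ?_,
    fun x hx y hy => ?_, fun g hg => (hNC g hg _ z.1.2 h3).symm⟩
  · exact h2 ⟨x, hx⟩ (mem_center_iff.2 fun y => Subtype.ext (h y y.2).symm)
  · exact h2 ((⟨x, hx⟩ : (P : Subgroup G)) * ⟨y, hy⟩ * ⟨x, hx⟩⁻¹ * ⟨y, hy⟩⁻¹)
      (hd ▸ commutator_mem_commutator (mem_top _) (mem_top _))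

namespace X27P

variable {P : Sylow 3 G} {z : G}

omit [Finite G] in
theorem z3 (h : X27P P z) : z ^ 3 = 1 := h.exp z h.mem

omit [Finite G] in
theorem z4 (h : X27P P z) : (z ^ 2) ^ 2 = z := by
  rw [← pow_mul, show 2 * 2 = 3 + 1 from rfl, pow_succ, h.z3, one_mul]

omit [Finite G] in
theorem comm_zp {c w : G} (hc : Commute z c) (hw : w ∈ zpowers z) : Commute w c := by
  obtain ⟨n, rfl⟩ := mem_zpowers_iff.1 hw
  exact hc.zpow_left n

omit [Finite G] in
theorem conj_zp {c w : G} (hc : Commute z c) (hw : w ∈ zpowers z) : c * w * c⁻¹ ∈ zpowers z := by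
  rwa [← (comm_zp hc hw).eq, mul_inv_cancel_right]

omit [Finite G] in
theorem shift (h : X27P P z) {u : G} (hu : u ∈ (P : Subgroup G)) (hz : u ∉ zpowers z) {w : G}
    (hw : w ∈ zpowers z) : ∃ a ∈ (P : Subgroup G), a * u * a⁻¹ = w * u := by
  obtain ⟨y, hy, hn⟩ : ∃ y ∈ (P : Subgroup G), ¬ Commute u y := by
    by_contra hn
    push Not at hn
    exact hz (h.cen' u hu hn)
  have h1 := h.der y hy u hu
  have e1 : y * u * y⁻¹ = (y * u * y⁻¹ * u⁻¹) * u := by group
  have e2 : y * y * u * (y * y)⁻¹ = (y * u * y⁻¹ * u⁻¹) ^ 2 * u := by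
    have h2 := (comm_zp (h.cen y hy) h1).eq
    calc _ = y * (y * u * y⁻¹ * u⁻¹) * u * y⁻¹ := by group
      _ = _ := by rw [← h2, pow_two]; group
  have h0 : y * u * y⁻¹ * u⁻¹ ≠ 1 := fun e => hn (by
    rw [mul_inv_eq_one, mul_inv_eq_iff_eq_mul] at e
    exact e.symm)
  rcases mem_zpowers_three h.ord hw with rfl | rfl | rfl
  · exact ⟨1, one_mem _, by simp⟩
  · rcases (mem_zpowers_three h.ord h1).resolve_left h0 with e | e
    · exact ⟨y, hy, by rw [e1, e]⟩
    · exact ⟨y * y, mul_mem hy hy, by rw [e2, e, h.z4]⟩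
  · rcases (mem_zpowers_three h.ord h1).resolve_left h0 with e | e
    · exact ⟨y * y, mul_mem hy hy, by rw [e2, e]⟩
    · exact ⟨y, hy, by rw [e1, e]⟩

theorem conj_into (h : X27P P z) {x : G} (hx : ∃ k, orderOf x = 3 ^ k) (hc : Commute z x) :
    ∃ c, Commute z c ∧ c * x * c⁻¹ ∈ (P : Subgroup G) := by
  obtain ⟨c, h1, h2⟩ := exists_conj_mem_sylow_of_le (P := P) (H := centralizer {z})
    (fun y hy => mem_C_of_commute (h.cen y hy)) (isPGroup_zpowers_of_orderOf hx)
    (zpowers_le.2 (mem_C_of_commute hc))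
  exact ⟨c, commute_of_C ⟨c, h1⟩, h2 x (mem_zpowers x)⟩

theorem nconj (h : X27P P z) : ¬ IsConj z (z ^ 2) := by
  intro h1
  obtain ⟨c, e⟩ := isConj_iff.1 h1
  have hz : z ∈ centralizer (P : Set G) := fun y hy => (h.cen y hy).symm
  obtain ⟨n, hn, e'⟩ := P.conj_eq_normalizer_conj_of_mem_centralizer z c⁻¹ hz
    (by rw [inv_inv, e]; exact pow_mem hz 2)
  rw [inv_inv, e, mul_assoc, (h.nc n hn).eq, inv_mul_cancel_left, pow_two, mul_eq_left] at e'
  simpa [e'] using h.ord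

theorem wc1 (h : X27P P z) {u : G} (hu : u ∈ (P : Subgroup G)) (hc : IsConj z u) : u = z := by
  have hz1 : z ≠ 1 := fun e => by simpa [e] using h.ord
  by_cases hz : u ∈ zpowers z
  · rcases mem_zpowers_three h.ord hz with rfl | rfl | rfl
    exacts [absurd (isConj_one_left.1 hc) hz1, rfl, absurd hc h.nconj]
  obtain ⟨g, hg⟩ := isConj_iff.1 hc
  have huz := h.cen u hu
  obtain ⟨c, hc1, hy⟩ := h.conj_into (x := g⁻¹ * z * g⁻¹⁻¹) ⟨1, by rw [orderOf_conj', h.ord]; rfl⟩
    (by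
      have := huz.eq
      rw [← hg] at this
      calc z * (g⁻¹ * z * g⁻¹⁻¹) = g⁻¹ * (g * z * g⁻¹ * z) * g := by group
        _ = _ := by rw [← this]; group)
  set y := c * (g⁻¹ * z * g⁻¹⁻¹) * c⁻¹ with hyd
  have e1 : g * c⁻¹ * y * (g * c⁻¹)⁻¹ = z := by rw [hyd]; group
  have e2 : g * c⁻¹ * z * (g * c⁻¹)⁻¹ = u := by
    rw [← hg, mul_assoc g, ← hc1.inv_right.eq]; group
  generalize g * c⁻¹ = k at e1 e2
  have hyz : y ∉ zpowers z := fun h1 => by
    rcases mem_zpowers_three h.ord h1 with e | e | e <;> rw [e] at e1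
    · exact hz1 (by simpa using e1.symm)
    · exact hz (e2 ▸ e1.symm ▸ mem_zpowers _)
    · rw [← conj_pow, e2] at e1
      refine hz (mem_zpowers_iff.2 ⟨2, ?_⟩)
      rw [← e1, zpow_two, ← pow_add, show 2 + 2 = 3 + 1 from rfl, pow_succ, h.exp u hu, one_mul]
  obtain ⟨a', ha', e3⟩ := h.shift hy hyz (mem_zpowers z)
  obtain ⟨a, ha, e4⟩ := h.shift hu hz (mem_zpowers z)
  have e5 : a * z * a⁻¹ = z := by rw [← (h.cen a ha).eq, mul_inv_cancel_right]
  have b1 : k * a' * k⁻¹ * z * (k * a' * k⁻¹)⁻¹ = u * z := by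
    calc _ = k * (a' * y * a'⁻¹) * k⁻¹ := by conv_lhs => rw [← e1]
                                             group
      _ = (k * z * k⁻¹) * (k * y * k⁻¹) := by rw [e3]; group
      _ = _ := by rw [e1, e2]
  have b2 : k * a' * k⁻¹ * u * (k * a' * k⁻¹)⁻¹ = u := by
    calc _ = k * (a' * z * a'⁻¹) * k⁻¹ := by conv_lhs => rw [← e2]
                                             group
      _ = _ := by rw [← (h.cen a' ha').eq, mul_inv_cancel_right, e2]
  generalize k * a' * k⁻¹ = b at b1 b2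
  have c1 : IsConj z (u * z) := isConj_iff.2 ⟨b, b1⟩
  have c2 : IsConj (u * z) (z * u * z) := isConj_iff.2 ⟨a, by rw [← conj_mul, e4, e5]⟩
  have c3 : IsConj (z * u * z) (u * z * u * (u * z)) :=
    isConj_iff.2 ⟨b, by rw [← conj_mul, ← conj_mul, b1, b2]⟩
  have e6 : u * z * u * (u * z) = z ^ 2 := by
    calc _ = u * (z * u) * u * z := by simp only [mul_assoc]
      _ = u * u * (z * u) * z := by rw [huz.eq]; simp only [mul_assoc, huz.eq]
      _ = u ^ 3 * z ^ 2 := by rw [huz.eq, pow_succ, pow_two, pow_two]; simp only [mul_assoc]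
      _ = _ := by rw [h.exp u hu, one_mul]
  exact absurd (e6 ▸ (c1.trans c2).trans c3) h.nconj

theorem wc (h : X27P P z) {u w : G} (hu : u ∈ (P : Subgroup G)) (hw : w ∈ zpowers z)
    (hc : IsConj w u) : u = w := by
  rcases mem_zpowers_three h.ord hw with rfl | rfl | rfl
  · exact isConj_one_right.1 hc
  · exact h.wc1 hu hc
  · have h1 := hc.pow 2
    rw [h.z4] at h1
    rw [← h.wc1 (pow_mem hu 2) h1, ← pow_mul, show 2 * 2 = 3 + 1 from rfl, pow_succ, h.exp u hu,
      one_mul]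

theorem conj_notMem (h : X27P P z) {u : G} (hu : u ∈ (P : Subgroup G)) (hz : u ∉ zpowers z)
    (g : G) : g * u * g⁻¹ ∉ zpowers z := fun h1 =>
  hz (h.wc hu h1 (isConj_iff.2 ⟨g, rfl⟩).symm ▸ h1)

omit [Finite G] in
theorem ordU (h : X27P P z) {u : G} (hu : u ∈ (P : Subgroup G)) (hz : u ∉ zpowers z) :
    orderOf u = 3 :=
  orderOf_eq_prime (h.exp u hu) (by rintro rfl; exact hz (one_mem _))

theorem fac (h : X27P P z) : (Nat.card G).factorization 3 = 3 := by
  have := P.card_eq_multiplicity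
  rw [h.card] at this
  exact (Nat.pow_right_injective (by norm_num : 2 ≤ 3) (this.symm.trans (by norm_num)))

theorem sylC (h : X27P P z) {u : G} (hu : u ∈ (P : Subgroup G)) (hz : u ∉ zpowers z) :
    IsSylowOf 3 (zpowers z ⊔ zpowers u) (centralizer ({u} : Set G)) ∧
      (Nat.card (centralizer ({u} : Set G))).factorization 3 = 2 := by
  have hle : zpowers z ⊔ zpowers u ≤ centralizer ({u} : Set G) :=
    sup_le (zpowers_le.2 (mem_C_of_commute (h.cen u hu).symm))
      (zpowers_le.2 (mem_C_of_commute rfl))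
  have hP : zpowers z ⊔ zpowers u ≤ P := sup_le (zpowers_le.2 h.mem) (zpowers_le.2 hu)
  have h1 : (Nat.card (centralizer ({u} : Set G))).factorization 3 ≤ 2 := by
    by_contra h1
    obtain ⟨T, hT, huT⟩ := exists_isSylowOf_ge (isPGroup_zpowers_of_orderOf (p := 3) ⟨1, h.ordU hu hz⟩)
      (zpowers_le.2 (mem_C_of_commute (Commute.refl u)))
    obtain ⟨k, -, hk⟩ := (isSylowOf_top P).exists_conj_le hT.isPGroup le_top
    have h2 : MulAut.conj k • T = P := by
      refine eq_of_le_of_card_ge hk ?_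
      rw [h.card, Nat.card_congr (equivSMul (MulAut.conj k) T).symm.toEquiv, hT.card_eq_pow]
      exact Nat.pow_le_pow_right (n := 3) (i := 3) (by norm_num) (by omega)
    refine h.conj_notMem hu hz k (h.cen' _ (hk (smul_mem_pointwise_smul _ _ _
      (huT (mem_zpowers u)))) fun y hy => ?_)
    rw [← h2] at hy
    obtain ⟨t, ht, rfl⟩ := (mem_smul_pointwise_iff_exists _ _ _).1 hy
    exact (commute_of_C ⟨t, hT.le ht⟩).map (MulAut.conj k)
  have h9 : 9 ∣ Nat.card (zpowers z ⊔ zpowers u : Subgroup G) := by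
    refine nine_dvd_card (z := ⟨z, mem_sup_left (mem_zpowers z)⟩)
      (u := ⟨u, mem_sup_right (mem_zpowers u)⟩)
      (mem_center_iff.2 fun c => Subtype.ext (h.cen c (hP c.2)).symm) ?_
      (Subtype.ext (h.exp u hu)) fun h1 => ?_
    · rw [← orderOf_coe]; exact h.ord
    · obtain ⟨n, hn⟩ := mem_zpowers_iff.1 h1
      exact hz (mem_zpowers_iff.2 ⟨n, by simpa using congrArg Subtype.val hn⟩)
  have h2 := card_dvd_of_le hle
  have h3 : (Nat.card (centralizer ({u} : Set G))).factorization 3 = 2 :=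
    le_antisymm h1 ((Nat.prime_three.pow_dvd_iff_le_factorization Nat.card_pos.ne').1
      (h9.trans h2))
  refine ⟨isSylowOf_of_card hle ?_, h3⟩
  obtain ⟨k, hk⟩ := IsPGroup.iff_card.1 (P.isPGroup'.to_le hP)
  rw [hk] at h9 h2 ⊢
  have h4 := (Nat.prime_three.pow_dvd_iff_le_factorization Nat.card_pos.ne').1 h2
  have h5 := (Nat.pow_dvd_pow_iff_le_right (by norm_num : 1 < 3) (k := 2)).1 h9
  congr 1
  omega

theorem comm_sup {u n q : G} (h1 : Commute z n) (h2 : Commute u n)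
    (hq : q ∈ zpowers z ⊔ zpowers u) : Commute n q :=
  commute_of_C ⟨q, sup_le (zpowers_le.2 (mem_C_of_commute h1.symm))
    (zpowers_le.2 (mem_C_of_commute h2.symm)) hq⟩

theorem mem_sup (h : X27P P z) {u : G} (hu : u ∈ (P : Subgroup G)) (hz : u ∉ zpowers z) {q : G}
    (hq : q ∈ (P : Subgroup G)) (hc : Commute u q) : q ∈ zpowers z ⊔ zpowers u := by
  have h1 := (h.sylC hu hz).1
  rw [h1.eq_of_le (Q := P ⊓ centralizer {u}) P.isPGroup'.to_inf_left inf_le_right
    (le_inf (sup_le (zpowers_le.2 h.mem) (zpowers_le.2 hu)) h1.le)]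
  exact ⟨hq, mem_C_of_commute hc⟩

theorem nilp (h : X27P P z) {u : G} (hu : u ∈ (P : Subgroup G)) (hz : u ∉ zpowers z) :
    HasNormalPComplement 3 (centralizer ({u} : Set G)) := by
  have h1 := (h.sylC hu hz).1
  refine hasNormalPComplement_of_normalizer_le_centralizer h1.toSylow fun n hn q hq => ?_
  have h2 : (⟨z, h1.le (mem_sup_left (mem_zpowers z))⟩ : centralizer ({u} : Set G)) ∈
      (h1.toSylow : Subgroup _) := mem_subgroupOf.2 (mem_sup_left (mem_zpowers z))
  have h3 : (n : G) * z * (n : G)⁻¹ ∈ zpowers z ⊔ zpowers u :=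
    mem_subgroupOf.1 ((mem_normalizer_iff.1 hn _).1 h2)
  have h4 := h.wc1 (sup_le (zpowers_le.2 h.mem) (zpowers_le.2 hu) h3) (isConj_iff.2 ⟨n, rfl⟩)
  rw [mul_inv_eq_iff_eq_mul] at h4
  exact Subtype.ext (comm_sup h4.symm (commute_of_C n) (mem_subgroupOf.1 hq)).symm

theorem control (h : X27P P z) {u g : G} (hu : u ∈ (P : Subgroup G)) (hz : u ∉ zpowers z)
    (hv : g * u * g⁻¹ ∈ (P : Subgroup G)) :
    ∃ n ∈ normalizer ((P : Subgroup G) : Set G), n * u * n⁻¹ = g * u * g⁻¹ := by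
  have hvz := h.conj_notMem hu hz g
  obtain ⟨k, hk, h1⟩ := (h.sylC hv hvz).1.exists_conj_le (Q := zpowers (g * z * g⁻¹))
    (isPGroup_zpowers_of_orderOf ⟨1, by rw [orderOf_conj', h.ord]; rfl⟩)
    (zpowers_le.2 (mem_C_of_commute ((h.cen u hu).symm.map (MulAut.conj g))))
  have h2 := h.wc1 (sup_le (zpowers_le.2 h.mem) (zpowers_le.2 hv)
    (h1 (smul_mem_pointwise_smul _ _ _ (mem_zpowers _))))
    (isConj_iff.2 ⟨k * g, by simp [mul_assoc]⟩)
  have h3 : Commute z (k * g) := by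
    have : k * g * z * (k * g)⁻¹ = z := by simpa [mul_assoc] using h2
    exact (mul_inv_eq_iff_eq_mul.1 this).symm
  have h4 : k * g * u * (k * g)⁻¹ = g * u * g⁻¹ := by
    have := (commute_of_C ⟨k, hk⟩).eq
    calc _ = k * (g * u * g⁻¹) * k⁻¹ := by group
      _ = _ := by rw [← this, mul_inv_cancel_right]
  generalize k * g = g' at h3 h4
  generalize g * u * g⁻¹ = v at *
  let K : Subgroup G :=
    { carrier := {n | Commute z n ∧ n * v * n⁻¹ * v⁻¹ ∈ zpowers z}
      one_mem' := ⟨Commute.one_right _, by simp⟩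
      mul_mem' := fun {a b} ha hb => ⟨ha.1.mul_right hb.1, by
        convert mul_mem (conj_zp ha.1 hb.2) ha.2 using 1
        group⟩
      inv_mem' := fun {a} ha => ⟨ha.1.inv_right, by
        convert conj_zp ha.1.inv_right (inv_mem ha.2) using 1
        group⟩ }
  obtain ⟨m, hm, hn⟩ := sylow_fuse P (K := K) (fun a ha => ⟨h.cen a ha, h.der a ha v hv⟩)
    (g := g') fun a ha => ⟨(h3.mul_right (h.cen a ha)).mul_right h3.inv_right, by
      convert conj_zp h3 (h.der a ha u hu) using 1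
      rw [← h4]; group⟩
  obtain ⟨a, ha, e⟩ := h.shift hv hvz hm.2
  refine ⟨a⁻¹ * (m * g'), mul_mem (inv_mem (le_normalizer ha)) hn, ?_⟩
  calc _ = a⁻¹ * (m * (g' * u * g'⁻¹) * m⁻¹ * v⁻¹ * v) * a := by group
    _ = _ := by rw [h4, ← e]; group

omit [Finite G] in
theorem le_norm : (P : Subgroup G) ⊔ centralizer ((P : Subgroup G) : Set G) ≤
    normalizer ((P : Subgroup G) : Set G) :=
  sup_le le_normalizer (centralizer_le_normalizer _)

omit [Finite G] in
theorem mem_PC {x : G} : x ∈ (P : Subgroup G) ⊔ centralizer ((P : Subgroup G) : Set G) ↔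
    ∃ a ∈ (P : Subgroup G), ∃ c ∈ centralizer ((P : Subgroup G) : Set G), a * c = x := by
  simp only [mem_sup_of_le_normalizer (centralizer_le_normalizer _), eq_comm]

omit [Finite G] in
theorem normal_PC : (((P : Subgroup G) ⊔ centralizer ((P : Subgroup G) : Set G)).subgroupOf
    (normalizer ((P : Subgroup G) : Set G))).Normal := by
  refine ⟨fun x hx n => ?_⟩
  obtain ⟨a, ha, c, hc, e⟩ := mem_PC.1 (mem_subgroupOf.1 hx)
  refine mem_subgroupOf.2 (mem_PC.2 ⟨n * a * (n : G)⁻¹, (mem_normalizer_iff.1 n.2 a).1 ha,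
    n * c * (n : G)⁻¹, fun y hy => ?_, by simp [← e, mul_assoc]⟩)
  have := hc _ ((mem_normalizer_iff''.1 n.2 y).1 hy)
  calc _ = n * ((n : G)⁻¹ * y * n * c) * (n : G)⁻¹ := by group
    _ = _ := by rw [this]; group

theorem free (h : X27P P z) {u n : G} (hu : u ∈ (P : Subgroup G)) (hz : u ∉ zpowers z)
    (hn : n ∈ normalizer ((P : Subgroup G) : Set G)) (hc : Commute u n) :
    n ∈ (P : Subgroup G) ⊔ centralizer ((P : Subgroup G) : Set G) := by
  have h1 : n ^ 3 ∈ centralizer ((P : Subgroup G) : Set G) := by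
    intro w hw
    have hw' := (mem_normalizer_iff.1 hn w).1 hw
    have h2 := h.der u hu w hw
    have e1 := (comm_zp (h.nc n hn) h2).eq
    have hq : n * w * n⁻¹ * w⁻¹ ∈ (P : Subgroup G) := mul_mem hw' (inv_mem hw)
    have e2 := (comm_zp (h.cen _ hq) h2).eq
    have h3 : Commute u (n * w * n⁻¹ * w⁻¹) := by
      have e3 : u * n * u⁻¹ = n := by rw [hc.eq, mul_inv_cancel_right]
      have : u * (n * w * n⁻¹ * w⁻¹) * u⁻¹ = n * w * n⁻¹ * w⁻¹ := by
        calc _ = (u * n * u⁻¹) * (u * w * u⁻¹ * w⁻¹) * w * (u * n * u⁻¹)⁻¹ * w⁻¹ *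
            (u * w * u⁻¹ * w⁻¹)⁻¹ := by group
          _ = (u * w * u⁻¹ * w⁻¹) * (n * w * n⁻¹ * w⁻¹) * (u * w * u⁻¹ * w⁻¹)⁻¹ := by
            rw [e3, ← e1]; group
          _ = _ := by rw [e2, mul_inv_cancel_right]
      exact mul_inv_eq_iff_eq_mul.1 this
    have h4 := comm_sup (h.nc n hn) hc (h.mem_sup hu hz hq h3)
    have h5 := h.exp _ hq
    generalize hqd : n * w * n⁻¹ * w⁻¹ = q at h4 h5
    have e4 : n * w = q * w * n := by rw [← hqd]; group
    have e5 : ∀ m : ℕ, n ^ m * w = q ^ m * w * n ^ m := by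
      intro m
      induction m with
      | zero => simp
      | succ m ih =>
        calc _ = n * (n ^ m * w) := by rw [pow_succ', mul_assoc]
          _ = (n * q ^ m) * w * n ^ m := by rw [ih]; simp only [mul_assoc]
          _ = q ^ m * (n * w) * n ^ m := by rw [(h4.pow_right m).eq]; simp only [mul_assoc]
          _ = _ := by rw [e4, pow_succ, pow_succ' n]; simp only [mul_assoc]
    rw [e5, h5, one_mul]
  have := normal_PC (P := P)
  have h2 : ¬ 3 ∣ ((P : Subgroup G) ⊔ centralizer ((P : Subgroup G) : Set G)).relIndex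
      (normalizer ((P : Subgroup G) : Set G)) := fun h2 =>
    (isSylowOf_sylow_of_le P le_normalizer).not_dvd (h2.trans (relIndex_dvd_of_le_left _
      le_sup_left))
  have h3 := (pow_gcd_eq_one (a := (QuotientGroup.mk ⟨n, hn⟩ :
    normalizer ((P : Subgroup G) : Set G) ⧸
      ((P : Subgroup G) ⊔ centralizer ((P : Subgroup G) : Set G)).subgroupOf _)) (m := 3)).2
    ⟨by rw [← QuotientGroup.mk_pow, QuotientGroup.eq_one_iff]
        exact mem_subgroupOf.2 (mem_sup_right h1), pow_card_eq_one'⟩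
  rw [(Nat.prime_three.coprime_iff_not_dvd.2 h2 : Nat.gcd 3 (Nat.card _) = 1), pow_one,
    QuotientGroup.eq_one_iff] at h3
  exact mem_subgroupOf.1 h3

theorem relIndex_C (h : X27P P z) {u : G} (hu : u ∈ (P : Subgroup G)) (hz : u ∉ zpowers z) :
    (centralizer ({u} : Set G)).relIndex (normalizer ((P : Subgroup G) : Set G)) =
      3 * ((P : Subgroup G) ⊔ centralizer ((P : Subgroup G) : Set G)).relIndex
        (normalizer ((P : Subgroup G) : Set G)) := by
  have h1 : centralizer ({u} : Set G) ⊓ normalizer ((P : Subgroup G) : Set G) =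
      centralizer ({u} : Set G) ⊓ ((P : Subgroup G) ⊔ centralizer ((P : Subgroup G) : Set G)) :=
    le_antisymm (fun n hn => ⟨hn.1, h.free hu hz hn.2 (commute_of_C ⟨n, hn.1⟩)⟩)
      (inf_le_inf_left _ le_norm)
  rw [← inf_relIndex_right, h1, ← relIndex_mul_relIndex _ _ _ inf_le_right le_norm,
    inf_relIndex_right, relIndex_centralizer_eq_ncard]
  congr 1
  have h2 : {x | ∃ k ∈ (P : Subgroup G) ⊔ centralizer ((P : Subgroup G) : Set G),
      k * u * k⁻¹ = x} = (fun w => w * u) '' (zpowers z : Set G) := by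
    ext x
    constructor
    · rintro ⟨k, hk, rfl⟩
      obtain ⟨a, ha, c, hc, rfl⟩ := mem_PC.1 hk
      refine ⟨_, h.der a ha u hu, ?_⟩
      calc _ = a * (u * c) * (a * c)⁻¹ := by simp only; group
        _ = _ := by rw [hc u hu]; group
    · rintro ⟨w, hw, rfl⟩
      obtain ⟨a, ha, e⟩ := h.shift hu hz hw
      exact ⟨a, mem_sup_left ha, e⟩
  rw [h2, Set.ncard_image_of_injective _ (mul_left_injective u), ← Nat.card_coe_set_eq,
    SetLike.coe_sort_coe, Nat.card_zpowers, h.ord]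

theorem real (h : X27P P z) (he : 2 ∣ ((P : Subgroup G) ⊔
    centralizer ((P : Subgroup G) : Set G)).relIndex (normalizer ((P : Subgroup G) : Set G)))
    {u : G} (hu : u ∈ (P : Subgroup G)) (hz : u ∉ zpowers z) :
    ∃ c, Commute z c ∧ c * u * c⁻¹ = u⁻¹ := by
  have := normal_PC (P := P)
  obtain ⟨x, hx⟩ := exists_prime_orderOf_dvd_card' (G := normalizer ((P : Subgroup G) : Set G) ⧸
    ((P : Subgroup G) ⊔ centralizer ((P : Subgroup G) : Set G)).subgroupOf _) 2 he
  obtain ⟨⟨t, ht⟩, rfl⟩ := QuotientGroup.mk_surjective x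
  have h1 : t ∉ (P : Subgroup G) ⊔ centralizer ((P : Subgroup G) : Set G) := fun h1 => by
    rw [(QuotientGroup.eq_one_iff _).2 (mem_subgroupOf.2 h1)] at hx
    simp at hx
  have h2 := pow_orderOf_eq_one (QuotientGroup.mk ⟨t, ht⟩ : normalizer ((P : Subgroup G) : Set G) ⧸
    ((P : Subgroup G) ⊔ centralizer ((P : Subgroup G) : Set G)).subgroupOf _)
  rw [hx, ← QuotientGroup.mk_pow, QuotientGroup.eq_one_iff] at h2
  obtain ⟨a, ha, c, hc, e⟩ := mem_PC.1 (mem_subgroupOf.1 h2)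
  simp only [SubmonoidClass.coe_pow] at e
  have hu' := (mem_normalizer_iff.1 ht u).1 hu
  have h3 : u * (t * u * t⁻¹) ∈ zpowers z := by
    by_contra h3
    have hy := mul_mem hu hu'
    have e1 : t * (t * u * t⁻¹) * t⁻¹ = (a * u * a⁻¹ * u⁻¹) * u := by
      calc _ = t ^ 2 * u * (t ^ 2)⁻¹ := by rw [pow_two]; group
        _ = a * (c * u) * (a * c)⁻¹ := by rw [← e]; group
        _ = _ := by rw [← hc u hu]; group
    have h4 := h.der a ha u hu
    have h5 := h.der _ hu' u hu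
    obtain ⟨b, hb, e2⟩ := h.shift hy h3 (mul_mem h4 h5)
    refine h1 ?_
    have h6 : Commute (u * (t * u * t⁻¹)) (b⁻¹ * t) := by
      have : b⁻¹ * t * (u * (t * u * t⁻¹)) * (b⁻¹ * t)⁻¹ = u * (t * u * t⁻¹) := by
        calc _ = b⁻¹ * ((t * u * t⁻¹) * (t * (t * u * t⁻¹) * t⁻¹)) * b := by group
          _ = b⁻¹ * (b * (u * (t * u * t⁻¹)) * b⁻¹) * b := by
            rw [e1, e2, ← mul_assoc (t * u * t⁻¹), ← (comm_zp (h.cen _ hu') h4).eq]; group
          _ = _ := by group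
      exact (mul_inv_eq_iff_eq_mul.1 this).symm
    have := mul_mem (mem_sup_left hb) (h.free hy h3 (mul_mem (inv_mem (le_normalizer hb)) ht) h6)
    rwa [mul_inv_cancel_left] at this
  obtain ⟨b, hb, e2⟩ := h.shift (inv_mem hu) (mt (inv_mem_iff (x := u)).1 hz) h3
  refine ⟨b⁻¹ * t, (h.cen b hb).inv_right.mul_right (h.nc t ht), ?_⟩
  rw [(comm_zp (h.cen _ (inv_mem hu)) h3).eq, inv_mul_cancel_left] at e2
  calc _ = b⁻¹ * (t * u * t⁻¹) * b := by group
    _ = _ := by rw [← e2]; group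

theorem exists_U (h : X27P P z) : ∃ U : Finset G, X27G z U ∧
    (∀ u ∈ U, u ∈ (P : Subgroup G) ∧ u ∉ zpowers z) ∧
    U.card * ((P : Subgroup G) ⊔ centralizer ((P : Subgroup G) : Set G)).relIndex
      (normalizer ((P : Subgroup G) : Set G)) = 8 := by
  classical
  have := Fintype.ofFinite G
  set N := normalizer ((P : Subgroup G) : Set G) with hN
  letI : MulAction N G := MulAction.compHom G (MulAut.conj.comp N.subtype)
  have hs : ∀ (n : N) (x : G), n • x = n * x * (n : G)⁻¹ := fun _ _ => rfl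
  set S := Finset.univ.filter fun x => x ∈ (P : Subgroup G) ∧ x ∉ zpowers z with hS
  have hm : ∀ x, x ∈ S ↔ x ∈ (P : Subgroup G) ∧ x ∉ zpowers z := fun x => by simp [hS]
  obtain ⟨U, hU⟩ := exists_isReps (G := N) (S := S) fun x hx n => (hm _).2
    ⟨(mem_normalizer_iff.1 n.2 x).1 ((hm x).1 hx).1,
      h.conj_notMem ((hm x).1 hx).1 ((hm x).1 hx).2 _⟩
  have hUS : ∀ u ∈ U, u ∈ (P : Subgroup G) ∧ u ∉ zpowers z := fun u hu => (hm u).1 (hU.subset hu)
  have hcard : S.card = 24 := by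
    have h1 : S = (Finset.univ.filter (· ∈ (P : Subgroup G))) \
        (Finset.univ.filter (· ∈ zpowers z)) := by
      ext x; simp [hm]
    rw [h1, Finset.card_sdiff_of_subset fun x hx => by
      simpa using zpowers_le.2 h.mem (Finset.mem_filter.1 hx).2,
      ← Fintype.card_subtype, ← Fintype.card_subtype, ← Nat.card_eq_fintype_card,
      ← Nat.card_eq_fintype_card, h.card, Nat.card_zpowers, h.ord]
  have hc : U.card * ((P : Subgroup G) ⊔ centralizer ((P : Subgroup G) : Set G)).relIndex N =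
      8 := by
    have h1 := congrArg (· * (3 * ((P : Subgroup G) ⊔
      centralizer ((P : Subgroup G) : Set G)).relIndex N))
      (hU.sum_eq (A := ℕ) (F := fun _ => 1) fun _ _ _ => rfl)
    simp only [Nat.cast_id, mul_one, Finset.sum_mul, Finset.sum_const, smul_eq_mul] at h1
    rw [Finset.sum_congr rfl (g := fun _ => Nat.card N) fun x hx => by
      rw [← h.relIndex_C ((hm x).1 hx).1 ((hm x).1 hx).2, relIndex,
        ← card_mul_index ((centralizer ({x} : Set G)).subgroupOf N)]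
      congr 3
      ext k
      rw [MulAction.mem_stabilizer_iff, mem_subgroupOf, mem_centralizer_singleton_iff,
        ← mul_inv_eq_iff_eq_mul, hs], Finset.sum_const, hcard, smul_eq_mul, mul_comm 24,
      mul_assoc] at h1
    have h2 := Nat.eq_of_mul_eq_mul_left Nat.card_pos h1
    linarith
  have hP : (P : Subgroup G) ≤ centralizer {z} := fun y hy => mem_C_of_commute (h.cen y hy)
  refine ⟨U, ⟨h.ord, h.nconj, h.fac, ?_, fun g hg => ?_, fun u hu => h.cen u (hUS u hu).1,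
    fun u hu => h.ordU (hUS u hu).1 (hUS u hu).2, fun u hu => ⟨fun h1 => ?_, fun h1 => ?_⟩,
    fun u hu v hv h1 => ?_, fun x hx hc hz => ?_, fun u hu => ?_,
    fun u hu => h.nilp (hUS u hu).1 (hUS u hu).2, fun u hu => (h.sylC (hUS u hu).1 (hUS u hu).2).2,
    Finset.card_pos.1 (Nat.pos_of_ne_zero fun h0 => by simp [h0] at hc)⟩, hUS, hc⟩
  · have := (isSylowOf_sylow_of_le P hP).card_eq_pow
    rw [h.card] at this
    exact (Nat.pow_right_injective (by norm_num : 2 ≤ 3) (this.symm.trans (by norm_num)))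
  · obtain ⟨c, hc⟩ := exists_conj_mem_sylow P (isPGroup_zpowers_of_orderOf hg)
    exact ⟨_, isConj_iff.2 ⟨c, rfl⟩, h.cen _ (hc g (mem_zpowers g))⟩
  · exact (hUS u hu).2 (h.wc1 (hUS u hu).1 h1 ▸ mem_zpowers _)
  · have h2 := pow_mem (mem_zpowers z) 2
    exact (hUS u hu).2 (h.wc (hUS u hu).1 h2 h1 ▸ h2)
  · obtain ⟨g, rfl⟩ := isConj_iff.1 h1
    obtain ⟨n, hn, e⟩ := h.control (hUS u hu).1 (hUS u hu).2 (hUS _ hv).1
    exact hU.uniq u hu _ hv ⟨n, hn⟩ e
  · obtain ⟨c, hc1, hc2⟩ := h.conj_into hx hc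
    obtain ⟨u, hu, n, e⟩ := hU.exu _ ((hm _).2 ⟨hc2, fun h1 => hz (by
      simpa [mul_assoc] using conj_zp hc1.inv_right h1)⟩)
    refine ⟨u, hu, c⁻¹ * n, hc1.inv_right.mul_right (h.nc n n.2), ?_⟩
    rw [hs] at e
    calc _ = c⁻¹ * (n * u * (n : G)⁻¹) * c := by group
      _ = _ := by rw [e]; group
  · obtain ⟨a, ha, e⟩ := h.shift (hUS u hu).1 (hUS u hu).2 (mem_zpowers z)
    exact ⟨a, h.cen a ha, e⟩

theorem nilp_of_one (h : X27P P z) (he : ((P : Subgroup G) ⊔
    centralizer ((P : Subgroup G) : Set G)).relIndex (normalizer ((P : Subgroup G) : Set G)) = 1) :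
    HasNormalPComplement 3 G := by
  refine hasNormalPComplement_of_control_self P fun x hx g hg => ?_
  by_cases hz : x ∈ zpowers z
  · exact ⟨1, one_mem _, by rw [h.wc hg hz (isConj_iff.2 ⟨g, rfl⟩)]; simp⟩
  · obtain ⟨n, hn, e⟩ := h.control hx hz hg
    obtain ⟨a, ha, c, hc, rfl⟩ := mem_PC.1 (relIndex_eq_one.1 he hn)
    refine ⟨a, ha, e ▸ ?_⟩
    calc _ = a * (x * c) * (a * c)⁻¹ := by group
      _ = _ := by rw [hc x hx]; group

end X27P

end Cfsg.Agent.Block
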